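import Mathlib

/-! Matrix units and the recognition of `SL₂(F)` inside a linear group. -/

set_option autoImplicit false

namespace Cfsg.G41

open scoped MatrixGroups

/-- a system of `2 × 2` matrix units over the field `F` in the ring `A` -/
structure MU (F A : Type*) [Field F] [Ring A] where
  φ : F →+* A
  a : A
  b : A
  aa : a * a = 0
  bb : b * b = 0
  ab : a * b + b * a = 1
  ca : ∀ c, φ c * a = a * φ c
  cb : ∀ c, φ c * b = b * φ c

namespace MU

variable {F A : Type*} [Field F] [Ring A] (μ : MU F A)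

theorem aba : μ.a * μ.b * μ.a = μ.a := by
  have : μ.a * μ.b = 1 - μ.b * μ.a := by rw [← μ.ab]; abel
  rw [this, sub_mul, mul_assoc, μ.aa]; simp

theorem bab : μ.b * μ.a * μ.b = μ.b := by
  have : μ.b * μ.a = 1 - μ.a * μ.b := by rw [← μ.ab]; abel
  rw [this, sub_mul, mul_assoc, μ.bb]; simp

theorem key {e : A} (he : ∀ c, μ.φ c * e = e * μ.φ c) (x y : F) (f : A) :
    μ.φ x * e * (μ.φ y * f) = μ.φ (x * y) * (e * f) := by
  rw [map_mul, mul_assoc, ← mul_assoc e, ← he, mul_assoc, mul_assoc]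

theorem cab (c : F) : μ.φ c * (μ.a * μ.b) = μ.a * μ.b * μ.φ c := by
  rw [← mul_assoc, μ.ca, mul_assoc, μ.cb, mul_assoc]

theorem cba (c : F) : μ.φ c * (μ.b * μ.a) = μ.b * μ.a * μ.φ c := by
  rw [← mul_assoc, μ.cb, mul_assoc, μ.ca, mul_assoc]

/-- the ring homomorphism `M₂(F) → A` -/
def Φ : Matrix (Fin 2) (Fin 2) F →+* A where
  toFun M := μ.φ (M 0 0) * (μ.a * μ.b) + μ.φ (M 0 1) * μ.a + μ.φ (M 1 0) * μ.b +
    μ.φ (M 1 1) * (μ.b * μ.a)
  map_one' := by simpa using μ.ab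
  map_zero' := by simp
  map_add' M N := by simp only [Matrix.add_apply, map_add, add_mul]; abel
  map_mul' M N := by
    have e1 : μ.a * μ.b * (μ.a * μ.b) = μ.a * μ.b := by rw [← mul_assoc, μ.aba]
    have e2 : μ.a * μ.b * μ.b = 0 := by rw [mul_assoc, μ.bb, mul_zero]
    have e3 : μ.a * μ.b * (μ.b * μ.a) = 0 := by rw [← mul_assoc, e2, zero_mul]
    have e4 : μ.a * (μ.a * μ.b) = 0 := by rw [← mul_assoc, μ.aa, zero_mul]
    have e5 : μ.a * (μ.b * μ.a) = μ.a := by rw [← mul_assoc, μ.aba]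
    have e6 : μ.b * (μ.a * μ.b) = μ.b := by rw [← mul_assoc, μ.bab]
    have e7 : μ.b * (μ.b * μ.a) = 0 := by rw [← mul_assoc, μ.bb, zero_mul]
    have e8 : μ.b * μ.a * μ.a = 0 := by rw [mul_assoc, μ.aa, mul_zero]
    have e9 : μ.b * μ.a * (μ.a * μ.b) = 0 := by rw [← mul_assoc, e8, zero_mul]
    have e10 : μ.b * μ.a * (μ.b * μ.a) = μ.b * μ.a := by rw [← mul_assoc, μ.bab]
    simp only [add_mul, mul_add, μ.key μ.cab, μ.key μ.cba, μ.key μ.ca, μ.key μ.cb, e1, e2, e3,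
      e4, e5, e6, e7, e8, e9, e10, μ.aba, μ.bab, μ.aa, μ.bb, mul_zero, add_zero, zero_add,
      Matrix.mul_apply, Fin.sum_univ_two, map_add]
    abel

theorem Φ_apply (M : Matrix (Fin 2) (Fin 2) F) : μ.Φ M = μ.φ (M 0 0) * (μ.a * μ.b) +
    μ.φ (M 0 1) * μ.a + μ.φ (M 1 0) * μ.b + μ.φ (M 1 1) * (μ.b * μ.a) := rfl

theorem Φ_injective [Nontrivial A] : Function.Injective μ.Φ := μ.Φ.injective

theorem Φ_comm (M : Matrix (Fin 2) (Fin 2) F) (c : F) : μ.Φ M * μ.φ c = μ.φ c * μ.Φ M := by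
  have h : ∀ (e : A), (∀ c, μ.φ c * e = e * μ.φ c) → ∀ x,
      μ.φ x * e * μ.φ c = μ.φ c * (μ.φ x * e) := by
    intro e he x
    rw [mul_assoc, ← he, ← mul_assoc, ← mul_assoc, ← map_mul, ← map_mul, mul_comm x c]
  rw [Φ_apply]
  simp only [add_mul, mul_add, h _ μ.cab, h _ μ.cba, h _ μ.ca, h _ μ.cb]

theorem Φ_up (c : F) : μ.Φ (Matrix.SpecialLinearGroup.transvection
    (show (0 : Fin 2) ≠ 1 by decide) c : SL(2, F)) = 1 + μ.φ c * μ.a := by
  rw [Φ_apply, ← μ.ab]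
  simp [Matrix.SpecialLinearGroup.transvection_coe, Matrix.transvection]
  abel

theorem Φ_lo (c : F) : μ.Φ (Matrix.SpecialLinearGroup.transvection
    (show (1 : Fin 2) ≠ 0 by decide) c : SL(2, F)) = 1 + μ.φ c * μ.b := by
  rw [Φ_apply, ← μ.ab]
  simp [Matrix.SpecialLinearGroup.transvection_coe, Matrix.transvection]
  abel

theorem sl2_induction (P : SL(2, F) → Prop)
    (hU : ∀ c, P (Matrix.SpecialLinearGroup.transvection (show (0 : Fin 2) ≠ 1 by decide) c))
    (hL : ∀ c, P (Matrix.SpecialLinearGroup.transvection (show (1 : Fin 2) ≠ 0 by decide) c))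
    (hm : ∀ A B, P A → P B → P (A * B)) (M : SL(2, F)) : P M := by
  refine Matrix.SL2.transvection_induction P (fun i j h c => ?_) hm M
  fin_cases i <;> fin_cases j
  · exact absurd rfl h
  · exact hU c
  · exact hL c
  · exact absurd rfl h

/-- if a linear group contains both root groups, it contains `SL₂(F)` -/
theorem exists_hom {G : Type*} [Group G] (ρ : G →* A) (hρ : Function.Injective ρ)
    (H : Subgroup G) (hU : ∀ c, ∃ g ∈ H, ρ g = 1 + μ.φ c * μ.a)
    (hL : ∀ c, ∃ g ∈ H, ρ g = 1 + μ.φ c * μ.b) :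
    ∃ π : SL(2, F) →* G, (∀ M, ρ (π M) = μ.Φ M) ∧ π.range ≤ H := by
  have h : ∀ M : SL(2, F), ∃ g ∈ H, ρ g = μ.Φ M := by
    refine sl2_induction _ (fun c => ?_) (fun c => ?_) ?_
    · rw [Φ_up]; exact hU c
    · rw [Φ_lo]; exact hL c
    · rintro M N ⟨g, hg, e⟩ ⟨g', hg', e'⟩
      exact ⟨g * g', H.mul_mem hg hg', by
        rw [map_mul, e, e', Matrix.SpecialLinearGroup.coe_mul, map_mul]⟩
  choose f hf he using h
  refine ⟨MonoidHom.mk' f fun M N => hρ ?_, he, ?_⟩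
  · rw [map_mul, he, he, he, Matrix.SpecialLinearGroup.coe_mul, map_mul]
  · rintro _ ⟨M, rfl⟩; exact hf M

theorem hom_injective [Nontrivial A] {G : Type*} [Group G] {ρ : G →* A} {π : SL(2, F) →* G}
    (h : ∀ M, ρ (π M) = μ.Φ M) : Function.Injective π := by
  intro M N e
  apply Subtype.ext
  apply μ.Φ_injective
  rw [← h, ← h, e]

/-- the range of `π` is contained in every subgroup containing the root elements -/
theorem range_le {G : Type*} [Group G] {ρ : G →* A} (hρ : Function.Injective ρ)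
    {π : SL(2, F) →* G} (h : ∀ M, ρ (π M) = μ.Φ M) (H : Subgroup G)
    (hU : ∀ c, ∃ g ∈ H, ρ g = 1 + μ.φ c * μ.a) (hL : ∀ c, ∃ g ∈ H, ρ g = 1 + μ.φ c * μ.b) :
    π.range ≤ H := by
  obtain ⟨π', h', hle⟩ := μ.exists_hom ρ hρ H hU hL
  have : π = π' := MonoidHom.ext fun M => hρ (by rw [h, h'])
  rw [this]; exact hle

/-- an element commuting with both root groups commutes with the field -/
theorem comm_of_comm {x : A} (hU : ∀ c, x * (1 + μ.φ c * μ.a) = (1 + μ.φ c * μ.a) * x)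
    (hL : ∀ c, x * (1 + μ.φ c * μ.b) = (1 + μ.φ c * μ.b) * x) (c : F) :
    x * μ.φ c = μ.φ c * x := by
  have h1 : ∀ c, x * (μ.φ c * μ.a) = μ.φ c * μ.a * x := fun c => by
    simpa [mul_add, add_mul] using hU c
  have h2 : ∀ c, x * (μ.φ c * μ.b) = μ.φ c * μ.b * x := fun c => by
    simpa [mul_add, add_mul] using hL c
  have h3 : x * μ.a = μ.a * x := by simpa using h1 1
  have h4 : x * μ.b = μ.b * x := by simpa using h2 1
  have e1 : (x * μ.φ c - μ.φ c * x) * μ.a = 0 := by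
    rw [sub_mul, mul_assoc, h1, mul_assoc, mul_assoc, h3, sub_self]
  have e2 : (x * μ.φ c - μ.φ c * x) * μ.b = 0 := by
    rw [sub_mul, mul_assoc, h2, mul_assoc, mul_assoc, h4, sub_self]
  rw [← sub_eq_zero, ← mul_one (x * μ.φ c - μ.φ c * x), ← μ.ab, mul_add, ← mul_assoc,
    ← mul_assoc, e1, e2]
  simp

end MU

theorem exists_sigma {F A : Type*} [Field F] [Finite F] [Ring A] [Nontrivial A] (φ : F →+* A)
    {u u' : A} (h1 : u * u' = 1) (h2 : u' * u = 1) (h : ∀ c, ∃ c', φ c' = u * φ c * u') :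
    ∃ σ : F ≃+* F, ∀ c, u * φ c = φ (σ c) * u := by
  choose s hs using h
  let f : F →+* F :=
    { toFun := s
      map_one' := φ.injective (by rw [hs, map_one, mul_one, h1])
      map_zero' := φ.injective (by rw [hs, map_zero, mul_zero, zero_mul])
      map_add' := fun x y => φ.injective (by rw [map_add, hs, hs, hs, map_add, mul_add, add_mul])
      map_mul' := fun x y => φ.injective (by
        rw [map_mul, hs, hs, hs, map_mul]
        calc u * (φ x * φ y) * u' = u * φ x * (u' * u) * φ y * u' := by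
              rw [h2]; simp only [mul_assoc, mul_one]
          _ = _ := by simp only [mul_assoc]) }
  refine ⟨RingEquiv.ofBijective f (Finite.injective_iff_bijective.1 f.injective), fun c => ?_⟩
  change u * φ c = φ (s c) * u
  rw [hs, mul_assoc, h2, mul_one]

section natural

variable {F V R : Type*} [Field F] [AddCommGroup V] [Ring R] [Module R V]
  (μ : MU F (Module.End R V))

theorem MU.Φ_vec (M : Matrix (Fin 2) (Fin 2) F) (y : V) (c d : F) :
    μ.Φ M (μ.φ c (μ.a y) + μ.φ d (μ.b (μ.a y))) =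
      μ.φ (M 0 0 * c + M 0 1 * d) (μ.a y) + μ.φ (M 1 0 * c + M 1 1 * d) (μ.b (μ.a y)) := by
  have h := congrArg (fun x : Module.End R V => x (μ.a y))
    (map_mul μ.Φ M !![c, 0; d, 0]).symm
  have e : ∀ N : Matrix (Fin 2) (Fin 2) F, μ.Φ N (μ.a y) =
      μ.φ (N 0 0) (μ.a y) + μ.φ (N 1 0) (μ.b (μ.a y)) := by
    intro N
    have e0 : μ.Φ N * μ.a = μ.φ (N 0 0) * μ.a + μ.φ (N 1 0) * (μ.b * μ.a) := by
      rw [MU.Φ_apply]
      simp only [add_mul, mul_assoc, μ.aa, mul_zero, add_zero]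
      rw [← mul_assoc μ.a μ.b μ.a, μ.aba]
    exact congrArg (fun x : Module.End R V => x y) e0
  simp only [Module.End.mul_apply] at h
  rw [e, e] at h
  simpa [Matrix.mul_apply, Fin.sum_univ_two] using h

theorem MU.exists_a [Nontrivial V] : ∃ y, μ.a y ≠ 0 := by
  by_contra h
  push Not at h
  have h0 : μ.a = 0 := LinearMap.ext h
  have := μ.ab
  rw [h0, zero_mul, mul_zero, add_zero] at this
  obtain ⟨v, hv⟩ := exists_ne (0 : V)
  exact hv (congrArg (fun x : Module.End R V => x v) this).symm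

theorem MU.φ_eq_zero {c : F} {v : V} (h : μ.φ c v = 0) : c = 0 ∨ v = 0 := by
  by_cases hc : c = 0
  · exact Or.inl hc
  · right
    have : μ.φ c⁻¹ (μ.φ c v) = v := by
      change (μ.φ c⁻¹ * μ.φ c) v = v
      rw [← map_mul, inv_mul_cancel₀ hc, map_one]; rfl
    rw [← this, h, map_zero]

theorem MU.coord_inj {y : V} (hy : μ.a y ≠ 0) {c d : F}
    (h : μ.φ c (μ.a y) + μ.φ d (μ.b (μ.a y)) = 0) : c = 0 ∧ d = 0 := by
  have hb : μ.b (μ.a y) ≠ 0 := by
    intro h0
    apply hy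
    have : μ.a (μ.b (μ.a y)) = μ.a y := congrArg (fun x : Module.End R V => x y) μ.aba
    rw [← this, h0, map_zero]
  have e1 : ∀ c v, μ.b (μ.φ c v) = μ.φ c (μ.b v) := fun c v =>
    (congrArg (fun x : Module.End R V => x v) (μ.cb c)).symm
  have e2 : ∀ v, μ.b (μ.b v) = 0 := fun v => congrArg (fun x : Module.End R V => x v) μ.bb
  have h1 := congrArg μ.b h
  rw [map_add, e1, e1, e2, map_zero, map_zero, add_zero] at h1
  have hc : c = 0 := (μ.φ_eq_zero h1).resolve_right hb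
  rw [hc, map_zero] at h
  have h2 : μ.φ d (μ.b (μ.a y)) = 0 := by simpa using h
  exact ⟨hc, (μ.φ_eq_zero h2).resolve_right hb⟩

theorem MU.coord_surj [Finite V] [Finite F] (hV : Nat.card V = Nat.card F ^ 2) {y : V}
    (hy : μ.a y ≠ 0) (v : V) : ∃ c d, v = μ.φ c (μ.a y) + μ.φ d (μ.b (μ.a y)) := by
  let κ : F × F → V := fun z => μ.φ z.1 (μ.a y) + μ.φ z.2 (μ.b (μ.a y))
  have hi : Function.Injective κ := by
    intro z z' e
    have : μ.φ (z.1 - z'.1) (μ.a y) + μ.φ (z.2 - z'.2) (μ.b (μ.a y)) = 0 := by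
      rw [map_sub, map_sub]
      change μ.φ z.1 (μ.a y) - μ.φ z'.1 (μ.a y) + (μ.φ z.2 (μ.b (μ.a y)) -
        μ.φ z'.2 (μ.b (μ.a y))) = 0
      have e' : μ.φ z.1 (μ.a y) + μ.φ z.2 (μ.b (μ.a y)) =
        μ.φ z'.1 (μ.a y) + μ.φ z'.2 (μ.b (μ.a y)) := e
      rw [sub_add_sub_comm, e', sub_self]
    obtain ⟨h1, h2⟩ := μ.coord_inj hy this
    exact Prod.ext (sub_eq_zero.1 h1) (sub_eq_zero.1 h2)
  have hs := (Nat.bijective_iff_injective_and_card κ).2 ⟨hi, by rw [Nat.card_prod, hV, sq]⟩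
  obtain ⟨z, hz⟩ := hs.2 v
  exact ⟨z.1, z.2, hz.symm⟩

/-- an additive map commuting with the field is a matrix -/
theorem MU.exists_matrix [Finite V] [Finite F] (hV : Nat.card V = Nat.card F ^ 2)
    {x : Module.End R V} (hx : ∀ c, x * μ.φ c = μ.φ c * x) : ∃ M, x = μ.Φ M := by
  haveI : Nontrivial V := by
    rw [← Finite.one_lt_card_iff_nontrivial, hV]
    exact Nat.one_lt_pow two_ne_zero Finite.one_lt_card
  obtain ⟨y, hy⟩ := μ.exists_a
  obtain ⟨c, d, h1⟩ := μ.coord_surj hV hy (x (μ.a y))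
  obtain ⟨c', d', h2⟩ := μ.coord_surj hV hy (x (μ.b (μ.a y)))
  refine ⟨!![c, c'; d, d'], LinearMap.ext fun v => ?_⟩
  obtain ⟨s, t, rfl⟩ := μ.coord_surj hV hy v
  have e : ∀ c v, x (μ.φ c v) = μ.φ c (x v) := fun c v =>
    congrArg (fun x : Module.End R V => x v) (hx c)
  have e' : ∀ (c d : F) v, μ.φ (c * d) v = μ.φ d (μ.φ c v) := fun c d v => by
    rw [mul_comm, map_mul]; rfl
  have e'' : ∀ (c d : F) v, μ.φ (c + d) v = μ.φ c v + μ.φ d v := fun c d v => by
    rw [map_add]; rfl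
  rw [μ.Φ_vec, map_add, e, e, h1, h2, e'', e'']
  simp only [Matrix.of_apply, Matrix.cons_val', Matrix.cons_val_zero, Matrix.cons_val_one,
    Matrix.cons_val_fin_one, e', map_add]
  abel

theorem exists_sl2_col {c d : F} (h : ¬ (c = 0 ∧ d = 0)) :
    ∃ M : SL(2, F), M 0 0 * c + M 0 1 * d = 1 ∧ M 1 0 * c + M 1 1 * d = 0 := by
  by_cases hc : c = 0
  · have hd : d ≠ 0 := fun hd => h ⟨hc, hd⟩
    refine ⟨⟨!![0, d⁻¹; -d, 0], by simp [Matrix.det_fin_two, hd]⟩, ?_, ?_⟩ <;> simp [hc, hd]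
  · refine ⟨⟨!![c⁻¹, 0; -d, c], by simp [Matrix.det_fin_two, hc]⟩, ?_, ?_⟩
    · simp [hc]
    · simp [mul_comm]

/-- `SL₂(F)` moves every non-zero vector to `a y` -/
theorem MU.exists_move [Finite V] [Finite F] (hV : Nat.card V = Nat.card F ^ 2) {y : V}
    (hy : μ.a y ≠ 0) {v : V} (hv : v ≠ 0) : ∃ M : SL(2, F), μ.Φ M v = μ.a y := by
  obtain ⟨c, d, rfl⟩ := μ.coord_surj hV hy v
  obtain ⟨M, h1, h2⟩ := exists_sl2_col (c := c) (d := d) (by
    rintro ⟨rfl, rfl⟩; simp at hv)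
  refine ⟨M, ?_⟩
  rw [μ.Φ_vec, h1, h2]; simp

/-- **Shape (i).** A semilinear group containing the natural `SL₂(F)` in which every element
fixing a non-zero vector is a `p`-element. -/
theorem sl2_shape (p : ℕ) [Fact p.Prime] [Finite F] [CharP F p] [Finite V] {G : Type*} [Group G]
    [Finite G] {ρ : G →* Module.End R V} (hρ : Function.Injective ρ)
    (hV : Nat.card V = Nat.card F ^ 2) {π : SL(2, F) →* G} (hπ : ∀ M, ρ (π M) = μ.Φ M)
    (hsemi : ∀ g, ∃ σ : F ≃+* F, ∀ c, ρ g * μ.φ c = μ.φ (σ c) * ρ g)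
    (hst : ∀ g v, v ≠ 0 → ρ g v = v → ∃ k : ℕ, orderOf g = p ^ k) :
    π.range.Normal ∧ Nonempty (π.range ≃* SL(2, F)) ∧ (∃ k : ℕ, π.range.index = p ^ k) ∧
      (∃ h : G, π.range ⊔ Subgroup.zpowers h = ⊤) ∧
      Subgroup.centralizer (π.range : Set G) = (Subgroup.center π.range).map π.range.subtype := by
  haveI : Nontrivial V := by
    rw [← Finite.one_lt_card_iff_nontrivial, hV]
    exact Nat.one_lt_pow two_ne_zero Finite.one_lt_card
  haveI : Nontrivial (Module.End R V) := ⟨1, 0, fun h => by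
    obtain ⟨v, hv⟩ := exists_ne (0 : V)
    exact hv (congrArg (fun x : Module.End R V => x v) h)⟩
  obtain ⟨y, hy⟩ := μ.exists_a
  have hne : ∀ g v, v ≠ 0 → ρ g v ≠ 0 := by
    intro g v hv h
    apply hv
    have : ρ g⁻¹ (ρ g v) = v := by
      change (ρ g⁻¹ * ρ g) v = v
      rw [← map_mul, inv_mul_cancel, map_one]; rfl
    rw [← this, h, map_zero]
  have hmove : ∀ g, ∃ M : SL(2, F), ∃ k : ℕ, (π M * g) ^ p ^ k = 1 ∧
      ρ (π M * g) (μ.a y) = μ.a y := by
    intro g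
    obtain ⟨M, hM⟩ := μ.exists_move hV hy (hne g _ hy)
    have : ρ (π M * g) (μ.a y) = μ.a y := by rw [map_mul, hπ]; exact hM
    obtain ⟨k, hk⟩ := hst _ _ hy this
    exact ⟨M, k, by rw [← hk, pow_orderOf_eq_one], this⟩
  have hlin : ∀ g, (∀ c, ρ g * μ.φ c = μ.φ c * ρ g) → g ∈ π.range := by
    intro g hg
    obtain ⟨M, k, hk, -⟩ := hmove g
    obtain ⟨N, hN⟩ := μ.exists_matrix hV hg
    have h1 : ((M : Matrix (Fin 2) (Fin 2) F) * N) ^ p ^ k = 1 := by
      apply μ.Φ_injective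
      rw [map_pow, map_mul, ← hπ, ← hN, ← map_mul, ← map_pow, hk, map_one, map_one]
    have h2 : N.det ^ p ^ k = 1 := by
      have := congrArg Matrix.det h1
      rwa [Matrix.det_pow, Matrix.det_mul, M.det_coe, one_mul, Matrix.det_one] at this
    have h3 : N.det = 1 := by
      have : (N.det - 1) ^ p ^ k = 0 := by rw [sub_pow_char_pow, h2, one_pow, sub_self]
      exact sub_eq_zero.1 (pow_eq_zero_iff (pow_ne_zero _ (Fact.out : p.Prime).ne_zero) |>.1 this)
    exact ⟨⟨N, h3⟩, hρ ((hπ ⟨N, h3⟩).trans hN.symm)⟩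
  letI : Algebra (ZMod p) F := ZMod.algebra F p
  choose σ hσ using hsemi
  have huniq : ∀ g (c x : F), ρ g * μ.φ c = μ.φ x * ρ g → σ g c = x := by
    intro g c x h
    apply μ.φ.injective
    have e := (hσ g c).symm.trans h
    have := congrArg (· * ρ g⁻¹) e
    simpa only [mul_assoc, ← map_mul, mul_inv_cancel, map_one, mul_one] using this
  let χ : G →* (F ≃ₐ[ZMod p] F) := MonoidHom.mk'
    (fun g => AlgEquiv.ofRingEquiv (f := σ g) fun x =>
      RingHom.congr_fun (RingHom.ext_zmod ((σ g : F →+* F).comp (algebraMap _ _))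
        (algebraMap _ _)) x) (fun g h => by
      ext c
      change σ (g * h) c = σ g (σ h c)
      apply huniq
      rw [map_mul, mul_assoc, hσ, ← mul_assoc, hσ, mul_assoc])
  have hker : π.range = χ.ker := by
    ext g
    constructor
    · rintro ⟨M, rfl⟩
      rw [MonoidHom.mem_ker]
      ext c
      exact huniq _ _ _ (by rw [hπ]; exact μ.Φ_comm _ _)
    · intro h
      refine hlin g fun c => ?_
      have : σ g c = c := congrArg (fun x : F ≃ₐ[ZMod p] F => x c) (MonoidHom.mem_ker.1 h)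
      rw [hσ, this]
  haveI hN : π.range.Normal := hker ▸ χ.normal_ker
  refine ⟨hN, ⟨(MonoidHom.ofInjective (μ.hom_injective hπ)).symm⟩, ?_, ?_, ?_⟩
  · have : IsPGroup p (G ⧸ π.range) := by
      intro x
      obtain ⟨g, rfl⟩ := QuotientGroup.mk_surjective x
      obtain ⟨M, k, hk, -⟩ := hmove g
      refine ⟨k, ?_⟩
      have e : ((π M * g : G) : G ⧸ π.range) = (g : G ⧸ π.range) := by
        rw [QuotientGroup.mk_mul, (QuotientGroup.eq_one_iff (N := π.range) _).2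
          (MonoidHom.mem_range.2 ⟨M, rfl⟩), one_mul]
      rw [← e, ← QuotientGroup.mk_pow, hk, QuotientGroup.mk_one]
    exact IsPGroup.iff_card.1 this
  · obtain ⟨⟨_, h, rfl⟩, hh⟩ := IsCyclic.exists_generator (α := χ.range)
    refine ⟨h, eq_top_iff.2 fun g _ => ?_⟩
    obtain ⟨k, hk⟩ := hh ⟨χ g, MonoidHom.mem_range.2 ⟨g, rfl⟩⟩
    have e : χ (h ^ k) = χ g := by
      rw [map_zpow]; exact congrArg Subtype.val hk
    have : g * (h ^ k)⁻¹ ∈ π.range := by
      rw [hker, MonoidHom.mem_ker, map_mul, map_inv, e, mul_inv_cancel]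
    rw [show g = g * (h ^ k)⁻¹ * h ^ k by simp]
    exact Subgroup.mul_mem_sup this (Subgroup.zpow_mem_zpowers h k)
  · ext g
    constructor
    · intro hg
      have hc : ∀ M : SL(2, F), ρ g * μ.Φ M = μ.Φ M * ρ g := fun M => by
        rw [← hπ, ← map_mul, ← map_mul, Subgroup.mem_centralizer_iff.1 hg _ ⟨M, rfl⟩]
      have hm : g ∈ π.range := hlin g (μ.comm_of_comm
        (fun c => by rw [← μ.Φ_up]; exact hc _) (fun c => by rw [← μ.Φ_lo]; exact hc _))
      refine ⟨⟨g, hm⟩, Subgroup.mem_center_iff.2 fun x => Subtype.ext ?_, rfl⟩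
      exact Subgroup.mem_centralizer_iff.1 hg _ x.2
    · rintro ⟨x, hx, rfl⟩
      rw [Subgroup.mem_centralizer_iff]
      intro h hh
      exact congrArg Subtype.val (Subgroup.mem_center_iff.1 hx ⟨h, hh⟩)

end natural

end Cfsg.G41
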