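import Cfsg.Agent.G41.JField
import Cfsg.Agent.G41.SL2Rec

/-! A full group of elations of a spread generates `SL₂(F)`. -/

set_option autoImplicit false

namespace Cfsg.G41

open scoped MatrixGroups

/-- a finite subring closed under inverses comes from a Galois field -/
theorem exists_field_hom (p : ℕ) [Fact p.Prime] {A : Type*} [Ring A] [Finite A] [CharP A p]
    (S : AddSubgroup A) (h1 : (1 : A) ∈ S) (hi : ∀ a ∈ S, a ≠ 0 → ∃ b ∈ S, a * b = 1) :
    ∃ (F : Type) (_ : Field F) (_ : Fintype F) (_ : CharP F p) (φ : F →+* A),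
      Nat.card F = Nat.card S ∧ ∀ x, x ∈ S ↔ ∃ c, φ c = x := by
  obtain ⟨hc, hm⟩ := JF.field_lemma_inv p S h1 hi
  haveI : Nontrivial A := CharP.nontrivial_of_char_ne_one (Fact.out : p.Prime).ne_one
  let T : Subring A :=
    { carrier := S
      mul_mem' := fun ha hb => hm _ ha _ hb
      one_mem' := h1
      add_mem' := fun ha hb => S.add_mem ha hb
      zero_mem' := S.zero_mem
      neg_mem' := fun ha => S.neg_mem ha }
  have hT : IsField T :=
    { exists_pair_ne := exists_pair_ne T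
      mul_comm := fun x y => Subtype.ext (hc _ x.2 _ y.2)
      mul_inv_cancel := fun {a} ha => by
        obtain ⟨b, hb, h⟩ := hi a.1 a.2 fun h => ha (Subtype.ext h)
        exact ⟨⟨b, hb⟩, Subtype.ext h⟩ }
  letI : Field T := hT.toField
  haveI : CharP T p := inferInstanceAs (CharP T p)
  letI : Algebra (ZMod p) T := ZMod.algebra T p
  haveI := Fintype.ofFinite T
  obtain ⟨n, -, hn⟩ := FiniteField.card T p
  have e := (GaloisField.algEquivGaloisFieldOfFintype p n hn).toRingEquiv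
  refine ⟨GaloisField p n, inferInstance, Fintype.ofFinite _, inferInstance,
    T.subtype.comp e.symm.toRingHom, (Nat.card_congr e.toEquiv).symm, fun x => ⟨fun hx => ?_, ?_⟩⟩
  · exact ⟨e ⟨x, hx⟩, by simp⟩
  · rintro ⟨c, rfl⟩; exact (e.symm c).2

variable {p : ℕ} [Fact p.Prime] {G V : Type*} [Group G] [AddCommGroup V] [Module (ZMod p) V]

/-- `E` is a full group of elations with axis `W`, and the images of `W` form a spread -/
structure Spr (ρ : G →* Module.End (ZMod p) V) (W : Submodule (ZMod p) V) (E : Subgroup G) :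
    Prop where
  inj : Function.Injective ρ
  fix : ∀ e ∈ E, ∀ w ∈ W, ρ e w = w
  com : ∀ e ∈ E, ∀ v, ρ e v - v ∈ W
  reg : ∀ e ∈ E, ∀ v, ρ e v = v → e = 1 ∨ v ∈ W
  cE : Nat.card E = Nat.card W
  cV : Nat.card V = Nat.card W ^ 2
  sp : ∀ g, ∀ w ∈ W, w ≠ 0 → ρ g w ∈ W → ∀ w' ∈ W, ρ g w' ∈ W
  ne : ∃ g, ∃ w ∈ W, ρ g w ∉ W

theorem rho_mul (ρ : G →* Module.End (ZMod p) V) (g h : G) (v : V) :
    ρ (g * h) v = ρ g (ρ h v) := by rw [map_mul]; rfl

theorem rho_inv_self (ρ : G →* Module.End (ZMod p) V) (g : G) (v : V) : ρ g⁻¹ (ρ g v) = v := by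
  rw [← rho_mul, inv_mul_cancel, map_one]; rfl

theorem rho_self_inv (ρ : G →* Module.End (ZMod p) V) (g : G) (v : V) : ρ g (ρ g⁻¹ v) = v := by
  rw [← rho_mul, mul_inv_cancel, map_one]; rfl

theorem rho_ne (ρ : G →* Module.End (ZMod p) V) (g : G) {v : V} (hv : v ≠ 0) : ρ g v ≠ 0 := by
  intro h; apply hv; rw [← rho_inv_self ρ g v, h, map_zero]

namespace Spr

variable [Finite V] {ρ : G →* Module.End (ZMod p) V} {W : Submodule (ZMod p) V}
  {E : Subgroup G} (h : Spr ρ W E)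
include h

theorem exists_ne_zero : ∃ w ∈ W, w ≠ 0 := by
  obtain ⟨g, w, hw, hg⟩ := h.ne
  exact ⟨w, hw, by rintro rfl; exact hg (by simp)⟩

theorem inv_stab {g : G} (hg : ∀ w ∈ W, ρ g w ∈ W) : ∀ w ∈ W, ρ g⁻¹ w ∈ W := by
  obtain ⟨w, hw, h0⟩ := h.exists_ne_zero
  exact h.sp g⁻¹ _ (hg w hw) (rho_ne ρ g h0) (by rw [rho_inv_self]; exact hw)

theorem disj {n : G} (hn : ∃ w ∈ W, ρ n w ∉ W) {w : V} (hw : w ∈ W) (h1 : ρ n w ∈ W) :
    w = 0 := by
  by_contra h0
  obtain ⟨w', hw', h2⟩ := hn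
  exact h2 (h.sp n w hw h0 h1 w' hw')

theorem decomp {n : G} (hn : ∃ w ∈ W, ρ n w ∉ W) (v : V) :
    ∃ w ∈ W, ∃ w' ∈ W, v = w + ρ n w' := by
  let κ : W × W → V := fun z => z.1 + ρ n z.2
  have hi : Function.Injective κ := by
    intro z z' e
    have e1 : ρ n (z.2 - z'.2 : V) = z'.1 - z.1 := by
      have e' : (z.1 : V) + ρ n z.2 = z'.1 + ρ n z'.2 := e
      rw [map_sub, sub_eq_sub_iff_add_eq_add, add_comm, e', add_comm]
    have e2 := h.disj hn (W.sub_mem z.2.2 z'.2.2) (e1 ▸ W.sub_mem z'.1.2 z.1.2)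
    rw [e2, map_zero] at e1
    exact Prod.ext (Subtype.ext (sub_eq_zero.1 e1.symm).symm) (Subtype.ext (sub_eq_zero.1 e2))
  have hs := (Nat.bijective_iff_injective_and_card κ).2 ⟨hi, by rw [Nat.card_prod, h.cV, sq]⟩
  obtain ⟨z, hz⟩ := hs.2 v
  exact ⟨z.1, z.1.2, z.2, z.2.2, hz.symm⟩

theorem exists_elation {y : V} (hy : y ∉ W) {w : V} (hw : w ∈ W) : ∃ e ∈ E, ρ e y = w + y := by
  haveI : Finite E := Nat.finite_of_card_ne_zero (by rw [h.cE]; exact Nat.card_pos.ne')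
  let κ : E → W := fun e => ⟨ρ e y - y, h.com e e.2 y⟩
  have hi : Function.Injective κ := by
    intro e e' he
    have e1 : ρ e y = ρ e' y := sub_left_injective (congrArg Subtype.val he)
    have e2 : ρ ((e' : G)⁻¹ * e) y = y := by rw [rho_mul, e1, rho_inv_self]
    rcases h.reg _ (E.mul_mem (E.inv_mem e'.2) e.2) y e2 with e3 | e3
    · exact Subtype.ext (inv_mul_eq_one.1 e3).symm
    · exact absurd e3 hy
  obtain ⟨e, he⟩ := ((Nat.bijective_iff_injective_and_card κ).2 ⟨hi, h.cE⟩).2 ⟨w, hw⟩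
  exact ⟨e, e.2, sub_eq_iff_eq_add.1 (congrArg Subtype.val he)⟩

/-- `E` is transitive on the components different from `W` -/
theorem trans {n g : G} (hn : ∃ w ∈ W, ρ n w ∉ W) (hg : ∃ w ∈ W, ρ g w ∉ W) :
    ∃ e ∈ E, ∀ x ∈ W, ρ n⁻¹ (ρ e⁻¹ (ρ g x)) ∈ W := by
  obtain ⟨w, hw, h1⟩ := hg
  obtain ⟨a, ha, b, hb, e1⟩ := h.decomp hn (ρ g w)
  have hy : ρ n b ∉ W := fun h2 => h1 (e1 ▸ W.add_mem ha h2)
  obtain ⟨e, he, h2⟩ := h.exists_elation hy ha
  refine ⟨e, he, fun x hx => ?_⟩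
  have h0 : w ≠ 0 := by rintro rfl; exact h1 (by simp)
  have := h.sp (n⁻¹ * e⁻¹ * g) w hw h0 (by
    rw [rho_mul, rho_mul, e1, ← h2, rho_inv_self, rho_inv_self]; exact hb) x hx
  rwa [rho_mul, rho_mul] at this

/-- `E` is the group of all elations with axis `W` -/
theorem mem_of_elation {u : G} (h1 : ∀ w ∈ W, ρ u w = w) (h2 : ∀ v, ρ u v - v ∈ W) : u ∈ E := by
  have hn := h.ne
  obtain ⟨n, hn⟩ := hn
  obtain ⟨e, he, h3⟩ := h.trans (g := u * n) hn (by
    obtain ⟨w, hw, h4⟩ := hn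
    refine ⟨w, hw, fun h5 => h4 ?_⟩
    rw [rho_mul] at h5
    simpa using W.sub_mem h5 (h2 (ρ n w)))
  have : e⁻¹ * u = 1 := by
    apply h.inj
    rw [map_one]
    refine LinearMap.ext fun v => ?_
    obtain ⟨a, ha, b, hb, rfl⟩ := h.decomp hn v
    have e1 : ρ e⁻¹ (ρ u (ρ n b)) - ρ n b ∈ W := by
      have := W.add_mem (h.com _ (E.inv_mem he) (ρ u (ρ n b))) (h2 (ρ n b))
      rwa [sub_add_sub_cancel] at this
    have e2 := h3 b hb
    rw [rho_mul] at e2
    have e3 := h.disj hn (W.sub_mem e2 hb) (by rwa [map_sub, rho_self_inv])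
    have e4 : ρ e⁻¹ (ρ u (ρ n b)) = ρ n b := by
      rw [← rho_self_inv ρ n (ρ e⁻¹ (ρ u (ρ n b))), sub_eq_zero.1 e3]
    rw [rho_mul, map_add, map_add, h1 a ha, h.fix _ (E.inv_mem he) a ha, e4]; rfl
  rw [← inv_mul_eq_one.1 this]; exact he

theorem conj_mem {g : G} (hg : ∀ w ∈ W, ρ g w ∈ W) {e : G} (he : e ∈ E) : g * e * g⁻¹ ∈ E := by
  refine h.mem_of_elation (fun w hw => ?_) fun v => ?_
  · rw [rho_mul, rho_mul, h.fix e he _ (h.inv_stab hg w hw), rho_self_inv]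
  · have := hg _ (h.com e he (ρ g⁻¹ v))
    rwa [map_sub, rho_self_inv, ← rho_mul, ← rho_mul] at this

theorem mul_zero' {e e' : G} (he : e ∈ E) (he' : e' ∈ E) : (ρ e - 1) * (ρ e' - 1) = 0 :=
  LinearMap.ext fun v => by
    change ρ e (ρ e' v - v) - (ρ e' v - v) = 0
    rw [h.fix e he _ (h.com e' he' v), sub_self]

theorem sub_one_mul {e e' : G} (he : e ∈ E) (he' : e' ∈ E) :
    ρ (e * e') - 1 = (ρ e - 1) + (ρ e' - 1) := by
  have := h.mul_zero' he he'
  rw [map_mul]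
  calc ρ e * ρ e' - 1 = (ρ e - 1) * (ρ e' - 1) + ((ρ e - 1) + (ρ e' - 1)) := by noncomm_ring
    _ = _ := by rw [this, zero_add]

theorem sub_inv {e : G} (he : e ∈ E) : ρ e⁻¹ - 1 = -(ρ e - 1) := by
  have := h.sub_one_mul he (E.inv_mem he)
  rw [mul_inv_cancel, map_one, sub_self] at this
  exact eq_neg_of_add_eq_zero_right this.symm

/-- the matrix units -/
theorem exists_units : ∃ (n e₀ t : G), (∃ w ∈ W, ρ n w ∉ W) ∧ e₀ ∈ E ∧
    t ∈ Subgroup.normalClosure (E : Set G) ∧ (∀ v, (ρ t - 1) v = 0 ↔ ρ n⁻¹ v ∈ W) ∧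
    (ρ t - 1) * (ρ t - 1) = 0 ∧ (ρ e₀ - 1) * (ρ t - 1) + (ρ t - 1) * (ρ e₀ - 1) = 1 := by
  obtain ⟨n, hn⟩ := h.ne
  obtain ⟨x, hx, hx0⟩ := h.exists_ne_zero
  haveI : Nontrivial W := ⟨⟨x, hx⟩, 0, fun e => hx0 (congrArg Subtype.val e)⟩
  haveI : Finite E := Nat.finite_of_card_ne_zero (by rw [h.cE]; exact Nat.card_pos.ne')
  haveI : Nontrivial E := by
    rw [← Finite.one_lt_card_iff_nontrivial, h.cE]; exact Finite.one_lt_card
  obtain ⟨⟨e₁, he₁⟩, hne⟩ := exists_ne (1 : E)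
  have hne' : e₁ ≠ 1 := fun e => hne (Subtype.ext e)
  set t := n * e₁ * n⁻¹ with ht
  set b := ρ t - 1 with hb
  have hbv : ∀ v, b v = ρ n (ρ e₁ (ρ n⁻¹ v) - ρ n⁻¹ v) := fun v => by
    rw [map_sub, rho_self_inv, ← rho_mul, ← rho_mul]; rfl
  have hker : ∀ v, b v = 0 ↔ ρ n⁻¹ v ∈ W := fun v => by
    rw [hbv]
    constructor
    · intro h0
      have : ρ e₁ (ρ n⁻¹ v) - ρ n⁻¹ v = 0 := by
        by_contra h1; exact rho_ne ρ n h1 h0
      exact (h.reg e₁ he₁ _ (sub_eq_zero.1 this)).resolve_left hne'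
    · intro h0; rw [h.fix e₁ he₁ _ h0, sub_self, map_zero]
  have him : ∀ v, ρ n⁻¹ (b v) ∈ W := fun v => by
    rw [hbv, rho_inv_self]; exact h.com e₁ he₁ _
  have hbb : b * b = 0 := LinearMap.ext fun v => (hker _).2 (him v)
  have hdisj : ∀ v ∈ W, ρ n⁻¹ v ∈ W → v = 0 := fun v hv h1 => by
    have := h.disj hn h1 (by rwa [rho_self_inv])
    rw [← rho_self_inv ρ n v, this, map_zero]
  have htv : ∀ v, ρ t v = v + b v := fun v => by simp [hb]
  obtain ⟨e, he, h3⟩ := h.trans (g := t) hn ⟨x, hx, fun h1 => by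
    rw [htv] at h1
    have h2 : b x ∈ W := by simpa using W.sub_mem h1 hx
    exact hx0 (hdisj x hx ((hker x).1 (hdisj _ h2 (him x))))⟩
  set a := ρ e - 1 with ha
  have hav : ∀ v, ρ e⁻¹ v = v - a v := fun v => by
    have := congrArg (fun z : Module.End (ZMod p) V => z v) (h.sub_inv he)
    simp only [LinearMap.sub_apply, LinearMap.neg_apply, Module.End.one_apply] at this
    rw [sub_eq_iff_eq_add.1 this]; simp [ha]; abel
  have haW : ∀ w ∈ W, a w = 0 := fun w hw => by simp [ha, h.fix e he w hw]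
  have haim : ∀ v, a v ∈ W := fun v => h.com e he v
  have hbb' : ∀ v, b (b v) = 0 := fun v => (hker _).2 (him v)
  have k1 : ∀ x ∈ W, a (b x) = x := by
    intro x hx
    have e1 := (hker _).2 (h3 x hx)
    rw [hav, htv, map_add, haW x hx, zero_add, map_sub, map_add, hbb', add_zero] at e1
    have e2 : b (x - a (b x)) = 0 := by rw [map_sub, e1]
    exact (sub_eq_zero.1 (hdisj _ (W.sub_mem hx (haim _)) ((hker _).1 e2))).symm
  have hkera : ∀ v, a v = 0 → v ∈ W := by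
    intro v hv
    rcases h.reg e he v (sub_eq_zero.1 hv) with e1 | e1
    · exfalso
      apply hx0
      rw [← k1 x hx, ha, e1, map_one, sub_self]; rfl
    · exact e1
  refine ⟨n, e, t, hn, he, ?_, hker, hbb, LinearMap.ext fun v => ?_⟩
  · exact (Subgroup.normalClosure_normal).conj_mem _ (Subgroup.subset_normalClosure he₁) n
  · obtain ⟨w, hw, w', hw', rfl⟩ := h.decomp hn v
    change a (b (w + ρ n w')) + b (a (w + ρ n w')) = w + ρ n w'
    have e1 : b (ρ n w') = 0 := (hker _).2 (by rwa [rho_inv_self])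
    have e2 : b (a (ρ n w')) = ρ n w' := by
      have e3 : a (b (a (ρ n w')) - ρ n w') = 0 := by rw [map_sub, k1 _ (haim _), sub_self]
      refine sub_eq_zero.1 (hdisj _ (hkera _ e3) ?_)
      rw [map_sub, rho_inv_self]; exact W.sub_mem (him _) hw'
    rw [map_add b w, map_add a w, e1, haW w hw, add_zero, zero_add, k1 w hw, e2]

/-- **Spread recognition.** -/
theorem sl2 : ∃ (F : Type) (_ : Field F) (_ : Fintype F) (_ : CharP F p)
    (μ : MU F (Module.End (ZMod p) V)) (π : SL(2, F) →* G), Nat.card F = Nat.card W ∧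
    (∀ M, ρ (π M) = μ.Φ M) ∧ (∀ e, e ∈ E ↔ ∃ c, ρ e = 1 + μ.φ c * μ.a) ∧
    π.range = Subgroup.normalClosure (E : Set G) ∧
    ∀ g, ∃ σ : F ≃+* F, ∀ c, ρ g * μ.φ c = μ.φ (σ c) * ρ g := by
  obtain ⟨n, e₀, t, hn, he₀, htN, hker, hbb, hab⟩ := h.exists_units
  obtain ⟨x₀, hx₀, hx0⟩ := h.exists_ne_zero
  obtain ⟨a, ha⟩ : ∃ a, a = ρ e₀ - 1 := ⟨_, rfl⟩
  obtain ⟨b, hb⟩ : ∃ b, b = ρ t - 1 := ⟨_, rfl⟩
  rw [← hb] at hker hbb hab
  rw [← ha] at hab
  have z0 : ∀ e ∈ E, (ρ e - 1) * a = 0 := fun e he => ha ▸ h.mul_zero' he he₀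
  have z0' : ∀ e ∈ E, a * (ρ e - 1) = 0 := fun e he => ha ▸ h.mul_zero' he₀ he
  have haW' : ∀ v, a v ∈ W := fun v => ha ▸ h.com e₀ he₀ v
  haveI : Nontrivial V := ⟨x₀, 0, hx0⟩
  haveI : Finite (Module.End (ZMod p) V) := DFunLike.finite _
  haveI : CharP (Module.End (ZMod p) V) p :=
    charP_of_injective_algebraMap (algebraMap (ZMod p) _).injective p
  have haa : a * a = 0 := by rw [← z0' e₀ he₀, ← ha]
  have hba : b * a = 1 - a * b := by rw [← hab]; abel
  have hab' : a * b = 1 - b * a := by rw [← hab]; abel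
  have hbab : b * a * b = b := by rw [hba, sub_mul, mul_assoc, hbb]; simp
  have haba : a * b * a = a := by rw [hab', sub_mul, mul_assoc, haa]; simp
  let f : G → Module.End (ZMod p) V := fun e => (ρ e - 1) * b + b * (ρ e - 1)
  have fa : ∀ e ∈ E, f e * a = ρ e - 1 := fun e he => by
    simp only [f]
    rw [add_mul, mul_assoc, mul_assoc b, z0 e he, hba, mul_sub, ← mul_assoc,
      z0 e he]; simp
  have af : ∀ e ∈ E, a * f e = ρ e - 1 := fun e he => by
    simp only [f]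
    rw [mul_add, ← mul_assoc, ← mul_assoc a, z0' e he, hab', sub_mul, mul_assoc,
      z0' e he]; simp
  have fb : ∀ e, f e * b = b * f e := fun e => by
    simp only [f]
    rw [add_mul, mul_add, mul_assoc, hbb, ← mul_assoc b b, hbb, mul_assoc]; simp
  have fadd : ∀ e ∈ E, ∀ e' ∈ E, f (e * e') = f e + f e' := fun e he e' he' => by
    simp only [f]; rw [h.sub_one_mul he he']; noncomm_ring
  have fneg : ∀ e ∈ E, f e⁻¹ = -f e := fun e he => by
    simp only [f]; rw [h.sub_inv he]; noncomm_ring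
  let S : AddSubgroup (Module.End (ZMod p) V) :=
    { carrier := {x | ∃ e ∈ E, f e = x}
      add_mem' := by
        rintro _ _ ⟨e, he, rfl⟩ ⟨e', he', rfl⟩
        exact ⟨e * e', E.mul_mem he he', fadd e he e' he'⟩
      zero_mem' := ⟨1, E.one_mem, by simp [f]⟩
      neg_mem' := by
        rintro _ ⟨e, he, rfl⟩
        exact ⟨e⁻¹, E.inv_mem he, fneg e he⟩ }
  have hS : ∀ x, x ∈ S ↔ ∃ e ∈ E, f e = x := fun x => Iff.rfl
  -- the Weyl element
  have ρe : ∀ e, ρ e = 1 + (ρ e - 1) := fun e => by abel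
  have hinvρ : ∀ g x, ρ g * x = 1 → ρ g⁻¹ = x := fun g x h1 => by
    calc ρ g⁻¹ = ρ g⁻¹ * (ρ g * x) := by rw [h1, mul_one]
      _ = x := by rw [← mul_assoc, ← map_mul, inv_mul_cancel, map_one, one_mul]
  have ρt : ρ t⁻¹ = 1 - b := by
    refine hinvρ _ _ ?_
    rw [ρe t, ← hb, add_mul, mul_sub, mul_sub, hbb]; simp
  obtain ⟨w, hw⟩ : ∃ w, w = e₀ * t⁻¹ * e₀ := ⟨_, rfl⟩
  have ρw : ρ w = a - b := by
    rw [hw, map_mul, map_mul, ρt, ρe e₀, ← ha]
    calc (1 + a) * (1 - b) * (1 + a) = 1 - (a * b + b * a) - b + a + a + a * a - a * b * a := by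
          noncomm_ring
      _ = a - b := by rw [hab, haa, haba]; abel
  have ρw' : ρ w⁻¹ = b - a := by
    refine hinvρ _ _ ?_
    rw [ρw]
    calc (a - b) * (b - a) = a * b + b * a - a * a - b * b := by noncomm_ring
      _ = 1 := by rw [hab, haa, hbb]; simp
  have ρc : ∀ e ∈ E, ρ (w * e⁻¹ * w⁻¹) = 1 + f e * b := fun e he => by
    have e1 : ρ e⁻¹ = 1 - f e * a := by
      rw [ρe e⁻¹, h.sub_inv he, fa e he]; abel
    have e2 : (a - b) * f e = f e * (a - b) := by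
      rw [sub_mul, mul_sub, af e he, fa e he, fb]
    rw [map_mul, map_mul, ρw, ρw', e1]
    calc (a - b) * (1 - f e * a) * (b - a) = (a * b + b * a - a * a - b * b) -
          (a - b) * f e * a * (b - a) := by noncomm_ring
      _ = (a * b + b * a - a * a - b * b) -
          f e * (a * a * b - a * a * a - b * a * b + b * (a * a)) := by
          rw [e2]; noncomm_ring
      _ = 1 + f e * b := by rw [hab, haa, hbb, hbab]; noncomm_ring
  have hdisj : ∀ v ∈ W, b v = 0 → v = 0 := fun v hv h1 => by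
    have := h.disj hn ((hker v).1 h1) (by rwa [rho_self_inv])
    rw [← rho_self_inv ρ n v, this, map_zero]
  have hbb' : ∀ v, b (b v) = 0 := fun v => congrArg (fun z : Module.End (ZMod p) V => z v) hbb
  have haW : ∀ v ∈ W, a v = 0 := fun v hv => by simp [ha, h.fix e₀ he₀ v hv]
  have hext : ∀ D : Module.End (ZMod p) V, (∀ v ∈ W, D v = 0) → (∀ v, b v = 0 → D v = 0) →
      D = 0 := fun D h1 h2 => LinearMap.ext fun v => by
    obtain ⟨u, hu, u', hu', rfl⟩ := h.decomp hn v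
    rw [map_add, h1 u hu, h2 _ ((hker _).2 (by rwa [rho_inv_self]))]; simp
  have hinv : ∀ x ∈ S, x ≠ 0 → ∃ y ∈ S, x * y = 1 := by
    rintro _ ⟨e, he, rfl⟩ h0
    have he1 : e ≠ 1 := by rintro rfl; exact h0 (by simp [f])
    obtain ⟨e', he', h3⟩ := h.trans (g := w * e⁻¹ * w⁻¹) hn ⟨x₀, hx₀, fun h1 => by
      rw [ρc e he, fb] at h1
      have h2 : b (f e x₀) ∈ W := by simpa using W.sub_mem h1 hx₀
      have h4 : f e x₀ = ρ e (b x₀) - b x₀ := by simp [f, h.fix e he x₀ hx₀]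
      have h5 := hdisj _ (h4 ▸ h.com e he _) (hdisj _ h2 (hbb' _))
      rw [h4, sub_eq_zero] at h5
      rcases h.reg e he _ h5 with h6 | h6
      · exact he1 h6
      · exact hx0 (hdisj _ hx₀ (hdisj _ h6 (hbb' _)))⟩
    have e1 : ρ e'⁻¹ = 1 - f e' * a := by rw [ρe e'⁻¹, h.sub_inv he', fa e' he']; abel
    have e2 : b * ρ e'⁻¹ * ρ (w * e⁻¹ * w⁻¹) = (1 - f e' * f e) * b - f e' * b * a := by
      rw [e1, ρc e he]
      have e0 : a * f e = f e * a := by rw [af e he, fa e he]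
      calc b * (1 - f e' * a) * (1 + f e * b) = b + (b * f e) * b - (b * f e') * a -
            (b * f e') * (a * f e) * b := by noncomm_ring
        _ = b + (f e * b) * b - (f e' * b) * a - (f e' * b) * (f e * a) * b := by
            rw [← fb e, ← fb e', e0]
        _ = b + f e * (b * b) - f e' * b * a - f e' * (b * f e) * a * b := by noncomm_ring
        _ = b - f e' * b * a - f e' * f e * (b * a * b) := by
            rw [hbb, ← fb e]; noncomm_ring
        _ = _ := by rw [hbab]; noncomm_ring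
    have e3 : (1 - f e' * f e) * b = 0 := by
      refine hext _ (fun v hv => ?_) fun v hv => by simp [hv]
      have := congrArg (fun z : Module.End (ZMod p) V => z v) e2
      simp only [Module.End.mul_apply, LinearMap.sub_apply, haW v hv, map_zero, sub_zero] at this
      rw [(hker _).2 (h3 v hv)] at this
      simpa using this.symm
    have e4 : (1 - f e' * f e) * a = a * (1 - f e' * f e) := by
      have e0 : f e * a = a * f e := by rw [af e he, fa e he]
      have e0' : f e' * a = a * f e' := by rw [af e' he', fa e' he']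
      rw [sub_mul, mul_sub, mul_assoc, e0, ← mul_assoc, e0', mul_assoc]; simp
    have e5 : 1 - f e' * f e = 0 := by
      calc 1 - f e' * f e = (1 - f e' * f e) * (a * b + b * a) := by rw [hab, mul_one]
        _ = 0 := by rw [mul_add, ← mul_assoc, ← mul_assoc, e4, e3, mul_assoc, e3]; simp
    exact ⟨f e', ⟨e', he', rfl⟩, mul_eq_one_comm.1 (sub_eq_zero.1 e5).symm⟩
  obtain ⟨F, _, _, _, φ, hF, hφ⟩ := exists_field_hom p S
    ⟨e₀, he₀, by simp only [f]; rw [← ha, hab]⟩ hinv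
  have hφ' : ∀ c, ∃ e ∈ E, f e = φ c := fun c => (hφ _).2 ⟨c, rfl⟩
  let μ : MU F (Module.End (ZMod p) V) :=
    { φ := φ, a := a, b := b, aa := haa, bb := hbb, ab := hab
      ca := fun c => by obtain ⟨e, he, h1⟩ := hφ' c; rw [← h1, fa e he, af e he]
      cb := fun c => by obtain ⟨e, he, h1⟩ := hφ' c; rw [← h1, fb] }
  have hE : ∀ e, e ∈ E ↔ ∃ c, ρ e = 1 + φ c * a := fun e => by
    constructor
    · intro he
      obtain ⟨c, hc⟩ := (hφ _).1 ⟨e, he, rfl⟩
      exact ⟨c, by rw [hc, fa e he]; abel⟩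
    · rintro ⟨c, hc⟩
      obtain ⟨e', he', h1⟩ := hφ' c
      rw [← h1, fa e' he', ← ρe] at hc
      rw [h.inj hc]; exact he'
  haveI hNN := Subgroup.normalClosure_normal (s := (E : Set G))
  have hEN : ∀ e ∈ E, e ∈ Subgroup.normalClosure (E : Set G) := fun e he =>
    Subgroup.subset_normalClosure he
  obtain ⟨π, hπ, hle⟩ := μ.exists_hom ρ h.inj (Subgroup.normalClosure (E : Set G))
    (fun c => by
      obtain ⟨e, he, h1⟩ := hφ' c
      exact ⟨e, hEN e he, by change _ = 1 + φ c * a; rw [← h1, fa e he]; abel⟩)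
    (fun c => by
      obtain ⟨e, he, h1⟩ := hφ' c
      exact ⟨_, hNN.conj_mem _ (hEN _ (E.inv_mem he)) w, by
        change _ = 1 + φ c * b; rw [ρc e he, h1]⟩)
  have hEπ : ∀ e ∈ E, e ∈ π.range := fun e he => by
    obtain ⟨c, hc⟩ := (hE e).1 he
    exact ⟨_, h.inj (by rw [hπ, μ.Φ_up, hc])⟩
  have htπ : t ∈ π.range := ⟨_, h.inj (by
    rw [hπ, μ.Φ_lo 1, map_one, one_mul, ρe t, ← hb])⟩
  have hwπ : w ∈ π.range := hw ▸ mul_mem (mul_mem (hEπ _ he₀) (inv_mem htπ)) (hEπ _ he₀)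
  have red1 : ∀ g, ∃ l ∈ π.range, ∀ v ∈ W, ρ (l * g) v ∈ W := fun g => by
    by_cases hg : ∀ v ∈ W, ρ g v ∈ W
    · exact ⟨1, one_mem _, by simpa using hg⟩
    push Not at hg
    obtain ⟨e, he, h3⟩ := h.trans hn hg
    refine ⟨w * e⁻¹, mul_mem hwπ (inv_mem (hEπ e he)), fun v hv => ?_⟩
    rw [rho_mul, rho_mul, ρw, LinearMap.sub_apply, (hker _).2 (h3 v hv), sub_zero]
    exact haW' _
  have red2 : ∀ g, ∃ l ∈ π.range, (∀ v ∈ W, ρ (l * g) v ∈ W) ∧
      ∀ v, b v = 0 → b (ρ (l * g) v) = 0 := fun g => by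
    obtain ⟨l, hl, h1⟩ := red1 g
    obtain ⟨e, he, h3⟩ := h.trans (g := l * g * n) hn (by
      obtain ⟨v, hv, h2⟩ := hn
      refine ⟨v, hv, fun h4 => h2 ?_⟩
      have := h.inv_stab h1 _ h4
      rwa [rho_mul, rho_inv_self] at this)
    refine ⟨e⁻¹ * l, mul_mem (inv_mem (hEπ e he)) hl, fun v hv => ?_, fun v hv => ?_⟩
    · rw [mul_assoc, rho_mul, h.fix _ (E.inv_mem he) _ (h1 v hv)]; exact h1 v hv
    · have := (hker _).2 (h3 _ ((hker v).1 hv))
      rwa [rho_mul _ (l * g), rho_self_inv, ← rho_mul, ← mul_assoc] at this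
  refine ⟨F, inferInstance, inferInstance, inferInstance, μ, π, ?_, hπ, hE, ?_, fun g => ?_⟩
  · rw [hF, ← h.cE]
    refine (Nat.card_congr (Equiv.ofBijective (fun e : E => (⟨f e, e, e.2, rfl⟩ : S))
      ⟨fun e e' h1 => Subtype.ext (h.inj ?_), ?_⟩)).symm
    · have h2 : f e = f e' := congrArg Subtype.val h1
      rw [ρe e, ρe e', ← fa _ e.2, ← fa _ e'.2, h2]
    · rintro ⟨_, e, he, rfl⟩; exact ⟨⟨e, he⟩, rfl⟩
  · refine le_antisymm hle ((Subgroup.closure_le _).2 fun y hy => ?_)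
    obtain ⟨e, he, hc⟩ := Group.mem_conjugatesOfSet_iff.1 hy
    obtain ⟨g, rfl⟩ := isConj_iff.1 hc
    obtain ⟨l, hl, h1⟩ := red1 g
    have := mul_mem (mul_mem (inv_mem hl) (hEπ _ (h.conj_mem h1 he))) hl
    have e1 : l⁻¹ * (l * g * e * (l * g)⁻¹) * l = g * e * g⁻¹ := by group
    rwa [e1] at this
  · have h1 : ∀ g, ρ g * ρ g⁻¹ = 1 := fun g => by rw [← map_mul, mul_inv_cancel, map_one]
    have h2 : ∀ g, ρ g⁻¹ * ρ g = 1 := fun g => by rw [← map_mul, inv_mul_cancel, map_one]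
    refine exists_sigma φ (h1 g) (h2 g) fun c => ?_
    obtain ⟨l, ⟨M, rfl⟩, hW, hW'⟩ := red2 g
    obtain ⟨u, hu⟩ : ∃ u, u = π M * g := ⟨_, rfl⟩
    rw [← hu] at hW hW'
    suffices H : ∃ c', φ c' = ρ u * φ c * ρ u⁻¹ by
      obtain ⟨c', hc'⟩ := H
      refine ⟨c', ?_⟩
      have e1 : ρ (π M) * φ c' = φ c' * ρ (π M) := by rw [hπ]; exact μ.Φ_comm _ _
      have e2 : g = (π M)⁻¹ * u := by rw [hu]; group
      have e3 : ρ g = ρ (π M)⁻¹ * ρ u := by rw [← map_mul, ← e2]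
      have e4 : ρ g⁻¹ = ρ u⁻¹ * ρ (π M) := by rw [← map_mul, hu]; congr 1; group
      calc φ c' = ρ (π M)⁻¹ * (φ c' * ρ (π M)) := by rw [← e1, ← mul_assoc, h2, one_mul]
        _ = _ := by rw [e3, e4, hc']; simp only [mul_assoc]
    have conj : ∀ c, ∃ c', ρ u * (φ c * a) * ρ u⁻¹ = φ c' * a := fun c => by
      obtain ⟨e, he, h3⟩ := hφ' c
      obtain ⟨c', h4⟩ := (hE _).1 (h.conj_mem hW he)
      refine ⟨c', ?_⟩
      rw [map_mul, map_mul, ρe e, ← fa e he, h3, mul_add, add_mul, mul_one, h1] at h4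
      exact add_left_cancel h4
    obtain ⟨k, hk⟩ := conj 1
    obtain ⟨k', hk'⟩ := conj c
    rw [map_one, one_mul] at hk
    have hk0 : k ≠ 0 := by
      rintro rfl
      rw [map_zero, zero_mul] at hk
      have : a = 0 := by
        have e1 : a = ρ u⁻¹ * (ρ u * a * ρ u⁻¹) * ρ u := by
          rw [mul_assoc, mul_assoc, h2, mul_one, ← mul_assoc, h2, one_mul]
        rw [e1, hk]; simp
      rw [this] at hab; simp at hab
    refine ⟨k⁻¹ * k', ?_⟩
    obtain ⟨z, hz⟩ : ∃ z, z = ρ u * φ c * ρ u⁻¹ := ⟨_, rfl⟩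
    rw [← hz]
    have hca : ∀ c, φ c * a = a * φ c := μ.ca
    have hcb : ∀ c, φ c * b = b * φ c := μ.cb
    have z1 : z * (φ k * a) = φ k' * a := by
      rw [← hk, ← hk', hz]; simp only [mul_assoc]; rw [← mul_assoc (ρ u⁻¹), h2, one_mul]
    have z2 : φ k * a * z = φ k' * a := by
      rw [← hk, ← hk', hz, hca]; simp only [mul_assoc]; rw [← mul_assoc (ρ u⁻¹), h2, one_mul]
    have kk : φ k * φ k⁻¹ = 1 := by rw [← map_mul, mul_inv_cancel₀ hk0, map_one]
    have kk' : φ k⁻¹ * φ k = 1 := by rw [← map_mul, inv_mul_cancel₀ hk0, map_one]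
    have z3 : (z - φ (k⁻¹ * k')) * a = 0 := by
      have : z * a = φ k' * a * φ k⁻¹ := by
        rw [← z1, hca k, mul_assoc, mul_assoc, kk, mul_one]
      rw [sub_mul, this, mul_assoc, ← hca, ← mul_assoc, ← map_mul, mul_comm k', sub_self]
    have z4 : a * (z - φ (k⁻¹ * k')) = 0 := by
      have : a * z = φ k⁻¹ * (φ k' * a) := by
        rw [← z2, ← mul_assoc, ← mul_assoc, kk', one_mul]
      rw [mul_sub, this, ← hca, map_mul, mul_assoc, sub_self]
    have hu' : ∀ v, b v = 0 → b (ρ u⁻¹ v) = 0 := by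
      intro v hv
      have hn' : ∀ y ∈ W, ρ (n⁻¹ * u * n) y ∈ W := fun y hy => by
        rw [rho_mul, rho_mul]
        exact (hker _).1 (hW' _ ((hker _).2 (by rwa [rho_inv_self])))
      have := h.inv_stab hn' _ ((hker v).1 hv)
      rw [← rho_mul, show (n⁻¹ * u * n)⁻¹ * n⁻¹ = n⁻¹ * u⁻¹ by group, rho_mul] at this
      exact (hker _).2 this
    have hφb : ∀ c v, b v = 0 → b (φ c v) = 0 := fun c v hv => by
      have := congrArg (fun z : Module.End (ZMod p) V => z v) (hcb c)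
      simp only [Module.End.mul_apply, hv, map_zero] at this
      exact this.symm
    symm
    rw [← sub_eq_zero]
    refine hext _ (fun v hv => ?_) fun v hv => ?_
    · have e1 : a (b v) = v := by
        have := congrArg (fun z : Module.End (ZMod p) V => z v) hab
        simpa [haW v hv] using this
      rw [← e1]
      exact congrArg (fun z : Module.End (ZMod p) V => z (b v)) z3
    · have e1 : b ((z - φ (k⁻¹ * k')) v) = 0 := by
        rw [LinearMap.sub_apply, map_sub, hφb _ v hv, sub_zero, hz]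
        exact hW' _ (hφb _ _ (hu' v hv))
      have e2 : a ((z - φ (k⁻¹ * k')) v) = 0 :=
        congrArg (fun z : Module.End (ZMod p) V => z v) z4
      have := congrArg (fun y : Module.End (ZMod p) V => y ((z - φ (k⁻¹ * k')) v)) hab
      simp only [LinearMap.add_apply, Module.End.mul_apply, e1, e2, map_zero, add_zero,
        Module.End.one_apply] at this
      exact this.symm

/-- **Spread ⇒ shape (i).** -/
theorem shape [Finite G] (hst : ∀ g v, v ≠ 0 → ρ g v = v → ∃ k : ℕ, orderOf g = p ^ k) :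
    ∃ (F : Type) (_ : Field F) (_ : Fintype F), (∃ a : ℕ, Fintype.card F = p ^ a) ∧
      Fintype.card F = Nat.card W ∧ ∃ S : Subgroup G, S = Subgroup.normalClosure (E : Set G) ∧
      S.Normal ∧ Nonempty (S ≃* SL(2, F)) ∧ (∃ k : ℕ, S.index = p ^ k) ∧
      (∃ g : G, S ⊔ Subgroup.zpowers g = ⊤) ∧
      Subgroup.centralizer (S : Set G) = (Subgroup.center S).map S.subtype := by
  obtain ⟨F, _, _, _, μ, π, hF, hπ, -, hr, hs⟩ := h.sl2
  obtain ⟨n, -, hn⟩ := FiniteField.card F p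
  exact ⟨F, inferInstance, inferInstance, ⟨n, hn⟩, by rw [← hF, Nat.card_eq_fintype_card],
    π.range, hr, sl2_shape μ p h.inj (by rw [hF, h.cV]) hπ hs hst⟩

end Spr

end Cfsg.G41
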