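import Cfsg.Agent.G41.Free
import Cfsg.Agent.G41.SpreadRec
import Cfsg.Agent.GW.Defs2
import Cfsg.Agent.Blk.DihGrp

/-!
# S4841: vocabulary and the statements of the pieces

FROZEN: do not edit the definitions (plan: `docs/G41.md`).
-/

set_option autoImplicit false

namespace Cfsg.G41

open Subgroup Cfsg.FT Cfsg.Gag Cfsg.GW
open scoped MatrixGroups

universe u

section
variable {p : ℕ} [Fact p.Prime] {V : Type} [AddCommGroup V] [Module (ZMod p) V]
  {H : Type u} [Group H]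

/-- the output of `red`: `H` is non-solvable, faithful and transitive on the non-zero vectors,
with `p`-groups as stabilisers -/
structure Tr (ρ : H →* Module.End (ZMod p) V) : Prop where
  inj : Function.Injective ρ
  free : PFree ρ
  nt : Nontrivial V
  trans : ∀ v w : V, v ≠ 0 → w ≠ 0 → ∃ h, ρ h v = w
  ns : ¬ Group.IsSolvable H

/-- condition `(*)`: the stabiliser of every non-zero vector is a Sylow `p`-subgroup -/
structure Star (ρ : H →* Module.End (ZMod p) V) : Prop where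
  inj : Function.Injective ρ
  free : PFree ρ
  nt : Nontrivial V
  syl : ∀ v : V, v ≠ 0 → ∃ P : Sylow p H, ∀ g ∈ (P : Subgroup H), ρ g v = v
end

/-- `K` is the component of `H` -/
structure Cmp {H : Type u} [Group H] (K : Subgroup H) : Prop where
  normal : K.Normal
  perfect : _root_.commutator K = ⊤
  simple : IsSimpleGroup (K ⧸ center K)
  ns : ¬ Group.IsSolvable K
  sq : ∀ z ∈ center K, z * z = 1

/-- conclusion (i) -/
def C1 (p : ℕ) (H : Type u) [Group H] : Prop :=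
  ∃ (F : Type) (_ : Field F) (_ : Fintype F), (∃ a : ℕ, Fintype.card F = p ^ a) ∧
    2 < Fintype.card F ∧ ∃ S : Subgroup H, S.Normal ∧
      Nonempty (S ≃* Matrix.SpecialLinearGroup (Fin 2) F) ∧ (∃ k : ℕ, S.index = p ^ k) ∧
      (∃ h : H, S ⊔ Subgroup.zpowers h = ⊤) ∧
      Subgroup.centralizer (S : Set H) = (Subgroup.center S).map S.subtype

/-- conclusion (ii) without `p = 3` -/
def C2 (H : Type u) [Group H] : Prop :=
  ∃ S : Subgroup H, S.Normal ∧ S.index = 2 ∧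
    Nonempty (S ≃* Matrix.SpecialLinearGroup (Fin 2) (ZMod 5)) ∧
    Subgroup.centralizer (S : Set H) = (Subgroup.center S).map S.subtype ∧
    ∀ K : Subgroup H, ¬ Subgroup.IsComplement' S K

/-- conclusion (iii) without `p = 3` -/
def C3 (H : Type u) [Group H] : Prop :=
  Nonempty (H ≃* Matrix.SpecialLinearGroup (Fin 2) (ZMod 13))

/-- the conclusion of S4841 -/
def Concl (p : ℕ) (H : Type u) [Group H] : Prop :=
  C1 p H ∨ (p = 3 ∧ C2 H) ∨ (p = 3 ∧ C3 H) ∨
    (p = 11 ∧ Nonempty (H ≃* Matrix.SpecialLinearGroup (Fin 2) (ZMod 5))) ∨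
    (p = 29 ∧ Nonempty (H ≃* Matrix.SpecialLinearGroup (Fin 2) (ZMod 5) ×
      Multiplicative (ZMod 7))) ∨
    (p = 59 ∧ Nonempty (H ≃* Matrix.SpecialLinearGroup (Fin 2) (ZMod 5) ×
      Multiplicative (ZMod 29)))

/-- `(*)` holds for every normal subgroup -/
def StStar : Prop := ∀ (p : ℕ) [Fact p.Prime] (V : Type) [AddCommGroup V] [Module (ZMod p) V]
  [Finite V] (H : Type u) [Group H] [Finite H] (ρ : H →* Module.End (ZMod p) V) (K : Subgroup H),
  Tr ρ → K.Normal → Star (ρ.comp K.subtype)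

/-- the component -/
def StCmp : Prop := ∀ (p : ℕ) [Fact p.Prime] (V : Type) [AddCommGroup V] [Module (ZMod p) V]
  [Finite V] (H : Type u) [Group H] [Finite H] (ρ : H →* Module.End (ZMod p) V),
  Tr ρ → ∃ K : Subgroup H, Cmp K ∧ (p = 2 → IsSimpleGroup K)

/-- `p ≥ 5` -/
def StP5 : Prop := ∀ (p : ℕ) [Fact p.Prime] (V : Type) [AddCommGroup V] [Module (ZMod p) V]
  [Finite V] (H : Type u) [Group H] [Finite H] (ρ : H →* Module.End (ZMod p) V),
  5 ≤ p → Tr ρ → Concl p H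

/-- `p = 2`: `3` divides the order of a perfect group with `(*)` -/
def StP2a : Prop := ∀ (V : Type) [AddCommGroup V] [Module (ZMod 2) V]
  [Finite V] (L : Type u) [Group L] [Finite L] (ρ : L →* Module.End (ZMod 2) V),
  Star ρ → Nontrivial L → _root_.commutator L = ⊤ → 3 ∣ Nat.card L

/-- `p = 2`, the component has order divisible by `3` -/
def StP2b : Prop := ∀ (V : Type) [AddCommGroup V] [Module (ZMod 2) V]
  [Finite V] (H : Type u) [Group H] [Finite H] (ρ : H →* Module.End (ZMod 2) V) (K : Subgroup H),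
  Tr ρ → Cmp K → IsSimpleGroup K → 3 ∣ Nat.card K → C1 2 H

/-- `p = 3`: the setting `π : K → G = K / ±1`, `S` dihedral Sylow of order `4 m` in `G` -/
structure Set3 {V : Type} [AddCommGroup V] [Module (ZMod 3) V] {H : Type u} [Group H]
    (ρ : H →* Module.End (ZMod 3) V) (K : Subgroup H) {G : Type u} [Group G] (π : K →* G)
    (S : Subgroup G) (σ τ : G) (m : ℕ) : Prop where
  tr : Tr ρ
  cmp : Cmp K
  surj : Function.Surjective π
  ker : ∀ z : K, π z = 1 ↔ z * z = 1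
  simple : IsSimpleGroup G
  ns : ¬ Group.IsSolvable G
  syl : Syl 2 S ⊤
  dih : IsDih S σ τ m

/-- `p = 3`: the Sylow 2-subgroups of `K / Z(K)` are dihedral -/
def StDih : Prop := ∀ (V : Type) [AddCommGroup V] [Module (ZMod 3) V]
  [Finite V] (H : Type u) [Group H] [Finite H] (ρ : H →* Module.End (ZMod 3) V) (K : Subgroup H),
  Tr ρ → Cmp K → ∃ (S : Subgroup (K ⧸ center K)) (σ τ : K ⧸ center K) (m : ℕ),
    Set3 ρ K (QuotientGroup.mk' (center K)) S σ τ m ∧
    (Klein S ∨ (∃ f x, D8 S f x) ∨ 4 ≤ m)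

/-- X1: `S` normalises no Sylow 3-subgroup whose normaliser is 2-nilpotent -/
def StX1 : Prop := ∀ (V : Type) [AddCommGroup V] [Module (ZMod 3) V]
  [Finite V] (H : Type u) [Group H] [Finite H] (ρ : H →* Module.End (ZMod 3) V) (K : Subgroup H)
  (G : Type u) [Group G] [Finite G] (π : K →* G) (S : Subgroup G) (σ τ : G) (m : ℕ),
  Set3 ρ K π S σ τ m → 4 ≤ m → ∀ P : Subgroup G, Syl 3 P ⊤ → S ≤ 𝐍[P] →
  od 𝐍[P] ⊔ S = 𝐍[P] → False

/-- X2: the index of `C(t)` has a large `3'`-part if `O₃(C(t)) ≠ 1` -/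
def StX2 : Prop := ∀ (V : Type) [AddCommGroup V] [Module (ZMod 3) V]
  [Finite V] (H : Type u) [Group H] [Finite H] (ρ : H →* Module.End (ZMod 3) V) (K : Subgroup H)
  (G : Type u) [Group G] [Finite G] (π : K →* G) (S : Subgroup G) (σ τ : G) (m : ℕ),
  Set3 ρ K π S σ τ m → 4 ≤ m → ∀ R : Subgroup G, R ≠ ⊥ → IsPGroup 3 R → R ≤ 𝐂₁[σ ^ m] →
  𝐂₁[σ ^ m] ≤ 𝐍[R] →
  8 * (ordCompl[3] (Nat.card 𝐂₁[σ ^ m])) ^ 2 < ordCompl[3] (ii (σ ^ m))

/-- X3 (uses `StX1`, `StX2`, `ordD`): `O₃(C(t)) = 1` -/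
def StX3 : Prop := ∀ (V : Type) [AddCommGroup V] [Module (ZMod 3) V]
  [Finite V] (H : Type u) [Group H] [Finite H] (ρ : H →* Module.End (ZMod 3) V) (K : Subgroup H)
  (G : Type u) [Group G] [Finite G] (π : K →* G) (S : Subgroup G) (σ τ : G) (m : ℕ),
  Set3 ρ K π S σ τ m → 4 ≤ m → ∀ R : Subgroup G, IsPGroup 3 R → R ≤ 𝐂₁[σ ^ m] →
  𝐂₁[σ ^ m] ≤ 𝐍[R] → R = ⊥

/-- B (uses `caseB`, `c1a`): recognition if `O₃(C(t)) = 1` -/
def StB3 : Prop := ∀ (V : Type) [AddCommGroup V] [Module (ZMod 3) V]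
  [Finite V] (H : Type u) [Group H] [Finite H] (ρ : H →* Module.End (ZMod 3) V) (K : Subgroup H)
  (G : Type u) [Group G] [Finite G] (π : K →* G) (S : Subgroup G) (σ τ : G) (m : ℕ),
  Set3 ρ K π S σ τ m → 4 ≤ m →
  (∀ R : Subgroup G, IsPGroup 3 R → R ≤ 𝐂₁[σ ^ m] → 𝐂₁[σ ^ m] ≤ 𝐍[R] → R = ⊥) → IsL2 G

/-- `A₇` does not occur -/
def StE7 : Prop := ∀ (V : Type) [AddCommGroup V] [Module (ZMod 3) V]
  [Finite V] (H : Type u) [Group H] [Finite H] (ρ : H →* Module.End (ZMod 3) V) (K : Subgroup H),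
  Tr ρ → Cmp K → ¬ IsA7 (K ⧸ center K)

/-- endgame, natural characteristic -/
def StE3 : Prop := ∀ (V : Type) [AddCommGroup V] [Module (ZMod 3) V]
  [Finite V] (H : Type u) [Group H] [Finite H] (ρ : H →* Module.End (ZMod 3) V) (K : Subgroup H)
  (F : Type) [Field F] [Fintype F] [CharP F 3],
  Tr ρ → Cmp K → Nonempty (K ⧸ center K ≃* Matrix.ProjectiveSpecialLinearGroup (Fin 2) F) →
  C1 3 H

/-- endgame, cross characteristic -/
def StEX : Prop := ∀ (V : Type) [AddCommGroup V] [Module (ZMod 3) V]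
  [Finite V] (H : Type u) [Group H] [Finite H] (ρ : H →* Module.End (ZMod 3) V) (K : Subgroup H)
  (F : Type) [Field F] [Fintype F],
  Tr ρ → Cmp K → Odd (Fintype.card F) → ¬ 3 ∣ Fintype.card F →
  Nonempty (K ⧸ center K ≃* Matrix.ProjectiveSpecialLinearGroup (Fin 2) F) → C2 H ∨ C3 H

end Cfsg.G41
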