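import Cfsg.Agent.G41.Defs

/-! A lower bound for the dimension from an element conjugate to its square powers. -/

set_option autoImplicit false

namespace Cfsg.G41

open Polynomial Module

universe u v

variable {p : ℕ} [hp : Fact p.Prime] {V : Type v} [AddCommGroup V] [Module (ZMod p) V] [Finite V]
  {H : Type u} [Group H] {ρ : H →* Module.End (ZMod p) V}

theorem exn [Nontrivial V] (hf : PFree ρ) {u : H} {l : ℕ} (hl : l.Prime) (lp : l ≠ p)
    (ho : orderOf u = l) (hc : ∀ a : ℕ, ¬ l ∣ a → IsConj u (u ^ (a ^ 2))) :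
    (l - 1) / 2 ≤ finrank (ZMod p) V := by
  classical
  let k := AlgebraicClosure (ZMod p)
  have hi : IsIntegral (ZMod p) (ρ u) := Algebra.IsIntegral.isIntegral _
  obtain ⟨ζ, hζ⟩ := IsAlgClosed.exists_aeval_eq_zero k _ (minpoly.degree_pos hi).ne'
  have root : ∀ q : (ZMod p)[X], aeval (ρ u) q = 0 → aeval ζ q = 0 := fun q h => by
    obtain ⟨r, rfl⟩ := minpoly.dvd _ _ h
    rw [map_mul, hζ, zero_mul]
  have pl : ¬ p ∣ l := fun h => lp ((Nat.prime_dvd_prime_iff_eq hp.out hl).1 h).symm
  have s0 : ∑ i ∈ Finset.range l, ζ ^ i = 0 := by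
    have := root (∑ i ∈ Finset.range l, X ^ i) (by
      rw [← hf.sum_zero (c := u) (m := l) (ho ▸ pl) (fun e => hl.one_lt.ne (by
        rw [← ho, e, orderOf_one])) (orderOf_dvd_iff_pow_eq_one.1 ho.dvd)]
      simp)
    simpa using this
  haveI := Fact.mk hl
  have oζ : orderOf ζ = l := orderOf_eq_prime (by
    rw [← sub_eq_zero, ← geom_sum_mul, s0, zero_mul]) fun e => by
    rw [e] at s0
    simp only [one_pow, Finset.sum_const, Finset.card_range, nsmul_eq_mul, mul_one] at s0
    exact pl ((CharP.cast_eq_zero_iff k p l).1 s0)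
  have rt : ∀ a : ℕ, ¬ l ∣ a → aeval (ζ ^ a ^ 2) (minpoly (ZMod p) (ρ u)) = 0 := fun a ha => by
    obtain ⟨g, hg⟩ := isConj_iff.1 (hc a ha)
    have := root ((minpoly (ZMod p) (ρ u)).comp (X ^ a ^ 2)) (by
      rw [aeval_comp, map_pow, aeval_X, ← map_pow, ← hg]
      have key : ∀ q : (ZMod p)[X], aeval (ρ (g * u * g⁻¹)) q = ρ g * aeval (ρ u) q * ρ g⁻¹ := by
        intro q
        induction q using Polynomial.induction_on' with
        | add q r h1 h2 => rw [map_add, map_add, h1, h2, mul_add, add_mul]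
        | monomial n c =>
          rw [aeval_monomial, aeval_monomial, ← map_pow, ← map_pow, conj_pow, map_mul, map_mul,
            ← Algebra.smul_def, ← Algebra.smul_def, mul_smul_comm, smul_mul_assoc]
      rw [key, minpoly.aeval, mul_zero, zero_mul])
    rwa [aeval_comp, map_pow, aeval_X] at this
  have d1 : (minpoly (ZMod p) (ρ u)).natDegree ≤ finrank (ZMod p) V := by
    rw [← LinearMap.charpoly_natDegree (ρ u)]
    exact natDegree_le_of_dvd (LinearMap.minpoly_dvd_charpoly _) (LinearMap.charpoly_monic _).ne_zero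
  refine le_trans ?_ d1
  have m0 : (minpoly (ZMod p) (ρ u)).map (algebraMap (ZMod p) k) ≠ 0 :=
    map_ne_zero (minpoly.ne_zero hi)
  rw [← natDegree_map (algebraMap (ZMod p) k)]
  refine le_trans ?_ ((Multiset.toFinset_card_le _).trans (card_roots' _))
  rw [← Finset.card_range ((l - 1) / 2)]
  refine Finset.card_le_card_of_injOn (fun a => ζ ^ (a + 1) ^ 2) (fun a ha => ?_) fun a ha b hb e => ?_
  · rw [Finset.mem_coe, Finset.mem_range] at ha
    rw [Finset.mem_coe, Multiset.mem_toFinset, mem_roots m0, IsRoot, eval_map_algebraMap]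
    exact rt _ fun h => by have := Nat.le_of_dvd (by omega) h; omega
  · rw [Finset.mem_coe, Finset.mem_range] at ha hb
    have hfin : IsOfFinOrder ζ := by rw [← orderOf_pos_iff, oζ]; exact hl.pos
    have h1 := hfin.pow_eq_pow_iff_modEq.1 e
    rw [oζ, Nat.modEq_iff_dvd] at h1
    have h2 : (l : ℤ) ∣ ((b : ℤ) - a) * (a + b + 2 : ℕ) := by
      convert h1 using 1; push_cast; ring
    rcases (Nat.prime_iff_prime_int.1 hl).dvd_or_dvd h2 with h | h
    · have := Int.eq_zero_of_abs_lt_dvd h (by rw [abs_lt]; omega)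
      omega
    · have := Nat.le_of_dvd (by omega) (Int.natCast_dvd_natCast.1 h)
      omega

end Cfsg.G41
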