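import Cfsg.Agent.R3.Orb
import Cfsg.Agent.Blk.PairMisc
import Cfsg.Agent.Grp.NormalComplement
import Mathlib.GroupTheory.SpecificGroups.ZGroup

/-! Linear groups in characteristic `p` whose `p'`-elements fix no non-zero vector. -/

set_option autoImplicit false

namespace Cfsg.G41

universe u v

open scoped commutatorElement IsMulCommutative

variable {p : ℕ} [hp : Fact p.Prime] {V : Type v} [AddCommGroup V] [Module (ZMod p) V]
  {H : Type u} [Group H]

/-- only `p`-elements fix non-zero vectors -/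
def PFree (ρ : H →* Module.End (ZMod p) V) : Prop :=
  ∀ h v, v ≠ 0 → ρ h v = v → ∃ k, orderOf h = p ^ k

variable {ρ : H →* Module.End (ZMod p) V}

namespace PFree

theorem eq_zero (hf : PFree ρ) {g : H} (hg : ¬ p ∣ orderOf g) (g1 : g ≠ 1) {v : V}
    (h : ρ g v = v) : v = 0 := by
  by_contra hv
  obtain ⟨k, hk⟩ := hf g v hv h
  rcases k with _ | k
  · exact g1 (orderOf_eq_one_iff.1 (by simpa using hk))
  · exact hg (hk ▸ dvd_pow_self p (Nat.succ_ne_zero k))

theorem comp (hf : PFree ρ) {K : Type*} [Group K] (f : K →* H) (inj : Function.Injective f) :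
    PFree (ρ.comp f) := fun h v hv e => by
  rw [← orderOf_injective f inj h]; exact hf _ v hv e

theorem sub (hf : PFree ρ) (K : Subgroup H) : PFree (ρ.comp K.subtype) :=
  hf.comp _ K.subtype_injective

theorem sum_zero (hf : PFree ρ) {c : H} (hc : ¬ p ∣ orderOf c) (c1 : c ≠ 1) {m : ℕ}
    (hm : c ^ m = 1) : ∑ i ∈ Finset.range m, ρ (c ^ i) = 0 := by
  ext v
  refine hf.eq_zero hc c1 ?_
  rw [← Module.End.mul_apply, Finset.mul_sum]
  congr 1
  have h := Finset.sum_range_succ' (fun i => ρ (c ^ i)) m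
  rw [Finset.sum_range_succ, hm, pow_zero] at h
  rw [add_right_cancel h]
  exact Finset.sum_congr rfl fun i _ => by rw [← map_mul, pow_succ']

theorem invol (hf : PFree ρ) (h2 : p ≠ 2) {t : H} (ht : t * t = 1) (t1 : t ≠ 1) : ρ t = -1 := by
  have ho : orderOf t = 2 := orderOf_eq_prime (by rw [sq, ht]) t1
  have h := hf.sum_zero (c := t) (m := 2)
    (fun h => h2 ((Nat.prime_dvd_prime_iff_eq hp.out Nat.prime_two).1 (ho ▸ h))) t1 (by rw [sq, ht])
  simp only [Finset.sum_range_succ, Finset.sum_range_zero, pow_zero, pow_one, map_one,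
    zero_add] at h
  exact eq_neg_of_add_eq_zero_right h

theorem invol_eq (hf : PFree ρ) (inj : Function.Injective ρ) (h2 : p ≠ 2) {t s : H}
    (ht : t * t = 1) (t1 : t ≠ 1) (hs : s * s = 1) (s1 : s ≠ 1) : t = s :=
  inj (by rw [hf.invol h2 ht t1, hf.invol h2 hs s1])

theorem invol_comm (hf : PFree ρ) (inj : Function.Injective ρ) (h2 : p ≠ 2) {t : H}
    (ht : t * t = 1) (g : H) : g * t = t * g := by
  by_cases t1 : t = 1
  · simp [t1]
  · exact inj (by rw [map_mul, map_mul, hf.invol h2 ht t1]; simp)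

theorem invol_center (hf : PFree ρ) (inj : Function.Injective ρ) (h2 : p ≠ 2) {t : H}
    (ht : t * t = 1) : t ∈ Subgroup.center H :=
  Subgroup.mem_center_iff.2 (hf.invol_comm inj h2 ht)

/-- an element of prime order `≠ p` normalising a cyclic `p'`-group centralises it -/
theorem comm_of_norm [Nontrivial V] [Finite H] (hf : PFree ρ) {x y : H} (hx : ¬ p ∣ orderOf x)
    (hy : (orderOf y).Prime) (hyp : orderOf y ≠ p) (hn : y * x * y⁻¹ ∈ Subgroup.zpowers x) :
    Commute x y := by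
  by_contra hc
  set s := orderOf y with hs
  set m := orderOf x with hm
  have hN : y ∈ Subgroup.normalizer (Subgroup.zpowers x : Set H) :=
    Subgroup.mem_normalizer_fintype fun n hn' => by
      obtain ⟨k, rfl⟩ := hn'
      have := Subgroup.zpow_mem _ hn k
      rwa [conj_zpow] at this
  have hc' : ∀ j, y ^ j * x⁻¹ * (y ^ j)⁻¹ ∈ Subgroup.zpowers x := fun j =>
    (Subgroup.mem_normalizer_iff.1 (pow_mem hN j) _).1 (inv_mem (Subgroup.mem_zpowers x))
  have key : ∀ j, 0 < j → j < s → ∑ i ∈ Finset.range m, ρ (x ^ i * y ^ j * (x ^ i)⁻¹) = 0 := by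
    intro j j0 js
    set c := x * (y ^ j * x⁻¹ * (y ^ j)⁻¹) with hcd
    have hcm : c ∈ Subgroup.zpowers x := mul_mem (Subgroup.mem_zpowers x) (hc' j)
    have hco : orderOf c ∣ m := by
      obtain ⟨k, hk⟩ := hcm
      rw [← hk]; exact orderOf_dvd_of_mem_zpowers ⟨k, rfl⟩
    have c1 : c ≠ 1 := fun e => hc <| by
      have h1 : Commute x (y ^ j) := by
        have : x * y ^ j = c * (y ^ j * x) := by rw [hcd]; group
        rw [Commute, SemiconjBy, this, e, one_mul]
      have h2 : y ∈ Subgroup.zpowers (y ^ j) := by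
        refine mem_zpowers_pow_iff.2 ?_
        exact Nat.Coprime.symm ((Nat.Prime.coprime_iff_not_dvd hy).2
          (Nat.not_dvd_of_pos_of_lt j0 js))
      obtain ⟨k, hk⟩ := h2
      rw [← hk]; exact h1.zpow_right k
    have hcx : Commute x (y ^ j * x⁻¹ * (y ^ j)⁻¹) := by
      obtain ⟨k, hk⟩ := hc' j
      rw [← hk]; exact (Commute.refl x).zpow_right k
    have h3 := hf.sum_zero (fun h => hx (h.trans hco)) c1 (orderOf_dvd_iff_pow_eq_one.1 hco)
    calc _ = (∑ i ∈ Finset.range m, ρ (c ^ i)) * ρ (y ^ j) := by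
          rw [Finset.sum_mul]
          refine Finset.sum_congr rfl fun i _ => ?_
          rw [← map_mul, hcd, hcx.mul_pow, conj_pow, inv_pow]; congr 1; group
      _ = 0 := by rw [h3, zero_mul]
  have y1 : y ≠ 1 := fun e => hy.one_lt.ne' (by rw [hs, e, orderOf_one])
  have hys : ¬ p ∣ s := fun h => hyp ((Nat.prime_dvd_prime_iff_eq hp.out hy).1 h).symm
  have h4 : ∑ j ∈ Finset.range s, ∑ i ∈ Finset.range m, ρ (x ^ i * y ^ j * (x ^ i)⁻¹) = 0 := by
    rw [Finset.sum_comm]
    refine Finset.sum_eq_zero fun i _ => ?_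
    simp only [map_mul]
    rw [← Finset.sum_mul, ← Finset.mul_sum, hf.sum_zero hys y1 (pow_orderOf_eq_one y), mul_zero,
      zero_mul]
  rw [Finset.sum_eq_single_of_mem 0 (Finset.mem_range.2 hy.pos)
    fun j hj j0 => key j (Nat.pos_of_ne_zero j0) (Finset.mem_range.1 hj)] at h4
  simp only [pow_zero, mul_one, mul_inv_cancel, map_one, Finset.sum_const, Finset.card_range] at h4
  obtain ⟨v, hv⟩ := exists_ne (0 : V)
  have h5 : ((m : ℕ) : ZMod p) • v = 0 := by
    rw [Nat.cast_smul_eq_nsmul]; simpa using congrArg (fun f : Module.End (ZMod p) V => f v) h4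
  rcases smul_eq_zero.1 h5 with h | h
  · exact hx ((ZMod.natCast_eq_zero_iff m p).1 h)
  · exact hv h

variable [Finite V] [Finite H]

theorem cyclic_of_comm [Nontrivial V] (hf : PFree ρ) {A : Subgroup H} (hA : ¬ p ∣ Nat.card A)
    (hc : IsMulCommutative A) : IsCyclic A :=
  R3.isCyclic_of_free_rep (σ := ρ.comp A.subtype) hc fun a a1 _ e =>
    hf.eq_zero (fun h => hA (h.trans (A.orderOf_dvd_natCard a.2)))
      (fun e => a1 (Subtype.ext e)) e

theorem cyclic_of_pgroup [Nontrivial V] (hf : PFree ρ) {r : ℕ} [hr : Fact r.Prime] (h2 : r ≠ 2)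
    (hrp : r ≠ p) {A : Subgroup H} (hA : IsPGroup r A) : IsCyclic A := by
  by_contra hc
  obtain ⟨S, -, hS⟩ := FT.BG4P.ex_odd_normal_p2Elem (R := A) hA h2 hc
  refine FT.BG4P.not_cyclic_of_p2Elem ⟨le_rfl, hS.2⟩ (hf.cyclic_of_comm (fun h => ?_) hS.2.1.1)
  obtain ⟨k, hk⟩ := IsPGroup.iff_card.1 (hA.to_le hS.1)
  exact hrp ((Nat.prime_dvd_prime_iff_eq hp.out hr.out).1 (hp.out.dvd_of_dvd_pow (hk ▸ h))).symm

omit [Finite H] in
/-- a `p'`-subgroup acts freely on the non-zero vectors of an invariant subspace -/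
theorem card_dvd (hf : PFree ρ) {K : Subgroup H} (hK : ¬ p ∣ Nat.card K)
    (U : Submodule (ZMod p) V) (hU : ∀ k ∈ K, ∀ u ∈ U, ρ k u ∈ U) :
    Nat.card K ∣ Nat.card U - 1 := by
  let _ : MulAction K U :=
    { smul k u := ⟨ρ k u, hU k k.2 u u.2⟩
      one_smul u := Subtype.ext (by change ρ (1 : H) u = u; rw [map_one]; rfl)
      mul_smul a b u := Subtype.ext (by change ρ (a * b : H) u = ρ a (ρ b u); rw [map_mul]; rfl) }
  have h := card_modEq_one_of_free (A := K) (X := U) 0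
    (fun a => Subtype.ext (map_zero (ρ a))) fun a x hx e => by
      by_contra a1
      exact hx (Subtype.ext (hf.eq_zero (fun h => hK (h.trans (K.orderOf_dvd_natCard a.2)))
        (fun e => a1 (Subtype.ext e)) (congrArg Subtype.val e)))
  exact (Nat.modEq_iff_dvd' Nat.card_pos).1 h.symm

omit [Finite V] hp in
theorem norm_of_conj {x y : H} (hn : y * x * y⁻¹ ∈ Subgroup.zpowers x) :
    y ∈ Subgroup.normalizer (Subgroup.zpowers x : Set H) :=
  Subgroup.mem_normalizer_fintype fun n hn' => by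
    obtain ⟨k, rfl⟩ := hn'
    have := Subgroup.zpow_mem _ hn k
    rwa [conj_zpow] at this

/-- (O): if `H` is not `s`-nilpotent, `s`-elements normalising a subgroup of prime order `≠ p`
centralise it -/
theorem comm_of_not_nil [Nontrivial V] (hf : PFree ρ) {s : ℕ} [hs : Fact s.Prime] (s2 : s ≠ 2)
    (sp : s ≠ p) (hL : ¬ HasNormalPComplement s H) {x w : H} (hx : (orderOf x).Prime)
    (hxp : orderOf x ≠ p) (hw : IsPGroup s (Subgroup.zpowers w))
    (hn : w * x * w⁻¹ ∈ Subgroup.zpowers x) : Commute x w := by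
  by_contra hc
  set r := orderOf x with hr
  have : Fact r.Prime := ⟨hx⟩
  have hxP : IsPGroup r (Subgroup.zpowers x) :=
    IsPGroup.of_card (n := 1) (by rw [Nat.card_zpowers, pow_one])
  have hpx : ¬ p ∣ r := fun h => hxp ((Nat.prime_dvd_prime_iff_eq hp.out hx).1 h).symm
  have x1 : x ≠ 1 := fun e => hx.one_lt.ne' (by rw [hr, e, orderOf_one])
  have r2 : r ≠ 2 := fun e => by
    obtain ⟨k, hk⟩ := mem_powers_iff_mem_zpowers.2 hn
    simp only at hk
    rw [← pow_mod_orderOf, ← hr, e] at hk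
    rcases Nat.mod_two_eq_zero_or_one k with h | h <;> rw [h] at hk
    · exact x1 (by simpa using hk.symm)
    · exact hc (eq_mul_inv_iff_mul_eq.1 (by simpa using hk))
  have w1 : Subgroup.zpowers w ≠ ⊥ := fun e => hc (by
    rw [Subgroup.zpowers_eq_bot.1 e]; exact Commute.one_right x)
  obtain ⟨z, hzw, hz⟩ := exists_orderOf_eq_prime_of_dvd_card (dvd_card_of_isPGroup_of_ne_bot hw w1)
  have z1 : z ≠ 1 := fun e => hs.out.one_lt.ne' (by rw [← hz, e, orderOf_one])
  have hwN := norm_of_conj hn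
  have hzN : z ∈ Subgroup.normalizer (Subgroup.zpowers x : Set H) :=
    Subgroup.zpowers_le.2 hwN hzw
  have hxz : Commute x z := hf.comm_of_norm hpx (hz ▸ hs.out) (hz ▸ sp)
    ((Subgroup.mem_normalizer_iff.1 hzN x).1 (Subgroup.mem_zpowers x))
  obtain ⟨S, hS⟩ := hw.exists_le_sylow
  have hSc : IsCyclic S := hf.cyclic_of_pgroup s2 sp S.2
  obtain ⟨g0, hg0, hg0C⟩ := SetLike.not_le_iff_exists.1 fun h => hL (hasNormalPComplement_of_normalizer_le_centralizer S h)
  have hg0z : g0 * z * g0⁻¹ ≠ z := fun e => hg0C <|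
    mem_centralizer_of_cyclic_of_fixed S.2 hSc le_rfl (fun h => S.not_dvd_index (h.trans
      ((Subgroup.relIndex_dvd_of_le_left _ (S : Subgroup H).le_centralizer).trans
        (Subgroup.relIndex_dvd_index_of_le Subgroup.le_normalizer)))) hg0 (hS hzw) z1 e
  have hg0n : g0 * z * g0⁻¹ ∈ Subgroup.zpowers z :=
    mem_zpowers_of_pow_prime_eq_one S.2 hSc (hS hzw) z1
      ((Subgroup.mem_normalizer_iff.1 hg0 z).1 (hS hzw))
      (by rw [conj_pow, ← hz, pow_orderOf_eq_one]; simp)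
  set C := Subgroup.centralizer ({z} : Set H) with hC
  have hxC : x ∈ C := Subgroup.mem_centralizer_singleton_iff.2 hxz
  have hx'C : g0 * x * g0⁻¹ ∈ C := Subgroup.mem_centralizer_singleton_iff.2 <| by
    obtain ⟨k, hk⟩ := (Subgroup.mem_normalizer_iff.1 (inv_mem (norm_of_conj hg0n)) z).1
      (Subgroup.mem_zpowers z)
    have h1 : Commute x (g0⁻¹ * z * g0⁻¹⁻¹) := hk ▸ hxz.zpow_right k
    calc _ = g0 * (x * (g0⁻¹ * z * g0⁻¹⁻¹)) * g0⁻¹ := by group
      _ = _ := by rw [h1.eq]; group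
  obtain ⟨c, hcC, hcx⟩ : ∃ c ∈ C, c * (g0 * x * g0⁻¹) * c⁻¹ ∈ Subgroup.zpowers x := by
    have e1 : ∀ y : C, orderOf (y : H) = r → IsPGroup r (Subgroup.zpowers y) := fun y hy =>
      IsPGroup.of_card (n := 1) (by rw [Nat.card_zpowers, pow_one, ← hy, Subgroup.orderOf_coe])
    have ho : orderOf (g0 * x * g0⁻¹) = r := by
      rw [hr]; exact (MulAut.conj g0).orderOf_eq x
    obtain ⟨R, hR⟩ := (e1 ⟨x, hxC⟩ rfl).exists_le_sylow
    obtain ⟨R', hR'⟩ := (e1 ⟨_, hx'C⟩ ho).exists_le_sylow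
    obtain ⟨c, rfl⟩ := MulAction.exists_smul_eq C R' R
    have hP : IsPGroup r (((c • R' : Sylow r C) : Subgroup C).map C.subtype) := (c • R').2.map _
    refine ⟨c, c.2, mem_zpowers_of_pow_prime_eq_one hP (hf.cyclic_of_pgroup r2 hxp hP)
      ⟨_, hR (Subgroup.mem_zpowers _), rfl⟩ x1
      ⟨c * ⟨_, hx'C⟩ * c⁻¹, ⟨_, hR' (Subgroup.mem_zpowers _), rfl⟩, rfl⟩ ?_⟩
    rw [conj_pow, ← ho, pow_orderOf_eq_one]; simp
  set N := Subgroup.normalizer (Subgroup.zpowers x : Set H) with hN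
  have hgN : c * g0 ∈ N := norm_of_conj (by simpa [mul_assoc] using hcx)
  have hgz : c * g0 * z * (c * g0)⁻¹ = g0 * z * g0⁻¹ := by
    obtain ⟨k, hk⟩ := hg0n
    have h1 : Commute c (g0 * z * g0⁻¹) :=
      hk ▸ Commute.zpow_right (Subgroup.mem_centralizer_singleton_iff.1 hcC) k
    calc _ = c * (g0 * z * g0⁻¹) * c⁻¹ := by group
      _ = _ := by rw [h1.eq]; group
  have hd : s ∣ Nat.card (commutator N) := by
    have h1 : (⁅(⟨_, hgN⟩ : N), (⟨z, hzN⟩ : N)⁆ : N) ∈ commutator N :=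
      Subgroup.commutator_mem_commutator (Subgroup.mem_top _) (Subgroup.mem_top _)
    refine dvd_trans ?_ (Subgroup.orderOf_dvd_natCard _ h1)
    rw [← Subgroup.orderOf_coe]
    have h2 : ((⁅(⟨_, hgN⟩ : N), (⟨z, hzN⟩ : N)⁆ : N) : H) = g0 * z * g0⁻¹ * z⁻¹ := by
      rw [← hgz]; rfl
    have h3 : g0 * z * g0⁻¹ * z⁻¹ ∈ Subgroup.zpowers z :=
      mul_mem hg0n (inv_mem (Subgroup.mem_zpowers z))
    rw [h2]
    rcases (Nat.dvd_prime hs.out).1 (hz ▸ orderOf_dvd_of_mem_zpowers h3) with h | h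
    · exact absurd (mul_inv_eq_one.1 (orderOf_eq_one_iff.1 h)) hg0z
    · rw [h]
  obtain ⟨S1⟩ : Nonempty (Sylow s N) := inferInstance
  have : IsCyclic S1 := (hf.sub N).cyclic_of_pgroup s2 sp S1.2
  have hi := S1.not_dvd_card_commutator_or_not_dvd_index_commutator.resolve_left (not_not.2 hd)
  have hwc : (⟨w, hwN⟩ : N) ∈ commutator N := by
    obtain ⟨k, hk⟩ := hw ⟨w, Subgroup.mem_zpowers w⟩
    have h1 : (QuotientGroup.mk ⟨w, hwN⟩ : N ⧸ commutator N) ^ s ^ k = 1 := by
      rw [← QuotientGroup.mk_pow,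
        show (⟨w, hwN⟩ : N) ^ s ^ k = 1 from Subtype.ext (by simpa using congrArg Subtype.val hk)]; rfl
    have h2 := orderOf_dvd_natCard (QuotientGroup.mk ⟨w, hwN⟩ : N ⧸ commutator N)
    rw [← QuotientGroup.eq_one_iff, ← orderOf_eq_one_iff]
    exact Nat.eq_one_of_dvd_coprimes (Nat.Coprime.pow_left k
      ((Nat.Prime.coprime_iff_not_dvd hs.out).2 hi)) (orderOf_dvd_of_pow_eq_one h1) h2
  have hcyc : IsCyclic ((Subgroup.zpowers x).subgroupOf N) :=
    isCyclic_of_surjective _ (Subgroup.subgroupOfEquivOfLe Subgroup.le_normalizer).symm.surjective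
  have := commutator_le_centralizer_of_isCyclic hcyc hwc
    ⟨x, Subgroup.le_normalizer (Subgroup.mem_zpowers x)⟩ (Subgroup.mem_zpowers x)
  exact hc (congrArg Subtype.val this)

/-- (Z): `{2,p}'`-subgroups are cyclic -/
theorem cyclic_of_not_nil [Nontrivial V] (hf : PFree ρ) {Y : Subgroup H} (h2 : ¬ 2 ∣ Nat.card Y)
    (hY : ¬ p ∣ Nat.card Y)
    (hL : ∀ s : ℕ, s.Prime → s ∣ Nat.card Y → ¬ HasNormalPComplement s H) : IsCyclic Y := by
  refine hf.cyclic_of_comm hY ?_
  have h0 : commutator Y = ⊥ := by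
    by_contra h
    obtain ⟨r, hr, hd⟩ := Nat.exists_prime_and_dvd (mt Subgroup.card_eq_one.1 h)
    have := Fact.mk hr
    have hrY : r ∣ Nat.card Y := hd.trans (Subgroup.card_subgroup_dvd_card _)
    have r2 : r ≠ 2 := fun e => h2 (e ▸ hrY)
    have rp : r ≠ p := fun e => hY (e ▸ hrY)
    obtain ⟨R⟩ : Nonempty (Sylow r Y) := inferInstance
    have hRc : IsCyclic R := (hf.sub Y).cyclic_of_pgroup r2 rp R.2
    obtain ⟨x, hxR, hx⟩ := exists_orderOf_eq_prime_of_dvd_card (R.dvd_card_of_dvd_card hrY)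
    have x1 : x ≠ 1 := fun e => hr.one_lt.ne' (by rw [← hx, e, orderOf_one])
    have hP : Subgroup.normalizer ((R : Subgroup Y) : Set Y) ≤
        Subgroup.centralizer ((R : Subgroup Y) : Set Y) := fun g hg => by
      refine mem_centralizer_of_cyclic_of_fixed R.2 hRc le_rfl (fun h => R.not_dvd_index (h.trans
        ((Subgroup.relIndex_dvd_of_le_left _ (R : Subgroup Y).le_centralizer).trans
        (Subgroup.relIndex_dvd_index_of_le Subgroup.le_normalizer)))) hg hxR x1 ?_
      refine mul_inv_eq_iff_eq_mul.2 (Subgroup.mem_centralizer_singleton_iff.1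
        (FT.le_of_forall_pgroup (K := Subgroup.centralizer ({x} : Set Y)) ?_ hg))
      intro s hs Q hQ hQs w hw
      by_cases w1 : w = 1
      · rw [w1]; exact one_mem _
      have := Fact.mk hs
      have hsY : s ∣ Nat.card Y := (dvd_card_of_isPGroup_of_ne_bot hQs
        fun e => w1 (Subgroup.mem_bot.1 (e ▸ hw))).trans (Subgroup.card_subgroup_dvd_card _)
      have hn : w * x * w⁻¹ ∈ Subgroup.zpowers x :=
        mem_zpowers_of_pow_prime_eq_one R.2 hRc hxR x1
          ((Subgroup.mem_normalizer_iff.1 (hQ hw) x).1 hxR)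
          (by rw [conj_pow, ← hx, pow_orderOf_eq_one]; simp)
      obtain ⟨k, hk⟩ := hn
      have hxo : orderOf (x : H) = r := by rw [Subgroup.orderOf_coe, hx]
      refine Subgroup.mem_centralizer_singleton_iff.2 (Subtype.ext (hf.comm_of_not_nil
        (x := x) (w := w) (fun e => h2 (e ▸ hsY)) (fun e => hY (e ▸ hsY)) (hL s hs hsY)
        (hxo ▸ hr) (hxo ▸ rp) ?_ ⟨k, congrArg Subtype.val hk⟩).symm.eq)
      rw [show Subgroup.zpowers (w : H) = (Subgroup.zpowers w).map Y.subtype from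
        (MonoidHom.map_zpowers Y.subtype w).symm]
      exact (hQs.to_le (Subgroup.zpowers_le.2 hw)).map _
    refine R.not_dvd_index (hd.trans ?_)
    rw [(MonoidHom.ker_transferSylow_isComplement' R hP).index_eq_card]
    exact Subgroup.card_dvd_of_le (Abelianization.commutator_subset_ker _)
  exact ⟨⟨fun a b => commutatorElement_eq_one_iff_mul_comm.1 (Subgroup.mem_bot.1
    (h0 ▸ Subgroup.commutator_mem_commutator (Subgroup.mem_top a) (Subgroup.mem_top b)))⟩⟩

omit [Finite V] hp in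
theorem not_nil_of_perfect (hL : commutator H = ⊤) {s : ℕ} (hs : s.Prime) (hd : s ∣ Nat.card H) :
    ¬ HasNormalPComplement s H := fun h => by
  have := Fact.mk hs
  obtain ⟨N, hN, hc, k, hk⟩ := hasNormalPComplement_iff_exists.1 h
  have hq : IsPGroup s (H ⧸ N) := IsPGroup.of_card hk
  have hs' := hq.isNilpotent
  have h1 : commutator (H ⧸ N) = ⊤ := by
    rw [commutator_def, ← Subgroup.map_top_of_surjective _ (QuotientGroup.mk'_surjective N),
      ← Subgroup.map_commutator, ← commutator_def, hL]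
  rcases subsingleton_or_nontrivial (H ⧸ N) with h2 | h2
  · rw [QuotientGroup.subgroup_eq_top_of_subsingleton N h2, Subgroup.card_top] at hc
    exact hc hd
  · exact (Group.IsSolvable.commutator_lt_top_of_nontrivial (H ⧸ N)).ne h1

/-- (Z) for a perfect group -/
theorem cyclic_of_perfect [Nontrivial V] (hf : PFree ρ) (hL : commutator H = ⊤) {Y : Subgroup H}
    (h2 : ¬ 2 ∣ Nat.card Y) (hY : ¬ p ∣ Nat.card Y) : IsCyclic Y :=
  hf.cyclic_of_not_nil h2 hY fun _ hs hd =>
    not_nil_of_perfect hL hs (hd.trans (Subgroup.card_subgroup_dvd_card Y))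

end PFree

end Cfsg.G41
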