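import Cfsg.Agent.G41.PairB

/-! S4841, `p ≥ 5`, no quadratic element: two elements of order three generate `SL₂(3)` or `SL₂(5)`
(in terms of the trace of the product). -/

set_option autoImplicit false

namespace Cfsg.G41.PR

universe u v

/-- abstract form of the hypotheses: every `ρ g - 1` is a unit unless `g` is a `p`-element, and
there is no quadratic element -/
structure QA (p : ℕ) {H : Type u} [Group H] {A : Type v} [Ring A] (ρ : H →* A) : Prop where
  nt : Nontrivial A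
  p5 : 5 ≤ p
  hu : ∀ g, IsUnit (ρ g - 1) ∨ ∃ k, g ^ p ^ k = 1
  nq : ∀ u, (ρ u - 1) ^ 2 = 0 → u = 1
  ord : ∀ f e : H, orderOf f = 3 → orderOf e = 3 → ¬ p ∣ Nat.card (Subgroup.closure {f, e}) →
    f * e ≠ 1 → f * e⁻¹ ≠ 1 → (f * e) ^ 2 ≠ 1 ∧ ((f * e) ^ 4 = 1 ∨
      ((f * e) ^ 6 = 1 ∧ (f * e) ^ 3 ≠ 1) ∨ ((f * e) ^ 10 = 1 ∧ (f * e) ^ 5 ≠ 1))

variable {p : ℕ} [hp : Fact p.Prime] {H : Type u} [Group H] {A : Type v} [Ring A] [CharP A p]
  {ρ : H →* A}

theorem isUnit_nat {m : ℕ} (h : ¬ p ∣ m) : IsUnit (m : A) := by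
  have := ((ZMod.isUnit_iff_coprime m p).2 ((Nat.coprime_comm.1
    (hp.out.coprime_iff_not_dvd.2 h)))).map (ZMod.castHom (dvd_refl p) A)
  rwa [map_natCast] at this

theorem nilp_of_pow {g : H} {k : ℕ} (h : g ^ p ^ k = 1) : IsNilpotent (ρ g - 1) :=
  ⟨p ^ k, by rw [sub_pow_char_pow_of_commute _ _ (Commute.one_right _), ← map_pow, h, map_one,
    one_pow, sub_self]⟩

theorem mul_inv (g : H) : ρ g * ρ g⁻¹ = 1 := by rw [← map_mul, mul_inv_cancel, map_one]
theorem inv_mul (g : H) : ρ g⁻¹ * ρ g = 1 := by rw [← map_mul, inv_mul_cancel, map_one]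

theorem eq_one_of_pow {g : H} {k m : ℕ} (h : g ^ p ^ k = 1) (hm : g ^ m = 1) (hd : ¬ p ∣ m) :
    g = 1 := by
  have := pow_gcd_eq_one.2 ⟨h, hm⟩
  rwa [Nat.Coprime.gcd_eq_one ((hp.out.coprime_iff_not_dvd.2 hd).pow_left _), pow_one] at this

theorem conj_inv_mem {y : H} (y3 : orderOf y = 3) {B : Subgroup H} (hn : ∀ a ∈ B, y * a * y⁻¹ ∈ B) :
    ∀ a ∈ B, y⁻¹ * a * y ∈ B := fun a ha => by
  have h4 : y * y = y⁻¹ := by rw [← mul_eq_one_iff_eq_inv, ← pow_three', ← y3, pow_orderOf_eq_one]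
  have : y * (y * a * y⁻¹) * y⁻¹ = y * y * a * (y * y)⁻¹ := by group
  have h5 := hn _ (hn a ha)
  rwa [this, h4, inv_inv] at h5

namespace QA

variable (h : QA p ρ)
include h

theorem nd {m : ℕ} (h0 : 0 < m) (hm : m < 5) : ¬ p ∣ m := fun e => by
  have := Nat.le_of_dvd h0 e; have := h.p5; omega

theorem two : IsUnit (2 : A) := by simpa using isUnit_nat (A := A) (h.nd (m := 2) (by omega) (by omega))
theorem three : IsUnit (3 : A) := by
  simpa using isUnit_nat (A := A) (h.nd (m := 3) (by omega) (by omega))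

theorem pel {g : H} (hg : IsNilpotent (ρ g - 1)) : ∃ k, g ^ p ^ k = 1 :=
  (h.hu g).resolve_left (have := h.nt; hg.not_isUnit)

theorem unit {g : H} (hg : g ≠ 1) {m : ℕ} (hm : g ^ m = 1) (hd : ¬ p ∣ m) : IsUnit (ρ g - 1) :=
  (h.hu g).resolve_right fun ⟨_, e⟩ => hg (eq_one_of_pow e hm hd)

theorem o3 {f : H} (hf : orderOf f = 3) : ρ f * ρ f = -ρ f - 1 ∧ ρ f⁻¹ = -1 - ρ f := by
  have h3 : f ^ 3 = 1 := hf ▸ pow_orderOf_eq_one f
  have h4 : ρ f * ρ f = -ρ f - 1 := by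
    refine (h.unit (fun e => by rw [e, orderOf_one] at hf; omega) h3
      (h.nd (by omega) (by omega))).mul_left_cancel ?_
    have : ρ f ^ 3 = 1 := by rw [← map_pow, h3, map_one]
    linear_combination (norm := noncomm_ring) this
  refine ⟨h4, ?_⟩
  rw [show f⁻¹ = f * f by rw [eq_comm, ← mul_eq_one_iff_eq_inv, ← pow_three', h3], map_mul, h4]
  abel

variable {f e : H} (f3 : orderOf f = 3) (e3 : orderOf e = 3)
include f3 e3

theorem zz_eq : zz (ρ f) (ρ e) = ρ (f * e) + ρ (f * e)⁻¹ := by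
  rw [mul_inv_rev, map_mul, map_mul, (h.o3 f3).2, (h.o3 e3).2, zz]; noncomm_ring

omit h in
theorem ind {P : H → Prop} (h1 : P 1) (hf : ∀ g, P g → P (g * f)) (he : ∀ g, P g → P (g * e))
    {g : H} (hg : g ∈ Subgroup.closure {f, e}) : P g := by
  have h2 : ∀ y ∈ ({f, e} : Set H), ∀ g, P g → P (g * y) := by
    rintro y (rfl | rfl) <;> assumption
  induction hg using Subgroup.closure_induction_right with
  | one => exact h1
  | mul_right x _ y hy ih => exact h2 y hy x ih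
  | mul_inv_cancel x _ y hy ih =>
    have h3 : y ^ 3 = 1 := by
      rcases hy with rfl | rfl
      · exact f3 ▸ pow_orderOf_eq_one _
      · exact e3 ▸ pow_orderOf_eq_one _
    rw [show y⁻¹ = y * y by rw [eq_comm, ← mul_eq_one_iff_eq_inv, ← pow_three', h3], ← mul_assoc]
    exact h2 y hy _ (h2 y hy x ih)

theorem trace {g : H} (hg : g ∈ Subgroup.closure {f, e}) :
    ρ g + ρ g⁻¹ ∈ Subring.closure {zz (ρ f) (ρ e)} ∧ Commute (ρ g) (zz (ρ f) (ρ e)) := by
  obtain ⟨a1, a2⟩ := h.o3 f3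
  obtain ⟨b1, b2⟩ := h.o3 e3
  have hz : zz (ρ f) (ρ e) ∈ Subring.closure {zz (ρ f) (ρ e)} := Subring.subset_closure rfl
  have := ind f3 e3 (P := fun g => Q4 (ρ f) (ρ e) (Subring.closure {zz (ρ f) (ρ e)}) (ρ g) (ρ g⁻¹) ∧
    Commute (ρ g) (zz (ρ f) (ρ e))) (by simpa using Q4.one a1 b1 hz)
    (fun g ih => by
      rw [mul_inv_rev, map_mul, map_mul, a2]
      exact ⟨(ih.1.mul a1 b1 hz ih.2).1, ih.2.mul_left (zz_comm a1 b1).1⟩)
    (fun g ih => by
      rw [mul_inv_rev, map_mul, map_mul, b2]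
      exact ⟨(ih.1.mul a1 b1 hz ih.2).2, ih.2.mul_left (zz_comm a1 b1).2⟩) hg
  exact ⟨this.1.1, this.2⟩

theorem cen {g : H} (hg : g ∈ Subgroup.closure {f, e}) {r : A}
    (hr : r ∈ Subring.closure {zz (ρ f) (ρ e)}) : Commute (ρ g) r :=
  comm_of_mem (h.trace f3 e3 hg).2 hr

theorem comm_of_norm {y b : H} (hy : y ∈ Subgroup.closure {f, e}) (y3 : orderOf y = 3)
    {B : Subgroup H} (hB : B ≤ Subgroup.closure {f, e}) (hc : ∀ a ∈ B, ∀ b ∈ B, Commute a b)
    (hq : ∀ a ∈ B, ∃ k, a ^ p ^ k = 1) (hn : ∀ a ∈ B, y * a * y⁻¹ ∈ B) (hb : b ∈ B) :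
    Commute b y := by
  have h3 : y ^ 3 = 1 := y3 ▸ pow_orderOf_eq_one y
  have h4 : y⁻¹ = y * y := by rw [eq_comm, ← mul_eq_one_iff_eq_inv, ← pow_three', h3]
  have hn' := conj_inv_mem y3 hn
  obtain ⟨c, hcd⟩ : ∃ c, c = b⁻¹ * (y * b * y⁻¹) := ⟨_, rfl⟩
  have hcB : c ∈ B := hcd ▸ B.mul_mem (B.inv_mem hb) (hn b hb)
  obtain ⟨a1, a2⟩ := h.o3 y3
  obtain ⟨k, hk⟩ := hq c hcB
  have hcY := hB hcB
  have hσ : (ρ c - ρ c⁻¹) * (2 * ρ y + 1) + (2 * ρ y + 1) * (ρ c - ρ c⁻¹) ∈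
      Subring.closure {zz (ρ f) (ρ e)} := by
    have t1 := (h.trace f3 e3 hcY).1
    have t2 := (h.trace f3 e3 (mul_mem hcY hy)).1
    have t3 := (h.trace f3 e3 (mul_mem hy hcY)).1
    rw [mul_inv_rev, map_mul, map_mul, a2] at t2 t3
    convert add_mem (add_mem (add_mem t1 t2) t3) (add_mem (add_mem t1 t2) t3) using 1
    noncomm_ring
  have hN : ∀ u ∈ B, ∀ u' ∈ B, Commute (ρ c - ρ c⁻¹) (ρ u - ρ u') := fun u hu u' hu' =>
    (((hc c hcB u hu).map ρ).sub_right ((hc c hcB u' hu').map ρ)).sub_left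
      (((hc c hcB u hu).inv_left.map ρ).sub_right ((hc c hcB u' hu').inv_left.map ρ))
  have h5 := h.nq c (quad_of_prod (k := k) (by have := h.p5; omega) h.two h.three a1 (mul_inv c) (inv_mul c)
    (h.cen f3 e3 hy (h.trace f3 e3 hcY).1) (h.cen f3 e3 hy hσ)
    ((h.cen f3 e3 hcY hσ).sub_left (h.cen f3 e3 (inv_mem hcY) hσ))
    (by
      convert hN _ (hn c hcB) _ (hn _ (inv_mem hcB)) using 1
      simp only [map_mul, a2]; noncomm_ring)
    (by
      convert hN _ (hn' c hcB) _ (hn' _ (inv_mem hcB)) using 1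
      simp only [map_mul, a2]; noncomm_ring)
    (by
      rw [← a2, ← map_mul, ← map_mul, ← map_mul, ← map_mul, ← map_mul, ← map_mul, ← map_one ρ]
      congr 1
      calc _ = b⁻¹ * (y * y) * b * (y * y * y)⁻¹ * b⁻¹ * y * b := by rw [hcd]; group
        _ = 1 := by rw [← pow_three', h3, ← h4]; group)
    (by rw [← map_pow, hk, map_one]))
  rw [hcd, inv_mul_eq_one, eq_mul_inv_iff_mul_eq] at h5
  exact h5

theorem normal_bot [Finite H] {D : Subgroup H} (hD : D ≤ Subgroup.closure {f, e})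
    (hq : ∀ a ∈ D, ∃ k, a ^ p ^ k = 1) (nf : ∀ a ∈ D, f * a * f⁻¹ ∈ D)
    (ne : ∀ a ∈ D, e * a * e⁻¹ ∈ D) : D = ⊥ := by
  by_contra h0
  have hP : IsPGroup p D := fun a => (hq a a.2).imp fun k hk => Subtype.ext hk
  have := (Subgroup.nontrivial_iff_ne_bot D).2 h0
  have := hP.center_nontrivial
  obtain ⟨⟨⟨c, hc⟩, hcz⟩, hc1⟩ := exists_ne (1 : Subgroup.center D)
  have hf : f ∈ Subgroup.closure {f, e} := Subgroup.subset_closure (by simp)
  have he : e ∈ Subgroup.closure {f, e} := Subgroup.subset_closure (by simp)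
  have key : ∀ y ∈ Subgroup.closure {f, e}, orderOf y = 3 → (∀ a ∈ D, y * a * y⁻¹ ∈ D) →
      Commute c y := fun y hy y3 ny => by
    refine h.comm_of_norm f3 e3 hy y3 (B := D ⊓ Subgroup.centralizer D) (inf_le_left.trans hD)
      (fun a ha b hb => hb.2 a ha.1) (fun a ha => hq a ha.1) (fun a ha => ⟨ny a ha.1, fun d hd => ?_⟩)
      ⟨hc, fun d hd => congrArg Subtype.val (Subgroup.mem_center_iff.1 hcz ⟨d, hd⟩)⟩
    calc d * (y * a * y⁻¹) = y * (y⁻¹ * d * y * a) * y⁻¹ := by group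
      _ = _ := by rw [ha.2 _ (conj_inv_mem y3 ny d hd)]; group
  have c1 := key f hf f3 nf
  have c2 := key e he e3 ne
  obtain ⟨a1, a2⟩ := h.o3 f3
  have hcY := hD hc
  set N := ρ c - ρ c⁻¹ with hN
  have cN : ∀ g ∈ Subgroup.closure {f, e}, Commute (ρ g) N := fun g hg => by
    have : Commute g c := ind f3 e3 (P := fun g => Commute g c) (Commute.one_left c)
      (fun g ih => ih.mul_left c1.symm) (fun g ih => ih.mul_left c2.symm) hg
    exact (this.map ρ).sub_right (this.inv_right.map ρ)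
  have h1 : N * ρ f * ρ e = N * ρ e * ρ f := by
    have t1 := (h.trace f3 e3 hcY).1
    have t2 := (h.trace f3 e3 (mul_mem hcY hf)).1
    rw [mul_inv_rev, map_mul, map_mul, a2] at t2
    have t3 := (h.cen f3 e3 he (add_mem t1 (add_mem t2 t2))).eq
    have t4 : ρ c + ρ c⁻¹ + (ρ c * ρ f + (-1 - ρ f) * ρ c⁻¹ + (ρ c * ρ f + (-1 - ρ f) * ρ c⁻¹)) =
        N + 2 * (N * ρ f) := by
      rw [hN]; linear_combination (norm := noncomm_ring) 2 * (c1.inv_left.map ρ).eq
    rw [t4] at t3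
    refine h.two.mul_left_cancel ?_
    linear_combination (norm := noncomm_ring) (cN e he).eq - t3 + 2 * (cN e he).eq * ρ f
  have h2 : ∀ g ∈ Subgroup.closure {f, e}, N * ρ g ^ 3 = N := fun g hg => by
    have p3 : ∀ y, orderOf y = 3 → ρ y ^ 3 = 1 := fun y hy => by
      rw [← map_pow, ← hy, pow_orderOf_eq_one, map_one]
    refine (ind f3 e3 (P := fun g => g ∈ Subgroup.closure {f, e} ∧ N * ρ g * ρ f = N * ρ f * ρ g ∧
      N * ρ g * ρ e = N * ρ e * ρ g ∧ N * ρ g ^ 3 = N) (by simp) (fun g ih => ⟨mul_mem ih.1 hf, ?_⟩)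
      (fun g ih => ⟨mul_mem ih.1 he, ?_⟩) hg).2.2.2
    · rw [map_mul]
      exact ann_step (cN g ih.1) (cN f hf) ih.2.1 ih.2.2.1 h1 ih.2.2.2 (p3 f f3)
    · rw [map_mul]
      have := ann_step (cN g ih.1) (cN e he) ih.2.2.1 ih.2.1 h1.symm ih.2.2.2 (p3 e e3)
      exact ⟨this.2.1, this.1, this.2.2⟩
  obtain ⟨k, hk⟩ := hq c hc
  obtain ⟨m, hm⟩ : ∃ m : ℕ, (c ^ m) ^ 3 = c := by
    have h3 : (3 : ℕ).Coprime (orderOf c) :=
      Nat.Coprime.coprime_dvd_right (orderOf_dvd_of_pow_eq_one hk)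
        ((hp.out.coprime_iff_not_dvd.2 (h.nd (by omega) (by omega))).symm.pow_right k)
    obtain ⟨m, hm⟩ := exists_pow_eq_self_of_coprime h3
    exact ⟨m, by rw [← pow_mul, mul_comm, pow_mul, hm]⟩
  have h3 := h2 _ (pow_mem hcY m)
  rw [← map_pow, hm] at h3
  have h4 : N * N = 0 := by
    nth_rewrite 2 [hN]
    linear_combination (norm := noncomm_ring) h3 + h3 * ρ c⁻¹ - N * mul_inv (ρ := ρ) c
  have h5 := h.nq (c * c) (by
    have : ρ (c * c) - 1 = ρ c * N := by rw [hN, mul_sub, mul_inv, map_mul]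
    rw [this, (cN c hcY).mul_pow, sq N, h4, mul_zero])
  exact hc1 (Subtype.ext (Subtype.ext (eq_one_of_pow hk (m := 2) (by rw [sq, h5])
    (h.nd (by omega) (by omega)))))

/-- P2 -/
theorem unit_mul [Finite H] (h1 : f * e ≠ 1) : IsUnit (ρ (f * e) - 1) := by
  refine (h.hu _).resolve_right fun ⟨k, hk⟩ => h1 ?_
  have := h.nt
  obtain ⟨a1, a2⟩ := h.o3 f3
  obtain ⟨b1, b2⟩ := h.o3 e3
  obtain ⟨v, hv, hv0⟩ : ∃ v : A, (ρ (f * e) - 1) * v = 0 ∧ v ≠ 0 := by
    by_contra h0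
    push Not at h0
    obtain ⟨n, hn⟩ := nilp_of_pow (ρ := ρ) hk
    induction n with
    | zero => simp at hn
    | succ n ih => exact ih (h0 _ (by rw [← pow_succ', hn]))
  let K : Subgroup H :=
    { carrier := {g | g ∈ Subgroup.closure {f, e} ∧ ∀ w, ρ f * (ρ e * w) = w → ρ g * w = w}
      one_mem' := ⟨one_mem _, fun w _ => by simp⟩
      mul_mem' := fun ha hb => ⟨mul_mem ha.1 hb.1, fun w hw => by
        rw [map_mul, mul_assoc, hb.2 w hw, ha.2 w hw]⟩
      inv_mem' := fun {a} ha => ⟨inv_mem ha.1, fun w hw => by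
        nth_rewrite 1 [← ha.2 w hw]
        rw [← mul_assoc, inv_mul, one_mul]⟩ }
  have hf : f ∈ Subgroup.closure {f, e} := Subgroup.subset_closure (by simp)
  have he : e ∈ Subgroup.closure {f, e} := Subgroup.subset_closure (by simp)
  have key : ∀ y ∈ Subgroup.closure {f, e}, (∀ w, ρ f * (ρ e * w) = w →
      ρ f * (ρ e * (ρ y⁻¹ * w)) = ρ y⁻¹ * w) → ∀ a ∈ K, y * a * y⁻¹ ∈ K := fun y hy h2 a ha =>
    ⟨mul_mem (mul_mem hy ha.1) (inv_mem hy), fun w hw => by
      rw [map_mul, map_mul, mul_assoc, mul_assoc, ha.2 _ (h2 w hw), ← mul_assoc, mul_inv, one_mul]⟩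
  have hE : ∀ w, ρ f * (ρ e * w) = w → ρ e * w = -w - ρ f * w := fun w hw => by
    linear_combination (norm := noncomm_ring) a1 * ρ e * w - ρ f * hw - hw
  have hK := h.normal_bot f3 e3 (D := K) (fun g hg => hg.1) (fun g hg => (h.hu g).resolve_left
      fun hu => hv0 (hu.mul_left_cancel (by
        rw [sub_mul, hg.2 v (by linear_combination (norm := noncomm_ring [map_mul]) hv)]; simp)))
    (key f hf fun w hw => by
      rw [a2]
      linear_combination (norm := noncomm_ring) - ρ f * ρ e * hE w hw + ρ f * b1 * w - hw)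
    (key e he fun w hw => by
      rw [b2]
      linear_combination (norm := noncomm_ring) - ρ f * b1 * w + hE w hw)
  exact Subgroup.mem_bot.1 (hK ▸ (⟨mul_mem hf he, fun w hw => by rw [map_mul, mul_assoc, hw]⟩ : f * e ∈ K))

/-- P3, the congruence kernel is trivial -/
theorem eq_one_of_nil [Finite H] {u g : H} (hu : u ∈ Subgroup.closure {f, e})
    (hg : g ∈ Subgroup.closure {f, e}) (h1 : IsNilpotent (ρ u - 1)) {β : A}
    (hβ : β ∈ Subring.closure {zz (ρ f) (ρ e)}) (h2 : IsNilpotent β)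
    (h3 : ρ u - ρ u⁻¹ = β * (ρ g - ρ g⁻¹)) : u = 1 := by
  let T : H → A := fun x => ρ x + ρ x⁻¹
  have hT : ∀ x ∈ Subgroup.closure {f, e}, T x ∈ Subring.closure {zz (ρ f) (ρ e)} :=
    fun x hx => (h.trace f3 e3 hx).1
  have hT2 : ∀ x, T x - 2 = ρ x⁻¹ * (ρ x - 1) ^ 2 := fun x => by
    simp only [T]
    linear_combination (norm := noncomm_ring [lit]) - inv_mul (ρ := ρ) x * ρ x + 2 * inv_mul (ρ := ρ) x
  have cx : ∀ x, Commute (ρ x⁻¹) ((ρ x - 1) ^ 2) := fun x =>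
    ((((Commute.refl x).inv_left).map ρ).sub_right (Commute.one_right _)).pow_right 2
  let D : Subgroup H :=
    { carrier := {y | y ∈ Subgroup.closure {f, e} ∧ ∀ w ∈ Subgroup.closure {f, e},
        IsNilpotent (T (y * w) - T w)}
      one_mem' := ⟨one_mem _, fun w _ => by simp⟩
      mul_mem' := fun {a b} ha hb => ⟨mul_mem ha.1 hb.1, fun w hw => by
        have m := mul_mem hb.1 hw
        have := (comm_mem (sub_mem (hT _ (mul_mem ha.1 m)) (hT _ m))
          (sub_mem (hT _ m) (hT _ hw))).isNilpotent_add (ha.2 _ m) (hb.2 w hw)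
        rwa [sub_add_sub_cancel, ← mul_assoc] at this⟩
      inv_mem' := fun {a} ha => ⟨inv_mem ha.1, fun w hw => by
        have := (ha.2 _ (mul_mem (inv_mem ha.1) hw)).neg
        rwa [neg_sub, mul_inv_cancel_left] at this⟩ }
  have key : ∀ y ∈ Subgroup.closure {f, e}, ∀ a ∈ D, y * a * y⁻¹ ∈ D := fun y hy a ha =>
    ⟨mul_mem (mul_mem hy ha.1) (inv_mem hy), fun w hw => by
      have hc : ∀ x ∈ Subgroup.closure {f, e}, T (y * x * y⁻¹) = T x := fun x hx => by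
        have : T (y * x * y⁻¹) = ρ y * T x * ρ y⁻¹ := by
          simp only [T, mul_inv_rev, inv_inv, map_mul, mul_add, add_mul, mul_assoc]
        rw [this, (h.cen f3 e3 hy (hT x hx)).eq, mul_assoc, mul_inv, mul_one]
      have m := mul_mem (mul_mem (inv_mem hy) hw) hy
      have := ha.2 _ m
      rw [← hc _ m, ← hc _ (mul_mem ha.1 m)] at this
      convert this using 3 <;> group⟩
  have hD := h.normal_bot f3 e3 (D := D) (fun g hg => hg.1) (fun a ha => h.pel (by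
      have := ha.2 1 (one_mem _)
      rw [mul_one, show T 1 = 2 by simp [T, one_add_one_eq_two], hT2] at this
      exact IsNilpotent.of_pow ((IsUnit.isNilpotent_unit_mul_of_commute_iff
        ((Group.isUnit _).map ρ) (cx a).symm).1 this)))
    (key f (Subgroup.subset_closure (by simp))) (key e (Subgroup.subset_closure (by simp)))
  refine Subgroup.mem_bot.1 (hD ▸ (⟨hu, fun w hw => ?_⟩ : u ∈ D))
  refine (IsUnit.isNilpotent_unit_mul_of_commute_iff h.two (Commute.ofNat_right _ 2)).1 ?_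
  have m1 := hT _ (mul_mem hg hw)
  have m2 := hT _ (mul_mem (inv_mem hg) hw)
  have m3 : T u - 2 ∈ Subring.closure {zz (ρ f) (ρ e)} := sub_mem (hT u hu) (ofNat_mem _ 2)
  have h4 : 2 * (T (u * w) - T w) = (T u - 2) * T w + β * (T (g * w) - T (g⁻¹ * w)) := by
    have c1 := (h.cen f3 e3 (inv_mem hw) (hT u hu)).eq
    have c2 := (h.cen f3 e3 (inv_mem hw) hβ).eq
    simp only [T, mul_inv_rev, inv_inv, map_mul] at c1 ⊢
    linear_combination (norm := noncomm_ring) h3 * ρ w - ρ w⁻¹ * h3 + c1 - c2 * (ρ g - ρ g⁻¹)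
  rw [h4]
  refine (comm_mem (mul_mem m3 (hT w hw)) (mul_mem hβ (sub_mem m1 m2))).isNilpotent_add
    ((comm_mem m3 (hT w hw)).isNilpotent_mul_right ?_)
    ((comm_mem hβ (sub_mem m1 m2)).isNilpotent_mul_right h2)
  rw [hT2]
  exact (cx u).isNilpotent_mul_left (h1.pow_of_pos two_ne_zero)

theorem not_dvd [Finite H] (h1 : IsUnit (ρ (f * e) - 1)) (h2 : IsUnit (ρ (f * e) + 1)) :
    ¬ p ∣ Nat.card (Subgroup.closure {f, e}) := by
  have hg : f * e ∈ Subgroup.closure {f, e} :=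
    mul_mem (Subgroup.subset_closure (by simp)) (Subgroup.subset_closure (by simp))
  have hz := h.zz_eq f3 e3
  generalize f * e = g at h1 h2 hg hz
  obtain ⟨k, m, hm, hkm⟩ := Nat.exists_eq_pow_mul_and_not_dvd (orderOf_pos g).ne' p hp.out.ne_one
  have hn : IsNilpotent (ρ (g ^ m) - 1) :=
    nilp_of_pow (k := k) (by rw [← pow_mul, mul_comm, ← hkm, pow_orderOf_eq_one])
  obtain ⟨β, hβ, e1⟩ := (cheb (mul_inv (ρ := ρ) g) (inv_mul g)
    (hz ▸ Subring.subset_closure (s := {zz (ρ f) (ρ e)}) rfl) m).1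
  rw [← map_pow, ← map_pow, inv_pow] at e1
  rw [← hz] at hβ
  have hN : ∀ x, ρ x - ρ x⁻¹ = (ρ x - 1) * ((ρ x + 1) * ρ x⁻¹) := fun x => by
    linear_combination (norm := noncomm_ring) - ρ x * mul_inv (ρ := ρ) x
  have hm1 : g ^ m = 1 := h.eq_one_of_nil f3 e3 (pow_mem hg m) hg hn hβ (by
    refine (IsUnit.isNilpotent_mul_unit_of_commute_iff (u := ρ g - ρ g⁻¹) ?_ ?_).1 ?_
    · rw [hN]; exact h1.mul (h2.mul ((Group.isUnit _).map ρ))
    · exact ((h.cen f3 e3 hg hβ).sub_left (h.cen f3 e3 (inv_mem hg) hβ)).symm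
    · rw [← e1, hN]
      exact (((Commute.refl _).add_right (Commute.one_right _)).mul_right
        ((Commute.refl (g ^ m)).inv_right.map ρ)).sub_left (Commute.one_left _)
        |>.isNilpotent_mul_right hn) e1
  have hm0 : m ≠ 0 := fun e => hm (e ▸ dvd_zero p)
  have ht := Nat.ModEq.pow_totient (hp.out.coprime_iff_not_dvd.2 hm)
  have hfix : ∀ x : H, x ^ m = 1 → ρ x ^ p ^ m.totient = ρ x := fun x hx => by
    rw [← map_pow, pow_eq_pow_of_modEq_of_pow_eq_one hx ht, pow_one]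
  intro hd
  obtain ⟨⟨c, hc⟩, hc2⟩ := exists_prime_orderOf_dvd_card' p hd
  replace hc2 : orderOf c = p := by rw [← hc2, ← Subgroup.orderOf_coe]
  have hc3 : c ^ p ^ 1 = 1 := by rw [pow_one, ← hc2]; exact pow_orderOf_eq_one c
  have h3 : ρ c + ρ c⁻¹ - 2 = ρ c⁻¹ * (ρ c - 1) ^ 2 := by
    linear_combination (norm := noncomm_ring [lit]) - inv_mul (ρ := ρ) c * ρ c + 2 * inv_mul (ρ := ρ) c
  have h4 := reduced (p := p) (Nat.totient_pos.2 (Nat.pos_of_ne_zero hm0)).ne'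
    (by rw [hz, add_pow_char_pow_of_commute _ _ ((Commute.refl g).inv_right.map ρ), hfix g hm1,
      hfix _ (by rw [inv_pow, hm1, inv_one])])
    (sub_mem (h.trace f3 e3 hc).1 (ofNat_mem _ 2)) (by
      rw [h3]
      exact (((((Commute.refl c).inv_left).map ρ).sub_right
        (Commute.one_right _)).pow_right 2).isNilpotent_mul_left
        ((nilp_of_pow hc3).pow_of_pos two_ne_zero))
  rw [h3, ((Group.isUnit _).map ρ).mul_right_eq_zero] at h4
  rw [show c = 1 from h.nq c h4, orderOf_one] at hc2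
  exact hp.out.ne_one hc2.symm

theorem zz_cases_of [Finite H] (hd : ¬ p ∣ Nat.card (Subgroup.closure {f, e})) (h1 : f * e ≠ 1)
    (h2 : f * e⁻¹ ≠ 1) : zz (ρ f) (ρ e) = 0 ∨ zz (ρ f) (ρ e) = 1 ∨
      zz (ρ f) (ρ e) * zz (ρ f) (ρ e) = zz (ρ f) (ρ e) + 1 := by
  have hg : f * e ∈ Subgroup.closure {f, e} :=
    mul_mem (Subgroup.subset_closure (by simp)) (Subgroup.subset_closure (by simp))
  obtain ⟨k1, k2⟩ := h.ord f e f3 e3 hd h1 h2
  rw [h.zz_eq f3 e3]
  generalize f * e = g at k1 k2 hg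
  have hu : ∀ m, g ^ m ≠ 1 → IsUnit (ρ g ^ m - 1) := fun m hm => by
    rw [← map_pow]
    exact h.unit hm (congrArg Subtype.val (pow_card_eq_one' (x := (⟨_, pow_mem hg m⟩ :
      Subgroup.closure {f, e})))) hd
  have u1 : IsUnit (ρ g) := (Group.isUnit _).map ρ
  have u2 : IsUnit (ρ g + 1) := by
    have := hu 2 k1
    rw [show ρ g ^ 2 - 1 = (ρ g + 1) * (ρ g - 1) by noncomm_ring, (((Commute.refl _).sub_right
      (Commute.one_right _)).add_left (Commute.one_left _)).isUnit_mul_iff] at this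
    exact this.1
  have i1 := mul_inv (ρ := ρ) g
  rcases k2 with k | ⟨k, k3⟩ | ⟨k, k3⟩ <;> replace k := congrArg ρ k <;> rw [map_pow, map_one] at k
  · refine .inl ((hu 2 k1).mul_left_cancel (u1.mul_left_cancel ?_))
    linear_combination (norm := noncomm_ring) k + (ρ g ^ 2 - 1) * i1
  · refine .inr (.inl ((hu 3 k3).mul_left_cancel (u2.mul_left_cancel (u1.mul_left_cancel ?_))))
    linear_combination (norm := noncomm_ring) k + (ρ g + 1) * (ρ g ^ 3 - 1) * i1
  · refine .inr (.inr ((hu 5 k3).mul_left_cancel (u2.mul_left_cancel (u1.mul_left_cancel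
      (u1.mul_left_cancel ?_)))))
    linear_combination (norm := noncomm_ring) k + (ρ g + 1) * (ρ g ^ 5 - 1) *
      (ρ g * ρ g * i1 + ρ g * i1 * ρ g + ρ g * i1 * ρ g⁻¹ + i1 - ρ g * i1)

/-- PAIR -/
theorem pair [Finite H] (h1 : f * e ≠ 1) (h2 : f * e⁻¹ ≠ 1) : zz (ρ f) (ρ e) = 0 ∨
    zz (ρ f) (ρ e) = 1 ∨ zz (ρ f) (ρ e) * zz (ρ f) (ρ e) = zz (ρ f) (ρ e) + 1 := by
  have e3' : orderOf e⁻¹ = 3 := by rwa [orderOf_inv]
  have u1 := h.unit_mul f3 e3 h1
  have u2 := h.unit_mul f3 e3' h2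
  have hz := h.zz_eq f3 e3
  have hz' := h.zz_eq f3 e3'
  obtain ⟨a1, a2⟩ := h.o3 f3
  obtain ⟨b1, b2⟩ := h.o3 e3
  by_cases v1 : IsUnit (ρ (f * e) + 1)
  · exact h.zz_cases_of f3 e3 (h.not_dvd f3 e3 u1 v1) h1 h2
  by_cases v2 : IsUnit (ρ (f * e⁻¹) + 1)
  · have := h.zz_cases_of f3 e3' (h.not_dvd f3 e3' u2 v2) h2 (by rwa [inv_inv])
    rw [b2, zz_inv a1 b1] at this
    rcases this with k | k | k
    · exact .inr (.inl (sub_eq_zero.1 k).symm)
    · exact .inl (sub_eq_self.1 k)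
    · exact .inr (.inr (by linear_combination (norm := noncomm_ring) k))
  have cm : ∀ g, Commute (ρ g - 1) (ρ g + 1) := fun g =>
    ((Commute.refl _).add_right (Commute.one_right _)).sub_left (Commute.one_left _)
  have key : ∀ g, IsUnit (ρ g - 1) → ¬ IsUnit (ρ g + 1) → (∃ k, (g ^ 2) ^ p ^ k = 1) ∧
      IsNilpotent (ρ g + ρ g⁻¹ + 2) := fun g w1 w2 => by
    have a : ρ (g ^ 2) - 1 = (ρ g - 1) * (ρ g + 1) := by rw [map_pow]; noncomm_ring
    obtain ⟨k, hk⟩ := (h.hu (g ^ 2)).resolve_left fun w => w2 ((cm g).isUnit_mul_iff.1 (a ▸ w)).2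
    refine ⟨⟨k, hk⟩, ?_⟩
    have b := (IsUnit.isNilpotent_unit_mul_of_commute_iff w1 (cm g).symm).1 (a ▸ nilp_of_pow hk)
    rw [show ρ g + ρ g⁻¹ + 2 = ρ g⁻¹ * (ρ g + 1) ^ 2 by
      linear_combination (norm := noncomm_ring [lit]) - inv_mul (ρ := ρ) g * ρ g
        - 2 * inv_mul (ρ := ρ) g]
    exact (((((Commute.refl g).inv_left).map ρ).add_right
      (Commute.one_right _)).pow_right 2).isNilpotent_mul_left (b.pow_of_pos two_ne_zero)
  obtain ⟨⟨k, hk⟩, n1⟩ := key _ u1 v1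
  have n2 := (key _ u2 v2).2
  rw [← hz] at n1
  rw [← hz', b2, zz_inv a1 b1] at n2
  have hzR : zz (ρ f) (ρ e) ∈ Subring.closure {zz (ρ f) (ρ e)} := Subring.subset_closure rfl
  have m2 := add_mem hzR (ofNat_mem _ 2)
  obtain rfl : p = 5 := by
    have := (comm_mem m2 (add_mem (sub_mem (one_mem _) hzR) (ofNat_mem _ 2))).isNilpotent_add n1 n2
    rw [show zz (ρ f) (ρ e) + 2 + (1 - zz (ρ f) (ρ e) + 2) = ((5 : ℕ) : A) by
      push_cast; noncomm_ring [lit]] at this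
    have _ := h.nt
    exact (Nat.prime_dvd_prime_iff_eq hp.out Nat.prime_five).1
      (by_contra fun hd => this.not_isUnit (isUnit_nat hd))
  have hg : f * e ∈ Subgroup.closure {f, e} :=
    mul_mem (Subgroup.subset_closure (by simp)) (Subgroup.subset_closure (by simp))
  have hκ : IsUnit (ρ f * ρ e - ρ e * ρ f) := by
    rw [← isUnit_pow_iff two_ne_zero, sq, kappa_sq a1 b1]
    have k : ∀ g, IsUnit (ρ g - 1) → IsUnit (ρ g + ρ g⁻¹ - 2) := fun g w => by
      rw [show ρ g + ρ g⁻¹ - 2 = ρ g⁻¹ * (ρ g - 1) ^ 2 by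
        linear_combination (norm := noncomm_ring [lit]) - inv_mul (ρ := ρ) g * ρ g
          + 2 * inv_mul (ρ := ρ) g]
      exact ((Group.isUnit _).map ρ).mul (w.pow 2)
    refine (hz ▸ k _ u1).mul ?_
    have := (k _ u2).neg
    rw [← hz', b2, zz_inv a1 b1] at this
    convert this using 1
    noncomm_ring [lit]
  have cf := (h.cen f3 e3 (Subgroup.subset_closure (by simp)) (mul_mem m2 m2) : Commute (ρ f) _).eq
  have cg := (h.cen f3 e3 hg hzR).eq
  have hfe : ρ f * ρ e = ρ (f * e) := (map_mul _ _ _).symm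
  have hef : ρ f * (ρ e * ρ f) = ρ (f * e) * ρ f := by rw [map_mul, mul_assoc]
  generalize f * e = g at *
  set z := zz (ρ f) (ρ e)
  have i1 := mul_inv (ρ := ρ) g
  have i2 := inv_mul (ρ := ρ) g
  have h5 : (5 : A) = 0 := CharP.cast_eq_zero A 5
  have cN : Commute z (ρ g - ρ g⁻¹) := by
    rw [hz]; change _ * _ = _ * _; linear_combination (norm := noncomm_ring) 2 * i2 - 2 * i1
  have m3 := mul_mem (sub_mem hzR (ofNat_mem _ 2)) m2
  have h10 : g ^ 10 = 1 := h.eq_one_of_nil f3 e3 (pow_mem hg 10) hg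
    (nilp_of_pow (k := k) (by rw [show 10 = 2 * 5 from rfl, pow_mul, ← pow_mul _ 5, mul_comm 5,
      pow_mul, hk, one_pow]))
    (β := z ^ 5 * ((z - 2) * (z + 2)) ^ 2) (mul_mem (pow_mem hzR 5) (pow_mem m3 2))
    ((comm_mem (pow_mem hzR 5) (pow_mem m3 2)).isNilpotent_mul_left
      (((comm_mem (sub_mem hzR (ofNat_mem _ 2)) m2).isNilpotent_mul_left n1).pow_of_pos
        two_ne_zero)) (by
      have a : z * (ρ g - ρ g⁻¹) = ρ g ^ 2 - ρ g⁻¹ ^ 2 := by
        rw [hz]; linear_combination (norm := noncomm_ring) i2 - i1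
      have b : (ρ g - ρ g⁻¹) ^ 2 = (z - 2) * (z + 2) := by
        rw [hz]; linear_combination (norm := noncomm_ring [lit]) -2 * i2 - 2 * i1
      rw [← b, ← pow_mul, mul_assoc, ← pow_succ, ← cN.mul_pow, a, sub_pow_char_of_commute _
        (((Commute.refl g).inv_right.map ρ).pow_pow 2 2), ← pow_mul, ← pow_mul, ← inv_pow, map_pow,
        map_pow])
  have a : (ρ g + 1) ^ 5 = 0 := by
    rw [← (u1.pow 5).mul_right_eq_zero, ← (cm g).mul_pow,
      show (ρ g - 1) * (ρ g + 1) = ρ g ^ 2 - 1 by noncomm_ring,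
      sub_pow_char_of_commute _ (Commute.one_right _), ← pow_mul, ← map_pow, h10, map_one, one_pow,
      sub_self]
  have b : (z + 2) * (z + 2) * (ρ g + 1) = 0 := by
    have c : ρ g * (z + 2) = (ρ g + 1) ^ 2 := by
      rw [hz]; linear_combination (norm := noncomm_ring [lit]) i1
    have u : IsUnit (ρ g) := (Group.isUnit _).map ρ
    rw [← u.mul_right_eq_zero, ← u.mul_right_eq_zero, ← a]
    linear_combination (norm := noncomm_ring [lit]) ρ g * cg * ((z + 2) * (ρ g + 1))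
      + c * ρ g * (z + 2) * (ρ g + 1) + (ρ g + 1) ^ 2 * c * (ρ g + 1)
  have c : (z + 2) * (z + 2) = 0 := by
    have u : IsUnit (ρ f) := (Group.isUnit _).map ρ
    rw [← hκ.mul_left_eq_zero, ← u.mul_right_eq_zero, hfe]
    linear_combination (norm := noncomm_ring) ρ f * b - b * ρ f - cf * (1 + ρ e * ρ f)
      - (z + 2) * (z + 2) * hef
  exact .inr (.inr (by linear_combination (norm := noncomm_ring [lit]) c - h5 * (z + 1)))

end QA

/-- the concrete hypotheses give the abstract ones -/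
theorem QA.of_rep [Finite H] {V : Type v} [AddCommGroup V] [Module (ZMod p) V] [Finite V]
    [Nontrivial V] (ρ : H →* Module.End (ZMod p) V) (p5 : 5 ≤ p)
    (hf : ∀ h v, v ≠ 0 → ρ h v = v → ∃ k, orderOf h = p ^ k)
    (nq : ∀ u, (ρ u - 1) ^ 2 = 0 → u = 1) : QA p ρ where
  nt := inferInstance
  p5 := p5
  nq := nq
  hu g := by
    rw [or_iff_not_imp_left, LinearMap.isUnit_iff_ker_eq_bot]
    intro h0
    obtain ⟨v, hv, hv0⟩ := Submodule.exists_mem_ne_zero_of_ne_bot h0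
    obtain ⟨k, hk⟩ := hf g v hv0 (by simpa [sub_eq_zero] using hv)
    exact ⟨k, hk ▸ pow_orderOf_eq_one g⟩
  ord f e f3 e3 hd h1 h2 := by
    obtain ⟨n, σ, hn, hσ⟩ := exists_free_lift (ρ.comp (Subgroup.closure {f, e}).subtype) hd
      fun y v hv hy => by
        obtain ⟨k, hk⟩ := hf y v hv hy
        exact Subtype.ext (eq_one_of_pow (hk ▸ pow_orderOf_eq_one (y : H))
          (congrArg Subtype.val (pow_card_eq_one' (x := y))) hd)
    have := order_of_free σ hσ (f := ⟨f, Subgroup.subset_closure (by simp)⟩)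
      (e := ⟨e, Subgroup.subset_closure (by simp)⟩) (by rwa [← Subgroup.orderOf_coe])
      (by rwa [← Subgroup.orderOf_coe]) (fun h => h1 (congrArg Subtype.val h))
      fun h => h2 (congrArg Subtype.val h)
    simpa only [ne_eq, Subtype.ext_iff, Subgroup.coe_pow, Subgroup.coe_mul, Subgroup.coe_one]
      using this

end Cfsg.G41.PR
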