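import Cfsg.Agent.G41.IcoA
import Cfsg.Agent.G41.Pair

/-! S4841, `p ≥ 5`, no quadratic element: at most twenty elements of order three. -/

set_option autoImplicit false

namespace Cfsg.G41.PR

universe u v

section Coord

variable {A : Type v} [Ring A] {I J : A}

/-- quaternion coordinates -/
def qc (I J : A) (q : Subring.centralizer ({I, J} : Set A) × Subring.centralizer ({I, J} : Set A) ×
    Subring.centralizer ({I, J} : Set A) × Subring.centralizer ({I, J} : Set A)) : A :=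
  q.1 + q.2.1 * I + q.2.2.1 * J + q.2.2.2 * (I * J)

theorem qc_zero (a) : qc I J (a, 0, 0, 0) = a := by simp [qc]

theorem qm_I (a b c d : A) : qm (0, 1, 0, 0) (a, b, -c, -d) = qm (a, b, c, d) (0, 1, 0, 0) := by
  simp [qm]

theorem qm_J (a b c d : A) : qm (0, 0, 1, 0) (a, -b, c, -d) = qm (a, b, c, d) (0, 0, 1, 0) := by
  simp [qm]

theorem qm_cyc (a b c d : A) : qm (-1, 1, 1, 1) (a, d, b, c) = qm (a, b, c, d) (-1, 1, 1, 1) := by
  simp only [qm, Prod.mk.injEq]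
  refine ⟨?_, ?_, ?_, ?_⟩ <;> noncomm_ring

theorem qc_add (q r) : qc I J (q + r) = qc I J q + qc I J r := by
  simp only [qc, Prod.fst_add, Prod.snd_add, Subring.coe_add]; noncomm_ring

theorem qc_neg (q) : qc I J (-q) = -qc I J q := by
  simp only [qc, Prod.fst_neg, Prod.snd_neg, Subring.coe_neg]; noncomm_ring

variable (hI : I * I = -1) (hJ : J * J = -1) (hJI : J * I = -(I * J))
include hI hJ hJI

theorem qc_mul (q r) : qc I J (qm q r) = qc I J q * qc I J r := by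
  have a1 : ∀ y, I * (I * y) = -y := fun y => by rw [← mul_assoc, hI]; simp
  have a2 : ∀ y, J * (J * y) = -y := fun y => by rw [← mul_assoc, hJ]; simp
  have a3 : ∀ y, J * (I * y) = -(I * (J * y)) := fun y => by rw [← mul_assoc, hJI]; noncomm_ring
  have a4 : ∀ (c : Subring.centralizer ({I, J} : Set A)), I * c = c * I := fun c => c.2 I (by simp)
  have a5 : ∀ (c : Subring.centralizer ({I, J} : Set A)), J * c = c * J := fun c => c.2 J (by simp)
  have a6 : ∀ (c : Subring.centralizer ({I, J} : Set A)) y, I * (c * y) = c * (I * y) :=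
    fun c y => by rw [← mul_assoc, a4, mul_assoc]
  have a7 : ∀ (c : Subring.centralizer ({I, J} : Set A)) y, J * (c * y) = c * (J * y) :=
    fun c y => by rw [← mul_assoc, a5, mul_assoc]
  simp only [qc, qm, Subring.coe_add, AddSubgroupClass.coe_sub, Subring.coe_mul]
  noncomm_ring [hI, hJ, hJI, a1, a2, a3, a4, a5, a6, a7]

theorem qc_inj (h2 : IsUnit (2 : A)) : Function.Injective (qc I J) := by
  have key : ∀ q, qc I J q = 0 → q.1 = 0 := fun ⟨a, b, c, d⟩ hq => by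
    have e1 := qc_mul hI hJ hJI (0, 1, 0, 0) (qm (a, b, c, d) (0, 1, 0, 0))
    have e2 := qc_mul hI hJ hJI (0, 0, 1, 0) (qm (a, b, c, d) (0, 0, 1, 0))
    have e3 := qc_mul hI hJ hJI (0, 0, 0, 1) (qm (a, b, c, d) (0, 0, 0, 1))
    rw [qc_mul hI hJ hJI (a, b, c, d), hq, zero_mul, mul_zero] at e1 e2 e3
    simp only [qc, qm, mul_zero, zero_mul, mul_one, one_mul, add_zero, zero_add, sub_zero,
      zero_sub, Subring.coe_neg, neg_neg] at e1 e2 e3 hq
    refine Subtype.ext (h2.mul_right_eq_zero.1 (h2.mul_right_eq_zero.1 ?_))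
    linear_combination (norm := noncomm_ring) hq - e1 - e2 - e3
  intro q r hqr
  rw [← sub_eq_zero, sub_eq_add_neg] at hqr ⊢
  rw [← qc_neg, ← qc_add] at hqr
  generalize q + -r = s at hqr
  obtain ⟨a, b, c, d⟩ := s
  have e0 := key _ hqr
  have e1 := key _ (by rw [qc_mul hI hJ hJI (a, b, c, d) (0, 1, 0, 0), hqr, zero_mul])
  have e2 := key _ (by rw [qc_mul hI hJ hJI (a, b, c, d) (0, 0, 1, 0), hqr, zero_mul])
  have e3 := key _ (by rw [qc_mul hI hJ hJI (a, b, c, d) (0, 0, 0, 1), hqr, zero_mul])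
  simp only [qm, mul_zero, mul_one, sub_zero, zero_sub, neg_eq_zero] at e0 e1 e2 e3
  rw [e0, e1, e2, e3]; rfl

theorem qc_surj (h2 : IsUnit (2 : A)) : Function.Surjective (qc I J) := fun x => by
  have a1 : ∀ y, I * (I * y) = -y := fun y => by rw [← mul_assoc, hI]; simp
  have a2 : ∀ y, J * (J * y) = -y := fun y => by rw [← mul_assoc, hJ]; simp
  have a3 : ∀ y, J * (I * y) = -(I * (J * y)) := fun y => by rw [← mul_assoc, hJI]; noncomm_ring
  obtain ⟨u, hu⟩ := (h2.mul h2).exists_left_inv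
  have uc : ∀ y, y * u = u * y := fun y => by
    have : (2 * 2 : A) * u = 1 := by
      rw [((Commute.ofNat_left 2 u).mul_left (Commute.ofNat_left 2 u)).eq, hu]
    calc y * u = u * (2 * 2) * y * u := by rw [hu, one_mul]
      _ = u * y * (2 * 2 * u) := by noncomm_ring
      _ = u * y := by rw [this, mul_one]
  have hP : ∀ y, u * (y - I * y * I - J * y * J - I * J * y * (I * J)) ∈
      Subring.centralizer ({I, J} : Set A) := fun y => by
    rintro g (rfl | rfl) <;> rw [← mul_assoc, uc, mul_assoc, mul_assoc u] <;> congr 1 <;>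
      noncomm_ring [hI, hJ, hJI, a1, a2, a3]
  refine ⟨(⟨_, hP x⟩, ⟨_, hP (-(x * I))⟩, ⟨_, hP (-(x * J))⟩, ⟨_, hP (-(x * (I * J)))⟩), ?_⟩
  simp only [qc]
  linear_combination (norm := noncomm_ring [hI, hJ, hJI, a1, a2, a3]) hu * x

end Coord

theorem zz_conj {A : Type v} [Ring A] {F E : A} (hF : F * F = -F - 1) (hE : E * E = -E - 1) :
    zz E (F * E * (-1 - F)) = 1 + zz F E - zz F E * zz F E := by
  have h1 : ∀ y, F * (F * y) = -(F * y) - y := fun y => by rw [← mul_assoc, hF]; noncomm_ring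
  have h2 : ∀ y, E * (E * y) = -(E * y) - y := fun y => by rw [← mul_assoc, hE]; noncomm_ring
  have h3 := (zz_comm hF hE).1
  unfold zz at h3 ⊢
  noncomm_ring [hF, hE, h1, h2]

theorem quat_ring {A : Type v} [Ring A] {F E : A} (hF : F * F = -F - 1) (hE : E * E = -E - 1)
    (hz : zz F E = 1) : (-1 - F) * E * ((-1 - F) * E) = -1 ∧ (F + F * E) * ((-1 - F) * E) = 1 + F + E ∧
      (1 + F + E) * (1 + F + E) = -1 ∧ (F + F * E) * (F + F * E) = -1 ∧
      (F + F * E) * (1 + F + E) = -((1 + F + E) * (F + F * E)) ∧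
      2 * F + 1 = 1 + F + E + (F + F * E) + (1 + F + E) * (F + F * E) := by
  have h0 : E * F = -(F * E) - F - E := by
    unfold zz at hz; linear_combination (norm := noncomm_ring) hz
  have h1 : ∀ y, F * (F * y) = -(F * y) - y := fun y => by rw [← mul_assoc, hF]; noncomm_ring
  have h2 : ∀ y, E * (E * y) = -(E * y) - y := fun y => by rw [← mul_assoc, hE]; noncomm_ring
  have h3 : ∀ y, E * (F * y) = -(F * (E * y)) - F * y - E * y := fun y => by
    rw [← mul_assoc, h0]; noncomm_ring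
  refine ⟨?_, ?_, ?_, ?_, ?_, ?_⟩ <;> noncomm_ring [hF, hE, h0, h1, h2, h3]

variable {p : ℕ} [hp : Fact p.Prime] {H : Type u} [Group H] {A : Type v} [Ring A] [CharP A p]
  {ρ : H →* A}

namespace QA

variable (h : QA p ρ)
include h

theorem inj : Function.Injective ρ :=
  (injective_iff_map_eq_one ρ).2 fun a ha => h.nq a (by simp [ha])

theorem eq_or_inv {f e : H} (f3 : orderOf f = 3) (e3 : orderOf e = 3) (hc : Commute f e) :
    e = f ∨ e = f⁻¹ := by
  have p3 : ∀ y : H, orderOf y = 3 → y ^ 3 = 1 := fun y hy => hy ▸ pow_orderOf_eq_one y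
  have n3 := h.nd (m := 3) (by omega) (by omega)
  by_contra h0
  rw [not_or] at h0
  have u1 := h.unit (g := f * e) (fun e => h0.2 (eq_inv_of_mul_eq_one_right e))
    (by rw [hc.mul_pow, p3 f f3, p3 e e3, one_mul]) n3
  have u2 := h.unit (g := f * e⁻¹) (fun e => h0.1 (mul_inv_eq_one.1 e).symm)
    (by rw [hc.inv_right.mul_pow, p3 f f3, inv_pow, p3 e e3, inv_one, one_mul]) n3
  have := h.nt
  refine (u1.mul u2).ne_zero ?_
  obtain ⟨a1, -⟩ := h.o3 f3
  obtain ⟨b1, b2⟩ := h.o3 e3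
  rw [map_mul, map_mul, b2]
  linear_combination (norm := noncomm_ring) a1 - ρ f * ρ f * b1
    + ρ f * (hc.map ρ).eq * (1 + ρ e)

theorem exists_quat [Finite H] {f e : H} (f3 : orderOf f = 3) (e3 : orderOf e = 3)
    (hc : ¬ Commute f e) : ∃ f i j : H, orderOf f = 3 ∧ ρ i * ρ i = -1 ∧ ρ j * ρ j = -1 ∧
      ρ j * ρ i = -(ρ i * ρ j) ∧ 2 * ρ f + 1 = ρ i + ρ j + ρ i * ρ j := by
  have key : ∀ f e : H, orderOf f = 3 → orderOf e = 3 → zz (ρ f) (ρ e) = 1 → ∃ f i j : H,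
      orderOf f = 3 ∧ ρ i * ρ i = -1 ∧ ρ j * ρ j = -1 ∧
      ρ j * ρ i = -(ρ i * ρ j) ∧ 2 * ρ f + 1 = ρ i + ρ j + ρ i * ρ j := fun f e f3 e3 hz => by
    obtain ⟨a1, a2⟩ := h.o3 f3
    obtain ⟨b1, b2⟩ := h.o3 e3
    obtain ⟨c1, c2, c3, c4, c5, c6⟩ := quat_ring a1 b1 hz
    have d1 : ρ (f⁻¹ * e * (f⁻¹ * e) * (f * e⁻¹)) = ρ f + ρ f * ρ e := by
      rw [map_mul, map_mul, map_mul, map_mul, a2, b2, c1]; noncomm_ring
    have d2 : ρ (f⁻¹ * e * (f⁻¹ * e) * (f * e⁻¹) * (f⁻¹ * e)) = 1 + ρ f + ρ e := by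
      rw [map_mul, d1, map_mul, a2, c2]
    exact ⟨f, _, _, f3, by rw [d2, c3], by rw [d1, c4], by rw [d1, d2, c5], by rw [d1, d2, c6]⟩
  have key0 : ∀ f e : H, orderOf f = 3 → orderOf e = 3 → zz (ρ f) (ρ e) = 0 → _ :=
    fun f e f3 e3 hz => key f e⁻¹ f3 (by rwa [orderOf_inv])
      (by rw [(h.o3 e3).2, zz_inv (h.o3 f3).1 (h.o3 e3).1, hz, sub_zero])
  rcases h.pair f3 e3 (fun k => hc (eq_inv_of_mul_eq_one_right k ▸ (Commute.refl f).inv_right))
    (fun k => hc (mul_inv_eq_one.1 k ▸ Commute.refl f)) with k | k | k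
  · exact key0 f e f3 e3 k
  · exact key f e f3 e3 k
  · refine key0 e (f * e * f⁻¹) e3 (by rw [← e3]; exact (MulAut.conj f).orderOf_eq e) ?_
    rw [map_mul, map_mul, (h.o3 f3).2, zz_conj (h.o3 f3).1 (h.o3 e3).1, k]; abel

omit h in
/-- coordinates of the elements of order three -/
def S3 (ρ : H →* A) (i j : H) := qc (ρ i) (ρ j) ⁻¹' ((fun g => 2 * ρ g + 1) '' {g | orderOf g = 3})

omit h [Fact p.Prime] [CharP A p] in
theorem S3_conj {i j : H} {q q'} (y : H) (hq : q ∈ S3 ρ i j)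
    (e : ρ y * qc (ρ i) (ρ j) q' = qc (ρ i) (ρ j) q * ρ y) : q' ∈ S3 ρ i j := by
  obtain ⟨g, g3, hg⟩ := hq
  refine ⟨y⁻¹ * g * y⁻¹⁻¹, ((MulAut.conj y⁻¹).orderOf_eq g).trans g3,
    ((Group.isUnit y).map ρ).mul_left_cancel ?_⟩
  rw [e, ← hg]
  simp only [map_mul, inv_inv]
  linear_combination (norm := noncomm_ring) 2 * mul_inv (ρ := ρ) y * (ρ g * ρ y)

variable {i j : H} (hI : ρ i * ρ i = -1) (hJ : ρ j * ρ j = -1) (hJI : ρ j * ρ i = -(ρ i * ρ j))
include hI hJ hJI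

theorem S3_ex {a b} (hq : (a, b, 0, 0) ∈ S3 ρ i j) : a * a ≠ -1 := fun ha => by
  obtain ⟨g, g3, hg⟩ := hq
  have := h.nt
  have e2 : ρ j * a = a * ρ j := a.2 _ (by simp)
  have e3 : ρ j * b = b * ρ j := b.2 _ (by simp)
  have e4 : (a : A) * a = -1 := congrArg Subtype.val ha
  have t5 : ∀ s : Subring.centralizer ({ρ i, ρ j} : Set A), s ≠ 0 → s + a * ρ j ≠ 0 :=
    fun s hs e => hs (congrArg Prod.fst (qc_inj hI hJ hJI h.two (a₁ := (s, 0, a, 0))
      (a₂ := (0, 0, 0, 0)) (by simpa [qc] using e)))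
  have t7 : (1 : A) + a * ρ j ≠ 0 := t5 1 one_ne_zero
  have t8 : (-1 : A) + a * ρ j ≠ 0 := t5 (-1) (neg_ne_zero.2 one_ne_zero)
  simp only [qc, Subring.coe_zero, zero_mul, add_zero] at hg
  clear t5 ha
  generalize (a : A) = a at *
  generalize (b : A) = b at *
  have t1 : ρ (g * j) + ρ (g * j)⁻¹ = a * ρ j := by
    have e1 : ρ j⁻¹ = -ρ j := ((Group.isUnit j).map ρ).mul_left_cancel (by
      rw [mul_inv, mul_neg, hJ, neg_neg])
    rw [mul_inv_rev, map_mul, map_mul, e1, (h.o3 g3).2]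
    refine h.two.mul_left_cancel ?_
    linear_combination (norm := noncomm_ring) hg * ρ j + ρ j * hg + e2 + e3 * ρ i + b * hJI
  have t2 : (a * ρ j) * (a * ρ j) = 1 := by
    linear_combination (norm := noncomm_ring) a * e2 * ρ j + e4 * (ρ j * ρ j) - hJ
  generalize a * ρ j = τ at *
  generalize g * j = x at t1
  have t3 : ρ (x ^ 3) = -τ := by
    rw [map_pow]
    have e1 : ρ x * ρ x = τ * ρ x - 1 := by
      linear_combination (norm := noncomm_ring) t1 * ρ x - inv_mul (ρ := ρ) x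
    linear_combination (norm := noncomm_ring) e1 * ρ x + τ * e1 + t2 * ρ x
  have t4 : (x ^ 3) ^ 2 = 1 := h.inj (by rw [map_pow, t3, map_one, neg_sq, _root_.sq, t2])
  by_cases t6 : x ^ 3 = 1
  · rw [t6, map_one] at t3
    exact t7 (by rw [t3, neg_add_cancel])
  · have u := h.unit t6 t4 (h.nd (by omega) (by omega))
    rw [t3] at u
    refine t8 (u.mul_right_eq_zero.1 ?_)
    linear_combination (norm := noncomm_ring) -t2

theorem S3_pair [Finite H] {q r} (hq : q ∈ S3 ρ i j) (hr : r ∈ S3 ρ i j) :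
    q = r ∨ q = -r ∨ qm q r + qm r q = (2, 0, 0, 0) ∨
    qm q r + qm r q = (-2, 0, 0, 0) ∨ qm (qm q r + qm r q) (qm q r + qm r q) = (20, 0, 0, 0) := by
  have hm := qc_mul hI hJ hJI
  have hi := qc_inj hI hJ hJI h.two
  obtain ⟨g, g3, hg⟩ := hq
  obtain ⟨k, k3, hk⟩ := hr
  by_cases h1 : g * k⁻¹ = 1
  · exact .inl (hi (by rw [← hg, ← hk, mul_inv_eq_one.1 h1]))
  by_cases h2 : g * k = 1
  · refine .inr (.inl (hi ?_))
    rw [qc_neg, ← hg, ← hk, eq_inv_of_mul_eq_one_left h2]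
    simp only [(h.o3 k3).2]
    noncomm_ring [lit]
  have hb : qc (ρ i) (ρ j) (qm q r + qm r q) = 4 * zz (ρ g) (ρ k) - 2 := by
    rw [qc_add, hm, hm, ← hg, ← hk, zz]; noncomm_ring [lit]
  generalize qm q r + qm r q = β at hb
  rcases h.pair g3 k3 h2 h1 with e | e | e
  · refine .inr (.inr (.inr (.inl (hi ?_))))
    rw [hb, e, qc_zero]
    change (4 * 0 - 2 : A) = -2
    simp
  · refine .inr (.inr (.inl (hi ?_)))
    rw [hb, e, qc_zero]
    change (4 * 1 - 2 : A) = 2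
    noncomm_ring [lit]
  · refine .inr (.inr (.inr (.inr (hi ?_))))
    rw [hm, hb, qc_zero]
    change _ = (20 : A)
    linear_combination (norm := noncomm_ring [lit]) 16 * e

theorem S3_ico [Finite H] {f : H} (f3 : orderOf f = 3) (hf : 2 * ρ f + 1 = ρ i + ρ j + ρ i * ρ j) :
    Ico (S3 ρ i j) where
  nt := have := h.nt; inferInstance
  two := by
    obtain ⟨q, hq⟩ := h.two.exists_left_inv
    have h1 : (2 : A) * q = 1 := by rw [(Commute.ofNat_left 2 q).eq, hq]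
    have h2 : q ∈ Subring.centralizer ({ρ i, ρ j} : Set A) := fun y _ => by
      calc y * q = q * 2 * y * q := by rw [hq, one_mul]
        _ = q * y * (2 * q) := by noncomm_ring
        _ = q * y := by rw [h1, mul_one]
    exact ⟨⟨2, ⟨q, h2⟩, Subtype.ext h1, Subtype.ext hq⟩, rfl⟩
  sq := by
    rintro q ⟨g, g3, hg⟩
    refine qc_inj hI hJ hJI h.two ?_
    rw [qc_mul hI hJ hJI, ← hg, qc_zero]
    change _ = (-3 : A)
    linear_combination (norm := noncomm_ring [lit]) 4 * (h.o3 g3).1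
  pair q hq r hr := h.S3_pair hI hJ hJI hq hr
  neg := by
    rintro a b c d ⟨g, g3, hg⟩
    refine ⟨g⁻¹, (orderOf_inv g).trans g3, ?_⟩
    rw [show (-a, -b, -c, -d) = -(a, b, c, d) from rfl, qc_neg, ← hg]
    simp only [(h.o3 g3).2]
    noncomm_ring [lit]
  cI a b c d hq := S3_conj i hq (by
    have := congrArg (qc (ρ i) (ρ j)) (qm_I a b c d)
    rwa [qc_mul hI hJ hJI, qc_mul hI hJ hJI, show qc (ρ i) (ρ j) (0, 1, 0, 0) = ρ i by simp [qc]]
      at this)
  cJ a b c d hq := S3_conj j hq (by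
    have := congrArg (qc (ρ i) (ρ j)) (qm_J a b c d)
    rwa [qc_mul hI hJ hJI, qc_mul hI hJ hJI, show qc (ρ i) (ρ j) (0, 0, 1, 0) = ρ j by simp [qc]]
      at this)
  cyc a b c d hq := S3_conj f hq (h.two.mul_left_cancel (by
    have := congrArg (qc (ρ i) (ρ j)) (qm_cyc a b c d)
    rw [qc_mul hI hJ hJI, qc_mul hI hJ hJI, show qc (ρ i) (ρ j) (-1, 1, 1, 1) = 2 * ρ f by
      rw [eq_sub_of_add_eq hf]; simp [qc]; abel] at this
    linear_combination (norm := noncomm_ring) this))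
  one := ⟨f, f3, by simp [qc, hf]⟩
  ex a b hq := h.S3_ex hI hJ hJI hq

omit hI hJ hJI in
/-- ICO -/
theorem card_three [Finite H] {f e : H} (f3 : orderOf f = 3) (e3 : orderOf e = 3)
    (hc : ¬ Commute f e) :
    {g : H | orderOf g = 3}.ncard ≤ 20 ∧ 4 ∣ {g : H | orderOf g = 3}.ncard := by
  obtain ⟨f, i, j, f3, hI, hJ, hJI, hf⟩ := h.exists_quat f3 e3 hc
  obtain ⟨-, k1, k2⟩ := (h.S3_ico hI hJ hJI f3 hf).card
  rw [S3, Set.ncard_preimage_of_injective_subset_range (qc_inj hI hJ hJI h.two)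
    (by rw [(qc_surj hI hJ hJI h.two).range_eq]; exact Set.subset_univ _),
    Set.ncard_image_of_injective _ fun a b e => h.inj (h.two.mul_left_cancel (add_right_cancel e))]
    at k1 k2
  exact ⟨k1, k2⟩

end QA

end Cfsg.G41.PR
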