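import Cfsg.Agent.G41.PairA

/-! S4841, `p ≥ 5`: the icosahedral computation in quaternion coordinates. -/

set_option autoImplicit false

namespace Cfsg.G41.PR

variable {C : Type*} [Ring C]

/-- quaternion product, non-commutative coefficients -/
def qm (q r : C × C × C × C) : C × C × C × C :=
  (q.1 * r.1 - q.2.1 * r.2.1 - q.2.2.1 * r.2.2.1 - q.2.2.2 * r.2.2.2,
   q.1 * r.2.1 + q.2.1 * r.1 + q.2.2.1 * r.2.2.2 - q.2.2.2 * r.2.2.1,
   q.1 * r.2.2.1 + q.2.2.1 * r.1 + q.2.2.2 * r.2.1 - q.2.1 * r.2.2.2,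
   q.1 * r.2.2.2 + q.2.2.2 * r.1 + q.2.1 * r.2.2.1 - q.2.2.1 * r.2.1)

/-- the coordinates of the elements `2 g + 1`, `g` of order three -/
structure Ico (S : Set (C × C × C × C)) : Prop where
  nt : Nontrivial C
  two : IsUnit (2 : C)
  sq : ∀ q ∈ S, qm q q = (-3, 0, 0, 0)
  pair : ∀ q ∈ S, ∀ r ∈ S, q = r ∨ q = -r ∨ qm q r + qm r q = (2, 0, 0, 0) ∨
    qm q r + qm r q = (-2, 0, 0, 0) ∨ qm (qm q r + qm r q) (qm q r + qm r q) = (20, 0, 0, 0)
  neg : ∀ a b c d, (a, b, c, d) ∈ S → (-a, -b, -c, -d) ∈ S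
  cI : ∀ a b c d, (a, b, c, d) ∈ S → (a, b, -c, -d) ∈ S
  cJ : ∀ a b c d, (a, b, c, d) ∈ S → (a, -b, c, -d) ∈ S
  cyc : ∀ a b c d, (a, b, c, d) ∈ S → (a, d, b, c) ∈ S
  one : (0, 1, 1, 1) ∈ S
  ex : ∀ a b, (a, b, 0, 0) ∈ S → a * a ≠ -1

theorem four_dvd {α : Type*} {σ τ : α → α} (hσ : ∀ x, σ (σ x) = x) (hτ : ∀ x, τ (τ x) = x)
    (hc : ∀ x, σ (τ x) = τ (σ x)) (s : Finset α)
    (h : ∀ x ∈ s, σ x ∈ s ∧ τ x ∈ s ∧ σ x ≠ x ∧ τ x ≠ x ∧ σ (τ x) ≠ x) : 4 ∣ s.card := by
  classical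
  induction s using Finset.strongInduction with
  | H s ih =>
    rcases s.eq_empty_or_nonempty with rfl | ⟨x, hx⟩
    · simp
    obtain ⟨h1, h2, h3, h4, h5⟩ := h x hx
    have hsub : {x, σ x, τ x, σ (τ x)} ⊆ s := by
      simp only [Finset.insert_subset_iff, Finset.singleton_subset_iff]
      exact ⟨hx, h1, h2, (h _ h2).1⟩
    have hcard : ({x, σ x, τ x, σ (τ x)} : Finset α).card = 4 := by
      rw [Finset.card_eq_four]
      refine ⟨_, _, _, _, h3.symm, h4.symm, h5.symm, ?_, ?_, ?_, rfl⟩ <;> grind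
    rw [← Finset.card_sdiff_add_card_eq_card hsub, hcard]
    refine dvd_add (ih _ (Finset.sdiff_ssubset hsub (by simp)) fun y hy => ?_) dvd_rfl
    simp only [Finset.mem_sdiff, Finset.mem_insert, Finset.mem_singleton] at hy ⊢
    have := h y hy.1
    grind

namespace Ico

variable {S : Set (C × C × C × C)} (h : Ico S)
include h

theorem c2 {x : C} (e : 2 * x = 0) : x = 0 := h.two.mul_right_eq_zero.1 e
theorem c4 {x : C} (e : 4 * x = 0) : x = 0 :=
  h.c2 (h.c2 (by linear_combination (norm := noncomm_ring) e))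
theorem c8 {x : C} (e : 8 * x = 0) : x = 0 :=
  h.c2 (h.c4 (by linear_combination (norm := noncomm_ring) e))
theorem c16 {x : C} (e : 16 * x = 0) : x = 0 :=
  h.c4 (h.c4 (by linear_combination (norm := noncomm_ring) e))
theorem n1 (e : (1 : C) = 0) : False := have := h.nt; one_ne_zero e

theorem vs {a b c d : C} (hq : (a, b, c, d) ∈ S) :
    (a = 0 ∧ (((b = 1 ∨ b = -1) ∧ (c = 1 ∨ c = -1) ∧ (d = 1 ∨ d = -1)) ∨ b + c + d = 1 ∨
      b + c + d = -1)) ∨ ((b + c + d) * (b + c + d) = 5 + 3 * (a * a) ∧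
        a * (b + c + d) + (b + c + d) * a = 0) := by
  rcases h.pair _ hq _ h.one with e | e | e | e | e <;>
    simp only [qm, Prod.mk_add_mk, Prod.neg_mk, Prod.mk.injEq, neg_zero] at e <;>
    obtain ⟨e1, e2, e3, e4⟩ := e
  · exact .inl ⟨e1, .inl ⟨.inl e2, .inl e3, .inl e4⟩⟩
  · exact .inl ⟨e1, .inl ⟨.inr e2, .inr e3, .inr e4⟩⟩
  · refine .inl ⟨h.c2 ?_, .inr (.inr (sub_eq_zero.1 (h.c2 ?_)))⟩
    · linear_combination (norm := noncomm_ring) e2
    · linear_combination (norm := noncomm_ring [lit]) -e1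
  · refine .inl ⟨h.c2 ?_, .inr (.inl (sub_eq_zero.1 (h.c2 ?_)))⟩
    · linear_combination (norm := noncomm_ring) e2
    · linear_combination (norm := noncomm_ring [lit]) -e1
  · refine .inr ⟨sub_eq_zero.1 (h.c4 ?_), h.c4 ?_⟩
    · linear_combination (norm := noncomm_ring [lit]) e1
    · linear_combination (norm := noncomm_ring [lit]) -e2

theorem m0a {a b c d : C} (hq : (a, b, c, d) ∈ S) (ha : a ≠ 0) :
    b * b + c * c + d * d = 2 ∧ b * b = 0 := by
  obtain ⟨p1, r1⟩ := (h.vs hq).resolve_left fun e => ha e.1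
  obtain ⟨p2, r2⟩ := (h.vs (h.cI _ _ _ _ hq)).resolve_left fun e => ha e.1
  obtain ⟨p3, r3⟩ := (h.vs (h.cJ _ _ _ _ hq)).resolve_left fun e => ha e.1
  obtain ⟨p4, r4⟩ := (h.vs (h.cI _ _ _ _ (h.cJ _ _ _ _ hq))).resolve_left fun e => ha e.1
  have s := h.sq _ hq
  simp only [qm, Prod.mk.injEq] at s
  obtain ⟨s1, s2, s3, s4⟩ := s
  have a1 : a * b + b * a = 0 := h.c2 (by linear_combination (norm := noncomm_ring) r1 + r2)
  have a2 : a * c + c * a = 0 := h.c2 (by linear_combination (norm := noncomm_ring) r1 + r3)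
  have a3 : a * d + d * a = 0 := h.c2 (by linear_combination (norm := noncomm_ring) r1 + r4)
  have b1 : b * c = 0 :=
    h.c8 (by linear_combination (norm := noncomm_ring) p1 + p4 - p2 - p3 + 4 * s4 - 4 * a3)
  have b2 : b * d = 0 :=
    h.c8 (by linear_combination (norm := noncomm_ring) p1 + p3 - p2 - p4 - 4 * s3 + 4 * a2)
  have c1 : a * a = -1 := sub_eq_zero.1 (h.c8 (by
    linear_combination (norm := noncomm_ring [lit]) -p1 - p2 - p3 - p4 - 4 * s1))
  have c2 : b * b + c * c + d * d = 2 := by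
    linear_combination (norm := noncomm_ring [lit]) c1 - s1
  have c3 : b * b ≠ 1 := fun e => h.n1 (by
    linear_combination (norm := noncomm_ring [lit]) -(b * b * c2) + b * b1 * c + b * b2 * d
      + b * b * e - e)
  refine ⟨c2, ?_⟩
  rcases h.pair _ hq _ (h.cI _ _ _ _ hq) with e | e | e | e | e <;>
    simp only [qm, Prod.mk_add_mk, Prod.neg_mk, Prod.mk.injEq, neg_zero] at e
  · obtain rfl : c = 0 := h.c2 (by linear_combination (norm := noncomm_ring) e.2.2.1)
    obtain rfl : d = 0 := h.c2 (by linear_combination (norm := noncomm_ring) e.2.2.2)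
    exact absurd c1 (h.ex _ _ hq)
  · exact absurd (h.c2 (by linear_combination (norm := noncomm_ring) e.1)) ha
  · exact h.c4 (by linear_combination (norm := noncomm_ring [lit]) -e.1 + 2 * c1 + 2 * c2)
  · exact absurd (sub_eq_zero.1 (h.c4 (by
      linear_combination (norm := noncomm_ring [lit]) -e.1 + 2 * c1 + 2 * c2))) c3
  · have f1 : a * a - b * b - c * -c - d * -d + (a * a - b * b - -c * c - -d * d) =
        2 - 4 * (b * b) := by linear_combination (norm := noncomm_ring [lit]) 2 * c1 + 2 * c2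
    have f2 : a * b + b * a + c * -d - d * -c + (a * b + b * a + -c * d - -d * c) = 0 := by
      linear_combination (norm := noncomm_ring [lit]) 4 * a1 - 2 * s2
    have f3 := e.1
    rw [f1, f2] at f3
    exact absurd (sub_eq_zero.1 (h.c16 (by
      linear_combination (norm := noncomm_ring [lit]) f3 - 16 * (b * b * c2) + 16 * (b * b1 * c)
        + 16 * (b * b2 * d)))) c3

theorem m0 {a b c d : C} (hq : (a, b, c, d) ∈ S) : a = 0 := by
  by_contra ha
  obtain ⟨e, e1⟩ := h.m0a hq ha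
  have e2 := (h.m0a (h.cyc _ _ _ _ hq) ha).2
  have e3 := (h.m0a (h.cyc _ _ _ _ (h.cyc _ _ _ _ hq)) ha).2
  exact h.n1 (h.c2 (by linear_combination (norm := noncomm_ring [lit]) e1 + e2 + e3 - e))

theorem vs0 {b c d : C} (hq : (0, b, c, d) ∈ S) :
    ((b = 1 ∨ b = -1) ∧ (c = 1 ∨ c = -1) ∧ (d = 1 ∨ d = -1)) ∨ (b + c + d = 1 ∨
      b + c + d = -1) ∨ (b + c + d) * (b + c + d) = 5 := by
  rcases h.vs hq with ⟨-, e | e⟩ | ⟨e, -⟩
  · exact .inl e
  · exact .inr (.inl e)
  · exact .inr (.inr (by simpa using e))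

theorem sq0 {b c d : C} (hq : (0, b, c, d) ∈ S) : b * b + c * c + d * d = 3 := by
  have s := h.sq _ hq
  simp only [qm, Prod.mk.injEq] at s
  linear_combination (norm := noncomm_ring [lit]) -s.1

theorem free {a b : C} (hq : (a, b, 0, 0) ∈ S) : False := by
  obtain rfl := h.m0 hq
  have s := h.sq0 hq
  rcases h.vs0 hq with ⟨-, e | e, -⟩ | (e | e) | e
  · exact h.n1 e.symm
  · exact h.n1 (by linear_combination (norm := noncomm_ring) e)
  · exact h.n1 (h.c2 (by linear_combination (norm := noncomm_ring [lit]) -s + e + b * e))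
  · exact h.n1 (h.c2 (by linear_combination (norm := noncomm_ring [lit]) -s - e + b * e))
  · exact h.n1 (h.c2 (by linear_combination (norm := noncomm_ring [lit]) s - e))

theorem zz0 {x y u w : C} (hx : x = 1 ∨ x = -1) (hy : y = 1 ∨ y = -1) (hu : u * u = 5)
    (hw : w * w = 5) (hs : x + y + u + w = 0) : x + y = 0 := by
  rcases hx with rfl | rfl <;> rcases hy with rfl | rfl
  · obtain rfl : w = -2 - u := by linear_combination (norm := noncomm_ring [lit]) hs
    obtain rfl : u = -1 :=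
      sub_eq_zero.1 (h.c4 (by linear_combination (norm := noncomm_ring [lit]) hw - hu))
    exact (h.n1 (h.c4 (by linear_combination (norm := noncomm_ring [lit]) -hu))).elim
  · simp
  · simp
  · obtain rfl : w = 2 - u := by linear_combination (norm := noncomm_ring [lit]) hs
    obtain rfl : u = 1 :=
      sub_eq_zero.1 (h.c4 (by linear_combination (norm := noncomm_ring [lit]) hu - hw))
    exact (h.n1 (h.c4 (by linear_combination (norm := noncomm_ring [lit]) -hu))).elim

theorem four {x y u w : C} (hx : (x = 1 ∨ x = -1) ∨ x * x = 5) (hy : (y = 1 ∨ y = -1) ∨ y * y = 5)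
    (hu : (u = 1 ∨ u = -1) ∨ u * u = 5) (hw : (w = 1 ∨ w = -1) ∨ w * w = 5)
    (hs : x + y + u + w = 0) (t : x * x + y * y + u * u + w * w = 12) :
    x + y = 0 ∨ x + u = 0 ∨ x + w = 0 := by
  have sq : ∀ x : C, (x = 1 ∨ x = -1) → x * x = 1 := by rintro x (rfl | rfl) <;> simp
  have n4 : (4 : C) ≠ 0 := fun e => h.n1 (h.c4 (by rw [e, zero_mul]))
  have n8 : (8 : C) ≠ 0 := fun e => h.n1 (h.c8 (by rw [e, zero_mul]))
  have k1 : (1 : C) + 1 + 1 + 1 ≠ 12 := fun e => n8 (by
    linear_combination (norm := noncomm_ring [lit]) -e)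
  have k2 : (1 : C) + 1 + 1 + 5 ≠ 12 := fun e => n4 (by
    linear_combination (norm := noncomm_ring [lit]) -e)
  have k3 : (1 : C) + 5 + 5 + 5 ≠ 12 := fun e => n4 (by
    linear_combination (norm := noncomm_ring [lit]) e)
  have k4 : (5 : C) + 5 + 5 + 5 ≠ 12 := fun e => n8 (by
    linear_combination (norm := noncomm_ring [lit]) e)
  rcases hx with p1 | p1 <;> rcases hy with p2 | p2 <;> rcases hu with p3 | p3 <;>
    rcases hw with p4 | p4
  · exact (k1 (by rw [← t, sq _ p1, sq _ p2, sq _ p3, sq _ p4])).elim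
  · exact (k2 (by rw [← t, sq _ p1, sq _ p2, sq _ p3, p4])).elim
  · exact (k2 (by rw [← t, sq _ p1, sq _ p2, p3, sq _ p4]; abel)).elim
  · exact .inl (h.zz0 p1 p2 p3 p4 hs)
  · exact (k2 (by rw [← t, sq _ p1, p2, sq _ p3, sq _ p4]; abel)).elim
  · exact .inr (.inl (h.zz0 p1 p3 p2 p4 (by rw [← hs]; abel)))
  · exact .inr (.inr (h.zz0 p1 p4 p2 p3 (by rw [← hs]; abel)))
  · exact (k3 (by rw [← t, sq _ p1, p2, p3, p4])).elim
  · exact (k2 (by rw [← t, p1, sq _ p2, sq _ p3, sq _ p4]; abel)).elim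
  · exact .inr (.inr (by
      linear_combination (norm := abel1) hs - h.zz0 p2 p3 p1 p4 (by rw [← hs]; abel)))
  · exact .inr (.inl (by
      linear_combination (norm := abel1) hs - h.zz0 p2 p4 p1 p3 (by rw [← hs]; abel)))
  · exact (k3 (by rw [← t, p1, sq _ p2, p3, p4]; abel)).elim
  · exact .inl (by
      linear_combination (norm := abel1) hs - h.zz0 p3 p4 p1 p2 (by rw [← hs]; abel))
  · exact (k3 (by rw [← t, p1, p2, sq _ p3, p4]; abel)).elim
  · exact (k3 (by rw [← t, p1, p2, p3, sq _ p4]; abel)).elim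
  · exact (k4 (by rw [← t, p1, p2, p3, p4])).elim

theorem cases {b c d : C} (hq : (0, b, c, d) ∈ S) :
    ((b = 1 ∨ b = -1) ∧ (c = 1 ∨ c = -1) ∧ (d = 1 ∨ d = -1)) ∨ b = 0 ∨ c = 0 ∨ d = 0 := by
  have pm : ∀ x : C, (-x = 1 ∨ -x = -1) → (x = 1 ∨ x = -1) := fun x e =>
    e.elim (fun e => .inr (neg_eq_iff_eq_neg.1 e)) fun e => .inl (neg_inj.1 e)
  rw [or_iff_not_imp_left]
  intro h0
  have p1 := (h.vs0 hq).resolve_left h0
  have p2 := (h.vs0 (h.cI _ _ _ _ hq)).resolve_left fun e => h0 ⟨e.1, pm _ e.2.1, pm _ e.2.2⟩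
  have p3 := (h.vs0 (h.cJ _ _ _ _ hq)).resolve_left fun e => h0 ⟨pm _ e.1, e.2.1, pm _ e.2.2⟩
  have p4 := (h.vs0 (h.cI _ _ _ _ (h.cJ _ _ _ _ hq))).resolve_left
    fun e => h0 ⟨pm _ e.1, pm _ e.2.1, by simpa using e.2.2⟩
  refine (h.four p1 p2 p3 p4 (by abel) (by
    linear_combination (norm := noncomm_ring [lit]) 4 * h.sq0 hq)).imp (fun e => h.c2 ?_)
    (Or.imp (fun e => h.c2 ?_) fun e => h.c2 ?_) <;>
  linear_combination (norm := noncomm_ring) e

theorem good {c d : C} (hq : (0, 0, c, d) ∈ S) :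
    ∃ a, (0, 0, a, a - 1) ∈ S ∧ (c = a ∨ c = -a) ∧ (d = a - 1 ∨ d = -(a - 1)) := by
  have q2 : ((0 : C), (0 : C), c, -d) ∈ S := by simpa using h.cJ _ _ _ _ hq
  have q3 : ((0 : C), (0 : C), -c, -d) ∈ S := h.cI _ _ _ _ hq
  have q4 : ((0 : C), (0 : C), -c, d) ∈ S := by simpa using h.cI _ _ _ _ q2
  have n0 : ¬ ((0 : C) = 1 ∨ (0 : C) = -1) := fun e => h.n1
    (e.elim Eq.symm fun e => by linear_combination (norm := noncomm_ring) e)
  have s := h.sq0 hq
  rcases (h.vs0 hq).resolve_left fun e => n0 e.1 with (e | e) | e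
  · obtain rfl : d = -(c - 1) := by linear_combination (norm := noncomm_ring) e
    exact ⟨c, by simpa using q2, .inl rfl, .inr rfl⟩
  · obtain rfl : d = -c - 1 := by linear_combination (norm := noncomm_ring) e
    exact ⟨-c, q4, .inr (neg_neg c).symm, .inl rfl⟩
  rcases (h.vs0 q2).resolve_left fun e => n0 e.1 with (e' | e') | e'
  · obtain rfl : d = c - 1 := by linear_combination (norm := noncomm_ring) -e'
    exact ⟨c, hq, .inl rfl, .inl rfl⟩
  · obtain rfl : d = -(-c - 1) := by linear_combination (norm := noncomm_ring) -e'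
    exact ⟨-c, by simpa only [neg_neg] using q3, .inr (neg_neg c).symm, .inr rfl⟩
  · exact (h.n1 (h.c4 (by linear_combination (norm := noncomm_ring [lit]) 2 * s - e - e'))).elim

theorem good_sq {x : C} (hx : (0, 0, x, x - 1) ∈ S) : x * x = x + 1 := sub_eq_zero.1
    (h.c2 (by linear_combination (norm := noncomm_ring [lit]) h.sq0 hx))

theorem good_ne {x : C} (hx : (0, 0, x, x - 1) ∈ S) : x ≠ 0 := fun e => h.n1 (by
  have := h.good_sq hx
  rw [e] at this; simpa using this.symm)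

theorem gu1 {a c : C} (ha : (0, 0, a, a - 1) ∈ S) (hc : (0, 0, c, c - 1) ∈ S) (hne : a ≠ c) {γ : C}
    (hγ : γ = 2 * (a * c + c * a) - 2 * a - 2 * c + 1) : (γ - 1) * (γ - 1) = 16 := by
  have a1 := h.good_sq ha
  have c1 := h.good_sq hc
  have a2 : ∀ y, a * (a * y) = a * y + y := fun y => by rw [← mul_assoc, a1]; noncomm_ring
  have c2 : ∀ y, c * (c * y) = c * y + y := fun y => by rw [← mul_assoc, c1]; noncomm_ring
  rcases h.pair _ ha _ (h.cJ _ _ _ _ hc) with e | e | e | e | e <;>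
    simp only [qm, Prod.mk_add_mk, Prod.neg_mk, Prod.mk.injEq, neg_zero, mul_zero, zero_mul,
      add_zero, zero_add, sub_zero, sub_self] at e
  · exact absurd e.2.2.1 hne
  · exact absurd (by linear_combination (norm := noncomm_ring) e.2.2.2) hne
  · obtain rfl : c = -a :=
      sub_eq_zero.1 (h.c2 (by linear_combination (norm := noncomm_ring [lit]) -e.1))
    exact (h.good_ne ha (h.c2 (by linear_combination (norm := noncomm_ring [lit]) c1 - a1))).elim
  · obtain rfl : c = 2 - a :=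
      sub_eq_zero.1 (h.c2 (by linear_combination (norm := noncomm_ring [lit]) -e.1))
    obtain rfl : a = 1 :=
      sub_eq_zero.1 (h.c2 (by linear_combination (norm := noncomm_ring [lit]) a1 - c1))
    exact (h.n1 (by linear_combination (norm := noncomm_ring [lit]) -a1)).elim
  · rw [hγ]
    linear_combination (norm := noncomm_ring [lit, a1, a2, c1, c2]) -e.1

theorem gu2 {a c : C} (ha : (0, 0, a, a - 1) ∈ S) (hc : (0, 0, c, c - 1) ∈ S) (hne : a ≠ c) :
    a * c + c * a = a + c - 2 := by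
  obtain ⟨γ, hγ⟩ : ∃ γ, γ = 2 * (a * c + c * a) - 2 * a - 2 * c + 1 := ⟨_, rfl⟩
  have g1 := h.gu1 ha hc hne hγ
  have g2 : γ ≠ 1 := fun e => h.n1 (h.c16 (by
    rw [e] at g1; linear_combination (norm := noncomm_ring [lit]) -g1))
  have g3 : γ = -3 := by
    rcases h.pair _ ha _ hc with e | e | e | e | e <;>
      simp only [qm, Prod.mk_add_mk, Prod.neg_mk, Prod.mk.injEq, neg_zero, mul_zero, zero_mul,
        add_zero, zero_add, sub_zero, sub_self] at e
    · exact absurd e.2.2.1 hne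
    · exact (h.n1 (h.c2 (by
        linear_combination (norm := noncomm_ring [lit]) e.2.2.1 - e.2.2.2))).elim
    · linear_combination (norm := noncomm_ring [lit]) hγ - e.1
    · exact absurd (by linear_combination (norm := noncomm_ring [lit]) hγ - e.1) g2
    · have f1 : 0 - a * c - (a - 1) * (c - 1) + (0 - c * a - (c - 1) * (a - 1)) = -1 - γ := by
        linear_combination (norm := noncomm_ring [lit]) hγ
      have f2 : a * (c - 1) - (a - 1) * c + (c * (a - 1) - (c - 1) * a) = 0 := by noncomm_ring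
      have f3 := e.1
      rw [f1, f2] at f3
      exact absurd (sub_eq_zero.1 (h.c4 (by
        linear_combination (norm := noncomm_ring [lit]) f3 - g1))) g2
  exact sub_eq_zero.1 (h.c2 (by linear_combination (norm := noncomm_ring [lit]) g3 - hγ))

theorem good_unique {a c : C} (ha : (0, 0, a, a - 1) ∈ S) (hc : (0, 0, c, c - 1) ∈ S) : a = c := by
  have a1 := h.good_sq ha
  have c1 := h.good_sq hc
  have a2 : ∀ y, a * (a * y) = a * y + y := fun y => by rw [← mul_assoc, a1]; noncomm_ring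
  have c2 : ∀ y, c * (c * y) = c * y + y := fun y => by rw [← mul_assoc, c1]; noncomm_ring
  by_contra hne
  have g4 := h.gu2 ha hc hne
  have g5 : a * c - c * a ≠ 0 := fun e => h.n1 (h.c4 (by
    linear_combination (norm := noncomm_ring [lit, a1, a2, c1, c2]) -((a * c - c * a) * e)
      + (a * c + c * a - a - c - 1) * g4))
  rcases h.pair _ ha _ (h.cyc _ _ _ _ hc) with e | e | e | e | e <;>
    simp only [qm, Prod.mk_add_mk, Prod.neg_mk, Prod.mk.injEq, neg_zero, mul_zero, zero_mul,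
      add_zero, zero_add, sub_zero, sub_self] at e
  · exact h.good_ne ha e.2.2.1
  · exact h.good_ne ha e.2.2.1
  · exact g5 (by linear_combination (norm := noncomm_ring) e.2.1)
  · exact g5 (by linear_combination (norm := noncomm_ring) e.2.1)
  · obtain ⟨κ, hκ⟩ : ∃ κ, κ = a * c - c * a := ⟨_, rfl⟩
    have f1 : 0 - (a - 1) * c + (0 - c * (a - 1)) = 2 + c - a := by
      linear_combination (norm := noncomm_ring [lit]) -g4
    have f2 : a * c + (0 - c * a) = κ := by rw [hκ]; noncomm_ring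
    have f3 : (a - 1) * (c - 1) + (0 - (c - 1) * (a - 1)) = κ := by rw [hκ]; noncomm_ring
    have f4 : 0 - a * (c - 1) + (c - 1) * a = -κ := by rw [hκ]; noncomm_ring
    have f5 : (c - a) * κ + κ * (c - a) = 0 := by rw [hκ]; noncomm_ring [a1, a2, c1, c2]
    have f6 := e.2.1
    rw [f1, f2, f3, f4] at f6
    exact g5 (hκ ▸ h.c4 (by linear_combination (norm := noncomm_ring [lit]) f6 - f5))

theorem card : S.Finite ∧ S.ncard ≤ 20 ∧ 4 ∣ S.ncard := by
  classical
  obtain ⟨a, ha⟩ : ∃ a, ∀ x, (0, 0, x, x - 1) ∈ S → x = a := by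
    by_cases h0 : ∃ a, (0, 0, a, a - 1) ∈ S
    · exact h0.imp fun a ha x hx => h.good_unique hx ha
    · exact ⟨0, fun x hx => absurd ⟨x, hx⟩ h0⟩
  let l : List (C × C × C × C) := [(0, 1, 1, 1), (0, 1, 1, -1), (0, 1, -1, 1), (0, 1, -1, -1),
    (0, -1, 1, 1), (0, -1, 1, -1), (0, -1, -1, 1), (0, -1, -1, -1),
    (0, 0, a, a - 1), (0, 0, a, -(a - 1)), (0, 0, -a, a - 1), (0, 0, -a, -(a - 1)),
    (0, a - 1, 0, a), (0, -(a - 1), 0, a), (0, a - 1, 0, -a), (0, -(a - 1), 0, -a),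
    (0, a, a - 1, 0), (0, a, -(a - 1), 0), (0, -a, a - 1, 0), (0, -a, -(a - 1), 0)]
  have hl : S ⊆ l.toFinset := by
    rintro ⟨x, b, c, d⟩ hq
    obtain rfl := h.m0 hq
    rw [Finset.mem_coe, List.mem_toFinset]
    rcases h.cases hq with ⟨rfl | rfl, rfl | rfl, rfl | rfl⟩ | rfl | rfl | rfl
    iterate 8 simp only [l, List.mem_cons, true_or, or_true]
    · obtain ⟨y, hy, e1, e2⟩ := h.good hq
      obtain rfl := ha y hy
      rcases e1 with rfl | rfl <;> rcases e2 with rfl | rfl <;>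
        simp only [l, List.mem_cons, true_or, or_true]
    · obtain ⟨y, hy, e1, e2⟩ := h.good (h.cyc _ _ _ _ (h.cyc _ _ _ _ hq))
      obtain rfl := ha y hy
      rcases e1 with rfl | rfl <;> rcases e2 with rfl | rfl <;>
        simp only [l, List.mem_cons, true_or, or_true]
    · obtain ⟨y, hy, e1, e2⟩ := h.good (h.cyc _ _ _ _ hq)
      obtain rfl := ha y hy
      rcases e1 with rfl | rfl <;> rcases e2 with rfl | rfl <;>
        simp only [l, List.mem_cons, true_or, or_true]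
  have hf : S.Finite := (Finset.finite_toSet _).subset hl
  refine ⟨hf, ?_, ?_⟩
  · refine (Set.ncard_le_ncard hl (Finset.finite_toSet _)).trans ?_
    rw [Set.ncard_coe_finset]
    exact List.toFinset_card_le l
  · rw [Set.ncard_eq_toFinset_card S hf]
    refine four_dvd (σ := fun q => (q.1, q.2.1, -q.2.2.1, -q.2.2.2))
      (τ := fun q => (q.1, -q.2.1, q.2.2.1, -q.2.2.2)) (by simp) (by simp) (by simp) _ ?_
    rintro ⟨x, b, c, d⟩ hq
    simp only [Set.Finite.mem_toFinset, ne_eq, Prod.mk.injEq, true_and, neg_neg, and_true] at hq ⊢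
    have z : ∀ y : C, -y = y → y = 0 := fun y e =>
      h.c2 (by linear_combination (norm := noncomm_ring) -e)
    refine ⟨h.cI _ _ _ _ hq, h.cJ _ _ _ _ hq, fun e => ?_, fun e => ?_, fun e => ?_⟩
    · rw [z _ e.1, z _ e.2] at hq
      exact h.free hq
    · rw [z _ e.1, z _ e.2] at hq
      exact h.free (h.cyc _ _ _ _ (h.cyc _ _ _ _ hq))
    · rw [z _ e.1, z _ e.2] at hq
      exact h.free (h.cyc _ _ _ _ hq)

end Ico

end Cfsg.G41.PR
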