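import Mathlib

/-! Finite special Jordan division algebras are fields. -/

set_option autoImplicit false

namespace Cfsg.G41.JF

open Polynomial

section span

variable {K A : Type*} [Field K] [Ring A] [Algebra K A]

theorem span_tri (T : Set A) (h : ∀ a ∈ T, ∀ b ∈ T, ∀ c ∈ T, a * b * c + c * b * a ∈
    Submodule.span K T) {u y w : A} (hu : u ∈ Submodule.span K T) (hy : y ∈ Submodule.span K T)
    (hw : w ∈ Submodule.span K T) : u * y * w + w * y * u ∈ Submodule.span K T := by
  induction hu using Submodule.span_induction with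
  | mem a ha =>
    induction hy using Submodule.span_induction with
    | mem b hb =>
      induction hw using Submodule.span_induction with
      | mem c hc => exact h a ha b hb c hc
      | zero => simp
      | add c c' _ _ h1 h2 =>
        have : a * b * (c + c') + (c + c') * b * a = (a * b * c + c * b * a) +
          (a * b * c' + c' * b * a) := by noncomm_ring
        rw [this]; exact add_mem h1 h2
      | smul r c _ h1 =>
        have : a * b * (r • c) + (r • c) * b * a = r • (a * b * c + c * b * a) := by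
          simp [smul_add]
        rw [this]; exact Submodule.smul_mem _ _ h1
    | zero => simp
    | add b b' _ _ h1 h2 =>
      have : a * (b + b') * w + w * (b + b') * a = (a * b * w + w * b * a) +
        (a * b' * w + w * b' * a) := by noncomm_ring
      rw [this]; exact add_mem h1 h2
    | smul r b _ h1 =>
      have : a * (r • b) * w + w * (r • b) * a = r • (a * b * w + w * b * a) := by
        simp [smul_add]
      rw [this]; exact Submodule.smul_mem _ _ h1
  | zero => simp
  | add a a' _ _ h1 h2 =>
    have : (a + a') * y * w + w * y * (a + a') = (a * y * w + w * y * a) +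
      (a' * y * w + w * y * a') := by noncomm_ring
    rw [this]; exact add_mem h1 h2
  | smul r a _ h1 =>
    have : (r • a) * y * w + w * y * (r • a) = r • (a * y * w + w * y * a) := by
      simp [smul_add]
    rw [this]; exact Submodule.smul_mem _ _ h1

theorem span_quad (T : Set A) (h : ∀ a ∈ T, ∀ b ∈ T, ∀ c ∈ T, a * b * c + c * b * a ∈
    Submodule.span K T) (h2 : ∀ a ∈ T, ∀ b ∈ T, a * b * a ∈ Submodule.span K T)
    {u y : A} (hu : u ∈ Submodule.span K T) (hy : y ∈ Submodule.span K T) :
    u * y * u ∈ Submodule.span K T := by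
  induction hu using Submodule.span_induction with
  | mem a ha =>
    induction hy using Submodule.span_induction with
    | mem b hb => exact h2 a ha b hb
    | zero => simp
    | add b b' _ _ h1 h3 =>
      rw [mul_add, add_mul]; exact add_mem h1 h3
    | smul r b _ h1 =>
      have : a * (r • b) * a = r • (a * b * a) := by simp
      rw [this]; exact Submodule.smul_mem _ _ h1
  | zero => simp
  | add a a' ha ha' h1 h3 =>
    have : (a + a') * y * (a + a') = a * y * a + a' * y * a' + (a * y * a' + a' * y * a) := by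
      noncomm_ring
    rw [this]; exact add_mem (add_mem h1 h3) (span_tri T h ha hy ha')
  | smul r a _ h1 =>
    have : (r • a) * y * (r • a) = (r * r) • (a * y * a) := by simp [mul_smul]
    rw [this]; exact Submodule.smul_mem _ _ h1

end span

theorem pow_mem_of {A : Type*} [Monoid A] (P : A → Prop) (h1 : P 1) {x : A} (hx : P x)
    (hU : ∀ y, P y → P (x * y * x)) (k : ℕ) : P (x ^ k) := by
  induction k using Nat.twoStepInduction with
  | zero => simpa using h1
  | one => simpa using hx
  | more k ih _ =>
    have : x ^ (k + 2) = x * x ^ k * x := by rw [pow_succ, pow_succ']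
    rw [this]; exact hU _ ih

theorem totalDegree_charpoly {F σ n : Type*} [Field F] [Fintype n] [DecidableEq n]
    (x : Matrix n n (MvPolynomial σ F)) (hx : ∀ i j, (x i j).IsHomogeneous 1) :
    ((MvPolynomial.optionEquivLeft F σ).symm x.charpoly).totalDegree ≤ Fintype.card n := by
  classical
  have hC : ∀ r : MvPolynomial σ F, (MvPolynomial.optionEquivLeft F σ).symm (C r) =
      MvPolynomial.rename some r := by
    intro r
    apply (MvPolynomial.optionEquivLeft F σ).injective
    rw [AlgEquiv.apply_symm_apply]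
    induction r using MvPolynomial.induction_on with
    | C a => simp [MvPolynomial.optionEquivLeft_C]
    | add p q hp hq => simp only [map_add, ← hp, ← hq]
    | mul_X p i hp => simp only [map_mul, ← hp, MvPolynomial.rename_X,
        MvPolynomial.optionEquivLeft_X_some]
  have hX : (MvPolynomial.optionEquivLeft F σ).symm X = MvPolynomial.X none := by
    apply (MvPolynomial.optionEquivLeft F σ).injective
    rw [AlgEquiv.apply_symm_apply, MvPolynomial.optionEquivLeft_X_none]
  apply MvPolynomial.IsHomogeneous.totalDegree_le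
  rw [Matrix.charpoly, Matrix.det_apply', map_sum]
  apply MvPolynomial.IsHomogeneous.sum
  intro s _
  rw [map_mul, map_intCast, map_prod]
  have h1 : (∏ i, (MvPolynomial.optionEquivLeft F σ).symm (x.charmatrix (s i) i)).IsHomogeneous
      (∑ _i : n, 1) := by
    apply MvPolynomial.IsHomogeneous.prod
    intro i _
    rw [Matrix.charmatrix_apply, map_sub, hC]
    refine MvPolynomial.IsHomogeneous.sub ?_ (hx _ _).rename_isHomogeneous
    by_cases h : s i = i
    · rw [h, Matrix.diagonal_apply_eq, hX]; exact MvPolynomial.isHomogeneous_X _ _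
    · rw [Matrix.diagonal_apply_ne _ h, map_zero]; exact MvPolynomial.isHomogeneous_zero _ _ _
  have h2 : (((Equiv.Perm.sign s : ℤˣ) : ℤ) : MvPolynomial (Option σ) F) =
      MvPolynomial.C (((Equiv.Perm.sign s : ℤˣ) : ℤ) : F) := by simp
  rw [h2]
  have h3 := h1.C_mul (((Equiv.Perm.sign s : ℤˣ) : ℤ) : F)
  rwa [Finset.sum_const, smul_eq_mul, mul_one, Finset.card_univ] at h3

theorem totalDegree_coeff_zero_le {F σ : Type*} [Field F] {P μ ν : (MvPolynomial σ F)[X]}
    (hP : P = μ * ν) (hμ : μ.Monic) (hν : ν.Monic)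
    (hd : ((MvPolynomial.optionEquivLeft F σ).symm P).totalDegree ≤ P.natDegree) :
    (μ.coeff 0).totalDegree ≤ μ.natDegree := by
  set e := MvPolynomial.optionEquivLeft F σ
  have h0 : ∀ q : (MvPolynomial σ F)[X], q.natDegree ≤ (e.symm q).totalDegree := by
    intro q
    have := MvPolynomial.natDegree_optionEquivLeft F (e.symm q)
    rw [AlgEquiv.apply_symm_apply] at this
    rw [this]; exact MvPolynomial.degreeOf_le_totalDegree _ _
  have h1 : (e.symm P).totalDegree = (e.symm μ).totalDegree + (e.symm ν).totalDegree := by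
    rw [hP, map_mul]
    exact MvPolynomial.totalDegree_mul_of_isDomain (by simpa using hμ.ne_zero)
      (by simpa using hν.ne_zero)
  have h2 : P.natDegree = μ.natDegree + ν.natDegree := by rw [hP, hμ.natDegree_mul hν]
  have h3 := MvPolynomial.totalDegree_coeff_optionEquivLeft_le F σ (e.symm μ) 0
  rw [AlgEquiv.apply_symm_apply] at h3
  have := h0 ν
  omega

theorem comm_matrix {F n : Type*} [Field F] [Finite F] [Fintype n] [DecidableEq n]
    (S : Submodule F (Matrix n n F)) (h1 : (1 : Matrix n n F) ∈ S)
    (hu : ∀ a ∈ S, a ≠ 0 → IsUnit a) (hU : ∀ a ∈ S, ∀ b ∈ S, a * b * a ∈ S) :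
    ∀ a ∈ S, ∀ b ∈ S, a * b = b * a := by
  classical
  rcases isEmpty_or_nonempty n with hn | hn
  · intro a _ b _; exact Subsingleton.elim _ _
  haveI := Fintype.ofFinite F
  set d := Module.finrank F S with hd
  let bs := Module.finBasis F S
  let s : Fin d → Matrix n n F := fun i => (bs i : Matrix n n F)
  let R := MvPolynomial (Fin d) F
  let K := FractionRing R
  let x : Matrix n n R := ∑ i, (MvPolynomial.X i : R) • (s i).map MvPolynomial.C
  let ι : Matrix n n F →+* Matrix n n K := RingHom.mapMatrix (algebraMap F K)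
  let j : Matrix n n R →+* Matrix n n K := RingHom.mapMatrix (algebraMap R K)
  have hinjR : Function.Injective (algebraMap R K) := IsFractionRing.injective R K
  have hιinj : Function.Injective ι := by
    intro a b h
    ext k l
    exact (algebraMap F K).injective (congrFun (congrFun h k) l)
  have hjinj : Function.Injective j := by
    intro a b h
    ext1 k l
    exact hinjR (congrFun (congrFun h k) l)
  let T : Set (Matrix n n K) := Set.range fun i => ι (s i)
  have hA : ∀ a ∈ S, ι a ∈ Submodule.span K T := by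
    intro a ha
    have e := congrArg Subtype.val (bs.sum_repr ⟨a, ha⟩)
    simp only [Submodule.coe_sum, Submodule.coe_smul] at e
    have : ι a = ∑ i, algebraMap F K (bs.repr ⟨a, ha⟩ i) • ι (s i) := by
      conv_lhs => rw [← e]
      rw [map_sum]
      refine Finset.sum_congr rfl fun i _ => ?_
      ext k l
      simp [ι, s]
    rw [this]
    exact Submodule.sum_mem _ fun i _ => Submodule.smul_mem _ _
      (Submodule.subset_span ⟨i, rfl⟩)
  have hsS : ∀ i, s i ∈ S := fun i => (bs i).2
  have hx : j x = ∑ i, algebraMap R K (MvPolynomial.X i) • ι (s i) := by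
    simp only [x, map_sum]
    refine Finset.sum_congr rfl fun i _ => ?_
    ext k l
    simp only [j, ι, RingHom.mapMatrix_apply, Matrix.map_apply, Matrix.smul_apply, smul_eq_mul,
      map_mul]
    rfl
  have hxT : j x ∈ Submodule.span K T := by
    rw [hx]
    exact Submodule.sum_mem _ fun i _ => Submodule.smul_mem _ _
      (Submodule.subset_span ⟨i, rfl⟩)
  have hpow : ∀ k : ℕ, (j x) ^ k ∈ Submodule.span K T := by
    refine pow_mem_of (· ∈ Submodule.span K T) (by simpa using hA 1 h1) hxT fun y hy => ?_
    refine span_quad T ?_ ?_ hxT hy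
    · rintro _ ⟨a, rfl⟩ _ ⟨b, rfl⟩ _ ⟨c, rfl⟩
      have : s a * s b * s c + s c * s b * s a ∈ S := by
        have e : s a * s b * s c + s c * s b * s a =
          (s a + s c) * s b * (s a + s c) - s a * s b * s a - s c * s b * s c := by noncomm_ring
        rw [e]
        exact sub_mem (sub_mem (hU _ (add_mem (hsS a) (hsS c)) _ (hsS b))
          (hU _ (hsS a) _ (hsS b))) (hU _ (hsS c) _ (hsS b))
      simpa using hA _ this
    · rintro _ ⟨a, rfl⟩ _ ⟨b, rfl⟩
      simpa using hA _ (hU _ (hsS a) _ (hsS b))
  -- the generic minimal polynomial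
  have hint : IsIntegral K (j x) := Algebra.IsIntegral.isIntegral _
  have hdvd : minpoly K (j x) ∣ x.charpoly.map (algebraMap R K) := by
    rw [← Matrix.charpoly_map]
    exact Matrix.minpoly_dvd_charpoly _
  obtain ⟨μ, hμ⟩ := IsIntegrallyClosed.eq_map_mul_C_of_dvd K x.charpoly_monic hdvd
  rw [(minpoly.monic hint).leadingCoeff, C_1, mul_one] at hμ
  have hμm : μ.Monic := monic_of_injective hinjR (hμ ▸ minpoly.monic hint)
  obtain ⟨ν, hν⟩ : μ ∣ x.charpoly := by
    rw [← map_dvd_map _ hinjR hμm, hμ]; exact hdvd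
  have hνm : ν.Monic := hμm.of_mul_monic_left (hν ▸ x.charpoly_monic)
  have hdeg : (μ.coeff 0).totalDegree ≤ μ.natDegree := by
    refine totalDegree_coeff_zero_le hν hμm hνm ?_
    rw [Matrix.charpoly_natDegree_eq_dim]
    refine totalDegree_charpoly x fun k l => ?_
    simp only [x, Matrix.sum_apply, Matrix.smul_apply, Matrix.map_apply, smul_eq_mul]
    refine MvPolynomial.IsHomogeneous.sum _ _ _ fun i _ => ?_
    rw [mul_comm]
    exact MvPolynomial.isHomogeneous_C_mul_X _ _
  have hev : ∀ a : Fin d → F, x.map (MvPolynomial.eval a) = ∑ i, a i • s i := by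
    intro a
    ext k l
    simp [x, Matrix.sum_apply, R]
  have hz0 : MvPolynomial.eval (0 : Fin d → F) (μ.coeff 0) = 0 := by
    have e1 : aeval x μ = 0 := by
      apply hjinj
      have := minpoly.aeval K (j x)
      rw [← hμ, aeval_map_algebraMap] at this
      rw [map_zero, ← this]
      exact (Polynomial.aeval_algHom_apply
        (AlgHom.mapMatrix (Algebra.ofId R K) : Matrix n n R →ₐ[R] Matrix n n K) x μ).symm
    let f : Matrix n n R →+* Matrix n n F := RingHom.mapMatrix (MvPolynomial.eval 0)
    have e2 := congrArg f e1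
    rw [aeval_def, hom_eval₂, map_zero] at e2
    have e3 : f x = 0 := by
      have := hev 0
      simp only [Pi.zero_apply, zero_smul, Finset.sum_const_zero] at this
      exact this
    rw [e3, eval₂_at_zero] at e2
    obtain ⟨k⟩ := hn
    have := congrFun (congrFun e2 k) k
    simpa [f, Matrix.algebraMap_matrix_apply] using this
  have hz : ∀ a : Fin d → F, MvPolynomial.eval a (μ.coeff 0) = 0 → a = 0 := by
    intro a ha
    by_contra hne
    have h0 : ∑ i, a i • s i ≠ 0 := by
      intro h
      apply hne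
      have : ∑ i, a i • bs i = 0 := by
        apply Subtype.ext
        simpa [s] using h
      exact funext (Fintype.linearIndependent_iff.1 bs.linearIndependent a this)
    have h2 := hu _ (S.sum_mem fun i _ => S.smul_mem _ (hsS i)) h0
    rw [Matrix.isUnit_iff_isUnit_det, ← hev, ← RingHom.mapMatrix_apply, ← RingHom.map_det,
      Matrix.det_eq_sign_charpoly_coeff, hν, mul_coeff_zero, map_mul, map_mul, ha] at h2
    simp at h2
  have hdm : d ≤ μ.natDegree := by
    by_contra hlt
    obtain ⟨p, hp⟩ := CharP.exists F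
    have hpp : p.Prime := CharP.char_is_prime F p
    have := char_dvd_card_solutions p (f := μ.coeff 0) (by
      rw [Fintype.card_fin]; omega)
    have hc : Fintype.card { a : Fin d → F // MvPolynomial.eval a (μ.coeff 0) = 0 } = 1 := by
      rw [Fintype.card_eq_one_iff]
      exact ⟨⟨0, hz0⟩, fun a => Subtype.ext (hz a.1 a.2)⟩
    rw [hc] at this
    exact hpp.one_lt.ne' (Nat.dvd_one.1 this)
  have hnd : μ.natDegree = (minpoly K (j x)).natDegree := by
    rw [← hμ, natDegree_map_eq_of_injective hinjR]
  have hli := linearIndependent_pow (K := K) (j x)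
  have heq : Submodule.span K (Set.range fun i : Fin (minpoly K (j x)).natDegree =>
      (j x) ^ (i : ℕ)) = Submodule.span K T := by
    apply Submodule.eq_of_le_of_finrank_le
    · rw [Submodule.span_le]
      rintro _ ⟨i, rfl⟩
      exact hpow i
    · rw [finrank_span_eq_card hli, Fintype.card_fin, ← hnd]
      refine le_trans ?_ hdm
      have := finrank_range_le_card (R := K) fun i => ι (s i)
      rw [Fintype.card_fin] at this
      exact this
  have hcomm : ∀ u ∈ Submodule.span K T, ∀ w ∈ Submodule.span K T, Commute u w := by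
    rw [← heq]
    intro u hu' w hw
    induction hu' using Submodule.span_induction with
    | mem a ha =>
      induction hw using Submodule.span_induction with
      | mem b hb =>
        obtain ⟨i, rfl⟩ := ha
        obtain ⟨k, rfl⟩ := hb
        exact Commute.pow_pow_self _ _ _
      | zero => exact Commute.zero_right _
      | add _ _ _ _ h2 h3 => exact h2.add_right h3
      | smul r _ _ h2 => exact h2.smul_right r
    | zero => exact Commute.zero_left _
    | add _ _ _ _ h2 h3 => exact h2.add_left h3
    | smul r _ _ h2 => exact h2.smul_left r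
  intro a ha b hb
  apply hιinj
  rw [map_mul, map_mul]
  exact hcomm _ (hA a ha) _ (hA b hb)

theorem comm_alg {F A : Type*} [Field F] [Finite F] [Ring A] [Algebra F A] [Module.Finite F A]
    (S : Submodule F A) (h1 : (1 : A) ∈ S)
    (hu : ∀ a ∈ S, a ≠ 0 → IsUnit a) (hU : ∀ a ∈ S, ∀ b ∈ S, a * b * a ∈ S) :
    ∀ a ∈ S, ∀ b ∈ S, a * b = b * a := by
  classical
  let bA := Module.finBasis F A
  let f := Algebra.leftMulMatrix bA
  have hf : Function.Injective f := Algebra.leftMulMatrix_injective bA
  have := comm_matrix (S.map f.toLinearMap) ⟨1, h1, map_one f⟩ (by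
    rintro _ ⟨a, ha, rfl⟩ h0
    exact (hu a ha fun h => h0 (by simp [h])).map f) (by
    rintro _ ⟨a, ha, rfl⟩ _ ⟨b, hb, rfl⟩
    exact ⟨a * b * a, hU a ha b hb, by simp⟩)
  intro a ha b hb
  apply hf
  rw [map_mul, map_mul]
  exact this _ ⟨a, ha, rfl⟩ _ ⟨b, hb, rfl⟩

/-- Hua's identity: an additive subgroup whose non-zero elements have inverses in it is closed
under `a b a`. -/
theorem hua {A : Type*} [Ring A] (S : AddSubgroup A)
    (hi : ∀ a ∈ S, a ≠ 0 → ∃ b ∈ S, a * b = 1 ∧ b * a = 1) :
    ∀ a ∈ S, ∀ b ∈ S, a * b * a ∈ S := by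
  intro a ha b hb
  by_cases ha0 : a = 0
  · simp [ha0, S.zero_mem]
  by_cases hb0 : b = 0
  · simp [hb0, S.zero_mem]
  obtain ⟨a', ha', h1, h2⟩ := hi a ha ha0
  obtain ⟨b', hb', h3, h4⟩ := hi b hb hb0
  by_cases hc : b' - a = 0
  · have : b' = a := sub_eq_zero.1 hc
    rw [← this, h4, one_mul]; exact hb'
  obtain ⟨c, hc', h5, h6⟩ := hi _ (S.sub_mem hb' ha) hc
  -- `(a' + c) (a - a b a) = 1`
  have e1 : (a' + c) * (a - a * b * a) = 1 := by
    have : c * (a - a * b * a) = a' * a * b * a - a' * a * b * a + c * ((b' - a) * b * a) +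
      c * (a - b' * b * a) := by noncomm_ring
    have e : c * (a - a * b * a) = b * a := by
      rw [this, h4, ← mul_assoc c, ← mul_assoc c, h6]; simp
    rw [add_mul, e, mul_sub, ← mul_assoc a', ← mul_assoc a', h2]; simp
  have hne : a' + c ≠ 0 := by
    intro h
    rw [h, zero_mul] at e1
    apply ha0
    rw [← mul_one a, ← e1, mul_zero]
  obtain ⟨e, he, h7, h8⟩ := hi _ (S.add_mem ha' hc') hne
  have : a - a * b * a = e := by
    rw [← one_mul (a - a * b * a), ← h8, mul_assoc, e1, mul_one]
  have e2 : a * b * a = a - e := by rw [← this]; simp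
  rw [e2]; exact S.sub_mem ha he

/-- **Field lemma.** A finite additive set `S` of a finite ring of prime characteristic with
`1 ∈ S`, all non-zero elements invertible and closed under `a b a` is commutative and closed
under multiplication. -/
theorem field_lemma {A : Type*} [Ring A] [Finite A] (p : ℕ) [Fact p.Prime] [CharP A p]
    (S : AddSubgroup A) (h1 : (1 : A) ∈ S)
    (hu : ∀ a ∈ S, a ≠ 0 → IsUnit a) (hU : ∀ a ∈ S, ∀ b ∈ S, a * b * a ∈ S) :
    (∀ a ∈ S, ∀ b ∈ S, a * b = b * a) ∧ ∀ a ∈ S, ∀ b ∈ S, a * b ∈ S := by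
  letI : Algebra (ZMod p) A := ZMod.algebra A p
  have hc : ∀ a ∈ S, ∀ b ∈ S, a * b = b * a :=
    comm_alg (F := ZMod p) (AddSubgroup.toZModSubmodule p S) h1 hu hU
  refine ⟨hc, fun a ha b hb => ?_⟩
  by_cases ha0 : a = 0
  · simp [ha0, S.zero_mem]
  have hpw : ∀ k : ℕ, a ^ k ∈ S := pow_mem_of (· ∈ S) h1 ha fun y hy => hU a ha y hy
  by_cases hp : p = 2
  · subst hp
    obtain ⟨u, rfl⟩ := hu a ha ha0
    have hpos : 0 < orderOf u := orderOf_pos u
    rcases Nat.even_or_odd (orderOf u) with ⟨k, hk⟩ | ⟨k, hk⟩
    · exfalso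
      have hk1 : (u : A) ^ k - 1 ≠ 0 := by
        intro h
        have : u ^ k = 1 := by
          apply Units.ext
          simpa using sub_eq_zero.1 h
        have := Nat.le_of_dvd (by omega) (orderOf_dvd_of_pow_eq_one this)
        omega
      have hsq : ((u : A) ^ k - 1) * ((u : A) ^ k - 1) = 0 := by
        have e1 : (u : A) ^ k * (u : A) ^ k = 1 := by
          rw [← pow_add, ← hk, ← Units.val_pow_eq_pow_val, pow_orderOf_eq_one, Units.val_one]
        have e2 : (2 : A) = 0 := by exact_mod_cast CharP.cast_eq_zero A 2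
        have : ((u : A) ^ k - 1) * ((u : A) ^ k - 1) =
            (u : A) ^ k * (u : A) ^ k - 1 + 2 * (1 - (u : A) ^ k) := by noncomm_ring
        rw [this, e1, e2]; simp
      exact hk1 ((hu _ (S.sub_mem (hpw k) h1) hk1).mul_right_eq_zero.1 hsq)
    · have e : (u : A) * b = (u : A) ^ (k + 1) * b * (u : A) ^ (k + 1) := by
        rw [mul_assoc, ← hc _ (hpw _) b hb, ← mul_assoc, ← pow_add]
        have : k + 1 + (k + 1) = orderOf u + 1 := by omega
        rw [this, pow_succ, ← Units.val_pow_eq_pow_val, pow_orderOf_eq_one, Units.val_one,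
          one_mul]
      rw [e]; exact hU _ (hpw _) _ hb
  · have hodd : Odd p := (Fact.out : p.Prime).odd_of_ne_two hp
    obtain ⟨k, hk⟩ := hodd
    have h2 : a * b + a * b ∈ S := by
      have e : a * b + a * b = (a + b) * 1 * (a + b) - a * 1 * a - b * 1 * b := by
        conv_lhs => rw [show a * b + a * b = a * b + b * a by rw [← hc a ha b hb]]
        noncomm_ring
      rw [e]
      exact S.sub_mem (S.sub_mem (hU _ (S.add_mem ha hb) _ h1) (hU _ ha _ h1)) (hU _ hb _ h1)
    have e : a * b = (k + 1) • (a * b + a * b) := by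
      have e0 : (p : A) = 0 := CharP.cast_eq_zero A p
      rw [← two_nsmul, ← mul_nsmul', show (k + 1) * 2 = p + 1 by omega, succ_nsmul,
        nsmul_eq_mul, e0, zero_mul, zero_add]
    rw [e]; exact S.nsmul_mem h2 _

/-- **Field lemma**, inverse-closed version. -/
theorem field_lemma_inv {A : Type*} [Ring A] [Finite A] (p : ℕ) [Fact p.Prime] [CharP A p]
    (S : AddSubgroup A) (h1 : (1 : A) ∈ S)
    (hi : ∀ a ∈ S, a ≠ 0 → ∃ b ∈ S, a * b = 1) :
    (∀ a ∈ S, ∀ b ∈ S, a * b = b * a) ∧ ∀ a ∈ S, ∀ b ∈ S, a * b ∈ S := by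
  have hi' : ∀ a ∈ S, a ≠ 0 → ∃ b ∈ S, a * b = 1 ∧ b * a = 1 := by
    intro a ha h0
    obtain ⟨b, hb, h⟩ := hi a ha h0
    exact ⟨b, hb, h, mul_eq_one_comm.1 h⟩
  refine field_lemma p S h1 (fun a ha h0 => ?_) (hua S hi')
  obtain ⟨b, _, h, h'⟩ := hi' a ha h0
  exact ⟨⟨a, b, h, h'⟩, rfl⟩

/-- if `S` contains the powers of its (invertible) elements, it is closed under inverses -/
theorem field_lemma_pow {A : Type*} [Ring A] [Finite A] (p : ℕ) [Fact p.Prime] [CharP A p]
    (S : AddSubgroup A) (h1 : (1 : A) ∈ S) (hu : ∀ a ∈ S, a ≠ 0 → IsUnit a)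
    (hw : ∀ a ∈ S, ∀ k : ℕ, a ^ k ∈ S) :
    (∀ a ∈ S, ∀ b ∈ S, a * b = b * a) ∧ ∀ a ∈ S, ∀ b ∈ S, a * b ∈ S := by
  refine field_lemma_inv p S h1 fun a ha h0 => ?_
  obtain ⟨u, rfl⟩ := hu a ha h0
  refine ⟨(u : A) ^ (orderOf u - 1), hw _ ha _, ?_⟩
  rw [← pow_succ', Nat.sub_add_cancel (orderOf_pos u), ← Units.val_pow_eq_pow_val,
    pow_orderOf_eq_one, Units.val_one]

end Cfsg.G41.JF
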