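import Cfsg.Agent.Grp.DicksonCA

/-! Two opposite transvections in `SL₂(F)`, `char F ≥ 5` (Dickson's lemma, weak form). -/

set_option autoImplicit false

namespace Cfsg.G41

open scoped MatrixGroups
open Subgroup

theorem od_arith {ι : Type*} {q k N : ℕ} (R : Finset ι) (s : ι → ℚ) (hq : 5 ≤ q) (ho : Odd q)
    (hk1 : 1 ≤ k) (hk2 : k + 1 ≤ q) (hN : 2 * q ≤ N)
    (hs : ∀ T ∈ R, ∃ d f : ℕ, 2 ≤ d ∧ (f = 1 ∨ f = 2) ∧ s T = (1 - 1 / (d : ℚ)) / f)
    (hk : k = 1 ∨ ∃ T ∈ R, ∃ f : ℕ, (f = 1 ∨ f = 2) ∧ s T = (1 - 1 / (k : ℚ)) / f)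
    (e : ((q : ℚ) - 1) / (q * k) + ∑ T ∈ R, s T = 1 - 1 / (q * k * (1 + N))) : False := by
  classical
  have hq' : (5 : ℚ) ≤ q := by exact_mod_cast hq
  have hk' : (1 : ℚ) ≤ k := by exact_mod_cast hk1
  have hN' : (1 : ℚ) ≤ N := by exact_mod_cast (by omega : 1 ≤ N)
  have h4 : ∀ T ∈ R, (1 : ℚ) / 4 ≤ s T := by
    intro T hT
    obtain ⟨d, f, h1, h2, h3⟩ := hs T hT
    have a2 : 1 / (d : ℚ) ≤ 1 / 2 := one_div_le_one_div_of_le (by norm_num) (by exact_mod_cast h1)
    rw [h3]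
    rcases h2 with rfl | rfl <;> push_cast <;> linarith
  have hsum : ∀ R' ⊆ R, (R'.card : ℚ) / 4 ≤ ∑ T ∈ R', s T := by
    intro R' h
    have := Finset.card_nsmul_le_sum R' s (1 / 4) fun T hT => h4 T (h hT)
    rw [nsmul_eq_mul] at this
    linarith
  set x : ℚ := 1 / (q * k) with hx
  set y : ℚ := 1 / (q * k * (1 + N)) with hy
  have hqk : (0 : ℚ) < q * k := by positivity
  have hy0 : 0 < y := by positivity
  have hyx : y < x := one_div_lt_one_div_of_lt hqk (by nlinarith)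
  have hx5 : x ≤ 1 / 5 := one_div_le_one_div_of_le (by norm_num) (by nlinarith)
  have e1 : ((q : ℚ) - 1) / (q * k) = 1 / k - x := by
    rw [hx]; field_simp
  rw [e1] at e
  have small : ∀ R' ⊆ R, ∑ T ∈ R', s T = x - y → False := by
    intro R' h e'
    rcases R'.eq_empty_or_nonempty with rfl | h0
    · simp at e'; linarith
    · have := hsum R' h
      have h1 : (1 : ℚ) ≤ R'.card := by exact_mod_cast h0.card_pos
      linarith
  rcases hk with rfl | ⟨T, hT, f, hf, hsT⟩
  · exact small R subset_rfl (by push_cast at e; linarith)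
  rw [← Finset.add_sum_erase R s hT, hsT] at e
  rcases hf with rfl | rfl
  · exact small _ (Finset.erase_subset T R) (by push_cast at e; linarith)
  have hx2 : x < 1 / k / 2 := by
    rw [hx, div_div]
    exact one_div_lt_one_div_of_lt (by positivity) (by nlinarith)
  have hk0 : (1 : ℚ) / k ≤ 1 := by rw [div_le_one (by positivity)]; exact hk'
  push_cast at e
  have hc := hsum _ (Finset.erase_subset T R)
  have hc2 : (R.erase T).card < 2 := by
    by_contra h
    have : (2 : ℚ) ≤ (R.erase T).card := by exact_mod_cast not_lt.1 h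
    linarith
  rcases Nat.eq_zero_or_pos (R.erase T).card with h0 | h0
  · rw [Finset.card_eq_zero.1 h0, Finset.sum_empty] at e
    linarith
  obtain ⟨T', hT'⟩ := Finset.card_eq_one.1 (by omega : (R.erase T).card = 1)
  obtain ⟨d, f, h1, h2, h3⟩ := hs T' (Finset.mem_of_mem_erase (hT' ▸ Finset.mem_singleton_self T'))
  rw [hT', Finset.sum_singleton, h3] at e
  have hd : (2 : ℚ) ≤ d := by exact_mod_cast h1
  rcases h2 with rfl | rfl
  · have a2 : 1 / (d : ℚ) ≤ 1 / 2 := one_div_le_one_div_of_le (by norm_num) hd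
    push_cast at e
    linarith
  obtain ⟨r, rfl⟩ : ∃ r, q = r + 2 := ⟨q - 2, by omega⟩
  have e2 : (r + 2) * k * (1 + N) = d * (r * (1 + N) + 2) := by
    have : ((r : ℚ) + 2) * k * (1 + N) = d * (r * (1 + N) + 2) := by
      rw [hx, hy] at e
      push_cast at e
      field_simp at e
      linarith
    exact_mod_cast this
  have e3 : r * (1 + N) + 2 ∣ 2 * ((r + 2) * k) := by
    have h5 : r * (1 + N) + 2 ∣ (r + 2) * k * (r * (1 + N) + 2) := dvd_mul_left _ _
    have h6 : r * (1 + N) + 2 ∣ r * ((r + 2) * k * (1 + N)) := e2 ▸ (dvd_mul_left _ _).mul_left r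
    rw [show (r + 2) * k * (r * (1 + N) + 2) = r * ((r + 2) * k * (1 + N)) + 2 * ((r + 2) * k) by
      ring] at h5
    exact (Nat.dvd_add_right h6).1 h5
  obtain ⟨c, hc'⟩ := e3
  have hr : 3 ≤ r := by omega
  have hc1 : c = 1 := by
    rcases c with _ | _ | c
    · simp at hc'; omega
    · rfl
    · exfalso
      nlinarith [Nat.zero_le (c * (r * (1 + N) + 2)), Nat.mul_le_mul_left r hN,
        Nat.mul_le_mul_left (r + 2) hk2]
  subst hc1
  have e4 : 1 + N = 2 * d := by
    have h0 : 0 < (r + 2) * k := by positivity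
    apply Nat.eq_of_mul_eq_mul_left h0
    rw [e2, ← mul_one (r * (1 + N) + 2), ← hc']
    ring
  have e5 : r + 2 ∣ N := by
    have h5 : r + 2 ∣ r * N := by
      have h6 : r + 2 ∣ r * N + (r + 2) := ⟨2 * k, by linarith⟩
      exact (Nat.dvd_add_left dvd_rfl).1 h6
    refine Nat.Coprime.dvd_of_dvd_mul_left ?_ h5
    rw [Nat.coprime_self_add_left]
    exact Nat.coprime_two_left.2 (by
      obtain ⟨j, hj⟩ := ho
      exact ⟨j - 1, by omega⟩)
  obtain ⟨c, rfl⟩ := e5
  have hc3 : 3 ≤ c := by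
    rcases c with _ | _ | _ | c
    · omega
    · omega
    · omega
    · omega
  nlinarith [Nat.mul_le_mul_left (r * (r + 2)) hc3, Nat.mul_le_mul_left (r + 2) hk2]

/-- the upper transvection -/
def up {R : Type*} [CommRing R] (c : R) : SL(2, R) := ⟨!![1, c; 0, 1], by simp [Matrix.det_fin_two]⟩

/-- the lower transvection -/
def lo {R : Type*} [CommRing R] (c : R) : SL(2, R) := ⟨!![1, 0; c, 1], by simp [Matrix.det_fin_two]⟩

section Entries
variable {R : Type*} [CommRing R]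

theorem sl_mul (x y : SL(2, R)) (i j : Fin 2) :
    (x * y).1 i j = x.1 i 0 * y.1 0 j + x.1 i 1 * y.1 1 j := by
  simp [Matrix.mul_apply, Fin.sum_univ_two]

theorem sl_det (x : SL(2, R)) : x.1 0 0 * x.1 1 1 - x.1 0 1 * x.1 1 0 = 1 := by
  rw [← Matrix.det_fin_two]; exact x.2

theorem sl_inv (x : SL(2, R)) : x⁻¹.1 0 0 = x.1 1 1 ∧ x⁻¹.1 0 1 = - x.1 0 1 ∧
    x⁻¹.1 1 0 = - x.1 1 0 ∧ x⁻¹.1 1 1 = x.1 0 0 := by
  simp [Matrix.SpecialLinearGroup.coe_inv, Matrix.adjugate_fin_two]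

theorem sl_ext {x y : SL(2, R)} : x = y ↔ x.1 0 0 = y.1 0 0 ∧ x.1 0 1 = y.1 0 1 ∧
    x.1 1 0 = y.1 1 0 ∧ x.1 1 1 = y.1 1 1 := by
  refine ⟨fun h => by simp [h], fun h => Subtype.ext ?_⟩
  ext i j
  fin_cases i <;> fin_cases j
  exacts [h.1, h.2.1, h.2.2.1, h.2.2.2]

theorem up_e (c : R) : (up c).1 0 0 = 1 ∧ (up c).1 0 1 = c ∧ (up c).1 1 0 = 0 ∧
    (up c).1 1 1 = 1 := ⟨rfl, rfl, rfl, rfl⟩

theorem lo_e (c : R) : (lo c).1 0 0 = 1 ∧ (lo c).1 0 1 = 0 ∧ (lo c).1 1 0 = c ∧
    (lo c).1 1 1 = 1 := ⟨rfl, rfl, rfl, rfl⟩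

theorem up_add (c d : R) : up (c + d) = up c * up d := by
  simp [sl_ext, sl_mul, up_e, add_comm]

theorem up_zero : up (0 : R) = 1 := by simp [sl_ext, up_e]

theorem up_neg (c : R) : up (-c) = (up c)⁻¹ := by simp [sl_ext, sl_inv, up_e]

theorem up_pow (c : R) (n : ℕ) : up c ^ n = up (n * c) := by
  induction n with
  | zero => simp [up_zero]
  | succ n ih => rw [pow_succ, ih, ← up_add]; push_cast; rw [add_mul, one_mul]

theorem lo_pow (c : R) (n : ℕ) : lo c ^ n = lo (n * c) := by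
  induction n with
  | zero => simp [sl_ext, lo_e]
  | succ n ih => rw [pow_succ, ih]; simp [sl_ext, sl_mul, lo_e, add_mul]

theorem conj_up {b : SL(2, R)} (hb : b.1 1 0 = 0) (c : R) :
    b * up c * b⁻¹ = up (b.1 0 0 ^ 2 * c) := by
  have hd := sl_det b
  simp only [sl_ext, sl_mul, sl_inv, up_e, hb] at hd ⊢
  refine ⟨?_, ?_, ?_, ?_⟩
  · linear_combination hd
  · ring
  · ring
  · linear_combination hd

theorem comm_up_one {y : SL(2, R)} : up 1 * y = y * up 1 ↔ y.1 1 0 = 0 ∧ y.1 0 0 = y.1 1 1 := by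
  simp only [sl_ext, sl_mul, up_e]
  constructor
  · rintro ⟨h1, h2, -, -⟩
    exact ⟨by linear_combination h1, by linear_combination -h2⟩
  · rintro ⟨h1, h2⟩
    exact ⟨by linear_combination h1, by linear_combination -h2, by ring, by linear_combination -h1⟩

end Entries

theorem dickson_class_one {K : Type*} [Group K] [Fintype K]
    (hCA : ∀ x : K, x ∉ center K → ∀ a b : K, Commute x a → Commute x b → Commute a b)
    {x : K} (hx : x ∉ center K) {f : ℕ} (hf : 0 < f)
    (h : (dicksonN x).card = f * Nat.card (centralizer ({x} : Set K))) :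
    ∃ d : ℕ, 2 ≤ d ∧ Nat.card (center K) * d = Nat.card (centralizer ({x} : Set K)) ∧
      ((dicksonS x).card : ℚ) / Nat.card K = (1 - 1 / (d : ℚ)) / f := by
  have hle : center K ≤ centralizer ({x} : Set K) := center_le_centralizer _
  set d := (center K).relIndex (centralizer ({x} : Set K)) with hd
  have hd2 : Nat.card (center K) * d = Nat.card (centralizer ({x} : Set K)) := by
    rw [hd, relIndex, ← Nat.card_congr (subgroupOfEquivOfLe hle).toEquiv, card_mul_index]
  have hd0 : d ≠ 0 := index_ne_zero_of_finite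
  have hd3 : d ≠ 1 := fun h => hx (relIndex_eq_one.1 h (mem_centralizer_singleton_iff.2 rfl))
  have hz : (0 : ℚ) < Nat.card (center K) := by exact_mod_cast Nat.card_pos
  have hK : (0 : ℚ) < Nat.card K := by exact_mod_cast Nat.card_pos
  have hd' : (0 : ℚ) < d := by exact_mod_cast Nat.pos_of_ne_zero hd0
  have hf' : (0 : ℚ) < f := by exact_mod_cast hf
  have e := card_dicksonS_mul hCA hx
  refine ⟨d, by omega, hd2, ?_⟩
  rw [h, ← hd2] at e
  have e' : ((dicksonS x).card : ℚ) * (f * (Nat.card (center K) * d)) +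
      Nat.card K * Nat.card (center K) = Nat.card K * (Nat.card (center K) * d) := by
    exact_mod_cast e
  field_simp at e' ⊢
  linarith

theorem dickson_sum {K : Type*} [Group K] [Fintype K]
    (hCA : ∀ x : K, x ∉ center K → ∀ a b : K, Commute x a → Commute x b → Commute a b) :
    ∃ R : Finset (Finset K), (∀ T, T ∈ R ↔ ∃ x ∉ center K, dicksonS x = T) ∧
      ∑ T ∈ R, (T.card : ℚ) / Nat.card K = 1 - Nat.card (center K) / Nat.card K := by
  classical
  set X : Finset K := Finset.univ.filter fun y => y ∉ center K with hX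
  refine ⟨X.image dicksonS, fun T => by simp [hX], ?_⟩
  have hK : (0 : ℚ) < Nat.card K := by exact_mod_cast Nat.card_pos
  have e1 : X.card + Nat.card (center K) = Nat.card K := by
    rw [Nat.card_eq_fintype_card, Nat.card_eq_fintype_card, Fintype.card_subtype, add_comm]
    exact Finset.card_filter_add_card_filter_not _
  have hsum : (X.card : ℚ) = ∑ T ∈ X.image dicksonS, (T.card : ℚ) := by
    rw [Finset.card_eq_sum_card_image dicksonS X]
    push_cast
    refine Finset.sum_congr rfl fun T hT => ?_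
    obtain ⟨x, hx, rfl⟩ := Finset.mem_image.1 hT
    simp only [hX, Finset.mem_filter, Finset.mem_univ, true_and] at hx
    congr 2
    ext y
    simp only [hX, Finset.mem_filter, Finset.mem_univ, true_and]
    constructor
    · rintro ⟨hy, e⟩
      rw [← e, mem_dicksonS]
      exact ⟨hy, 1, by simp⟩
    · intro hy
      exact ⟨(mem_dicksonS.1 hy).1, dicksonS_eq hCA hx hy⟩
  rw [← Finset.sum_div, ← hsum]
  have e1' : (X.card : ℚ) + Nat.card (center K) = Nat.card K := by exact_mod_cast e1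
  field_simp
  linarith

theorem exists_conj_comm {K : Type*} [Group K] [Finite K] {p : ℕ} [Fact p.Prime]
    (hCA : ∀ x : K, x ∉ center K → ∀ a b : K, Commute x a → Commute x b → Commute a b)
    (hZ : ∀ y ∈ center K, ∀ k : ℕ, y ^ p ^ k = 1 → y = 1) {t x : K} (ht1 : t ≠ 1) (ht : t ^ p = 1)
    (hx : x ^ p = 1) : ∃ g : K, Commute t (g * x * g⁻¹) := by
  have hp : ∀ x : K, x ^ p = 1 → IsPGroup p (zpowers x) := by
    rintro x hx ⟨_, k, rfl⟩
    refine ⟨1, Subtype.ext ?_⟩
    simp only [pow_one, SubgroupClass.coe_pow, OneMemClass.coe_one]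
    rw [← zpow_natCast, ← zpow_mul, mul_comm, zpow_mul, zpow_natCast, hx, one_zpow]
  obtain ⟨P, hP⟩ := (hp t ht).exists_le_sylow
  obtain ⟨P', hP'⟩ := (hp x hx).exists_le_sylow
  obtain ⟨g, hg⟩ := MulAction.exists_smul_eq K P' P
  have h1 : g * x * g⁻¹ ∈ (P : Subgroup K) := by
    rw [← hg, Sylow.coe_subgroup_smul]
    exact ⟨x, hP' (mem_zpowers x), rfl⟩
  have h2 : t ∈ (P : Subgroup K) := hP (mem_zpowers t)
  haveI : Nontrivial (P : Subgroup K) := ⟨⟨t, h2⟩, 1, fun e => ht1 (congrArg Subtype.val e)⟩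
  haveI := P.isPGroup'.center_nontrivial
  obtain ⟨⟨c, hc⟩, hc1⟩ := exists_ne (1 : center (P : Subgroup K))
  have h3 : c.1 ∉ center K := fun h => by
    obtain ⟨k, hk⟩ := P.isPGroup' c
    exact hc1 (Subtype.ext (Subtype.ext (hZ _ h k (congrArg Subtype.val hk))))
  have h4 : ∀ y ∈ (P : Subgroup K), Commute c.1 y := fun y hy =>
    (congrArg Subtype.val (mem_center_iff.1 hc ⟨y, hy⟩)).symm
  exact ⟨g, hCA _ h3 _ _ (h4 _ h2) (h4 _ h1)⟩

section Main
variable {F : Type*} [Field F]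

theorem sl_unip {x : SL(2, F)} (p : ℕ) [CharP F p] (h : x.1.trace ^ 2 - 4 * x.1.det = 0) :
    (x * x) ^ p = 1 ∧ (x * x).1 = x.1.trace • x.1 - 1 := by
  have hd := sl_det x
  rw [x.2, Matrix.trace_fin_two] at h
  have e1 : (x * x).1 = x.1.trace • x.1 - 1 := by
    ext i j
    fin_cases i <;> fin_cases j <;> simp [sl_mul, Matrix.trace_fin_two]
    · linear_combination -hd
    · ring
    · ring
    · linear_combination -hd
  refine ⟨Subtype.ext ?_, e1⟩
  set M := (x * x).1 - 1 with hM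
  have e2 : M * M = 0 := by
    rw [hM, e1]
    ext i j
    fin_cases i <;> fin_cases j <;> simp [Matrix.mul_apply, Fin.sum_univ_two, Matrix.trace_fin_two]
    · linear_combination (x.1 0 0 * (x.1 0 0 + x.1 1 1) - 1) * h - (x.1 0 0 + x.1 1 1) ^ 2 * hd
    · linear_combination (x.1 0 1 * (x.1 0 0 + x.1 1 1)) * h
    · linear_combination (x.1 1 0 * (x.1 0 0 + x.1 1 1)) * h
    · linear_combination (x.1 1 1 * (x.1 0 0 + x.1 1 1) - 1) * h - (x.1 0 0 + x.1 1 1) ^ 2 * hd
  have e3 : ∀ n : ℕ, (1 + M) ^ n = 1 + (n : F) • M := by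
    intro n
    induction n with
    | zero => simp
    | succ n ih =>
      rw [pow_succ, ih]
      simp only [add_mul, mul_add, one_mul, mul_one, smul_mul_assoc, e2, smul_zero, add_zero,
        Nat.cast_succ, add_smul, one_smul]
      abel
  have e4 := e3 p
  rw [CharP.cast_eq_zero, zero_smul, add_zero, hM, add_sub_cancel] at e4
  rw [Matrix.SpecialLinearGroup.coe_pow, e4]
  rfl

theorem od_main [Finite F] (p : ℕ) [hp : Fact p.Prime] [CharP F p] (h5 : 5 ≤ p)
    (Y : Subgroup SL(2, F)) (hm : -1 ∈ Y) (h1 : up 1 ∈ Y) {z : F} (hz : z ≠ 0) (h2 : lo z ∈ Y) :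
    up z⁻¹ ∈ Y := by
  classical
  by_contra hcon
  haveI := Fintype.ofFinite F
  haveI := Fintype.ofFinite Y
  have h20 : (2 : F) ≠ 0 := fun h => by
    have := (CharP.cast_eq_zero_iff F p 2).1 (by exact_mod_cast h)
    have := Nat.le_of_dvd two_pos this
    omega
  have hpo : Odd p := hp.out.odd_of_ne_two (by omega)
  let Q : AddSubgroup F :=
    { carrier := {c | up c ∈ Y}
      zero_mem' := by simp [up_zero]
      add_mem' := fun ha hb => by simpa [up_add] using Y.mul_mem ha hb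
      neg_mem' := fun ha => by simpa [up_neg] using ha }
  have hQ : ∀ c, c ∈ Q ↔ up c ∈ Y := fun _ => Iff.rfl
  set t : Y := ⟨up 1, h1⟩ with ht
  have hm1 : (-1 : SL(2, F)) ≠ 1 := fun e => h20 (by
    have := (sl_ext.1 e).1
    simp at this
    linear_combination -this)
  have hC : ∀ y : Y, y ∈ centralizer ({t} : Set Y) ↔ y.1.1 1 0 = 0 ∧ y.1.1 0 0 = y.1.1 1 1 := by
    intro y
    rw [mem_centralizer_singleton_iff, ← comm_up_one, eq_comm, Subtype.ext_iff]
    rfl
  have hZ : ∀ y : Y, y ∈ center Y ↔ y.1 = 1 ∨ y.1 = -1 := by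
    intro y
    constructor
    · intro h
      obtain ⟨a1, a2⟩ := (hC y).1 (center_le_centralizer _ h)
      have a3 := (sl_ext.1 (congrArg Subtype.val (mem_center_iff.1 h ⟨_, h2⟩))).1
      simp only [coe_mul, sl_mul, lo_e] at a3
      have a4 : y.1.1 0 1 = 0 := mul_right_cancel₀ hz (by linear_combination -a3)
      have a5 := sl_det y.1
      rw [a1, ← a2, mul_zero, sub_zero] at a5
      rcases mul_self_eq_one_iff.1 a5 with a6 | a6
      · left; rw [sl_ext]; simp [a1, ← a2, a4, a6]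
      · right; rw [sl_ext]; simp [a1, ← a2, a4, a6]
    · rintro (h | h) <;> refine mem_center_iff.2 fun g => Subtype.ext ?_ <;> simp [h]
  have hns : ∀ x : Y, x ∉ center Y → ∀ c : F, x.1.1 ≠ c • 1 := by
    intro x hx c hc
    refine hx (mem_center_iff.2 fun g => Subtype.ext (Subtype.ext ?_))
    simp [hc]
  have hcomm : ∀ a b : Y, Commute a b ↔ Commute a.1.1 b.1.1 := fun a b =>
    ⟨fun h => congrArg (fun y : Y => y.1.1) h.eq, fun h => Subtype.ext (Subtype.ext h.eq)⟩
  have hCA : ∀ x : Y, x ∉ center Y → ∀ a b : Y, Commute x a → Commute x b → Commute a b :=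
    fun x hx a b ha hb => (hcomm _ _).2
      (mat2_commute_of_commute (hns x hx) ((hcomm _ _).1 ha) ((hcomm _ _).1 hb))
  have htr : ∀ g x : Y, (g * x * g⁻¹).1.1.trace = x.1.1.trace := by
    intro g x
    have : g⁻¹ * (g * x) = x := by group
    conv_rhs => rw [← this]
    exact Matrix.trace_mul_comm _ _
  have ht1 : t ≠ 1 := fun e => by simpa [ht, up_e] using (sl_ext.1 (congrArg Subtype.val e)).2.1
  have htZ : t ∉ center Y := fun h => by
    rcases (hZ t).1 h with e | e <;> simpa [ht, up_e] using (sl_ext.1 e).2.1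
  have hconj : ∀ x : Y, x ^ p = 1 → ∃ g : Y, Commute t (g * x * g⁻¹) := fun x hx =>
    exists_conj_comm hCA (fun y hy k hk => by
      rcases (hZ y).1 hy with e | e
      · exact Subtype.ext e
      · have := congrArg Subtype.val hk
        rw [SubgroupClass.coe_pow, e, (hpo.pow).neg_one_pow] at this
        exact absurd this hm1) ht1 (Subtype.ext (by simp [ht, up_pow, up_zero])) hx
  let B : Subgroup Y :=
    { carrier := {y | y.1.1 1 0 = 0}
      one_mem' := by simp
      mul_mem' := fun {a b} ha hb => by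
        simp only [Set.mem_ofPred_eq, coe_mul, sl_mul] at *
        simp [ha, hb]
      inv_mem' := fun {a} ha => by
        simp only [Set.mem_ofPred_eq, coe_inv, sl_inv] at *
        simp [ha] }
  have hB : ∀ y : Y, y ∈ B ↔ y.1.1 1 0 = 0 := fun _ => Iff.rfl
  have hCB : centralizer ({t} : Set Y) ≤ B := fun y hy => ((hC y).1 hy).1
  have cZ : Nat.card (center Y) = 2 := by
    rw [Nat.card_eq_two_iff]
    refine ⟨1, ⟨⟨-1, hm⟩, (hZ _).2 (Or.inr rfl)⟩, fun e => hm1 ?_, Set.eq_univ_of_forall ?_⟩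
    · exact (congrArg (fun y : center Y => y.1.1) e).symm
    · rintro ⟨y, hy⟩
      rcases (hZ y).1 hy with e | e
      · left; exact Subtype.ext (Subtype.ext e)
      · right; exact Subtype.ext (Subtype.ext e)
  set q := Nat.card Q with hq
  have cC : Nat.card (centralizer ({t} : Set Y)) = 2 * q := by
    refine Eq.trans ?_ ((Nat.card_prod (center Y) Q).trans (by rw [cZ]))
    symm
    refine Nat.card_eq_of_bijective (fun x => ⟨x.1.1 * ⟨up x.2.1, x.2.2⟩, mul_mem
      (center_le_centralizer _ x.1.2) ((hC _).2 ⟨rfl, rfl⟩)⟩) ⟨?_, ?_⟩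
    · rintro ⟨⟨a, ha⟩, c⟩ ⟨⟨b, hb⟩, d⟩ e
      have e' := sl_ext.1 (congrArg (fun y : centralizer ({t} : Set Y) => y.1.1) e)
      simp only [coe_mul, sl_mul, up_e] at e'
      rcases (hZ a).1 ha with a1 | a1 <;> rcases (hZ b).1 hb with b1 | b1 <;>
        simp [a1, b1] at e'
      · exact Prod.ext (Subtype.ext (Subtype.ext (a1.trans b1.symm))) e'
      · exact absurd (by linear_combination e'.1) h20
      · exact absurd (by linear_combination -e'.1) h20
      · exact Prod.ext (Subtype.ext (Subtype.ext (a1.trans b1.symm))) e'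
    · rintro ⟨y, hy⟩
      obtain ⟨a1, a2⟩ := (hC y).1 hy
      have a5 := sl_det y.1
      rw [a1, ← a2, mul_zero, sub_zero] at a5
      rcases mul_self_eq_one_iff.1 a5 with a6 | a6
      · have e : y.1 = up (y.1.1 0 1) := by simp [sl_ext, up_e, a1, ← a2, a6]
        exact ⟨⟨1, ⟨_, e ▸ y.2⟩⟩, Subtype.ext (Subtype.ext (by simpa using e.symm))⟩
      · have e : -1 * y.1 = up (-y.1.1 0 1) := by simp [sl_ext, up_e, a1, ← a2, a6]
        refine ⟨⟨⟨⟨-1, hm⟩, (hZ _).2 (Or.inr rfl)⟩, ⟨_, e ▸ Y.mul_mem hm y.2⟩⟩,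
          Subtype.ext (Subtype.ext ?_)⟩
        simp only [coe_mul, ← e]
        simp
  have hsq : ∀ b ∈ B, ∀ c ∈ Q, b.1.1 0 0 ^ 2 * c ∈ Q := fun b hb c hc => by
    rw [hQ, ← conj_up hb]
    exact Y.mul_mem (Y.mul_mem b.2 hc) (Y.inv_mem b.2)
  have hB0 : ∀ b ∈ B, b.1.1 0 0 * b.1.1 1 1 = 1 := fun b hb => by
    have := sl_det b.1
    rwa [(hB b).1 hb, mul_zero, sub_zero] at this
  set k := (centralizer ({t} : Set Y)).relIndex B with hk
  have cB : Nat.card B = 2 * q * k := by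
    rw [← cC, hk, relIndex, ← Nat.card_congr (subgroupOfEquivOfLe hCB).toEquiv, card_mul_index]
  have hk1 : 1 ≤ k := Nat.pos_of_ne_zero index_ne_zero_of_finite
  have hk2 : k + 1 ≤ q := by
    rw [hk, relIndex, index, ← Finite.card_option]
    refine Nat.card_le_card_of_injective (fun x => x.elim 0 fun x =>
      ⟨x.out.1.1.1 0 0 ^ 2 * 1, hsq _ x.out.2 1 h1⟩) ?_
    have h0 : ∀ b : B, b.1.1.1 0 0 ^ 2 * 1 ≠ 0 := fun b => by
      simpa using left_ne_zero_of_mul_eq_one (hB0 _ b.2)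
    rintro (_ | x) (_ | y) e
    · rfl
    · exact absurd (congrArg Subtype.val e).symm (h0 _)
    · exact absurd (congrArg Subtype.val e) (h0 _)
    · congr 1
      rw [← x.out_eq', ← y.out_eq', QuotientGroup.eq, mem_subgroupOf, hC]
      have e' : x.out.1.1.1 0 0 ^ 2 * 1 = y.out.1.1.1 0 0 ^ 2 * 1 := congrArg Subtype.val e
      have a1 := (hB _).1 x.out.2
      have a2 := (hB _).1 y.out.2
      have a3 := hB0 _ x.out.2
      have a4 := hB0 _ y.out.2
      simp only [coe_mul, coe_inv, sl_mul, sl_inv, a1, a2]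
      refine ⟨by ring, ?_⟩
      linear_combination (-x.out.1.1.1 1 1 * y.out.1.1.1 1 1) * e' +
        (x.out.1.1.1 0 0 * y.out.1.1.1 1 1) * a3 - (y.out.1.1.1 0 0 * x.out.1.1.1 1 1) * a4
  have hq5 : 5 ≤ q := by
    have : p ∣ q := by
      rw [← CharP.eq F (CharP.addOrderOf_one F) (inferInstance : CharP F p)]
      exact Q.addOrderOf_dvd_natCard h1
    exact h5.trans (Nat.le_of_dvd Nat.card_pos this)
  have hqo : Odd q := by
    obtain ⟨n, -, hn⟩ := FiniteField.card F p
    exact Odd.of_dvd_nat hpo.pow (hn ▸ Nat.card_eq_fintype_card (α := F) ▸ Q.card_addSubgroup_dvd_card)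
  obtain ⟨w, hw⟩ : ∃ w : Y, w.1.1 0 0 = 0 := by
    obtain ⟨g, hg⟩ := hconj ⟨lo z, h2⟩ (Subtype.ext (by simp [lo_pow, sl_ext, lo_e]))
    have a1 := (comm_up_one.1 (congrArg Subtype.val hg.eq)).1
    simp only [coe_mul, coe_inv, sl_mul, sl_inv, lo_e] at a1
    refine ⟨g⁻¹, ?_⟩
    simp only [coe_inv, sl_inv]
    exact mul_self_eq_zero.1 (mul_right_cancel₀ hz (by linear_combination a1))
  have hw1 : w.1.1 1 0 ≠ 0 := fun e => by simpa [hw, e] using sl_det w.1
  obtain ⟨N, hN⟩ : ∃ N, B.index = 1 + N :=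
    ⟨B.index - 1, by have := Nat.pos_of_ne_zero (index_ne_zero_of_finite (H := B)); omega⟩
  have hN2 : 2 * q ≤ N := by
    have : Nat.card (Option (Q ⊕ Q)) ≤ B.index := by
      refine Nat.card_le_card_of_injective (fun x => (((x.elim 1 fun x => x.elim
        (fun c => ⟨up c.1, c.2⟩ * w) fun c => ⟨up c.1, c.2⟩ * ⟨lo z, h2⟩ : Y)) : Y ⧸ B)) ?_
      rintro (_ | c | c) (_ | d | d) e <;>
        simp only [QuotientGroup.eq, hB, Option.elim, Sum.elim_inl, Sum.elim_inr, coe_mul, coe_inv,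
          sl_mul, sl_inv, up_e, lo_e, hw, OneMemClass.coe_one] at e
      · rfl
      · simp [hw1] at e
      · simp [hz] at e
      · simp [hw1] at e
      · have : c.1 = d.1 := mul_right_cancel₀ (mul_ne_zero hw1 hw1) (by linear_combination e)
        rw [Subtype.ext this]
      · refine absurd ?_ hcon
        have : z⁻¹ = c.1 - d.1 := mul_right_cancel₀ (mul_ne_zero hw1 hz) (by
          linear_combination -e + w.1.1 1 0 * mul_inv_cancel₀ hz)
        exact this ▸ Q.sub_mem c.2 d.2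
      · simp [hz] at e
      · refine absurd ?_ hcon
        have : z⁻¹ = d.1 - c.1 := mul_right_cancel₀ (mul_ne_zero hw1 hz) (by
          linear_combination e + w.1.1 1 0 * mul_inv_cancel₀ hz)
        exact this ▸ Q.sub_mem d.2 c.2
      · have : c.1 = d.1 := mul_right_cancel₀ (mul_ne_zero hz hz) (by linear_combination e)
        rw [Subtype.ext this]
    rw [Finite.card_option, Nat.card_sum, hN] at this
    omega
  have cY : Nat.card Y = 2 * q * k * (1 + N) := by rw [← cB, ← hN, card_mul_index]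
  have hS : ∀ x : Y, x ∉ center Y → (x ∈ dicksonS t ↔ x.1.1.trace ^ 2 - 4 * x.1.1.det = 0) := by
    intro x hx
    rw [mem_dicksonS]
    constructor
    · rintro ⟨-, g, hg⟩
      obtain ⟨a1, a2⟩ := comm_up_one.1 (congrArg Subtype.val hg.eq)
      have a3 := sl_det (g * x * g⁻¹).1
      rw [← htr g, x.1.2, Matrix.trace_fin_two]
      rw [a1] at a3
      linear_combination 4 * a3 + ((g * x * g⁻¹).1.1 0 0 - (g * x * g⁻¹).1.1 1 1) * a2
    · intro h
      obtain ⟨a1, a2⟩ := sl_unip p h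
      obtain ⟨g, hg⟩ := hconj (x * x) (Subtype.ext a1)
      refine ⟨hx, g, ?_⟩
      have h' : (g * x * g⁻¹).1.1.trace ^ 2 - 4 * (g * x * g⁻¹).1.1.det = 0 := by
        rw [htr, (g * x * g⁻¹).1.2, ← h, x.1.2]
      rw [show g * (x * x) * g⁻¹ = g * x * g⁻¹ * (g * x * g⁻¹) by group, hcomm, coe_mul,
        (sl_unip p h').2] at hg
      have a3 : (g * x * g⁻¹).1.1.trace ≠ 0 := fun e => by
        rw [e, (g * x * g⁻¹).1.2] at h'
        exact h20 (mul_self_eq_zero.1 (by linear_combination -h'))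
      have a4 := ((hg.add_right (Commute.one_right _)).smul_right (g * x * g⁻¹).1.1.trace⁻¹)
      rwa [sub_add_cancel, smul_smul, inv_mul_cancel₀ a3, one_smul, ← hcomm] at a4
  have hcls : ∀ x : Y, x ∉ center Y → x.1.1.trace ^ 2 - 4 * x.1.1.det ≠ 0 →
      ∃ d f : ℕ, 2 ≤ d ∧ (f = 1 ∨ f = 2) ∧ 2 * d = Nat.card (centralizer ({x} : Set Y)) ∧
        ((dicksonS x).card : ℚ) / Nat.card Y = (1 - 1 / (d : ℚ)) / f := by
    intro x hx hd
    have key : ∀ g : Y, Commute x (g * x * g⁻¹) →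
        (g * x * g⁻¹).1.1 = x.1.1 ∨ (g * x * g⁻¹).1.1 = x.1.1.trace • 1 - x.1.1 := fun g hg =>
      mat2_conj_eq (hns x hx) h20 hd ((hcomm _ _).1 hg) (htr g x) (by rw [x.1.2, (g * x * g⁻¹).1.2])
    have h3 := card_dicksonN (x := x) fun g g' hg hg' => by
      rcases key g hg with h | h
      · exact Or.inl (Subtype.ext (Subtype.ext h))
      · rcases key g' hg' with h' | h'
        · exact Or.inr (Or.inl (Subtype.ext (Subtype.ext h')))
        · exact Or.inr (Or.inr (Subtype.ext (Subtype.ext (h.trans h'.symm))))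
    rcases h3 with h3 | h3
    · obtain ⟨d, a1, a2, a3⟩ := dickson_class_one hCA hx one_pos (by rw [h3, one_mul])
      exact ⟨d, 1, a1, Or.inl rfl, by rw [← a2, cZ], a3⟩
    · obtain ⟨d, a1, a2, a3⟩ := dickson_class_one hCA hx two_pos h3
      exact ⟨d, 2, a1, Or.inr rfl, by rw [← a2, cZ], a3⟩
  obtain ⟨R, hR, hsum⟩ := dickson_sum hCA
  have hq0 : (0 : ℚ) < q := by exact_mod_cast (by omega : 0 < q)
  have hk0 : (0 : ℚ) < k := by exact_mod_cast hk1
  obtain ⟨d, -, a2, a3⟩ := dickson_class_one hCA htZ hk1 (by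
    rw [cC, mul_comm k, ← cB, Nat.card_eq_fintype_card, Fintype.card_subtype]
    congr 1
    ext g
    simp only [mem_dicksonN, Finset.mem_filter, Finset.mem_univ, true_and, hB]
    constructor
    · intro hg
      have a1 := (comm_up_one.1 (congrArg Subtype.val hg.eq)).1
      simp only [ht, coe_mul, coe_inv, sl_mul, sl_inv, up_e] at a1
      exact mul_self_eq_zero.1 (by linear_combination -a1)
    · intro hg
      refine Subtype.ext (comm_up_one.2 ?_)
      simp only [ht, coe_mul, coe_inv, conj_up hg, up_e, and_self])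
  obtain rfl : d = q := by rw [cZ, cC] at a2; omega
  have hmem : ∀ x : Y, x ∉ center Y → dicksonS x ∈ R := fun x hx => (hR _).2 ⟨x, hx, rfl⟩
  rw [← Finset.add_sum_erase _ _ (hmem t htZ), a3, cZ] at hsum
  refine od_arith _ (fun T : Finset Y => (T.card : ℚ) / Nat.card Y) hq5 hqo hk1 hk2 hN2
    (fun T hT => ?_) ?_ (by
      convert hsum using 2
      · field_simp
      · rw [cY]; push_cast; field_simp)
  · obtain ⟨hT1, hT2⟩ := Finset.mem_erase.1 hT
    obtain ⟨x, hx', rfl⟩ := (hR _).1 hT2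
    obtain ⟨d, f, a1, a2, -, a3⟩ := hcls x hx' fun h => hT1 (dicksonS_eq hCA htZ ((hS x hx').2 h))
    exact ⟨d, f, a1, a2, a3⟩
  by_cases hBC : B ≤ centralizer ({t} : Set Y)
  · exact Or.inl (relIndex_eq_one.2 hBC)
  right
  obtain ⟨h, hh, hh'⟩ := SetLike.not_le_iff_exists.1 hBC
  have b1 := (hB h).1 hh
  have b2 : h.1.1 0 0 - h.1.1 1 1 ≠ 0 := fun e => hh' ((hC h).2 ⟨b1, sub_eq_zero.1 e⟩)
  have b3 := hB0 h hh
  have hhZ : h ∉ center Y := fun e => hh' (center_le_centralizer _ e)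
  have hd : h.1.1.trace ^ 2 - 4 * h.1.1.det ≠ 0 := fun e => b2 (mul_self_eq_zero.1 (by
    rw [h.1.2, Matrix.trace_fin_two] at e
    linear_combination e - 4 * b3))
  obtain ⟨d', f, -, c2, c3, c4⟩ := hcls h hhZ hd
  refine ⟨dicksonS h, Finset.mem_erase.2 ⟨fun e => hd ((hS h hhZ).1 ?_), hmem h hhZ⟩, f, c2, ?_⟩
  · rw [← e, mem_dicksonS]
    exact ⟨hhZ, 1, by simp⟩
  suffices d' = k by rw [← this]; exact c4
  have hCh : ∀ y : Y, y ∈ centralizer ({h} : Set Y) ↔ y.1.1 1 0 = 0 ∧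
      y.1.1 0 1 * (h.1.1 0 0 - h.1.1 1 1) = h.1.1 0 1 * (y.1.1 0 0 - y.1.1 1 1) := by
    intro y
    rw [mem_centralizer_singleton_iff, Subtype.ext_iff, sl_ext]
    simp only [coe_mul, sl_mul, b1]
    constructor
    · rintro ⟨-, e2, e3, -⟩
      exact ⟨mul_right_cancel₀ b2 (by linear_combination e3), by linear_combination -e2⟩
    · rintro ⟨e1, e2⟩
      rw [e1]
      exact ⟨by ring, by linear_combination -e2, by ring, by ring⟩
  have cH : Nat.card (Q × centralizer ({h} : Set Y)) = Nat.card B := by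
    refine Nat.card_eq_of_bijective (fun x => ⟨⟨up x.1.1, x.1.2⟩ * x.2.1,
      B.mul_mem rfl ((hCh _).1 x.2.2).1⟩) ⟨?_, ?_⟩
    · rintro ⟨c, y, hy⟩ ⟨c', y', hy'⟩ e
      have e' := sl_ext.1 (congrArg (fun y : B => y.1.1) e)
      obtain ⟨y1, y2⟩ := (hCh _).1 hy
      obtain ⟨y3, y4⟩ := (hCh _).1 hy'
      simp only [coe_mul, sl_mul, up_e, y1, y3] at e'
      obtain ⟨e1, e2, -, e4⟩ := e'
      have y5 := right_ne_zero_of_mul_eq_one (hB0 y y1)
      have e5 : c = c' := Subtype.ext (mul_right_cancel₀ (mul_ne_zero y5 b2) (by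
        linear_combination (h.1.1 0 0 - h.1.1 1 1) * e2 - y2 + y4 - h.1.1 0 1 * e1 +
          (h.1.1 0 1 - c'.1 * (h.1.1 0 0 - h.1.1 1 1)) * e4))
      subst e5
      exact Prod.ext rfl (Subtype.ext (mul_left_cancel (congrArg Subtype.val e)))
    · rintro ⟨b, hb⟩
      have b4 := (hB b).1 hb
      have b5 := hB0 b hb
      let μ : Q → Q := fun c => ⟨c.1 - h.1.1 0 0 ^ 2 * c.1, Q.sub_mem c.2 (hsq h hh _ c.2)⟩
      have hμ : Function.Injective μ := fun c c' e => Subtype.ext (mul_right_cancel₀ b2 (by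
        have e' : c.1 - h.1.1 0 0 ^ 2 * c.1 = c'.1 - h.1.1 0 0 ^ 2 * c'.1 := congrArg Subtype.val e
        linear_combination (-h.1.1 1 1) * e' - (c.1 - c'.1) * h.1.1 0 0 * b3))
      have e1 : (b * h * b⁻¹ * h⁻¹).1 = up ((b * h * b⁻¹ * h⁻¹).1.1 0 1) := by
        rw [sl_ext]
        refine ⟨?_, rfl, ?_, ?_⟩ <;> simp only [coe_mul, coe_inv, sl_mul, sl_inv, up_e, b1, b4]
        · linear_combination (h.1.1 0 0 * h.1.1 1 1) * b5 + b3
        · ring
        · linear_combination (h.1.1 0 0 * h.1.1 1 1) * b5 + b3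
      obtain ⟨c, hc⟩ := Finite.surjective_of_injective hμ ⟨_, (hQ _).2 (e1 ▸ Subtype.prop _)⟩
      have e2 : c.1 - h.1.1 0 0 ^ 2 * c.1 = (b * h * b⁻¹ * h⁻¹).1.1 0 1 := congrArg Subtype.val hc
      refine ⟨⟨c, (⟨up c.1, c.2⟩ : Y)⁻¹ * b, ?_⟩, Subtype.ext (by simp)⟩
      rw [mem_centralizer_singleton_iff]
      have e3 : b * h * b⁻¹ * h⁻¹ = ⟨up c.1, c.2⟩ * (h * (⟨up c.1, c.2⟩ : Y)⁻¹ * h⁻¹) := by
        refine Subtype.ext ?_
        refine e1.trans ((congrArg up e2.symm).trans ?_)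
        simp only [coe_mul, coe_inv]
        rw [← up_neg, conj_up b1, ← up_add]
        congr 1
        ring
      calc _ = (⟨up c.1, c.2⟩ : Y)⁻¹ * (b * h * b⁻¹ * h⁻¹) * h * b := by group
        _ = _ := by rw [e3]; group
  rw [Nat.card_prod, ← c3, cB, ← hq] at cH
  have : q * (2 * d') = q * (2 * k) := by rw [cH]; ring
  have := Nat.eq_of_mul_eq_mul_left (by omega) this
  omega

/-- Dickson's lemma (weak form) -/
theorem od_sl2 [Finite F] (p : ℕ) [hp : Fact p.Prime] [CharP F p] (h5 : 5 ≤ p) {z : F}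
    (hz : z ≠ 0) : up z⁻¹ ∈ closure ({up 1, lo z} : Set SL(2, F)) := by
  set Y := closure ({up 1, lo z} : Set SL(2, F))
  let Y' : Subgroup SL(2, F) :=
    { carrier := {y | y ∈ Y ∨ -y ∈ Y}
      one_mem' := Or.inl Y.one_mem
      mul_mem' := by
        rintro a b (ha | ha) (hb | hb)
        · exact Or.inl (Y.mul_mem ha hb)
        · exact Or.inr (by simpa using Y.mul_mem ha hb)
        · exact Or.inr (by simpa using Y.mul_mem ha hb)
        · exact Or.inl (by simpa using Y.mul_mem ha hb)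
      inv_mem' := by
        rintro a (ha | ha)
        · exact Or.inl (Y.inv_mem ha)
        · exact Or.inr (by simpa using Y.inv_mem ha) }
  rcases od_main p h5 Y' (Or.inr (by simp)) (Or.inl (subset_closure (by simp))) hz
    (Or.inl (subset_closure (Set.mem_insert_of_mem _ rfl))) with h | h
  · exact h
  · obtain ⟨j, hj⟩ := hp.out.odd_of_ne_two (by omega)
    have := Y.pow_mem h (p + 1)
    rwa [Even.neg_pow ⟨j + 1, by omega⟩, up_pow, Nat.cast_succ, CharP.cast_eq_zero, zero_add,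
      one_mul] at this

end Main

end Cfsg.G41
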