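import Cfsg.Agent.G41.Quad
import Cfsg.Agent.G41.Defs

/-! `p ≥ 5`: a quadratic element gives conclusion (i). -/

set_option autoImplicit false

namespace Cfsg.G41.Qd

universe u v

section
variable {p : ℕ} [hp : Fact p.Prime] {V : Type v} [AddCommGroup V] [Module (ZMod p) V]
  {H : Type u} [Group H] (ρ : H →* Module.End (ZMod p) V)

/-- the output of the overgroup lemma: `1 + z⁻¹ a` lies in `⟨u, u'⟩` for opposite `u, u'` -/
def Inv : Prop := ∀ u u' : H, Quad ρ u → Quad ρ u' → (∀ v ∈ ax ρ u, v ∈ ax ρ u' → v = 0) →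
  ∃ y ∈ Subgroup.closure ({u, u'} : Set H),
    ((ρ u - 1) * (ρ u' - 1) + (ρ u' - 1) * (ρ u - 1)) * (ρ y - 1) = ρ u - 1

variable {ρ}

theorem pow_val {g : H} (h : (ρ g - 1) * (ρ g - 1) = 0) (s : ZMod p) :
    ρ (g ^ s.val) = 1 + s • (ρ g - 1) := by
  by_cases e : g = 1
  · simp [e]
  · rw [Quad.pow ⟨e, h⟩, ← Nat.cast_smul_eq_nsmul (ZMod p), ZMod.natCast_zmod_val]

theorem weyl_eq {R A : Type*} [CommRing R] [Ring A] [Algebra R A] {b c : A} (cc : c * c = 0)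
    (cb : c * b + b * c = 1) {s t : R} (st : s * t = -1) :
    (1 + s • c) * (1 + t • b) * (1 + s • c) = s • c + t • b := by
  have h1 : c * b * c = c := by
    have : c * (c * b + b * c) = c := by rw [cb, mul_one]
    rwa [mul_add, ← mul_assoc, cc, zero_mul, zero_add, ← mul_assoc] at this
  have h2 : b * c = 1 - c * b := by rw [← cb]; abel
  simp only [mul_add, add_mul, one_mul, mul_one, smul_mul_assoc, mul_smul_comm, cc, h1, h2,
    smul_zero, smul_add, smul_sub, smul_smul]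
  rw [mul_comm t s, st]
  have e : s * -1 = -s := by ring
  rw [e]
  module

theorem Quad.exists_ne (inj : Function.Injective ρ) {u : H} (h : Quad ρ u) :
    ∃ x ∈ ax ρ u, x ≠ 0 := by
  by_contra hc
  push Not at hc
  refine h.1 (inj (LinearMap.ext fun v => ?_))
  rw [map_one]
  exact sub_eq_zero.1 (hc _ (h.com v))

variable [Finite V]

/-- the torus element of an opposite pair -/
theorem exists_h (hI : Inv ρ) {u u' : H} (h : Quad ρ u) (h' : Quad ρ u')
    (hd : ∀ v ∈ ax ρ u, v ∈ ax ρ u' → v = 0) {s : ZMod p} (hs : s ≠ 0) :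
    ∃ g ∈ Subgroup.closure ({u, u'} : Set H), (∀ w ∈ ax ρ u, ρ g w = s • w) ∧
      ∀ w ∈ ax ρ u', ρ g w = s⁻¹ • w := by
  obtain ⟨y, hy, e⟩ := hI u u' h h' hd
  have hz := h.isUnit h' hd
  have aa := h.2
  have bb := h'.2
  have hu' : u' ∈ Subgroup.closure ({u, u'} : Set H) := Subgroup.subset_closure (by simp)
  have mW : ∀ w, w ∈ ax ρ u ↔ (ρ u - 1) w = 0 := fun w => Iff.rfl
  have mW' : ∀ w, w ∈ ax ρ u' ↔ (ρ u' - 1) w = 0 := fun w => Iff.rfl
  have py := fun hh => pow_val (ρ := ρ) (g := y) hh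
  have pu := pow_val h'.2
  generalize ρ u - 1 = a at *
  generalize ρ u' - 1 = b at *
  generalize ρ y - 1 = c at *
  have za : (a * b + b * a) * a = a * (a * b + b * a) := by
    rw [add_mul, mul_add, mul_assoc b, aa, ← mul_assoc a a, aa, mul_assoc]; simp
  have zb : (a * b + b * a) * b = b * (a * b + b * a) := by
    rw [add_mul, mul_add, mul_assoc a, bb, ← mul_assoc b b, bb, mul_assoc]; simp
  generalize hz' : a * b + b * a = z at hz e za zb
  have zc : z * c = c * z := hz.mul_left_cancel (by rw [e, za, ← mul_assoc, e])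
  have cc : c * c = 0 := hz.mul_left_cancel (hz.mul_left_cancel (by
    rw [mul_zero, mul_zero, ← mul_assoc z c, e, ← mul_assoc, za, mul_assoc, e, aa]))
  have cb : c * b + b * c = 1 := hz.mul_left_cancel (by
    rw [mul_add, ← mul_assoc, e, ← mul_assoc, zb, mul_assoc, e, mul_one, hz'])
  have cW : ∀ w ∈ ax ρ u, c w = 0 := fun w hw => by
    have : z (c w) = z 0 := by
      rw [map_zero, ← Module.End.mul_apply, e]; exact (mW w).1 hw
    exact ((Module.End.isUnit_iff z).1 hz).1 this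
  have one : ∀ w, c (b w) + b (c w) = w := fun w => congrArg (fun f : Module.End (ZMod p) V => f w) cb
  have E : ρ (y ^ s.val * u' ^ (-s⁻¹).val * y ^ s.val *
      (y ^ (-1 : ZMod p).val * u' ^ (1 : ZMod p).val * y ^ (-1 : ZMod p).val)) =
      s • (c * b) + s⁻¹ • (b * c) := by
    simp only [map_mul, py cc, pu]
    rw [weyl_eq cc cb (by rw [mul_neg, mul_inv_cancel₀ hs]), weyl_eq cc cb (by ring)]
    simp only [mul_add, add_mul, smul_mul_assoc, mul_smul_comm, cc, bb, smul_zero]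
    module
  refine ⟨_, mul_mem (mul_mem (mul_mem (pow_mem hy s.val) (pow_mem hu' (-s⁻¹).val))
    (pow_mem hy s.val)) (mul_mem (mul_mem (pow_mem hy (-1 : ZMod p).val)
    (pow_mem hu' (1 : ZMod p).val)) (pow_mem hy (-1 : ZMod p).val)), fun w hw => ?_,
    fun w hw => ?_⟩
  · rw [E]
    have := one w
    rw [cW w hw, map_zero, add_zero] at this
    simp [cW w hw, this]
  · rw [E]
    have h0 := (mW' w).1 hw
    have := one w
    rw [h0, map_zero, zero_add] at this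
    simp [h0, this]

theorem inv_smul {g : H} {x : V} {s : ZMod p} (hs : s ≠ 0) (h : ρ g x = s • x) :
    ρ g⁻¹ x = s⁻¹ • x := by
  have := rho_inv_self ρ g x
  rw [h, map_smul] at this
  rw [← this, smul_smul, inv_mul_cancel₀ hs, one_smul, this]
  
theorem pow_smul {g : H} {x : V} {s : ZMod p} (h : ρ g x = s • x) (k : ℕ) :
    ρ (g ^ k) x = s ^ k • x := by
  induction k with
  | zero => simp
  | succ k ih => rw [pow_succ, rho_mul, h, map_smul, ih, smul_smul, pow_succ']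

theorem ela_of_h {W W' W'' : Submodule (ZMod p) V} {s t : ZMod p} (hs : s ≠ 0) {g g' : H}
    (d : ∀ v, ∃ w ∈ W, ∃ w' ∈ W', v = w + w') (d' : ∀ v, ∃ w ∈ W, ∃ w' ∈ W'', v = w + w')
    (h1 : ∀ w ∈ W, ρ g w = s • w) (h2 : ∀ w ∈ W', ρ g w = t • w)
    (h1' : ∀ w ∈ W, ρ g' w = s • w) (h2' : ∀ w ∈ W'', ρ g' w = t • w) :
    g' * g⁻¹ ∈ ela ρ W := by
  have key : ∀ {U : Submodule (ZMod p) V} {k : H}, (∀ v, ∃ w ∈ W, ∃ w' ∈ U, v = w + w') →
      (∀ w ∈ W, ρ k w = s • w) → (∀ w ∈ U, ρ k w = t • w) → ∀ v, ρ k v - t • v ∈ W := by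
    intro U k d h1 h2 v
    obtain ⟨w, hw, w', hw', rfl⟩ := d v
    have : ρ k (w + w') - t • (w + w') = (s - t) • w := by
      rw [map_add, h1 w hw, h2 w' hw']; module
    rw [this]; exact W.smul_mem _ hw
  refine ⟨fun w hw => ?_, fun v => ?_⟩
  · rw [rho_mul, inv_smul hs (h1 w hw), map_smul, h1' w hw, smul_smul, inv_mul_cancel₀ hs, one_smul]
  · have := W.sub_mem (key d' h1' h2' (ρ g⁻¹ v)) (key d h1 h2 (ρ g⁻¹ v))
    rwa [sub_sub_sub_cancel_right, rho_self_inv, ← rho_mul] at this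

variable [Finite H]

/-- two axes that meet are equal -/
theorem ax_eq_of_meet (hf : PFree ρ) (hO : pCore p H = ⊥) (hI : Inv ρ) {s : ZMod p} (hs : s ≠ 0)
    (hs2 : s * s ≠ 1) {u v : H} (hu : Quad ρ u) (hv : Quad ρ v) {x : V} (hx : x ≠ 0)
    (h1 : x ∈ ax ρ u) (h2 : x ∈ ax ρ v) : ax ρ v = ax ρ u := by
  have main : ∀ {u v : H}, Quad ρ u → Quad ρ v → x ∈ ax ρ u → x ∈ ax ρ v → ax ρ v ≤ ax ρ u := by
    intro u v hu hv h1 h2
    obtain ⟨k, hk⟩ := exists_opp hf hO hv.1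
    have hv' := hv.conj k
    generalize k * v * k⁻¹ = v' at hk hv'
    obtain ⟨g', -, a1, a2⟩ := exists_h hI hv hv' hk hs
    have hd : ∀ y ∈ ax ρ u, y ∈ ax ρ v' → y = 0 := by
      intro y hy hy'
      obtain ⟨l, hl⟩ := exists_opp hf hO hu.1
      obtain ⟨g, -, b1, -⟩ := exists_h hI hu (hu.conj l) hl hs
      obtain ⟨n, hn⟩ := hf (g⁻¹ * g') x hx (by
        rw [rho_mul, a1 x h2, map_smul, inv_smul hs (b1 x h1), smul_smul, mul_inv_cancel₀ hs,
          one_smul])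
      have e : ρ (g⁻¹ * g') y = (s⁻¹ * s⁻¹) • y := by
        rw [rho_mul, a2 y hy', map_smul, inv_smul hs (b1 y hy), smul_smul]
      have e2 := pow_smul e (p ^ n)
      rw [← hn, pow_orderOf_eq_one, hn, ZMod.pow_card_pow, map_one] at e2
      have e3 : (s * s - 1) • y = 0 := by
        have : (s * s) • y = (s * s) • (s⁻¹ * s⁻¹) • y := congrArg _ e2
        rw [smul_smul, show s * s * (s⁻¹ * s⁻¹) = 1 by field_simp] at this
        rw [sub_smul, this, sub_self]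
      exact (smul_eq_zero.1 e3).resolve_left (sub_ne_zero.2 hs2)
    obtain ⟨g, -, b1, b2⟩ := exists_h hI hu hv' hd hs
    have d1 := decomp (fun y a b => hd y b a) (hv'.card hf hO) (hu.card hf hO)
    have d2 := decomp (fun y a b => hk y b a) (hv'.card hf hO) (hv.card hf hO)
    have he := ela_of_h (inv_ne_zero hs) d1 d2 b2 b1 a2 a1
    have e1 : g' * g⁻¹ = 1 := by
      by_contra hne
      have := hv'.ax_eq hf hO he hne
      refine hx (hd x h1 (this ▸ ?_))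
      rw [mem_ax, rho_mul, inv_smul hs (b1 x h1), map_smul, a1 x h2, smul_smul,
        inv_mul_cancel₀ hs, one_smul]
    rw [mul_inv_eq_one] at e1
    subst e1
    intro w hw
    obtain ⟨y', hy', y, hy, rfl⟩ := d1 w
    have e := a1 _ hw
    rw [map_add, b2 y' hy', b1 y hy, smul_add, add_left_inj] at e
    have e3 : (s * s - 1) • y' = 0 := by
      rw [sub_smul, ← smul_smul, ← e, smul_smul, mul_inv_cancel₀ hs, sub_self]
    rw [(smul_eq_zero.1 e3).resolve_left (sub_ne_zero.2 hs2), zero_add]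
    exact hy
  exact le_antisymm (main hu hv h1 h2) (main hv hu h2 h1)

/-- a quadratic element gives a spread -/
theorem spr_of_inv (inj : Function.Injective ρ) (hf : PFree ρ) (hO : pCore p H = ⊥)
    (tr : ∀ v w : V, v ≠ 0 → w ≠ 0 → ∃ h, ρ h v = w) (hI : Inv ρ) {s : ZMod p} (hs : s ≠ 0)
    (hs2 : s * s ≠ 1) {u : H} (hu : Quad ρ u) : Spr ρ (ax ρ u) (ela ρ (ax ρ u)) := by
  refine spr inj hf hO hu (fun g x h1 hx h2 => ax_eq_of_meet hf hO hI hs hs2 hu (hu.conj g) hx h1 h2)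
    ?_
  obtain ⟨k, hk⟩ := exists_opp hf hO hu.1
  have hu' := hu.conj k
  generalize k * u * k⁻¹ = u' at hk hu'
  obtain ⟨y, hy, y0⟩ := hu'.exists_ne inj
  obtain ⟨x, hx, x0⟩ := hu.exists_ne inj
  have yW : y ∉ ax ρ u := fun h => y0 (hk y h hy)
  refine ⟨y, yW, fun w hw => ?_⟩
  have h3 : 1 - s * s ≠ 0 := sub_ne_zero.2 hs2.symm
  have hw0 : (1 - s * s)⁻¹ • w ∈ ax ρ u := Submodule.smul_mem _ _ hw
  have vW : (1 - s * s)⁻¹ • w + y ∉ ax ρ u := fun h => yW ((Submodule.add_mem_iff_right _ hw0).1 h)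
  obtain ⟨l, hl⟩ := tr x ((1 - s * s)⁻¹ • w + y) x0 fun e => vW (e ▸ Submodule.zero_mem _)
  have hv : (1 - s * s)⁻¹ • w + y ∈ ax ρ (l * u * l⁻¹) := by
    rw [mem_ax_conj, ← hl, rho_inv_self]; exact hx
  have hd : ∀ v ∈ ax ρ u, v ∈ ax ρ (l * u * l⁻¹) → v = 0 := by
    intro v h1 h2
    by_contra v0
    exact vW (ax_eq_of_meet hf hO hI hs hs2 hu (hu.conj l) v0 h1 h2 ▸ hv)
  obtain ⟨g, -, a1, a2⟩ := exists_h hI hu hu' hk hs
  obtain ⟨g', -, b1, b2⟩ := exists_h hI hu (hu.conj l) hd hs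
  refine ⟨g' * g⁻¹, ela_of_h hs (decomp hk (hu.card hf hO) (hu'.card hf hO))
    (decomp hd (hu.card hf hO) ((hu.conj l).card hf hO)) a1 a2 b1 b2, ?_⟩
  have e := b2 _ hv
  rw [map_add, b1 _ hw0] at e
  rw [rho_mul, inv_smul (inv_ne_zero hs) (a2 y hy), inv_inv, map_smul, eq_sub_of_add_eq' e]
  have h4 : 1 - s ^ 2 ≠ 0 := by rwa [sq]
  match_scalars <;> field_simp <;> ring

/-- the hypothesis of the overgroup lemma -/
theorem unit_of_comm (hf : PFree ρ) (hO : pCore p H = ⊥) {u u' : H} (h : Quad ρ u) (h' : Quad ρ u')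
    (hd : ∀ v ∈ ax ρ u, v ∈ ax ρ u' → v = 0) {g : H} (g1 : g ≠ 1)
    (h1 : (ρ u - 1) * (ρ g - 1) = 0) (h2 : (ρ g - 1) * (ρ u - 1) = 0) :
    IsUnit ((ρ g - 1) * (ρ u' - 1) + (ρ u' - 1) * (ρ g - 1)) := by
  have hr : LinearMap.range (ρ u - 1) = ax ρ u := by
    have c1 := card_ker_range (ρ u - 1)
    have c2 := h.card hf hO
    have c3 : Nat.card (LinearMap.range (ρ u - 1)) = Nat.card (ax ρ u) := by
      rw [c2, sq] at c1
      exact (Nat.eq_of_mul_eq_mul_left Nat.card_pos c1).symm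
    refine eq_of_le_of_sq ?_ (by rw [c3, c2]) c2.ge
    rintro _ ⟨v, rfl⟩
    exact h.com v
  have he : g ∈ ela ρ (ax ρ u) := by
    refine ⟨fun w hw => ?_, fun v => congrArg (fun f : Module.End (ZMod p) V => f v) h1⟩
    rw [← hr] at hw
    obtain ⟨v, rfl⟩ := hw
    exact sub_eq_zero.1 (congrArg (fun f : Module.End (ZMod p) V => f v) h2)
  exact (quad_of_ela he g1).isUnit h' (by rw [h.ax_eq hf hO he g1]; exact hd)

end

variable {p : ℕ} [hp : Fact p.Prime] {V : Type} [AddCommGroup V] [Module (ZMod p) V] [Finite V]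
  {H : Type u} [Group H] [Finite H] {ρ : H →* Module.End (ZMod p) V}

theorem c1_of_spr {W : Submodule (ZMod p) V} {E : Subgroup H} (h : Spr ρ W E) (hf : PFree ρ)
    (h2 : 2 < Nat.card W) : C1 p H := by
  obtain ⟨F, _, _, ha, hc, S, -, hS⟩ := h.shape hf
  exact ⟨F, inferInstance, inferInstance, ha, hc ▸ h2, S, hS⟩

theorem c1_of_spr' {W : Submodule (ZMod p) V} {E : Subgroup H} (h : Spr ρ W E) (hf : PFree ρ)
    (h2 : p ≠ 2) : C1 p H := by
  obtain ⟨F, _, _, ⟨a, ha⟩, -, S, -, hS⟩ := h.shape hf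
  refine ⟨F, inferInstance, inferInstance, ⟨a, ha⟩, ?_, S, hS⟩
  have h1 : 1 < Fintype.card F := Fintype.one_lt_card
  have a0 : a ≠ 0 := by rintro rfl; simp [ha] at h1
  have := hp.out.two_le
  calc 2 < p := by omega
    _ ≤ p ^ a := Nat.le_self_pow a0 p
    _ = _ := ha.symm

/-- **Q1.** -/
theorem q1 (h5 : 5 ≤ p) (T : Tr ρ) (hI : Inv ρ) {u : H} (hu : Quad ρ u) : C1 p H := by
  haveI := T.nt
  have nz : ∀ n : ℕ, 0 < n → n < 5 → (n : ZMod p) ≠ 0 := fun n h0 h1 e =>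
    absurd (Nat.le_of_dvd h0 ((ZMod.natCast_eq_zero_iff n p).1 e)) (by omega)
  refine c1_of_spr' (spr_of_inv T.inj T.free (pCore_bot T.inj T.trans) T.trans hI (s := 2)
    (by exact_mod_cast nz 2 (by omega) (by omega)) (fun e => nz 3 (by omega) (by omega) ?_) hu)
    T.free (by omega)
  push_cast
  linear_combination e

/-- `Inv` from the overgroup lemma in the form of `docs/G41p5.md` -/
theorem inv_of_odl (T : Tr ρ) (odl : ∀ u u' : H, (ρ u - 1) * (ρ u - 1) = 0 →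
    (ρ u' - 1) * (ρ u' - 1) = 0 → IsUnit ((ρ u - 1) * (ρ u' - 1) + (ρ u' - 1) * (ρ u - 1)) →
    (∀ g : H, g ≠ 1 → (ρ g - 1) * (ρ g - 1) = 0 → (ρ u - 1) * (ρ g - 1) = 0 →
      (ρ g - 1) * (ρ u - 1) = 0 → IsUnit ((ρ g - 1) * (ρ u' - 1) + (ρ u' - 1) * (ρ g - 1))) →
    ∃ y ∈ Subgroup.closure ({u, u'} : Set H),
      ((ρ u - 1) * (ρ u' - 1) + (ρ u' - 1) * (ρ u - 1)) * (ρ y - 1) = ρ u - 1) : Inv ρ :=
  haveI := T.nt
  fun u u' h h' hd => odl u u' h.2 h'.2 (h.isUnit h' hd) fun _ g1 _ h1 h2 =>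
    unit_of_comm T.free (pCore_bot T.inj T.trans) h h' hd g1 h1 h2

end Cfsg.G41.Qd
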