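import Cfsg.Agent.G41.OD
import Cfsg.Agent.G41.Q1

/-! Two opposite quadratic elements generate a group containing `1 + z⁻¹ a` (`p ≥ 5`). -/

set_option autoImplicit false

namespace Cfsg.G41

open scoped MatrixGroups
open Subgroup

/-- matrix units over a commutative ring -/
structure MUR (R A : Type*) [CommRing R] [Ring A] where
  φ : R →+* A
  a : A
  b : A
  aa : a * a = 0
  bb : b * b = 0
  ab : a * b + b * a = 1
  ca : ∀ c, φ c * a = a * φ c
  cb : ∀ c, φ c * b = b * φ c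

namespace MUR

variable {R A : Type*} [CommRing R] [Ring A] (μ : MUR R A)

theorem aba : μ.a * μ.b * μ.a = μ.a := by
  have : μ.a * μ.b = 1 - μ.b * μ.a := by rw [← μ.ab]; abel
  rw [this, sub_mul, mul_assoc, μ.aa]; simp

theorem bab : μ.b * μ.a * μ.b = μ.b := by
  have : μ.b * μ.a = 1 - μ.a * μ.b := by rw [← μ.ab]; abel
  rw [this, sub_mul, mul_assoc, μ.bb]; simp

theorem key {e : A} (he : ∀ c, μ.φ c * e = e * μ.φ c) (x y : R) (f : A) :
    μ.φ x * e * (μ.φ y * f) = μ.φ (x * y) * (e * f) := by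
  rw [map_mul, mul_assoc, ← mul_assoc e, ← he, mul_assoc, mul_assoc]

theorem cab (c : R) : μ.φ c * (μ.a * μ.b) = μ.a * μ.b * μ.φ c := by
  rw [← mul_assoc, μ.ca, mul_assoc, μ.cb, mul_assoc]

theorem cba (c : R) : μ.φ c * (μ.b * μ.a) = μ.b * μ.a * μ.φ c := by
  rw [← mul_assoc, μ.cb, mul_assoc, μ.ca, mul_assoc]

/-- the ring homomorphism `M₂(R) → A` -/
def Φ : Matrix (Fin 2) (Fin 2) R →+* A where
  toFun M := μ.φ (M 0 0) * (μ.a * μ.b) + μ.φ (M 0 1) * μ.a + μ.φ (M 1 0) * μ.b +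
    μ.φ (M 1 1) * (μ.b * μ.a)
  map_one' := by simpa using μ.ab
  map_zero' := by simp
  map_add' M N := by simp only [Matrix.add_apply, map_add, add_mul]; abel
  map_mul' M N := by
    have e1 : μ.a * μ.b * (μ.a * μ.b) = μ.a * μ.b := by rw [← mul_assoc, μ.aba]
    have e2 : μ.a * μ.b * μ.b = 0 := by rw [mul_assoc, μ.bb, mul_zero]
    have e3 : μ.a * μ.b * (μ.b * μ.a) = 0 := by rw [← mul_assoc, e2, zero_mul]
    have e4 : μ.a * (μ.a * μ.b) = 0 := by rw [← mul_assoc, μ.aa, zero_mul]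
    have e5 : μ.a * (μ.b * μ.a) = μ.a := by rw [← mul_assoc, μ.aba]
    have e6 : μ.b * (μ.a * μ.b) = μ.b := by rw [← mul_assoc, μ.bab]
    have e7 : μ.b * (μ.b * μ.a) = 0 := by rw [← mul_assoc, μ.bb, zero_mul]
    have e8 : μ.b * μ.a * μ.a = 0 := by rw [mul_assoc, μ.aa, mul_zero]
    have e9 : μ.b * μ.a * (μ.a * μ.b) = 0 := by rw [← mul_assoc, e8, zero_mul]
    have e10 : μ.b * μ.a * (μ.b * μ.a) = μ.b * μ.a := by rw [← mul_assoc, μ.bab]
    simp only [add_mul, mul_add, μ.key μ.cab, μ.key μ.cba, μ.key μ.ca, μ.key μ.cb, e1, e2, e3,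
      e4, e5, e6, e7, e8, e9, e10, μ.aba, μ.bab, μ.aa, μ.bb, mul_zero, add_zero, zero_add,
      Matrix.mul_apply, Fin.sum_univ_two, map_add]
    abel

theorem Φ_apply (M : Matrix (Fin 2) (Fin 2) R) : μ.Φ M = μ.φ (M 0 0) * (μ.a * μ.b) +
    μ.φ (M 0 1) * μ.a + μ.φ (M 1 0) * μ.b + μ.φ (M 1 1) * (μ.b * μ.a) := rfl

theorem Φ_up (c : R) : μ.Φ (up c).1 = 1 + μ.φ c * μ.a := by
  rw [Φ_apply, ← μ.ab]
  simp only [up_e, map_one, map_zero, one_mul, zero_mul]
  abel

theorem Φ_lo (c : R) : μ.Φ (lo c).1 = 1 + μ.φ c * μ.b := by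
  rw [Φ_apply, ← μ.ab]
  simp only [lo_e, map_one, map_zero, one_mul, zero_mul]
  abel

theorem Φ_injective (h : Function.Injective μ.φ) : Function.Injective μ.Φ := by
  refine (injective_iff_map_eq_zero _).2 fun M hM => ?_
  ext i j
  have e := congrArg μ.Φ (Matrix.single_mul_mul_single (0 : Fin 2) i j (1 : Fin 2) 1 M 1)
  rw [map_mul, map_mul, hM, mul_zero, zero_mul, Φ_apply] at e
  have e2 : μ.φ (M i j) * μ.a = 0 := by simpa using e.symm
  apply h
  rw [← mul_one (μ.φ _), ← μ.ab, mul_add, ← mul_assoc, e2, ← mul_assoc, μ.cb, mul_assoc, e2]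
  simp

end MUR

/-- the lifting step of `odl` in `SL₂(R)` -/
theorem odl_ring {R : Type*} [CommRing R] [Finite R] [Nontrivial R] (p : ℕ) [hp : Fact p.Prime]
    (h5 : 5 ≤ p) (hR : (p : R) = 0) {ζ : R} (hζ : IsUnit ζ)
    (hf : ∀ g ∈ closure ({up 1, lo ζ} : Set SL(2, R)), ¬ IsUnit (g.1 - 1) → ∃ k, g ^ p ^ k = 1)
    (hu : ∀ β : R, β ≠ 0 → up β ∈ closure ({up 1, lo ζ} : Set SL(2, R)) → IsUnit β) :
    ∃ β, up β ∈ closure ({up 1, lo ζ} : Set SL(2, R)) ∧ ζ * β = 1 := by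
  classical
  set Γ := closure ({up 1, lo ζ} : Set SL(2, R)) with hΓ
  obtain ⟨m, hm⟩ := Ideal.exists_maximal R
  letI := Ideal.Quotient.field m
  set f := Ideal.Quotient.mk m
  haveI : CharP (R ⧸ m) p := (CharP.charP_iff_prime_eq_zero hp.out).2 (by
    rw [← map_natCast f, hR, map_zero])
  haveI : Finite (R ⧸ m) := Finite.of_surjective f Ideal.Quotient.mk_surjective
  have hpo : Odd p := hp.out.odd_of_ne_two (by omega)
  let π : Γ →* SL(2, R ⧸ m) := (Matrix.SpecialLinearGroup.map f).comp Γ.subtype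
  have hπ : ∀ (g : Γ) i j, (π g).1 i j = f (g.1.1 i j) := fun _ _ _ => rfl
  set t : Γ := ⟨up 1, subset_closure (by simp)⟩ with ht
  set t' : Γ := ⟨lo ζ, subset_closure (Set.mem_insert_of_mem _ rfl)⟩ with ht'
  have hup : ∀ g : Γ, t * g = g * t → (∃ k, g ^ p ^ k = 1) → g.1 = up (g.1.1 0 1) := by
    rintro g h ⟨k, hk⟩
    obtain ⟨a1, a2⟩ := comm_up_one.1 (congrArg Subtype.val h)
    have a3 := sl_det g.1
    rw [a1, ← a2, mul_zero, sub_zero] at a3
    have a4 : ∀ n : ℕ, (g ^ n).1.1 0 0 = g.1.1 0 0 ^ n := by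
      intro n
      induction n with
      | zero => simp
      | succ n ih => rw [pow_succ, coe_mul, sl_mul, ih, a1, pow_succ]; ring
    have a5 := a4 (p ^ k)
    obtain ⟨j, hj⟩ := hpo.pow (n := k)
    rw [hk, hj, pow_succ, pow_mul, sq, a3, one_pow, one_mul] at a5
    have a6 : g.1.1 0 0 = 1 := a5.symm
    rw [sl_ext]
    exact ⟨a6, rfl, a1, a2 ▸ a6⟩
  have hker : ∀ g ∈ π.ker, ∃ k, g ^ p ^ k = 1 := by
    intro g hg
    obtain ⟨k, hk⟩ := hf g.1 g.2 fun h => by
      have h1 := h.map f.mapMatrix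
      have h3 : π g = 1 := hg
      have h2 : f.mapMatrix g.1.1 = 1 := congrArg Subtype.val h3
      rw [map_sub, h2, map_one, sub_self] at h1
      exact not_isUnit_zero h1
    exact ⟨k, Subtype.ext hk⟩
  have hinj : Function.Injective π := by
    rw [← MonoidHom.ker_eq_bot_iff]
    by_contra hne
    haveI := Fintype.ofFinite π.ker
    have hP : IsPGroup p π.ker := fun g => (hker g.1 g.2).imp fun k hk => Subtype.ext hk
    obtain ⟨n, hn⟩ := IsPGroup.iff_card.1 hP
    have hd : p ∣ Fintype.card π.ker := by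
      rw [← Nat.card_eq_fintype_card, hn]
      refine dvd_pow_self p fun e => hne (card_eq_one.1 ?_)
      rw [hn, e, pow_zero]
    have htp : t ^ p = 1 := Subtype.ext (by simp [ht, up_pow, hR, up_zero])
    obtain ⟨c, hc, hc1⟩ := Equiv.Perm.exists_fixed_point_of_prime' (p := p) (n := 1) hd
      (σ := MulAut.toPerm _ (MulAut.conjNormal t : MulAut π.ker)) (by
        rw [pow_one, ← map_pow, ← map_pow, htp, map_one, map_one]) (a := 1)
      (map_one (MulAut.conjNormal t : MulAut π.ker))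
    have e1 : t * c.1 * t⁻¹ = c.1 := congrArg Subtype.val hc
    have e2 := hup c.1 (mul_inv_eq_iff_eq_mul.1 e1) (hker _ c.2)
    have e3 := (hu (c.1.1.1 0 1) (fun e => hc1 (Subtype.ext (Subtype.ext (by
      rw [e2, e, up_zero]; rfl)))) (e2 ▸ c.1.2)).map f
    rw [← hπ, MonoidHom.mem_ker.1 c.2] at e3
    simp at e3
  have hz : f ζ ≠ 0 := (hζ.map f).ne_zero
  have πt : π t = up 1 := by rw [sl_ext]; simp [hπ, ht, up_e]
  have πt' : π t' = lo (f ζ) := by rw [sl_ext]; simp [hπ, ht', lo_e]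
  obtain ⟨y, hy⟩ : up (f ζ)⁻¹ ∈ π.range := by
    refine (closure_le _).2 ?_ (od_sl2 p h5 hz)
    rintro _ (rfl | rfl)
    exacts [⟨t, πt⟩, ⟨t', πt'⟩]
  have e1 := hup y (hinj (by rw [map_mul, map_mul, hy, πt, ← up_add, ← up_add, add_comm]))
    ⟨1, hinj (by rw [map_pow, hy, up_pow]; simp [up_zero])⟩
  refine ⟨y.1.1 0 1, e1 ▸ y.2, ?_⟩
  have e2 : t * (y * t'⁻¹ * y * (y * t'⁻¹ * y)) = y * t'⁻¹ * y * (y * t'⁻¹ * y) * t := hinj (by
    simp only [map_mul, map_inv, hy, πt, πt']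
    rw [comm_up_one]
    simp only [sl_mul, sl_inv, up_e, lo_e]
    constructor <;> field_simp <;> ring)
  have e3 := (comm_up_one.1 (congrArg Subtype.val e2)).1
  generalize y.1.1 0 1 = β at e1
  simp only [coe_mul, coe_inv, e1, ht', sl_mul, sl_inv, up_e, lo_e] at e3
  obtain ⟨j, hj⟩ := hpo
  have h2 : (2 : R) * (j + 1) = 1 := by
    rw [hj] at hR; push_cast at hR; linear_combination hR
  refine hζ.mul_left_cancel ?_
  linear_combination (j + 1) * e3 + (ζ - ζ * ζ * β) * h2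

variable {p : ℕ} [hp : Fact p.Prime] {V : Type*} [AddCommGroup V] [Module (ZMod p) V] [Finite V]
  {H : Type*} [Group H] {ρ : H →* Module.End (ZMod p) V}

theorem odl (h5 : 5 ≤ p) (inj : Function.Injective ρ) (hf : PFree ρ) (u u' : H)
    (aa : (ρ u - 1) * (ρ u - 1) = 0) (bb : (ρ u' - 1) * (ρ u' - 1) = 0)
    (hz : IsUnit ((ρ u - 1) * (ρ u' - 1) + (ρ u' - 1) * (ρ u - 1)))
    (hE : ∀ g : H, g ≠ 1 → (ρ g - 1) * (ρ g - 1) = 0 → (ρ u - 1) * (ρ g - 1) = 0 →
      (ρ g - 1) * (ρ u - 1) = 0 → IsUnit ((ρ g - 1) * (ρ u' - 1) + (ρ u' - 1) * (ρ g - 1))) :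
    ∃ y ∈ closure ({u, u'} : Set H),
      ((ρ u - 1) * (ρ u' - 1) + (ρ u' - 1) * (ρ u - 1)) * (ρ y - 1) = ρ u - 1 := by
  rcases subsingleton_or_nontrivial V with hV | hV
  · exact ⟨1, one_mem _, Subsingleton.elim _ _⟩
  haveI : Finite (Module.End (ZMod p) V) := Finite.of_injective _ DFunLike.coe_injective
  set a := ρ u - 1 with ha
  set b := ρ u' - 1 with hb
  obtain ⟨z, hz⟩ := hz
  let C := Subring.centralizer ({a, b} : Set (Module.End (ZMod p) V))
  have hC : ∀ x, x ∈ C ↔ a * x = x * a ∧ b * x = x * b := fun x => by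
    simp [C, Subring.mem_centralizer_iff]
  have za : Commute a z := by
    rw [hz, Commute, SemiconjBy, mul_add, add_mul, ← mul_assoc, aa, mul_assoc b, aa]
    simp [mul_assoc]
  have zb : Commute b z := by
    rw [hz, Commute, SemiconjBy, mul_add, add_mul, ← mul_assoc b b, bb, mul_assoc a, bb]
    simp [mul_assoc]
  have zc : ∀ x ∈ C, Commute x z := fun x hx => by
    have h1 : Commute x a := ((hC x).1 hx).1.symm
    have h2 : Commute x b := ((hC x).1 hx).2.symm
    rw [hz]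
    exact (h1.mul_right h2).add_right (h2.mul_right h1)
  let R := Subring.center C
  let φ : R →+* Module.End (ZMod p) V := C.subtype.comp R.subtype
  have hφ : Function.Injective φ := Subtype.val_injective.comp Subtype.val_injective
  let ζ : R := ⟨⟨z, (hC _).2 ⟨za, zb⟩⟩, Subring.mem_center_iff.2 fun x => Subtype.ext (zc _ x.2)⟩
  let ζ' : R := ⟨⟨↑z⁻¹, (hC _).2 ⟨za.units_inv_right, zb.units_inv_right⟩⟩,
    Subring.mem_center_iff.2 fun x => Subtype.ext (zc _ x.2).units_inv_right⟩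
  have hζ : IsUnit ζ := IsUnit.of_mul_eq_one ζ' (Subtype.ext (Subtype.ext z.mul_inv))
  let μ : MUR R (Module.End (ZMod p) V) :=
    { φ := φ
      a := a
      b := ↑z⁻¹ * b
      aa := aa
      bb := by rw [mul_assoc, ← mul_assoc b, zb.units_inv_right.eq, mul_assoc, bb]; simp
      ab := by
        rw [← mul_assoc, za.units_inv_right.eq, mul_assoc, mul_assoc, ← mul_add, ← hz, z.inv_mul]
      ca := fun c => ((hC _).1 c.1.2).1.symm
      cb := fun c => ((zc _ c.1.2).units_inv_right.mul_right ((hC _).1 c.1.2).2.symm).eq }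
  have hΦ := μ.Φ_injective hφ
  have hl : ∀ g ∈ closure ({up 1, lo ζ} : Set SL(2, R)), ∃ y ∈ closure ({u, u'} : Set H),
      ρ y = μ.Φ g.1 := by
    intro g hg
    induction hg using closure_induction with
    | mem g hg =>
      rcases hg with rfl | rfl
      · exact ⟨u, subset_closure (by simp), by rw [μ.Φ_up, map_one, one_mul]; simp [μ, ha]⟩
      · refine ⟨u', subset_closure (by simp), ?_⟩
        rw [μ.Φ_lo]
        change _ = 1 + (z : Module.End (ZMod p) V) * (↑z⁻¹ * b)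
        rw [z.mul_inv_cancel_left, hb, add_sub_cancel]
    | one => exact ⟨1, one_mem _, by simp⟩
    | mul g g' _ _ h h' =>
      obtain ⟨y, h1, h2⟩ := h
      obtain ⟨y', h3, h4⟩ := h'
      exact ⟨y * y', mul_mem h1 h3, by rw [map_mul, h2, h4, ← map_mul]; rfl⟩
    | inv g _ h =>
      obtain ⟨y, h1, h2⟩ := h
      refine ⟨y⁻¹, inv_mem h1, ?_⟩
      have e : ρ y * μ.Φ g⁻¹.1 = 1 := by
        rw [h2, ← map_mul, ← Matrix.SpecialLinearGroup.coe_mul, mul_inv_cancel]; simp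
      rw [← one_mul (μ.Φ _), ← map_one ρ, ← inv_mul_cancel y, map_mul, mul_assoc, e, mul_one]
  haveI : Finite R := Finite.of_injective _ hφ
  refine (odl_ring (R := R) p h5 (hφ (by
    rw [map_natCast, map_zero, ← map_natCast (algebraMap (ZMod p) _), CharP.cast_eq_zero,
      map_zero])) hζ (fun g hg hu => ?_) (fun β h0 hβ => ?_)).elim fun β ⟨h1, h2⟩ => ?_
  rotate_right
  · obtain ⟨y, h3, h4⟩ := hl _ h1
    refine ⟨y, h3, ?_⟩
    rw [h4, μ.Φ_up, add_sub_cancel_left, ← hz, ← mul_assoc]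
    change φ ζ * φ β * a = a
    rw [← map_mul, h2, map_one, one_mul]
  · obtain ⟨y, -, h4⟩ := hl _ hg
    by_contra hc
    refine hu (IsLeftRegular.isUnit_of_finite fun M M' e => hΦ ?_)
    have hi : Function.Injective (ρ y - 1 : Module.End (ZMod p) V) := by
      refine (injective_iff_map_eq_zero _).2 fun v hv => ?_
      by_contra h0
      obtain ⟨k, hk⟩ := hf y v h0 (by simpa [sub_eq_zero] using hv)
      refine hc ⟨k, Subtype.ext (hΦ ?_)⟩
      rw [Matrix.SpecialLinearGroup.coe_pow, map_pow, ← h4, ← map_pow, ← hk, pow_orderOf_eq_one]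
      simp
    have e' := congrArg μ.Φ e
    simp only [map_mul, map_sub, map_one, ← h4] at e'
    exact LinearMap.ext fun v => hi (congrArg (· v) e')
  · obtain ⟨y, -, h4⟩ := hl _ hβ
    have e : ρ y - 1 = φ β * a := by rw [h4, μ.Φ_up, add_sub_cancel_left]
    have ca : φ β * a = a * φ β := μ.ca β
    have cb : φ β * b = b * φ β := ((hC _).1 β.1.2).2.symm
    have h5 := hE y (fun e1 => h0 ?_) (by rw [e, mul_assoc, ← mul_assoc a, ← ca, mul_assoc, aa]; simp)
      (by rw [e, ← mul_assoc, ← ca, mul_assoc, aa, mul_zero]) (by rw [e, mul_assoc, aa, mul_zero])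
    · rw [e, ← mul_assoc, ← cb, mul_assoc, mul_assoc, ← mul_add] at h5
      refine IsLeftRegular.isUnit_of_finite fun c c' e => hφ ?_
      have e' : φ β * φ c = φ β * φ c' := by simpa only [map_mul] using congrArg φ e
      refine h5.mul_left_cancel ?_
      have cz : φ β * z = z * φ β := zc _ β.1.2
      rw [← hz, cz, mul_assoc, mul_assoc, e']
    · rw [e1, map_one] at h4
      exact (sl_ext.1 (Subtype.ext (hΦ (h4.symm.trans (map_one _).symm)) : up β = 1)).2.1

/-- the hypothesis `Inv` of `Qd.q1` -/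
theorem inv_of_tr {V : Type} [AddCommGroup V] [Module (ZMod p) V] [Finite V] {H : Type*} [Group H]
    [Finite H] {ρ : H →* Module.End (ZMod p) V} (h5 : 5 ≤ p) (T : Tr ρ) : Qd.Inv ρ :=
  Qd.inv_of_odl T (odl h5 T.inj T.free)

end Cfsg.G41
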