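import Cfsg.Agent.G41.P2Defs
import Cfsg.Agent.Grp.Baer

/-! S4841, `p = 2`: basic facts. -/

set_option autoImplicit false
set_option linter.style.haveILetI false
set_option linter.unusedSectionVars false

namespace Cfsg.G41.P2

open Subgroup
open scoped commutatorElement Pointwise

universe u

variable {V : Type} [AddCommGroup V] [Module (ZMod 2) V] {L : Type u} [Group L]
  {ρ : L →* Module.End (ZMod 2) V}

theorem mem_fx {A : Subgroup L} {v : V} : v ∈ fx ρ A ↔ ∀ a ∈ A, ρ a v = v := Iff.rfl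
theorem mem_pw {U : Submodule (ZMod 2) V} {g : L} : g ∈ pw ρ U ↔ ∀ u ∈ U, ρ g u = u := Iff.rfl
theorem mem_st {U : Submodule (ZMod 2) V} {g : L} : g ∈ st ρ U ↔ ∀ v, ρ g v ∈ U ↔ v ∈ U := Iff.rfl

theorem add_self (v : V) : v + v = 0 := by
  have : ((2 : ZMod 2)) = 0 := rfl
  rw [← two_smul (ZMod 2) v, this, zero_smul]

theorem neg_self (v : V) : -v = v := neg_eq_of_add_eq_zero_left (add_self v)

theorem sub_eq_add' (v w : V) : v - w = v + w := by rw [sub_eq_add_neg, neg_self]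

theorem mem_fx_zpowers {t : L} {v : V} : v ∈ fx ρ (zpowers t) ↔ ρ t v = v := by
  refine ⟨fun h => h t (mem_zpowers t), fun h => ?_⟩
  have : zpowers t ≤ pw ρ (Submodule.span (ZMod 2) {v}) := by
    rw [zpowers_le]
    intro u hu
    obtain ⟨c, rfl⟩ := Submodule.mem_span_singleton.1 hu
    rw [map_smul, h]
  exact fun a ha => this ha v (Submodule.mem_span_singleton_self v)

theorem fx_anti {A B : Subgroup L} (h : A ≤ B) : fx ρ B ≤ fx ρ A := fun _ hv a ha => hv a (h ha)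
theorem pw_anti {U U' : Submodule (ZMod 2) V} (h : U ≤ U') : pw ρ U' ≤ pw ρ U :=
  fun _ hg u hu => hg u (h hu)
theorem le_pw_iff {A : Subgroup L} {U : Submodule (ZMod 2) V} : A ≤ pw ρ U ↔ U ≤ fx ρ A :=
  ⟨fun h _ hu _ ha => h ha _ hu, fun h _ ha _ hu => h hu _ ha⟩
theorem le_pw_fx (A : Subgroup L) : A ≤ pw ρ (fx ρ A) := le_pw_iff.2 le_rfl
theorem fx_sup (A B : Subgroup L) : fx ρ (A ⊔ B) = fx ρ A ⊓ fx ρ B := by
  refine le_antisymm (le_inf (fx_anti le_sup_left) (fx_anti le_sup_right)) ?_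
  rw [← le_pw_iff, sup_le_iff, le_pw_iff, le_pw_iff]
  exact ⟨inf_le_left, inf_le_right⟩

theorem rho_inj (g : L) : Function.Injective (ρ g) := fun v w h => by
  rw [← rho_inv_self ρ g v, h, rho_inv_self]

theorem mem_st_of_le [Finite V] {U : Submodule (ZMod 2) V} {g : L} (h : ∀ u ∈ U, ρ g u ∈ U) :
    g ∈ st ρ U := by
  intro v
  refine ⟨fun hv => ?_, h v⟩
  let f : U → U := fun u => ⟨ρ g u, h u u.2⟩
  have fi : Function.Injective f := fun a b e => Subtype.ext (rho_inj g (congrArg Subtype.val e))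
  obtain ⟨u, hu⟩ := Finite.surjective_of_injective fi ⟨_, hv⟩
  have : (u : V) = v := rho_inj g (congrArg Subtype.val hu)
  exact this ▸ u.2

theorem pw_le_st [Finite V] (U : Submodule (ZMod 2) V) : pw ρ U ≤ st ρ U :=
  fun _ hg => mem_st_of_le fun u hu => by rw [hg u hu]; exact hu

theorem conj_mem_pw {U : Submodule (ZMod 2) V} {g t : L} (hg : g ∈ st ρ U) (ht : t ∈ pw ρ U) :
    g * t * g⁻¹ ∈ pw ρ U := fun u hu => by
  rw [rho_mul, rho_mul, ht _ (((st ρ U).inv_mem hg u).2 hu), rho_self_inv]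

theorem st_le_normalizer (U : Submodule (ZMod 2) V) : st ρ U ≤ normalizer (pw ρ U : Set L) := by
  intro g hg
  rw [mem_normalizer_iff]
  refine fun t => ⟨conj_mem_pw hg, fun h => ?_⟩
  have := conj_mem_pw ((st ρ U).inv_mem hg) h
  simpa [mul_assoc] using this

theorem normalizer_le_st (A : Subgroup L) : normalizer (A : Set L) ≤ st ρ (fx ρ A) := by
  have key : ∀ g ∈ normalizer (A : Set L), ∀ v ∈ fx ρ A, ρ g v ∈ fx ρ A := by
    intro g hg v hv a ha
    have h1 : g⁻¹ * a * g ∈ A := by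
      have := (mem_normalizer_iff.1 hg (g⁻¹ * a * g)).2 (by simpa [mul_assoc] using ha)
      exact this
    have := hv _ h1
    rw [rho_mul, rho_mul] at this
    rw [← rho_self_inv ρ g (ρ a (ρ g v)), this]
  intro g hg v
  refine ⟨fun h => ?_, key g hg v⟩
  have := key _ ((normalizer (A : Set L)).inv_mem hg) _ h
  rwa [rho_inv_self] at this

/-- the stabiliser of a vector -/
def vs (ρ : L →* Module.End (ZMod 2) V) (v : V) : Subgroup L where
  carrier := {g | ρ g v = v}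
  mul_mem' := fun {a b} ha hb => by
    have ha : ρ a v = v := ha
    have hb : ρ b v = v := hb
    show ρ (a * b) v = v
    rw [rho_mul, hb, ha]
  one_mem' := by show ρ 1 v = v; rw [map_one]; rfl
  inv_mem' := fun {g} hg => by
    have hg : ρ g v = v := hg
    have := rho_inv_self ρ g v
    rwa [hg] at this

theorem mem_vs {v : V} {g : L} : g ∈ vs ρ v ↔ ρ g v = v := Iff.rfl

theorem vs_pgroup (hf : PFree ρ) {v : V} (hv : v ≠ 0) : IsPGroup 2 (vs ρ v) := by
  intro g
  obtain ⟨k, hk⟩ := hf g v hv g.2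
  exact ⟨k, Subtype.ext (by rw [Subgroup.coe_pow, ← hk, pow_orderOf_eq_one]; rfl)⟩

theorem pgroup_of_fix (hf : PFree ρ) {A : Subgroup L} {v : V} (hv : v ≠ 0) (h : v ∈ fx ρ A) :
    IsPGroup 2 A := (vs_pgroup hf hv).to_le fun a ha => h a ha

theorem pw_pgroup (hf : PFree ρ) {U : Submodule (ZMod 2) V} (hU : U ≠ ⊥) : IsPGroup 2 (pw ρ U) := by
  obtain ⟨u, hu, u0⟩ := (Submodule.ne_bot_iff U).1 hU
  exact pgroup_of_fix hf u0 fun a ha => ha u hu

theorem card_two_pow [Finite V] (U : Submodule (ZMod 2) V) : ∃ k, Nat.card U = 2 ^ k :=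
  ⟨_, by rw [Module.natCard_eq_pow_finrank (K := ZMod 2), Nat.card_zmod]⟩

theorem card_V_two_pow [Finite V] : ∃ k, Nat.card V = 2 ^ k :=
  ⟨_, by rw [Module.natCard_eq_pow_finrank (K := ZMod 2), Nat.card_zmod]⟩

theorem two_le_card [Finite V] {U : Submodule (ZMod 2) V} (hU : U ≠ ⊥) : 2 ≤ Nat.card U := by
  have : Nontrivial U := Submodule.nontrivial_iff_ne_bot.2 hU
  exact Finite.one_lt_card

theorem ne_bot_of_sq [Finite V] [Nontrivial V] {U : Submodule (ZMod 2) V}
    (h : Nat.card V = Nat.card U ^ 2) : U ≠ ⊥ := by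
  rintro rfl
  have : 1 < Nat.card V := Finite.one_lt_card
  simp at h; omega

/-- a 2-group fixes a non-zero vector of every non-zero invariant subspace -/
theorem exists_fixed [Finite V] {A : Subgroup L} (hA : IsPGroup 2 A) {U : Submodule (ZMod 2) V}
    (hU : U ≠ ⊥) (h : A ≤ st ρ U) : ∃ u ∈ U, u ≠ 0 ∧ u ∈ fx ρ A := by
  letI : MulAction A U :=
    { smul := fun a u => ⟨ρ a u, (h a.2 _).2 u.2⟩
      one_smul := fun u => Subtype.ext (by show ρ 1 u = u; rw [map_one]; rfl)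
      mul_smul := fun a b u => Subtype.ext (rho_mul ρ _ _ _) }
  obtain ⟨k, hk⟩ := card_two_pow U
  have h2 : 2 ∣ Nat.card U := by
    have := two_le_card hU
    rcases k with _ | k
    · simp at hk; omega
    · rw [hk]; exact dvd_pow_self 2 (Nat.succ_ne_zero k)
  obtain ⟨b, hb, hb0⟩ := hA.exists_fixed_point_of_prime_dvd_card_of_fixed_point U h2
    (a := 0) (fun a => Subtype.ext (map_zero _))
  exact ⟨b, b.2, fun e => hb0 (Subtype.ext e.symm), fun a ha => congrArg Subtype.val (hb ⟨a, ha⟩)⟩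

theorem fx_ne_bot [Finite V] [Nontrivial V] {A : Subgroup L} (hA : IsPGroup 2 A) : fx ρ A ≠ ⊥ := by
  obtain ⟨u, -, u0, hu⟩ := exists_fixed (ρ := ρ) hA (U := ⊤) top_ne_bot fun _ _ _ => by simp
  exact (Submodule.ne_bot_iff _).2 ⟨u, hu, u0⟩

/-- a Sylow subgroup fixing `v ≠ 0` is the stabiliser -/
theorem vs_eq (hf : PFree ρ) {v : V} (hv : v ≠ 0) {P : Sylow 2 L} (h : v ∈ fx ρ P) :
    vs ρ v = P := P.is_maximal' (vs_pgroup hf hv) fun a ha => h a ha

theorem sylow_eq (hf : PFree ρ) {v : V} (hv : v ≠ 0) {P Q : Sylow 2 L} (h : v ∈ fx ρ P)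
    (h' : v ∈ fx ρ Q) : P = Q := Sylow.ext ((vs_eq hf hv h).symm.trans (vs_eq hf hv h'))

theorem star_vs (hs : Star ρ) {v : V} (hv : v ≠ 0) : ∃ P : Sylow 2 L, vs ρ v = P := by
  obtain ⟨P, hP⟩ := hs.syl v hv
  exact ⟨P, vs_eq hs.free hv hP⟩

theorem smul_mem_fx {P : Sylow 2 L} {v : V} (g : L) (h : v ∈ fx ρ P) :
    ρ g v ∈ fx ρ ((g • P : Sylow 2 L) : Subgroup L) := by
  intro a ha
  rw [Sylow.coe_subgroup_smul, Subgroup.mem_pointwise_smul_iff_inv_smul_mem] at ha
  have := h _ ha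
  simp only [MulAut.smul_def, MulAut.conj_inv_apply, rho_mul] at this
  rw [← rho_self_inv ρ g (ρ a (ρ g v)), this]

theorem card_ker_mul (f : Module.End (ZMod 2) V) :
    Nat.card (LinearMap.ker f) * Nat.card (LinearMap.range f) = Nat.card V := by
  rw [Submodule.card_eq_card_quotient_mul_card (LinearMap.ker f),
    Nat.card_congr f.quotKerEquivRange.toEquiv]

theorem ker_sub_one (t : L) : LinearMap.ker (ρ t - 1) = fx ρ (zpowers t) := by
  ext v
  rw [mem_fx_zpowers, LinearMap.mem_ker, LinearMap.sub_apply, sub_eq_zero]; rfl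

theorem range_le_fx {t : L} (ht : t * t = 1) : LinearMap.range (ρ t - 1) ≤ fx ρ (zpowers t) := by
  rintro _ ⟨v, rfl⟩
  rw [mem_fx_zpowers]
  show ρ t (ρ t v - v) = ρ t v - v
  rw [map_sub, ← rho_mul, ht, map_one, sub_eq_add', sub_eq_add', add_comm]; rfl

theorem le_sq_fx [Finite V] {t : L} (ht : t * t = 1) :
    Nat.card V ≤ Nat.card (fx ρ (zpowers t)) ^ 2 := by
  rw [← card_ker_mul (ρ t - 1), ker_sub_one, sq]
  exact Nat.mul_le_mul_left _ (Nat.card_le_card_of_injective _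
    (Submodule.inclusion_injective (range_le_fx ht)))

theorem card_mul_le [Finite V] {U U' : Submodule (ZMod 2) V} (h : U ⊓ U' = ⊥) :
    Nat.card U * Nat.card U' ≤ Nat.card V := by
  rw [← Nat.card_prod]
  refine Nat.card_le_card_of_injective (fun x : U × U' => (x.1 : V) + x.2) ?_
  rintro ⟨a, b⟩ ⟨c, d⟩ e
  simp only at e
  have h1 : (a : V) - c = d - b := by rw [sub_eq_sub_iff_add_eq_add, e, add_comm]
  have h2 : (a : V) - c ∈ U ⊓ U' := ⟨U.sub_mem a.2 c.2, h1 ▸ U'.sub_mem d.2 b.2⟩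
  rw [h, Submodule.mem_bot] at h2
  rw [h2] at h1
  exact Prod.ext (Subtype.ext (sub_eq_zero.1 h2)) (Subtype.ext (sub_eq_zero.1 h1.symm).symm)

/-- two involutions without common fixed vector act freely -/
theorem sq_fx_of_disj [Finite V] {t s : L} (ht : t * t = 1) (hs : s * s = 1)
    (h : fx ρ (zpowers t) ⊓ fx ρ (zpowers s) = ⊥) :
    Nat.card (fx ρ (zpowers t)) ^ 2 = Nat.card V := by
  have h1 := le_sq_fx (ρ := ρ) ht
  have h2 := le_sq_fx (ρ := ρ) hs
  have h3 := card_mul_le h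
  have h4 : 0 < Nat.card (fx ρ (zpowers s)) := Nat.card_pos
  have h5 : 0 < Nat.card (fx ρ (zpowers t)) := Nat.card_pos
  have : Nat.card (fx ρ (zpowers t)) ≤ Nat.card (fx ρ (zpowers s)) := by nlinarith
  nlinarith

theorem base_of [Finite V] [Finite L] (inj : Function.Injective ρ) (hf : PFree ρ)
    (nt : Nontrivial V) (cyc : ∀ Y : Subgroup L, Odd (Nat.card Y) → IsCyclic Y)
    (h : pCore 2 L = ⊥) : Base ρ := by
  refine ⟨inj, hf, nt, cyc, fun t ht => ?_⟩
  have tt : t * t = 1 := by rw [← sq, ← ht, pow_orderOf_eq_one]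
  by_contra hne
  have : t ∈ pCore 2 L := by
    refine mem_pCore_of_forall_conj fun g => ?_
    by_contra hR
    refine hne (sq_fx_of_disj tt (s := g * t * g⁻¹) (by
      calc _ = g * (t * t) * g⁻¹ := by group
        _ = 1 := by rw [tt]; group) ?_)
    rw [eq_bot_iff]
    rintro v ⟨h1, h2⟩
    by_contra v0
    exact hR ⟨vs ρ v, vs_pgroup hf v0, mem_fx_zpowers.1 h1, mem_fx_zpowers.1 h2⟩
  rw [h, mem_bot] at this
  rw [this, orderOf_one] at ht
  omega

theorem base_of_perfect [Finite V] [Finite L] (hs : Star ρ) (hp : _root_.commutator L = ⊤)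
    (h : pCore 2 L = ⊥) : Base ρ := by
  haveI := hs.nt
  exact base_of hs.inj hs.free hs.nt (fun Y hY => hs.free.cyclic_of_perfect hp
    (by rw [← even_iff_two_dvd, Nat.not_even_iff_odd]; exact hY)
    (by rw [← even_iff_two_dvd, Nat.not_even_iff_odd]; exact hY)) h

theorem eq_of_le_of_card [Finite V] {U U' : Submodule (ZMod 2) V} (h : U ≤ U')
    (hc : Nat.card U' ≤ Nat.card U) : U = U' := by
  refine le_antisymm h fun v hv => ?_
  have := (Function.Injective.bijective_of_nat_card_le (Submodule.inclusion_injective h) hc).2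
  obtain ⟨u, hu⟩ := this ⟨v, hv⟩
  rw [← show (u : V) = v from congrArg Subtype.val hu]; exact u.2

namespace Base

variable [Finite V] (hb : Base ρ)
include hb

theorem range_eq {t : L} (ht : orderOf t = 2) : LinearMap.range (ρ t - 1) = fx ρ (zpowers t) := by
  have tt : t * t = 1 := by rw [← sq, ← ht, pow_orderOf_eq_one]
  refine eq_of_le_of_card (range_le_fx tt) ?_
  have h1 := card_ker_mul (ρ t - 1)
  rw [ker_sub_one, ← hb.inv t ht, sq] at h1
  exact (Nat.eq_of_mul_eq_mul_left Nat.card_pos h1).ge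

theorem odd_fix {x : L} (hx : Odd (orderOf x)) (x1 : x ≠ 1) {v : V} (h : ρ x v = v) : v = 0 :=
  hb.free.eq_zero (by rw [← even_iff_two_dvd, Nat.not_even_iff_odd]; exact hx) x1 h

variable {U : Submodule (ZMod 2) V} (cV : Nat.card V = Nat.card U ^ 2)
include cV

theorem U_ne : U ≠ ⊥ := by haveI := hb.nt; exact ne_bot_of_sq cV

theorem fx_inv {t : L} (ht : t ∈ pw ρ U) (h2 : orderOf t = 2) : fx ρ (zpowers t) = U := by
  symm
  refine eq_of_le_of_card (fun u hu => mem_fx_zpowers.2 (ht u hu)) ?_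
  have := hb.inv t h2
  rw [cV] at this
  exact (Nat.pow_left_injective two_ne_zero this).le

theorem sq_one [Finite L] {t : L} (ht : t ∈ pw ρ U) : t * t = 1 := by
  obtain ⟨k, hk⟩ := IsPGroup.iff_orderOf.1 (pw_pgroup hb.free (hb.U_ne cV)) ⟨t, ht⟩
  rw [← Subgroup.orderOf_coe] at hk
  simp only at hk
  by_contra hne
  rcases k with _ | _ | k
  · exact hne (by rw [(orderOf_eq_one_iff (x := t)).1 (by simpa using hk), mul_one])
  · exact hne (by rw [← sq, show 2 = orderOf t by simpa using hk.symm, pow_orderOf_eq_one])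
  set s := t ^ 2 ^ k with hs
  have os : orderOf (s * s) = 2 := by
    rw [hs, ← pow_add, ← two_mul, ← pow_succ', orderOf_pow' _ (by positivity), hk,
      Nat.gcd_eq_right (pow_dvd_pow 2 (by omega)), pow_succ 2 (k + 1),
      Nat.mul_div_cancel_left _ (by positivity)]
  have sU : s ∈ pw ρ U := (pw ρ U).pow_mem ht _
  have h1 := hb.fx_inv cV ((pw ρ U).mul_mem sU sU) os
  -- `N = s - 1` has `ker N² = ker N`, and is nilpotent
  have key : ∀ v, ρ s (ρ s v - v) = ρ s v - v → ρ s v = v := by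
    intro v hv
    refine sU v (h1 ▸ mem_fx_zpowers.2 ?_)
    rw [map_sub, sub_eq_add', sub_eq_add'] at hv
    rw [rho_mul]
    have := congrArg (· + ρ s v) hv
    simp only [add_assoc, add_self, add_zero] at this
    rw [this, add_comm v, ← add_assoc, add_self, zero_add]
  have h2 : ∀ v, ρ (s * s) v = v := by
    intro v
    have hv : ρ (s * s) v - v ∈ U := by
      rw [← h1, ← hb.range_eq os]; exact ⟨v, rfl⟩
    have e1 : ρ s (ρ s v - v) - (ρ s v - v) = ρ (s * s) v - v := by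
      rw [map_sub, rho_mul]; simp only [sub_eq_add']
      rw [add_assoc, ← add_assoc (ρ s v), add_self, zero_add]
    have e2 := key (ρ s v - v) (by rw [e1]; exact sU _ hv)
    have e3 := key v e2
    rw [rho_mul, e3, e3]
  have : s * s = 1 := hb.inj (by ext v; rw [h2, map_one]; rfl)
  rw [this, orderOf_one] at os
  omega

theorem ord [Finite L] {t : L} (ht : t ∈ pw ρ U) (t1 : t ≠ 1) : orderOf t = 2 :=
  orderOf_eq_prime (by rw [sq]; exact hb.sq_one cV ht) t1

theorem fix_iff [Finite L] {t : L} (ht : t ∈ pw ρ U) (t1 : t ≠ 1) {v : V} : ρ t v = v ↔ v ∈ U := by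
  rw [← mem_fx_zpowers, hb.fx_inv cV ht (hb.ord cV ht t1)]

theorem sub_mem [Finite L] {t : L} (ht : t ∈ pw ρ U) (v : V) : ρ t v - v ∈ U := by
  by_cases t1 : t = 1
  · rw [t1, map_one]; show v - v ∈ U; rw [sub_self]; exact U.zero_mem
  rw [← hb.fx_inv cV ht (hb.ord cV ht t1), ← hb.range_eq (hb.ord cV ht t1)]
  exact ⟨v, rfl⟩

theorem onto [Finite L] {t : L} (ht : t ∈ pw ρ U) (t1 : t ≠ 1) {u : V} (hu : u ∈ U) :
    ∃ v, ρ t v - v = u := by
  rw [← hb.fx_inv cV ht (hb.ord cV ht t1), ← hb.range_eq (hb.ord cV ht t1)] at hu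
  exact hu

theorem comm [Finite L] {t s : L} (ht : t ∈ pw ρ U) (hs : s ∈ pw ρ U) : t * s = s * t := by
  have h1 := hb.sq_one cV ht
  have h2 := hb.sq_one cV hs
  have h3 := hb.sq_one cV ((pw ρ U).mul_mem ht hs)
  calc t * s = t * (t * s * (t * s)) * s := by rw [h3, mul_one]
    _ = (t * t) * s * t * (s * s) := by group
    _ = s * t := by rw [h1, h2]; group

/-- `g` conjugating a non-trivial element of `pw U` into `pw U` stabilises `U` -/
theorem mem_st_of_conj [Finite L] {t g : L} (ht : t ∈ pw ρ U) (t1 : t ≠ 1)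
    (h : g * t * g⁻¹ ∈ pw ρ U) : g ∈ st ρ U := by
  intro v
  have h1 : g * t * g⁻¹ ≠ 1 := by simpa using t1
  rw [← hb.fix_iff cV h h1, ← hb.fix_iff cV ht t1, rho_mul, rho_mul, rho_inv_self]
  exact (rho_inj g).eq_iff

theorem mem_st_of_comm [Finite L] {t g : L} (ht : t ∈ pw ρ U) (t1 : t ≠ 1) (h : g * t = t * g) :
    g ∈ st ρ U := hb.mem_st_of_conj cV ht t1 (by rw [h, mul_inv_cancel_right]; exact ht)

theorem fx_pw [Finite L] (h : pw ρ U ≠ ⊥) : fx ρ (pw ρ U) = U := by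
  obtain ⟨t, ht⟩ := (Subgroup.ne_bot_iff_exists_ne_one.1 h)
  refine le_antisymm (fun v hv => (hb.fix_iff cV t.2 (fun e => ht (Subtype.ext e))).1 (hv _ t.2))
    (le_pw_iff.1 le_rfl)

theorem axis_eq [Finite L] {U' : Submodule (ZMod 2) V} (cV' : Nat.card V = Nat.card U' ^ 2) {t : L}
    (ht : t ∈ pw ρ U) (ht' : t ∈ pw ρ U') (t1 : t ≠ 1) : U = U' := by
  ext v
  rw [← hb.fix_iff cV ht t1, hb.fix_iff cV' ht' t1]

end Base

/-! ### sections -/

section Sec

variable {N : Subgroup L} {Y : Submodule (ZMod 2) V} (h : N ≤ st ρ Y)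

theorem res_apply (n : N) (y : Y) : (res ρ N Y h n y : V) = ρ n y := rfl

theorem sec_mk (n : N) (y : Y) : (sec ρ N Y h (n : N ⧸ (res ρ N Y h).ker) y : V) = ρ n y := rfl

theorem mem_ker_res {n : N} : n ∈ (res ρ N Y h).ker ↔ (n : L) ∈ pw ρ Y := by
  rw [MonoidHom.mem_ker]
  exact ⟨fun e u hu => congrArg Subtype.val (LinearMap.congr_fun e ⟨u, hu⟩),
    fun e => LinearMap.ext fun y => Subtype.ext (e _ y.2)⟩

theorem ker_res : (res ρ N Y h).ker = (pw ρ Y).subgroupOf N := by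
  ext n; rw [mem_ker_res, mem_subgroupOf]

theorem sec_eq_one {n : N} : (n : N ⧸ (res ρ N Y h).ker) = 1 ↔ (n : L) ∈ pw ρ Y := by
  rw [QuotientGroup.eq_one_iff, mem_ker_res]

theorem sec_inj : Function.Injective (sec ρ N Y h) := by
  intro a b e
  obtain ⟨a, rfl⟩ := QuotientGroup.mk_surjective a
  obtain ⟨b, rfl⟩ := QuotientGroup.mk_surjective b
  rw [QuotientGroup.eq, MonoidHom.mem_ker, map_mul]
  have e : res ρ N Y h a = res ρ N Y h b := e
  rw [← e, ← map_mul, inv_mul_cancel, map_one]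

theorem sec_free (hf : PFree ρ) : PFree (sec ρ N Y h) := by
  intro x y y0 e
  obtain ⟨n, rfl⟩ := QuotientGroup.mk_surjective x
  obtain ⟨k, hk⟩ := hf n y (fun e => y0 (Subtype.ext e)) (congrArg Subtype.val e)
  rw [Subgroup.orderOf_coe] at hk
  have := orderOf_map_dvd (QuotientGroup.mk' (res ρ N Y h).ker) n
  rw [hk] at this
  obtain ⟨j, -, hj⟩ := (Nat.dvd_prime_pow Nat.prime_two).1 this
  exact ⟨j, hj⟩

theorem ker_res_pgroup (hf : PFree ρ) (hY : Y ≠ ⊥) : IsPGroup 2 (res ρ N Y h).ker := by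
  rw [ker_res]
  exact (pw_pgroup hf hY).comap_subtype

/-- odd subgroups of a quotient by a 2-group lift -/
theorem cyc_quot {G : Type*} [Group G] [Finite G] (K : Subgroup G) [K.Normal] (hK : IsPGroup 2 K)
    (cyc : ∀ Y : Subgroup G, Odd (Nat.card Y) → IsCyclic Y) (Y : Subgroup (G ⧸ K))
    (hY : Odd (Nat.card Y)) : IsCyclic Y := by
  set Z := Y.comap (QuotientGroup.mk' K) with hZ
  have hKZ : K ≤ Z := fun k hk => by
    rw [hZ, mem_comap, QuotientGroup.mk'_apply, (QuotientGroup.eq_one_iff k).2 hk]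
    exact Y.one_mem
  have hi : (K.subgroupOf Z).index = Nat.card Y := by
    have := Subgroup.relIndex_ker Z (QuotientGroup.mk' K)
    rw [QuotientGroup.ker_mk', hZ, map_comap_eq_self_of_surjective
      (QuotientGroup.mk'_surjective K)] at this
    exact this
  obtain ⟨k, hk⟩ := IsPGroup.iff_card.1 hK
  have hc : Nat.card (K.subgroupOf Z) = 2 ^ k := by
    rw [Nat.card_congr (subgroupOfEquivOfLe hKZ).toEquiv, hk]
  obtain ⟨C, hC⟩ := Subgroup.exists_right_complement'_of_coprime (N := K.subgroupOf Z)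
    (by rw [hc, hi]; exact Nat.Coprime.pow_left _ ((Nat.coprime_two_left).2 hY))
  have hCc : Nat.card C = Nat.card Y := by rw [← hi, hC.symm.index_eq_card]
  haveI := cyc (C.map Z.subtype) (by rw [card_map_of_injective Z.subtype_injective, hCc]; exact hY)
  let f : C.map Z.subtype →* Y := ((QuotientGroup.mk' K).comp (C.map Z.subtype).subtype).codRestrict Y
    (by rintro ⟨_, c, -, rfl⟩; exact c.2)
  refine isCyclic_of_surjective f ?_
  rintro ⟨y, hy⟩
  obtain ⟨g, rfl⟩ := QuotientGroup.mk_surjective y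
  obtain ⟨⟨k, c⟩, e⟩ := hC.2 ⟨g, hy⟩
  refine ⟨⟨(c : Z), c, c.2, rfl⟩, Subtype.ext ?_⟩
  have e : ((k : Z) : G) * ((c : Z) : G) = g := congrArg Subtype.val e
  show (((c : Z) : G) : G ⧸ K) = g
  have hk1 : ((((k : Z) : G)) : G ⧸ K) = 1 := (QuotientGroup.eq_one_iff _).2 (mem_subgroupOf.1 k.2)
  rw [← e, QuotientGroup.mk_mul, hk1, one_mul]

theorem sec_cyc [Finite L] (hf : PFree ρ) (hY : Y ≠ ⊥)
    (cyc : ∀ Y : Subgroup L, Odd (Nat.card Y) → IsCyclic Y)
    (Z : Subgroup (N ⧸ (res ρ N Y h).ker)) (hZ : Odd (Nat.card Z)) : IsCyclic Z := by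
  refine cyc_quot _ (ker_res_pgroup h hf hY) (fun X hX => ?_) Z hZ
  haveI := cyc (X.map N.subtype) (by rw [card_map_of_injective N.subtype_injective]; exact hX)
  exact isCyclic_of_surjective _ (X.equivMapOfInjective _ N.subtype_injective).symm.surjective

/-- `Base` for the section if the kernel is `O₂(N)` -/
theorem sec_base [Finite V] [Finite L] (hf : PFree ρ) (hY : Y ≠ ⊥)
    (cyc : ∀ Y : Subgroup L, Odd (Nat.card Y) → IsCyclic Y)
    (hO : pCore 2 (N ⧸ (res ρ N Y h).ker) = ⊥) : Base (sec ρ N Y h) :=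
  base_of (sec_inj h) (sec_free h hf) (Submodule.nontrivial_iff_ne_bot.2 hY) (sec_cyc h hf hY cyc) hO

/-- `Star` for the section: every `y ≠ 0` is fixed by a Sylow subgroup of `N` -/
theorem sec_star [Finite L] (hf : PFree ρ) (hY : Y ≠ ⊥)
    (hs : ∀ y ∈ Y, y ≠ 0 → ∃ P : Sylow 2 N, ∀ g ∈ (P : Subgroup N), ρ g y = y) :
    Star (sec ρ N Y h) := by
  refine ⟨sec_inj h, sec_free h hf, Submodule.nontrivial_iff_ne_bot.2 hY, fun y y0 => ?_⟩
  obtain ⟨P, hP⟩ := hs y y.2 fun e => y0 (Subtype.ext e)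
  refine ⟨P.mapSurjective (QuotientGroup.mk'_surjective _), ?_⟩
  rintro _ ⟨g, hg, rfl⟩
  exact Subtype.ext (hP g hg)

end Sec

end Cfsg.G41.P2
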