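import Cfsg.Agent.G41.Defs

/-!
# S4841, `p = 2`: vocabulary and statements of the pieces

FROZEN: do not edit the definitions (plan: `docs/G41p2.md`).
-/

set_option autoImplicit false

namespace Cfsg.G41.P2

open Subgroup
open scoped commutatorElement Pointwise

universe u

section
variable {V : Type} [AddCommGroup V] [Module (ZMod 2) V] {L : Type u} [Group L]

/-- the fixed space of `A` -/
def fx (ρ : L →* Module.End (ZMod 2) V) (A : Subgroup L) : Submodule (ZMod 2) V where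
  carrier := {v | ∀ a ∈ A, ρ a v = v}
  add_mem' := fun hv hw a ha => by rw [map_add, hv a ha, hw a ha]
  zero_mem' := fun a _ => map_zero _
  smul_mem' := fun c v hv a ha => by rw [map_smul, hv a ha]

/-- the pointwise stabiliser of `U` -/
def pw (ρ : L →* Module.End (ZMod 2) V) (U : Submodule (ZMod 2) V) : Subgroup L where
  carrier := {g | ∀ u ∈ U, ρ g u = u}
  mul_mem' := fun ha hb u hu => by rw [rho_mul, hb u hu, ha u hu]
  one_mem' := fun u _ => by rw [map_one]; rfl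
  inv_mem' := fun {g} hg u hu => by
    have := rho_inv_self ρ g u
    rwa [hg u hu] at this

/-- the setwise stabiliser of `U` -/
def st (ρ : L →* Module.End (ZMod 2) V) (U : Submodule (ZMod 2) V) : Subgroup L where
  carrier := {g | ∀ v, ρ g v ∈ U ↔ v ∈ U}
  mul_mem' := fun ha hb v => by rw [rho_mul, ha, hb]
  one_mem' := fun v => by rw [map_one]; rfl
  inv_mem' := fun {g} hg v => by rw [← hg, rho_self_inv]

/-- the restriction of `ρ` to a subgroup `N` stabilising `Y` -/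
def res (ρ : L →* Module.End (ZMod 2) V) (N : Subgroup L) (Y : Submodule (ZMod 2) V)
    (h : N ≤ st ρ Y) : N →* Module.End (ZMod 2) Y where
  toFun n := (ρ n).restrict fun y hy => (h n.2 y).2 hy
  map_one' := by ext y; simp
  map_mul' a b := by ext y; simp

/-- the faithful action of `N / C_N(Y)` on `Y` -/
def sec (ρ : L →* Module.End (ZMod 2) V) (N : Subgroup L) (Y : Submodule (ZMod 2) V)
    (h : N ≤ st ρ Y) : N ⧸ (res ρ N Y h).ker →* Module.End (ZMod 2) Y :=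
  QuotientGroup.lift _ (res ρ N Y h) fun _ hx => hx

/-- standing hypotheses: odd subgroups are cyclic and fixed-point-free, involutions are free -/
structure Base (ρ : L →* Module.End (ZMod 2) V) : Prop where
  inj : Function.Injective ρ
  free : PFree ρ
  nt : Nontrivial V
  cyc : ∀ Y : Subgroup L, Odd (Nat.card Y) → IsCyclic Y
  inv : ∀ t : L, orderOf t = 2 → Nat.card (fx ρ (zpowers t)) ^ 2 = Nat.card V

/-- the images of `U` form a spread of `V` with a non-trivial elation group `pw ρ U` -/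
structure Sp (ρ : L →* Module.End (ZMod 2) V) (U : Submodule (ZMod 2) V) : Prop where
  base : Base ρ
  cV : Nat.card V = Nat.card U ^ 2
  ne : pw ρ U ≠ ⊥
  sp : ∀ g, ∀ w ∈ U, w ≠ 0 → ρ g w ∈ U → g ∈ st ρ U
  cov : ∀ v, ∃ g, ρ g v ∈ U

/-- `j` is an elation -/
def El (ρ : L →* Module.End (ZMod 2) V) (U : Submodule (ZMod 2) V) (j : L) : Prop :=
  ∃ t ∈ pw ρ U, t ≠ 1 ∧ IsConj t j

/-- the Sylow 2-subgroups intersect trivially -/
def TI (L : Type u) [Group L] : Prop :=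
  ∀ P Q : Sylow 2 L, P ≠ Q → (P : Subgroup L) ⊓ Q = ⊥

/-- `D` is a maximal intersection of `S` with another Sylow 2-subgroup -/
structure MaxI (S : Sylow 2 L) (D : Subgroup L) : Prop where
  ex : ∃ P : Sylow 2 L, P ≠ S ∧ D = (S : Subgroup L) ⊓ P
  max : ∀ P : Sylow 2 L, P ≠ S → D ≤ P → (S : Subgroup L) ⊓ P ≤ D

/-- the structure of `N(D) / D` for a maximal Sylow intersection `D`; `f = |C_V(S)|` -/
structure Loc (ρ : L →* Module.End (ZMod 2) V) (S : Sylow 2 L) (D : Subgroup L) : Prop where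
  card : Nat.card (fx ρ D) = Nat.card (fx ρ S) ^ 2
  pw_eq : pw ρ (fx ρ D) = D
  st_eq : st ρ (fx ρ D) = normalizer (D : Set L)
  /-- `N_S(D)` is a Sylow 2-subgroup of `N(D)` -/
  syl : ∀ R : Subgroup L, IsPGroup 2 R → R ≤ normalizer (D : Set L) →
    ∃ n ∈ normalizer (D : Set L), ∀ r ∈ R, n * r * n⁻¹ ∈ (S : Subgroup L)
  conj : ∀ P : Sylow 2 L, D ≤ P → ∃ n ∈ normalizer (D : Set L), n • S = P
  idx : (normalizer ((S : Subgroup L) : Set L)).relIndex (normalizer (D : Set L)) =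
    Nat.card (fx ρ S) + 1
  sq : ∀ u ∈ (S : Subgroup L) ⊓ normalizer (D : Set L), u * u ∈ D
  fix : ∀ u ∈ (S : Subgroup L), u ∉ D → ∀ y ∈ fx ρ D, ρ u y = y → y ∈ fx ρ S
  com : ∀ u ∈ (S : Subgroup L) ⊓ normalizer (D : Set L), ∀ y ∈ fx ρ D, ρ u y - y ∈ fx ρ S
  onto : ∀ u ∈ (S : Subgroup L) ⊓ normalizer (D : Set L), u ∉ D → ∀ w ∈ fx ρ S,
    ∃ y ∈ fx ρ D, ρ u y - y = w
  /-- parity: an odd element inverted modulo `D` by a 2-element is centralised by none -/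
  par : ∀ x ∈ normalizer (D : Set L), Odd (orderOf x) → x ≠ 1 →
    ∀ s ∈ normalizer (D : Set L), s ∉ D → s * s ∈ D → s * x * s⁻¹ * x ∈ D →
    ∀ s' ∈ normalizer (D : Set L), s' * s' ∈ D → ⁅x, s'⁆ ∈ D → s' ∈ D
  type : D.relIndex ((S : Subgroup L) ⊓ normalizer (D : Set L)) = 2 ∨
    (D.relIndex ((S : Subgroup L) ⊓ normalizer (D : Set L)) = Nat.card (fx ρ S) ∧
      4 ≤ Nat.card (fx ρ S) ∧
      (∀ s ∈ (S : Subgroup L) ⊓ normalizer (D : Set L), s ∉ D →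
        ∀ s' ∈ (S : Subgroup L) ⊓ normalizer (D : Set L), s' ∉ D →
        ∃ y ∈ normalizer ((S : Subgroup L) : Set L) ⊓ normalizer (D : Set L),
          y * s * y⁻¹ * s'⁻¹ ∈ D) ∧
      Nat.card (fx ρ S) - 1 ∣
        Nat.card ↥(normalizer ((S : Subgroup L) : Set L) ⊓ normalizer (D : Set L)) ∧
      normalizer ((S : Subgroup L) : Set L) ≤ (S : Subgroup L) ⊔ normalizer (D : Set L) ∧
      ∀ C : Subgroup L, C ≤ normalizer (D : Set L) → normalizer (D : Set L) ≤ normalizer (C : Set L) →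
        C ≤ D ∨ C ⊔ D = normalizer (D : Set L))
  /-- the element of order 3 if `3 ∣ f + 1` -/
  three : 3 ∣ Nat.card (fx ρ S) + 1 → ∃ d ∈ normalizer (D : Set L), orderOf d = 3 ∧
    (∀ s ∈ normalizer (D : Set L), s * s ∈ D → ⁅d, s⁆ ∈ D → s ∈ D) ∧
    ∀ C : Subgroup L, C ≤ normalizer (D : Set L) → normalizer (D : Set L) ≤ normalizer (C : Set L) →
      (∃ s ∈ C, s ∉ D ∧ s * s ∈ D) → d ∈ C ⊔ D
end

/-- the theorem for spaces with fewer than `n` elements -/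
def IH (n : ℕ) : Prop := ∀ (V : Type) [AddCommGroup V] [Module (ZMod 2) V] [Finite V]
  (L : Type u) [Group L] [Finite L] (ρ : L →* Module.End (ZMod 2) V),
  Nat.card V < n → Star ρ → Base ρ → _root_.commutator L = ⊤ → TI L

/-- Lemma Q' -/
def StQ : Prop := ∀ (V : Type) [AddCommGroup V] [Module (ZMod 2) V] [Finite V]
  (L : Type u) [Group L] [Finite L] (ρ : L →* Module.End (ZMod 2) V) (A : Subgroup L) (d : L),
  Base ρ → orderOf d = 3 → IsPGroup 2 A → d ∈ normalizer (A : Set L) → ⁅A, zpowers d⁆ ≠ ⊥ →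
  ∃ U : Submodule (ZMod 2) V, Nat.card V = Nat.card U ^ 2 ∧ ⁅A, zpowers d⁆ ≤ pw ρ U ∧
    ∀ h ∈ ⁅A, zpowers d⁆, ρ d * (ρ h - 1) = (ρ h - 1) * ρ d⁻¹

/-- Lemma B -/
def StB : Prop := ∀ (V : Type) [AddCommGroup V] [Module (ZMod 2) V] [Finite V]
  (L : Type u) [Group L] [Finite L] (ρ : L →* Module.End (ZMod 2) V) (A : Subgroup L) (d d' : L)
  (U U' : Submodule (ZMod 2) V),
  Base ρ → orderOf d = 3 → orderOf d' = 3 → IsPGroup 2 A → d ∈ normalizer (A : Set L) →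
  d' ∈ normalizer (A : Set L) → ⁅A, zpowers d⁆ ≠ ⊥ → ⁅A, zpowers d'⁆ ≠ ⊥ →
  Nat.card V = Nat.card U ^ 2 → Nat.card V = Nat.card U' ^ 2 →
  ⁅A, zpowers d⁆ ≤ pw ρ U → ⁅A, zpowers d'⁆ ≤ pw ρ U' → U = U'

/-- the spread lemma -/
def StSP : Prop := ∀ (V : Type) [AddCommGroup V] [Module (ZMod 2) V] [Finite V]
  (L : Type u) [Group L] [Finite L] (ρ : L →* Module.End (ZMod 2) V) (U : Submodule (ZMod 2) V),
  Sp ρ U →
  (st ρ U).index = Nat.card U + 1 ∧
  (∀ g, g ∉ st ρ U → ∀ t ∈ pw ρ U, t ≠ 1 → ∀ t' ∈ pw ρ U, t' ≠ 1 →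
    Odd (orderOf (t * (g * t' * g⁻¹))) ∧
      ∃ j ∈ closure {t, g * t' * g⁻¹}, IsConj t j ∧ j * t * j = g * t' * g⁻¹) ∧
  (∀ x j j', Odd (orderOf x) → x ≠ 1 → El ρ U j → j * x * j = x⁻¹ → El ρ U j' →
    ¬ Commute x j') ∧
  ∀ x ∈ st ρ U, Odd (orderOf x) → x ≠ 1 → ∀ j, El ρ U j → j * x * j = x⁻¹ →
    (∀ g, g ∉ st ρ U → ∃ t ∈ pw ρ U, g⁻¹ * (t * x * t⁻¹) * g ∈ st ρ U) →
    Nat.card (pw ρ U) = Nat.card U

/-- trivial intersection Sylow subgroups (uses `StSP`) -/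
def StTI : Prop := ∀ (V : Type) [AddCommGroup V] [Module (ZMod 2) V] [Finite V]
  (L : Type u) [Group L] [Finite L] (ρ : L →* Module.End (ZMod 2) V) (S : Sylow 2 L),
  Star ρ → Base ρ → TI L → (S : Subgroup L) ≠ ⊥ →
  Sp ρ (fx ρ S) ∧ pw ρ (fx ρ S) = S ∧ st ρ (fx ρ S) = normalizer ((S : Subgroup L) : Set L) ∧
  (Nat.card S = 2 ∨
    (Nat.card S = Nat.card (fx ρ S) ∧ 4 ≤ Nat.card S ∧
      (∀ s ∈ (S : Subgroup L), s ≠ 1 → ∀ s' ∈ (S : Subgroup L), s' ≠ 1 →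
        ∃ y ∈ normalizer ((S : Subgroup L) : Set L), y * s * y⁻¹ = s') ∧
      Nat.card L = (Nat.card S + 1) * (Nat.card S * (Nat.card S - 1)) ∧
      ∀ C : Subgroup L, C.Normal → C = ⊥ ∨ C = ⊤))

/-- maximal Sylow intersections (uses `StSP`, `StTI`) -/
def StMX : Prop := ∀ (V : Type) [AddCommGroup V] [Module (ZMod 2) V] [Finite V]
  (L : Type u) [Group L] [Finite L] (ρ : L →* Module.End (ZMod 2) V) (S : Sylow 2 L),
  Star ρ → Base ρ → (S : Subgroup L) ≠ ⊥ →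
  (∀ D, MaxI S D → Loc ρ S D) ∧ (∃ D, MaxI S D ∧ (S : Subgroup L) ≤ normalizer (D : Set L)) ∧
  ∀ P : Sylow 2 L, P ≠ S → ∃ D, MaxI S D ∧ (S : Subgroup L) ⊓ P ≤ D

/-- weak closure (uses `StB`) -/
def StWK : Prop := ∀ (V : Type) [AddCommGroup V] [Module (ZMod 2) V] [Finite V]
  (L : Type u) [Group L] [Finite L] (ρ : L →* Module.End (ZMod 2) V) (U : Submodule (ZMod 2) V)
  (D : Subgroup L) (d : L),
  Star ρ → Base ρ → Nat.card V = Nat.card U ^ 2 → orderOf d = 3 → d ∈ st ρ U →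
  IsPGroup 2 D → pw ρ U ≤ D → d ∈ normalizer (D : Set L) → ⁅D, zpowers d⁆ ≤ pw ρ U →
  ⁅pw ρ U, zpowers d⁆ ≠ ⊥ →
  (∀ R : Subgroup L, IsPGroup 2 R → R ≤ centralizer (pw ρ U : Set L) →
    ∃ m ∈ st ρ U, ∀ r ∈ R, m * r * m⁻¹ ∈ D) → Sp ρ U

/-- a spread with an element of order 3 acting on the elation group (uses `StQ StSP StTI`) -/
def StWC : Prop := ∀ (V : Type) [AddCommGroup V] [Module (ZMod 2) V] [Finite V]
  (L : Type u) [Group L] [Finite L] (ρ : L →* Module.End (ZMod 2) V) (U : Submodule (ZMod 2) V)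
  (d : L), IH.{u} (Nat.card V) → Star ρ → _root_.commutator L = ⊤ → Sp ρ U → orderOf d = 3 →
  d ∈ st ρ U → ⁅pw ρ U, zpowers d⁆ ≠ ⊥ → TI L

/-- `3` divides `|N(S)|` (uses `StQ StWK StWC`) -/
def StK3 : Prop := ∀ (V : Type) [AddCommGroup V] [Module (ZMod 2) V] [Finite V]
  (L : Type u) [Group L] [Finite L] (ρ : L →* Module.End (ZMod 2) V) (S : Sylow 2 L),
  IH.{u} (Nat.card V) → Star ρ → Base ρ → _root_.commutator L = ⊤ →
  3 ∣ Nat.card (normalizer ((S : Subgroup L) : Set L)) → TI L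

/-- `3 ∣ f + 1` (uses `StQ StB StMX StWK StWC`) -/
def StKO : Prop := ∀ (V : Type) [AddCommGroup V] [Module (ZMod 2) V] [Finite V]
  (L : Type u) [Group L] [Finite L] (ρ : L →* Module.End (ZMod 2) V) (S : Sylow 2 L),
  IH.{u} (Nat.card V) → Star ρ → Base ρ → _root_.commutator L = ⊤ →
  ¬ 3 ∣ Nat.card (normalizer ((S : Subgroup L) : Set L)) → 3 ∣ Nat.card (fx ρ S) + 1 → TI L

/-- `3 ∣ f - 1`: two maximal intersections of index 2 in the same `Q` (uses `StMX`) -/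
def StKC : Prop := ∀ (V : Type) [AddCommGroup V] [Module (ZMod 2) V] [Finite V]
  (L : Type u) [Group L] [Finite L] (ρ : L →* Module.End (ZMod 2) V) (S : Sylow 2 L)
  (D₁ D₂ : Subgroup L), Star ρ → Base ρ →
  ¬ 3 ∣ Nat.card (normalizer ((S : Subgroup L) : Set L)) → 3 ∣ Nat.card (fx ρ S) - 1 →
  MaxI S D₁ → MaxI S D₂ →
  (S : Subgroup L) ⊓ normalizer (D₁ : Set L) = (S : Subgroup L) ⊓ normalizer (D₂ : Set L) →
  D₁ = D₂

end Cfsg.G41.P2
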