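import Cfsg.Agent.G41.P2KCa

/-!
# S4841, `p = 2`, piece KC
-/

set_option autoImplicit false

namespace Cfsg.G41.KC

open Subgroup P2
open scoped commutatorElement Pointwise

universe u

variable {V : Type} [AddCommGroup V] [Module (ZMod 2) V] {L : Type u} [Group L]
  {ρ : L →* Module.End (ZMod 2) V} {S : Sylow 2 L}

theorem card_split (φ : Module.End (ZMod 2) V) {Y W : Submodule (ZMod 2) V}
    (hk : ∀ y ∈ Y, φ y = 0 ↔ y ∈ W) (hW : W ≤ Y) (hr : Y.map φ = W) :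
    Nat.card Y = Nat.card W ^ 2 := by
  have e : LinearMap.ker (φ.domRestrict Y) = W.comap Y.subtype := by
    ext y; exact hk y y.2
  rw [Submodule.card_eq_card_quotient_mul_card (LinearMap.ker (φ.domRestrict Y)),
    Nat.card_congr (φ.domRestrict Y).quotKerEquivRange.toEquiv, LinearMap.range_domRestrict, hr, e,
    Nat.card_congr (Submodule.comapSubtypeEquivOfLe hW).toEquiv, sq]

theorem MaxI.le {D : Subgroup L} (h : MaxI S D) : D ≤ S := by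
  obtain ⟨P, -, rfl⟩ := h.ex; exact inf_le_left

theorem MaxI.ex_not {D D' : Subgroup L} (h : MaxI S D) (h' : MaxI S D') (ne : D ≠ D') :
    ∃ a ∈ D, a ∉ D' := by
  by_contra! k
  obtain ⟨P, hP, rfl⟩ := h'.ex
  exact ne (le_antisymm k (h.max P hP fun a ha => (k a ha).2))

/-- the hypotheses of `StKC` -/
structure Lx (ρ : L →* Module.End (ZMod 2) V) (S : Sylow 2 L) : Prop where
  star : Star ρ
  base : Base ρ
  n3 : ¬ 3 ∣ Nat.card (normalizer ((S : Subgroup L) : Set L))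
  f3 : 3 ∣ Nat.card (fx ρ S) - 1
  loc : ∀ D, MaxI S D → Loc ρ S D
  mx : ∀ P : Sylow 2 L, P ≠ S → ∃ D, MaxI S D ∧ (S : Subgroup L) ⊓ P ≤ D

namespace Lx

variable [Finite V] [Finite L] (H : Lx ρ S) {D D' : Subgroup L}
include H

omit [Finite L] in
theorem f4 : 4 ≤ Nat.card (fx ρ S) := by
  haveI := H.base.nt
  have h := two_le_card (fx_ne_bot (ρ := ρ) S.isPGroup')
  have := Nat.le_of_dvd (by omega) H.f3
  omega

omit [Finite V] in
theorem two (hD : MaxI S D) {u u' : L} (hu : u ∈ (S : Subgroup L) ⊓ normalizer (D : Set L))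
    (hu' : u' ∈ (S : Subgroup L) ⊓ normalizer (D : Set L)) (h : u ∉ D) (h' : u' ∉ D) :
    u * u' ∈ D := by
  rcases (H.loc D hD).type with e | ⟨-, -, -, e, -⟩
  · exact (mul_mem_iff_of_index_two e (a := ⟨u, hu⟩) (b := ⟨u', hu'⟩)).2 (iff_of_false h h')
  · exact absurd ((H.f3.trans e).trans (card_dvd_of_le inf_le_left)) H.n3

theorem n3D (hD : MaxI S D) : ¬ 3 ∣ Nat.card (normalizer (D : Set L)) := fun h => by
  rw [← card_inf_mul_relIndex (normalizer ((S : Subgroup L) : Set L)), (H.loc D hD).idx] at h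
  rcases (Nat.Prime.dvd_mul Nat.prime_three).1 h with h | h
  · exact H.n3 (h.trans (card_dvd_of_le inf_le_left))
  · have := H.f3
    have := H.f4
    omega

omit [Finite V] [Finite L] in
theorem over_max {y : V} (hy : y ∉ fx ρ S) : ∃ D, MaxI S D ∧ (S : Subgroup L) ⊓ vs ρ y ≤ D := by
  obtain ⟨P, hP⟩ := star_vs H.star (v := y) fun e => hy (e ▸ zero_mem _)
  rw [hP]
  refine H.mx P ?_
  rintro rfl
  exact hy fun a ha => mem_vs.1 (hP ▸ ha)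

omit [Finite L] in
theorem eq_fx {R : Subgroup L} (hR : R ≤ S) (hc : Nat.card (fx ρ R) ≤ Nat.card (fx ρ S) ^ 2)
    {y : V} (hy : y ∈ fx ρ R) (hy' : y ∉ fx ρ S) : ∃ D, MaxI S D ∧ fx ρ D = fx ρ R := by
  obtain ⟨D, hD, le⟩ := H.over_max hy'
  exact ⟨D, hD, eq_of_le_of_card (fx_anti ((le_inf hR fun r hr => hy r hr).trans le))
    ((H.loc D hD).card ▸ hc)⟩

theorem n3R {R : Subgroup L} (hR : R ≤ S) (hc : Nat.card (fx ρ R) ≤ Nat.card (fx ρ S) ^ 2) :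
    ¬ 3 ∣ Nat.card (st ρ (fx ρ R)) := by
  by_cases h : fx ρ R ≤ fx ρ S
  · haveI := H.base.nt
    have e : pw ρ (fx ρ S) = S :=
      S.is_maximal' (pw_pgroup H.base.free (fx_ne_bot S.isPGroup')) (le_pw_fx _)
    rw [le_antisymm h (fx_anti hR)]
    have := st_le_normalizer (ρ := ρ) (fx ρ S)
    rw [e] at this
    exact fun h => H.n3 (h.trans (card_dvd_of_le this))
  · obtain ⟨y, hy, hy'⟩ := SetLike.not_le_iff_exists.1 h
    obtain ⟨D, hD, e⟩ := H.eq_fx hR hc hy hy'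
    rw [← e, (H.loc D hD).st_eq]
    exact H.n3D hD

omit [Finite V] in
theorem fxD (hD' : MaxI S D') (hQ : D ≤ (S : Subgroup L) ⊓ normalizer (D' : Set L)) {a : L}
    (a1 : a ∈ D) (a2 : a ∉ D') : fx ρ (D ⊓ D') ⊓ fx ρ (zpowers a) = fx ρ D := by
  refine le_antisymm ?_ (le_inf (fx_anti inf_le_left) (fx_anti (zpowers_le.2 a1)))
  rintro v ⟨h1, h2⟩ d hd
  by_cases k : d ∈ D'
  · exact h1 d ⟨hd, k⟩
  · have := h1 (d * a) ⟨mul_mem hd a1, H.two hD' (hQ hd) (hQ a1) k a2⟩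
    rwa [rho_mul, mem_fx_zpowers.1 h2] at this

end Lx

section
variable {N : Subgroup L} {Z : Submodule (ZMod 2) V} (h : N ≤ st ρ Z)

theorem card_sec {R : Subgroup (N ⧸ (res ρ N Z h).ker)} {Y : Submodule (ZMod 2) V} (hY : Y ≤ Z)
    (e : ∀ z : Z, z ∈ fx (sec ρ N Z h) R ↔ (z : V) ∈ Y) :
    Nat.card (fx (sec ρ N Z h) R) = Nat.card Y := by
  rw [show fx (sec ρ N Z h) R = Y.comap Z.subtype from Submodule.ext e]
  exact Nat.card_congr (Submodule.comapSubtypeEquivOfLe hY).toEquiv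

theorem mem_fx_sec (n : N) (z : Z) :
    z ∈ fx (sec ρ N Z h) (zpowers (n : N ⧸ (res ρ N Z h).ker)) ↔ (z : V) ∈ Z ⊓ fx ρ (zpowers n) := by
  rw [mem_fx_zpowers, Submodule.mem_inf, mem_fx_zpowers, Subtype.ext_iff, sec_mk]
  exact (and_iff_right z.2).symm

theorem st_of_comm [Finite V] {r n : N}
    (e : (r : N ⧸ (res ρ N Z h).ker) * n = (n : N ⧸ (res ρ N Z h).ker) * r) :
    (r : L) ∈ st ρ (Z ⊓ fx ρ (zpowers (n : L))) := mem_st_of_le fun u hu => by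
  refine ⟨(h r.2 u).2 hu.1, mem_fx_zpowers.2 ?_⟩
  have := congrArg (fun g => (sec ρ N Z h g ⟨u, hu.1⟩ : V)) e
  simp only [← QuotientGroup.mk_mul, sec_mk, coe_mul, rho_mul] at this
  rw [← this, mem_fx_zpowers.1 hu.2]

theorem pw_sec (r n : N) : (r : N ⧸ (res ρ N Z h).ker) ∈ pw (sec ρ N Z h)
    (fx (sec ρ N Z h) (zpowers (n : N ⧸ (res ρ N Z h).ker))) ↔
    (r : L) ∈ pw ρ (Z ⊓ fx ρ (zpowers (n : L))) :=
  ⟨fun k u hu => congrArg Subtype.val (k ⟨u, hu.1⟩ ((mem_fx_sec h n _).2 hu)),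
    fun k z hz => Subtype.ext (k z ((mem_fx_sec h n z).1 hz))⟩

end

theorem stKC (hMX : StMX.{u}) : StKC.{u} := by
  intro V _ _ _ L _ _ ρ S D₁ D₂ hs hb n3 f3 h₁ h₂ hQ
  by_cases S0 : (S : Subgroup L) = ⊥
  · rw [eq_bot_iff.2 ((MaxI.le h₁).trans S0.le), eq_bot_iff.2 ((MaxI.le h₂).trans S0.le)]
  obtain ⟨loc, -, mx⟩ := hMX V L ρ S hs hb S0
  have H : Lx ρ S := ⟨hs, hb, n3, f3, loc, mx⟩
  by_contra hne
  obtain ⟨a, a1, a2⟩ := MaxI.ex_not h₁ h₂ hne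
  obtain ⟨b, b2, b1⟩ := MaxI.ex_not h₂ h₁ (Ne.symm hne)
  have q₁ : D₁ ≤ (S : Subgroup L) ⊓ normalizer (D₁ : Set L) := le_inf (MaxI.le h₁) le_normalizer
  have q₂ : D₂ ≤ (S : Subgroup L) ⊓ normalizer (D₂ : Set L) := le_inf (MaxI.le h₂) le_normalizer
  have y₁ := H.fxD h₂ (hQ ▸ q₁) a1 a2
  have y₂ := H.fxD h₁ (hQ ▸ q₂) b2 b1
  rw [inf_comm D₂] at y₂
  have aQ := q₁ a1
  have bQ := hQ.ge (q₂ b2)
  have pwZ : pw ρ (fx ρ (D₁ ⊓ D₂)) = D₁ ⊓ D₂ := le_antisymm (le_inf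
    ((pw_anti (fx_anti inf_le_left)).trans (loc _ h₁).pw_eq.le)
    ((pw_anti (fx_anti inf_le_right)).trans (loc _ h₂).pw_eq.le)) (le_pw_fx _)
  have QN : (S : Subgroup L) ⊓ normalizer (D₁ : Set L) ≤ normalizer ((D₁ ⊓ D₂ : Subgroup L) : Set L) :=
    fun u hu => mem_normalizer_iff.2 fun x => and_congr (mem_normalizer_iff.1 hu.2 x)
      (mem_normalizer_iff.1 (hQ.le hu).2 x)
  have sqQ : ∀ u ∈ (S : Subgroup L) ⊓ normalizer (D₁ : Set L), u * u ∈ D₁ ⊓ D₂ := fun u hu =>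
    ⟨(loc _ h₁).sq u hu, (loc _ h₂).sq u (hQ.le hu)⟩
  have four : ∀ u ∈ (S : Subgroup L) ⊓ normalizer (D₁ : Set L),
      u ∈ D₁ ⊓ D₂ ∨ u * a ∈ D₁ ⊓ D₂ ∨ u * (a * b) ∈ D₁ ⊓ D₂ ∨ u * b ∈ D₁ ⊓ D₂ := fun u hu => by
    by_cases u1 : u ∈ D₁ <;> by_cases u2 : u ∈ D₂
    · exact .inl ⟨u1, u2⟩
    · exact .inr (.inl ⟨mul_mem u1 a1, H.two h₂ (hQ.le hu) (hQ.le aQ) u2 a2⟩)
    · exact .inr (.inr (.inr ⟨H.two h₁ hu bQ u1 b1, mul_mem u2 b2⟩))
    · exact .inr (.inr (.inl ⟨H.two h₁ hu (mul_mem aQ bQ) u1 (mt (mul_mem_cancel_left a1).1 b1),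
        H.two h₂ (hQ.le hu) (hQ.le (mul_mem aQ bQ)) u2 (mt (mul_mem_cancel_right b2).1 a2)⟩))
  have ES : D₁ ⊓ D₂ ≤ S := inf_le_left.trans (MaxI.le h₁)
  have aE : a ∉ D₁ ⊓ D₂ := fun h => a2 h.2
  have cE : a * b ∉ D₁ ⊓ D₂ := fun h => b1 ((mul_mem_cancel_left a1).1 h.1)
  have uq : ∀ P : Sylow 2 L, (S : Subgroup L) ⊓ normalizer (D₁ : Set L) ≤ P → P = S :=
    fun P hP => by
      by_contra ne
      exact b1 (h₁.max P ne (q₁.trans hP) ⟨bQ.1, hP bQ⟩)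
  generalize D₁ ⊓ D₂ = E at *
  haveI := hb.nt
  have WZ : fx ρ S ≤ fx ρ E := fx_anti ES
  have Z0 : fx ρ E ≠ ⊥ := fx_ne_bot (S.isPGroup'.to_le ES)
  have hN := normalizer_le_st (ρ := ρ) E
  set N := normalizer (E : Set L)
  set Z := fx ρ E
  obtain ⟨R, hR⟩ := (IsPGroup.comap_subtype (K := N) (S.isPGroup'.to_le
    (inf_le_left (b := normalizer (D₁ : Set L))))).exists_le_sylow
  have RS : (S : Subgroup L).subgroupOf N = R := by
    refine R.is_maximal' S.isPGroup'.comap_subtype fun r hr => ?_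
    obtain ⟨P, hP⟩ := (R.isPGroup'.map N.subtype).exists_le_sylow
    obtain rfl := uq P fun u hu => hP ⟨⟨u, QN hu⟩, hR hu, rfl⟩
    exact hP ⟨r, hr, rfl⟩
  set T := R.mapSurjective (QuotientGroup.mk'_surjective (res ρ N Z hN).ker)
  have one : ∀ n : N, (n : N ⧸ (res ρ N Z hN).ker) = 1 ↔ (n : L) ∈ E := fun n => by
    rw [sec_eq_one, pwZ]
  have memT : ∀ n : N, (n : N ⧸ (res ρ N Z hN).ker) ∈ (T : Subgroup _) ↔ (n : L) ∈ (S : Subgroup L) :=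
    fun n => by
      refine ⟨fun ⟨r, hr, e⟩ => ?_, fun h => ⟨n, RS.le h, rfl⟩⟩
      have := ES ((one (r⁻¹ * n)).1 ((QuotientGroup.eq_one_iff _).2 (QuotientGroup.eq.1 e)))
      exact (mul_mem_cancel_left (inv_mem (RS.ge hr : (r : L) ∈ (S : Subgroup L)))).1 this
  let a' : N := ⟨a, QN aQ⟩
  let b' : N := ⟨b, QN bQ⟩
  have sq : ∀ n : N, (n : L) ∈ (S : Subgroup L) ⊓ normalizer (D₁ : Set L) →
      (n : N ⧸ (res ρ N Z hN).ker) * n = 1 := fun n hn => (one (n * n)).2 (sqQ n hn)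
  have aa := sq a' aQ
  have bb := sq b' bQ
  have cc := sq (a' * b') (mul_mem aQ bQ)
  have acb : (a' : N ⧸ (res ρ N Z hN).ker) * (a' * b' : N) = b' := by
    rw [QuotientGroup.mk_mul, ← mul_assoc, aa, one_mul]
  have ac : (a' : N ⧸ (res ρ N Z hN).ker) * (a' * b' : N) = (a' * b' : N) * a' := by
    have := inv_eq_of_mul_eq_one_right bb
    rwa [← acb, mul_inv_rev, inv_eq_of_mul_eq_one_right aa, inv_eq_of_mul_eq_one_right cc,
      eq_comm] at this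
  have on3 : ∀ w ∈ fx ρ S, ∃ y ∈ Z ⊓ fx ρ (zpowers (a * b)), ρ a y - y = w := fun w hw => by
    obtain ⟨u, hu, e⟩ := (loc _ h₁).onto b bQ b1 w hw
    obtain ⟨v, hv, e'⟩ := (loc _ h₂).onto a (hQ.le aQ) a2 w hw
    rw [sub_eq_iff_eq_add] at e e'
    refine ⟨u + v, ⟨add_mem (y₁.ge hu).1 (y₂.ge hv).1, mem_fx_zpowers.2 ?_⟩, ?_⟩
    · rw [rho_mul, map_add, e, hv b b2, map_add, map_add, hu a a1, hw a aQ.1, e',
        add_add_add_comm, add_self, zero_add]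
    · rw [map_add, hu a a1, e']; abel
  have k3 : ∀ y ∈ Z ⊓ fx ρ (zpowers (a * b)), ρ a y = y → y ∈ fx ρ S := fun y hy e => by
    refine (loc _ h₁).fix b bQ.1 b1 y (y₁.le ⟨hy.1, mem_fx_zpowers.2 e⟩) (rho_inj (ρ := ρ) a ?_)
    rw [← rho_mul, mem_fx_zpowers.1 hy.2, e]
  have c3 : Nat.card ↥(Z ⊓ fx ρ (zpowers (a * b))) = Nat.card (fx ρ S) ^ 2 := by
    refine card_split (ρ a - 1) (fun y hy => ⟨fun e => k3 y hy (sub_eq_zero.1 e),
      fun e => sub_eq_zero.2 (e a aQ.1)⟩)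
      (le_inf WZ (fx_anti (zpowers_le.2 (mul_mem aQ.1 bQ.1)))) (le_antisymm ?_ fun w hw => by
        obtain ⟨y, hy, e⟩ := on3 w hw
        exact ⟨y, hy, e⟩)
    rintro _ ⟨y, hy, rfl⟩
    refine k3 _ (sub_mem ((st_of_comm hN ac y).2 hy) hy) ?_
    show ρ a (ρ a y - y) = ρ a y - y
    rw [map_sub, ← rho_mul, hy.1 _ (sqQ a aQ), sub_eq_add', sub_eq_add', add_comm]
  obtain ⟨w₀, w₁, w₂, n1, n2, n12⟩ : ∃ a b c : fx ρ S, a ≠ b ∧ a ≠ c ∧ b ≠ c := by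
    haveI := Fintype.ofFinite (fx ρ S)
    have := H.f4
    exact Fintype.two_lt_card_iff.1 (by rw [← Nat.card_eq_fintype_card]; omega)
  obtain ⟨u₁, hu₁, e₁⟩ := on3 _ (w₀ - w₁).2
  obtain ⟨u₂, hu₂, e₂⟩ := on3 _ (w₂ - w₀).2
  have m₁ : ρ a u₁ ≠ u₁ := fun e => n1 (sub_eq_zero.1 (Subtype.ext (by rw [← e₁, e, sub_self]; rfl)))
  have m₂ : ρ a u₂ ≠ u₂ := fun e =>
    n2 (sub_eq_zero.1 (Subtype.ext (by rw [← e₂, e, sub_self]; rfl))).symm
  have m₃ : ρ a (u₁ + u₂) ≠ u₁ + u₂ := fun e => n12 (Subtype.ext (by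
    rw [map_add, sub_eq_iff_eq_add.1 e₁, sub_eq_iff_eq_add.1 e₂, add_add_add_comm,
      add_eq_right] at e
    push_cast at e
    rw [← sub_eq_zero, ← neg_eq_zero, ← e]; abel))
  obtain ⟨D₄, h₄, y₄⟩ := H.eq_fx (R := E ⊔ zpowers (a * b))
    (sup_le ES (zpowers_le.2 (mul_mem aQ.1 bQ.1))) (by rw [fx_sup, c3]) (y := u₁)
    (by rw [fx_sup]; exact hu₁) fun e => m₁ (e a aQ.1)
  rw [fx_sup] at y₄
  refine Cx.false (σ := sec ρ N Z hN) (T := T) (a := a') (c := (a' * b' : N))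
    (f := Nat.card (fx ρ S)) ⟨sec_inj hN, sec_free hN hb.free, sec_cyc hN hb.free Z0 hb.cyc,
    (memT _).2 aQ.1, (memT _).2 (mul_mem aQ.1 bQ.1), aa, cc, ac, fun e => cE ((one _).1 e), H.f4,
    f3, ?_, ⟨⟨u₁, hu₁.1⟩, ⟨u₂, hu₂.1⟩, Subtype.ext (mem_fx_zpowers.1 hu₁.2),
      Subtype.ext (mem_fx_zpowers.1 hu₂.2), fun e => m₁ (congrArg Subtype.val e),
      fun e => m₂ (congrArg Subtype.val e), fun e => m₃ (congrArg Subtype.val e)⟩, ?_, ?_, ?_, ?_⟩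
  · rw [acb]
    rintro t (rfl | rfl | rfl) <;> rw [card_sec hN inf_le_left (mem_fx_sec hN _)]
    · exact (congrArg (fun Y : Submodule (ZMod 2) V => Nat.card Y) y₁).trans (loc _ h₁).card
    · exact c3
    · exact (congrArg (fun Y : Submodule (ZMod 2) V => Nat.card Y) y₂).trans (loc _ h₂).card
  · intro t ht u hu e
    obtain ⟨u, rfl⟩ := QuotientGroup.mk_surjective u
    have uQ : (u : L) ∈ (S : Subgroup L) ⊓ normalizer (D₁ : Set L) := by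
      rw [acb] at ht
      rcases ht with rfl | rfl
      · exact ⟨(memT u).1 hu, (loc _ h₁).st_eq.le (by rw [← y₁]; exact st_of_comm hN (n := a') e)⟩
      · exact hQ.ge ⟨(memT u).1 hu, (loc _ h₂).st_eq.le (by rw [← y₂]; exact st_of_comm hN (n := b') e)⟩
    have k : ∀ n : N, (n : N ⧸ (res ρ N Z hN).ker) * n = 1 → (u : L) * n ∈ E →
        (u : N ⧸ (res ρ N Z hN).ker) = n := fun n nn h =>
      mul_right_cancel ((QuotientGroup.mk_mul _ u n).symm.trans (((one (u * n)).2 h).trans nn.symm))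
    rcases four u uQ with h | h | h | h
    · exact .inl ((one u).2 h)
    · exact .inr (.inl (k a' aa h))
    · exact .inr (.inr (.inl (k _ cc h)))
    · exact .inr (.inr (.inr ((k b' bb h).trans acb.symm)))
  · intro u hu u' hu' e e' k k'
    obtain ⟨u, rfl⟩ := QuotientGroup.mk_surjective u
    obtain ⟨u', rfl⟩ := QuotientGroup.mk_surjective u'
    have p : pw ρ (Z ⊓ fx ρ (zpowers ((a' * b' : N) : L))) = D₄ :=
      (congrArg (pw ρ) y₄).symm.trans (loc _ h₄).pw_eq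
    have s : st ρ (Z ⊓ fx ρ (zpowers ((a' * b' : N) : L))) = normalizer (D₄ : Set L) :=
      (congrArg (st ρ) y₄).symm.trans (loc _ h₄).st_eq
    rw [← QuotientGroup.mk_mul]
    rw [pw_sec, p] at k k' ⊢
    exact H.two h₄ ⟨(memT u).1 hu, s.le (st_of_comm hN e)⟩ ⟨(memT u').1 hu', s.le (st_of_comm hN e')⟩
      k k'
  · intro B hB hc x hx h3
    obtain ⟨x, rfl⟩ := QuotientGroup.mk_surjective x
    set B' := (B.comap (QuotientGroup.mk' (res ρ N Z hN).ker)).map N.subtype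
    have EB : E ≤ B' := fun e he => ⟨⟨e, le_normalizer he⟩, by
      show ((⟨e, _⟩ : N) : N ⧸ (res ρ N Z hN).ker) ∈ B
      rw [(one _).2 he]; exact one_mem _, rfl⟩
    have eB : ∀ z : Z, z ∈ fx (sec ρ N Z hN) B ↔ (z : V) ∈ fx ρ B' := fun z =>
      ⟨by rintro h _ ⟨n, hn, rfl⟩; exact congrArg Subtype.val (h _ hn), fun h n hn => by
        obtain ⟨n, rfl⟩ := QuotientGroup.mk_surjective n
        exact Subtype.ext (h _ ⟨n, hn, rfl⟩)⟩
    rw [card_sec hN (fx_anti EB) eB] at hc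
    refine H.n3R (R := B') (by rintro _ ⟨n, hn, rfl⟩; exact (memT n).1 (hB hn)) hc
      (h3.trans ((orderOf_map_dvd (QuotientGroup.mk' _) x).trans ?_))
    rw [← orderOf_coe]
    refine orderOf_dvd_natCard _ (mem_st_of_le fun u hu => ?_)
    exact (eB _).1 ((normalizer_le_st B hx ⟨u, fx_anti EB hu⟩).2 ((eB _).2 hu))
  · intro z z0
    obtain ⟨P, hP⟩ := star_vs hs (v := z) fun e => z0 (Subtype.ext e)
    have EP : E < P := lt_of_le_of_ne (fun e he => hP.le (z.2 e he)) fun e => aE (by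
      rw [e, ← P.is_maximal' S.isPGroup' (e ▸ ES)]; exact aQ.1)
    obtain ⟨t, ht, tE⟩ := SetLike.exists_of_lt
      (FT.nilpotent_proper_norm (FT.pgroup_nil P.isPGroup') EP)
    exact ⟨(⟨t, ht.2⟩ : N), fun e => tE ((one _).1 e), Subtype.ext (hP.ge ht.1)⟩

end Cfsg.G41.KC
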