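import Cfsg.Agent.G41.P2Basic
import Cfsg.Agent.Grp.RankOne

/-!
# S4841, `p = 2`, piece KC: the group `N(E) / E`
-/

set_option autoImplicit false

namespace Cfsg.G41.KC

open Subgroup P2
open scoped commutatorElement Pointwise

universe u

variable {Z : Type} [AddCommGroup Z] [Module (ZMod 2) Z] {X : Type u} [Group X]

/-- the situation in `N(E) / E` -/
structure Cx (σ : X →* Module.End (ZMod 2) Z) (T : Sylow 2 X) (a c : X) (f : ℕ) : Prop where
  inj : Function.Injective σ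
  free : PFree σ
  cyc : ∀ Y : Subgroup X, Odd (Nat.card Y) → IsCyclic Y
  aT : a ∈ (T : Subgroup X)
  cT : c ∈ (T : Subgroup X)
  aa : a * a = 1
  cc : c * c = 1
  ac : a * c = c * a
  c1 : c ≠ 1
  f4 : 4 ≤ f
  f3 : 3 ∣ f - 1
  card : ∀ t, t = a ∨ t = c ∨ t = a * c → Nat.card (fx σ (zpowers t)) = f ^ 2
  ys : ∃ y₁ y₂, σ c y₁ = y₁ ∧ σ c y₂ = y₂ ∧ σ a y₁ ≠ y₁ ∧ σ a y₂ ≠ y₂ ∧ σ a (y₁ + y₂) ≠ y₁ + y₂
  cen : ∀ t, t = a ∨ t = a * c → ∀ u ∈ (T : Subgroup X), u * t = t * u →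
    u = 1 ∨ u = a ∨ u = c ∨ u = a * c
  two : ∀ u ∈ (T : Subgroup X), ∀ u' ∈ (T : Subgroup X), u * c = c * u → u' * c = c * u' →
    u ∉ pw σ (fx σ (zpowers c)) → u' ∉ pw σ (fx σ (zpowers c)) → u * u' ∈ pw σ (fx σ (zpowers c))
  n3 : ∀ R ≤ (T : Subgroup X), Nat.card (fx σ R) ≤ f ^ 2 → ∀ x ∈ normalizer (R : Set X),
    ¬ 3 ∣ orderOf x
  cov : ∀ z ≠ 0, ∃ t ≠ 1, σ t z = z

theorem conj_into [Finite X] (T : Sylow 2 X) {R : Subgroup X} (hR : IsPGroup 2 R) :
    ∃ g : X, ∀ r ∈ R, g * r * g⁻¹ ∈ (T : Subgroup X) := by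
  obtain ⟨P, hP⟩ := hR.exists_le_sylow
  obtain ⟨g, rfl⟩ := MulAction.exists_smul_eq X P T
  exact ⟨g, fun r hr => smul_mem_pointwise_smul r (MulAut.conj g) _ (hP hr)⟩

theorem card_le_of_list [Finite X] {T : Subgroup X} (l : List X) (h : ∀ t ∈ T, t ∈ l) :
    Nat.card T ≤ l.length := by
  classical
  refine le_trans ?_ (List.toFinset_card_le l)
  rw [← Set.ncard_coe_finset]
  exact Set.ncard_le_ncard (s := (T : Set X)) fun t ht => by simpa using h t ht

namespace Cx

variable {σ : X →* Module.End (ZMod 2) Z} {T : Sylow 2 X} {a c : X} {f : ℕ} (H : Cx σ T a c f)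
include H

theorem cK : c ∈ pw σ (fx σ (zpowers c)) := le_pw_fx _ (mem_zpowers c)

theorem aK : a ∉ pw σ (fx σ (zpowers c)) := fun h => by
  obtain ⟨y, -, hy, -, ha, -⟩ := H.ys
  exact ha (h y (mem_fx_zpowers.2 hy))

theorem acK : a * c ∉ pw σ (fx σ (zpowers c)) := fun h =>
  H.aK ((mul_mem_cancel_right H.cK).1 h)

variable [Finite X]

theorem cenT {u : X} (hu : u ∈ (T : Subgroup X)) : u * c = c * u := by
  have h0 : (T : Subgroup X) ≠ ⊥ := fun e => H.c1 (mem_bot.1 (e ▸ H.cT))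
  obtain ⟨⟨z, hz, hz'⟩, z1⟩ := ne_bot_iff_exists_ne_one.1
    (mt (FT.trivg_center_pgroup T.isPGroup').1 h0)
  have k : ∀ t, t = a ∨ t = a * c → u * t = t * u → u * c = c * u := fun t ht e => by
    rcases H.cen t ht u hu e with rfl | rfl | rfl | rfl
    · simp
    · exact H.ac
    · rfl
    · rw [← mul_assoc, ← H.ac]
  rcases H.cen a (.inl rfl) z hz (hz' a H.aT).symm with rfl | rfl | rfl | rfl
  · exact absurd rfl z1
  · exact k _ (.inl rfl) (hz' u hu)
  · exact hz' u hu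
  · exact k _ (.inr rfl) (hz' u hu)

theorem two' {u u' : X} (hu : u ∈ (T : Subgroup X)) (hu' : u' ∈ (T : Subgroup X))
    (h : u ∉ pw σ (fx σ (zpowers c))) (h' : u' ∉ pw σ (fx σ (zpowers c))) :
    u * u' ∈ pw σ (fx σ (zpowers c)) := H.two u hu u' hu' (H.cenT hu) (H.cenT hu') h h'

omit [Finite X] in
theorem sub_fix (z : Z) : σ c (σ c z - z) = σ c z - z := by
  rw [map_sub, ← rho_mul, H.cc, map_one, sub_eq_add', sub_eq_add', add_comm]; rfl

theorem sqK {u : X} (hu : u ∈ (T : Subgroup X)) (h : u ∈ pw σ (fx σ (zpowers c))) :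
    u * u = 1 := H.inj <| by
  ext z
  have e1 := h _ (mem_fx_zpowers.2 (H.sub_fix z))
  rw [map_sub, ← rho_mul, H.cenT hu, rho_mul] at e1
  have e2 : σ c (σ u z - z) = σ u z - z := by
    rw [map_sub, sub_eq_sub_iff_sub_eq_sub, e1]
  have e3 := h _ (mem_fx_zpowers.2 e2)
  rw [map_sub, sub_eq_iff_eq_add, sub_eq_add', add_right_comm, add_self, zero_add] at e3
  rw [rho_mul, e3, map_one]; rfl

omit [Finite X] in
theorem cenK {u : X} (hu : u ∈ (T : Subgroup X)) (h : u ∈ pw σ (fx σ (zpowers c)))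
    (e : u * a = a * u) : u = 1 ∨ u = c := by
  rcases H.cen a (.inl rfl) u hu e with rfl | rfl | rfl | rfl
  · exact .inl rfl
  · exact absurd h H.aK
  · exact .inr rfl
  · exact absurd h H.acK

theorem conjK {u : X} (hu : u ∈ (T : Subgroup X)) (h : u ∈ pw σ (fx σ (zpowers c)))
    (h1 : u ≠ 1) (hc : u ≠ c) : u * a = a * c * u := by
  have m : a * u ∉ pw σ (fx σ (zpowers c)) := fun e => H.aK ((mul_mem_cancel_right h).1 e)
  have mT := mul_mem H.aT hu
  have k := H.two' mT mT m m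
  have s := H.sqK (mul_mem mT mT) k
  have uu := H.sqK hu h
  have ia := inv_eq_of_mul_eq_one_right H.aa
  have iu := inv_eq_of_mul_eq_one_right uu
  have e : a * u * (a * u) * a = a * (a * u * (a * u)) := by
    conv_rhs => rw [← inv_eq_of_mul_eq_one_right s]
    simp only [mul_inv_rev, ia, iu, mul_assoc]
  rcases H.cenK (mul_mem mT mT) k e with e | e
  · refine ((H.cenK hu h ?_).elim h1 hc).elim
    rw [← inv_eq_of_mul_eq_one_right e, mul_inv_rev, ia, iu]
  · rw [← e]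
    calc u * a = a * a * u * a * (u * u) := by rw [H.aa, uu]; simp
      _ = _ := by simp only [mul_assoc]

theorem mulK {u u' : X} (hu : u ∈ (T : Subgroup X)) (h : u ∈ pw σ (fx σ (zpowers c)))
    (h1 : u ≠ 1) (hc : u ≠ c) (hu' : u' ∈ (T : Subgroup X)) (h' : u' ∈ pw σ (fx σ (zpowers c)))
    (h1' : u' ≠ 1) (hc' : u' ≠ c) : u * u' = 1 ∨ u * u' = c := by
  refine H.cenK (mul_mem hu hu') (mul_mem h h') ?_
  rw [mul_assoc, H.conjK hu' h' h1' hc', ← mul_assoc, ← mul_assoc, H.conjK hu h h1 hc,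
    mul_assoc (a * c), H.cenT hu, ← mul_assoc, mul_assoc a, H.cc, mul_one, mul_assoc]

theorem invT {t : X} (ht : t ∈ (T : Subgroup X)) (h : t ∉ pw σ (fx σ (zpowers c)))
    (tt : t * t = 1) : t = a ∨ t = a * c := by
  have e : a * t * a = a * (a * t) := by
    conv_rhs => rw [← inv_eq_of_mul_eq_one_right (H.sqK (mul_mem H.aT ht) (H.two' H.aT ht H.aK h)),
      mul_inv_rev, inv_eq_of_mul_eq_one_right H.aa, inv_eq_of_mul_eq_one_right tt, ← mul_assoc]
  have ia := inv_eq_of_mul_eq_one_right H.aa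
  rcases H.cenK (mul_mem H.aT ht) (H.two' H.aT ht H.aK h) e with e | e
  · exact .inl (by rw [← inv_eq_of_mul_eq_one_right e, ia])
  · exact .inr (by rw [← e, ← mul_assoc, H.aa, one_mul])

theorem exK {r : X} (hr : r ∈ (T : Subgroup X)) (h : ¬ (r = 1 ∨ r = a ∨ r = c ∨ r = a * c)) :
    ∃ u ∈ (T : Subgroup X), u ∈ pw σ (fx σ (zpowers c)) ∧ u ≠ 1 ∧ u ≠ c ∧ (r = u ∨ r = a * u) := by
  push Not at h
  by_cases k : r ∈ pw σ (fx σ (zpowers c))
  · exact ⟨r, hr, k, h.1, h.2.2.1, .inl rfl⟩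
  · have e : r = a * (a * r) := by rw [← mul_assoc, H.aa, one_mul]
    exact ⟨a * r, mul_mem H.aT hr, H.two' H.aT hr H.aK k, fun e' => h.2.1 (by rw [e, e', mul_one]),
      fun e' => h.2.2.2 (by rw [e, e']), .inr e⟩

theorem out2 {r r' : X} (hr : r ∈ (T : Subgroup X)) (h : ¬ (r = 1 ∨ r = a ∨ r = c ∨ r = a * c))
    (hr' : r' ∈ (T : Subgroup X)) (h' : ¬ (r' = 1 ∨ r' = a ∨ r' = c ∨ r' = a * c)) :
    r * r' = 1 ∨ r * r' = a ∨ r * r' = c ∨ r * r' = a * c := by
  have k : ∀ r ∈ (T : Subgroup X), ¬ (r = 1 ∨ r = a ∨ r = c ∨ r = a * c) → r * a = a * c * r :=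
    fun r hr h => by
      obtain ⟨u, hu, k, h1, hc, rfl | rfl⟩ := H.exK hr h
      · exact H.conjK hu k h1 hc
      · rw [mul_assoc, H.conjK hu k h1 hc, ← mul_assoc (a * c), mul_assoc a c a, ← H.ac]
        simp only [mul_assoc]
  refine H.cen a (.inl rfl) _ (mul_mem hr hr') ?_
  rw [mul_assoc, k r' hr' h', ← mul_assoc, ← mul_assoc, k r hr h,
    mul_assoc (a * c), H.cenT hr, ← mul_assoc, mul_assoc a, H.cc, mul_one, mul_assoc]

theorem cardT : Nat.card T ≤ 8 := by
  by_cases h : ∀ r ∈ (T : Subgroup X), r = 1 ∨ r = a ∨ r = c ∨ r = a * c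
  · exact (card_le_of_list [1, a, c, a * c] (by simpa using h)).trans (by simp)
  · push Not at h
    obtain ⟨r, hr, h⟩ := h
    refine card_le_of_list [1, a, c, a * c, r⁻¹, r⁻¹ * a, r⁻¹ * c, r⁻¹ * (a * c)] fun t ht => ?_
    by_cases k : t = 1 ∨ t = a ∨ t = c ∨ t = a * c
    · rcases k with k | k | k | k <;> simp [k]
    · rcases H.out2 hr (by tauto) ht k with k | k | k | k <;>
        simp [eq_inv_mul_iff_mul_eq.2 k]

variable [Finite Z]

theorem frob : HasNormalPComplement 2 X := by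
  have key : ∀ R ≤ (T : Subgroup X), ∀ x ∈ normalizer (R : Set X), ∀ q k : ℕ, q.Prime → q ≠ 2 →
      orderOf x = q ^ k → x ∈ centralizer (R : Set X) := fun R hR x hx q k hq q2 ho => by
    have nx := fun r => (mem_normalizer_iff.1 hx r).1
    by_cases h : ∃ t ∈ R, t = a ∨ t = c ∨ t = a * c
    · obtain ⟨t, ht, e⟩ := h
      have h3 := H.n3 R hR (H.card t e ▸ Nat.card_le_card_of_injective _
        (Submodule.inclusion_injective (fx_anti (zpowers_le.2 ht)))) x hx
      haveI := Fact.mk hq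
      have m := FT.BG4P.card_modEq_subcent (p := q) (N := R)
        (IsPGroup.of_card ((Nat.card_zpowers x).trans ho)) (zpowers_le.2 hx)
      obtain ⟨i, hi⟩ := (T.isPGroup'.to_le hR).exists_card_eq
      obtain ⟨j, hj⟩ := (T.isPGroup'.to_le
        ((inf_le_left (b := centralizer (zpowers x : Set X))).trans hR)).exists_card_eq
      by_contra hc
      have lt : Nat.card ↥(R ⊓ centralizer (zpowers x : Set X)) < Nat.card R := by
        refine lt_of_le_of_ne (card_le_of_le inf_le_left) fun e => hc fun r hr => ?_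
        exact (((eq_of_le_of_card_ge inf_le_left e.ge).ge hr).2 x (mem_zpowers x)).symm
      have k0 : k ≠ 0 := by
        rintro rfl
        rw [pow_zero, orderOf_eq_one_iff] at ho
        exact hc (ho ▸ one_mem _)
      have q3 : q ≠ 3 := by
        rintro rfl
        exact h3 (ho ▸ dvd_pow_self 3 k0)
      have le := (card_le_of_le hR).trans H.cardT
      rw [hi, hj] at m lt
      rw [hi] at le
      have i3 : i ≤ 3 := (Nat.pow_le_pow_iff_right (by norm_num : 1 < 2)).1 le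
      have ji : j < i := (Nat.pow_lt_pow_iff_right (by norm_num : 1 < 2)).1 lt
      have d := (Nat.modEq_iff_dvd' lt.le).1 m.symm
      have ij : i = 3 ∧ j = 0 := by
        have h1 := hq.one_lt
        have n4 : q ≠ 4 := by rintro rfl; norm_num at hq
        have n6 : q ≠ 6 := by rintro rfl; norm_num at hq
        have := Nat.le_of_dvd (by omega) d
        interval_cases i <;> interval_cases j <;> norm_num at d this ⊢ <;>
          interval_cases q <;> omega
      obtain ⟨rfl, rfl⟩ := ij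
      obtain rfl : R = T := eq_of_le_of_card_ge hR (hi ▸ H.cardT)
      have cm : ∀ u ∈ (T : Subgroup X), u * (x * c * x⁻¹) = x * c * x⁻¹ * u := fun u hu => by
        have := H.cenT ((mem_normalizer_iff.1 (inv_mem hx) u).1 hu)
        calc _ = x * (x⁻¹ * u * x⁻¹⁻¹ * c) * x⁻¹ := by group
          _ = _ := by rw [this]; group
      have n4 : ∀ t, t = a ∨ t = a * c → x * c * x⁻¹ ≠ t := fun t ht e => by
        have := card_le_of_list [1, a, c, a * c] (T := T) fun u hu => by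
          simpa using H.cen t ht u hu (e ▸ cm u hu)
        rw [hi] at this; simp at this
      rcases H.cen a (.inl rfl) _ (nx c H.cT) (cm a H.aT).symm with e | e | e | e
      · exact H.c1 (by simpa using e)
      · exact n4 _ (.inl rfl) e
      · have : c ∈ (T : Subgroup X) ⊓ centralizer (zpowers x : Set X) :=
          ⟨H.cT, by
            rintro _ ⟨n, rfl⟩
            exact (Commute.zpow_left (mul_inv_eq_iff_eq_mul.1 e) n).eq⟩
        rw [card_eq_one.1 hj] at this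
        exact H.c1 this
      · exact n4 _ (.inr rfl) e
    · push Not at h
      have k : ∀ r ∈ R, r ≠ 1 → ∀ r' ∈ R, r' ≠ 1 → r * r' = 1 := fun r hr r1 r' hr' r1' => by
        have := h _ (mul_mem hr hr')
        have := H.out2 (hR hr) (by have := h r hr; tauto) (hR hr') (by have := h r' hr'; tauto)
        tauto
      intro r hr
      by_cases r1 : r = 1
      · simp [r1]
      · have := (k r hr r1 r hr r1).trans (k r hr r1 _ (nx r hr) (by simpa using r1)).symm
        rw [mul_right_inj, eq_mul_inv_iff_mul_eq] at this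
        exact this
  refine hasNormalPComplement_of_forall_mem_centralizer' fun R hR _ x hx q k hq q2 ho => ?_
  obtain ⟨g, hg⟩ := conj_into T hR
  have := key (R.map (MulAut.conj g).toMonoidHom) (by rintro _ ⟨r, hr, rfl⟩; exact hg r hr)
    (g * x * g⁻¹) (le_normalizer_map _ ⟨x, hx, rfl⟩) q k hq q2
    (((MulAut.conj g).orderOf_eq x).trans ho)
  intro r hr
  have := this _ ⟨r, hr, rfl⟩
  simp only [MulEquiv.coe_toMonoidHom, MulAut.conj_apply, conj_mul] at this
  exact mul_left_cancel (mul_right_cancel this)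

omit [Finite Z] in
theorem inv_fix {z : Z} (hz : z ≠ 0) : ∃ t, t ≠ 1 ∧ t * t = 1 ∧ σ t z = z := by
  obtain ⟨t, t1, ht⟩ := H.cov z hz
  obtain ⟨k, hk⟩ := H.free t z hz ht
  obtain _ | k := k
  · exact absurd (orderOf_eq_one_iff.1 hk) t1
  refine ⟨t ^ 2 ^ k, pow_ne_one_of_lt_orderOf (by positivity) (by rw [hk]; gcongr <;> omega), ?_,
    mem_vs.1 (pow_mem (mem_vs.2 ht) _)⟩
  rw [← pow_add, ← mul_two, ← pow_succ, ← hk, pow_orderOf_eq_one]

/-- the case that `c` is central -/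
theorem central (hc : ∀ g, g * c = c * g) : False := by
  obtain ⟨y₁, y₂, c₁, c₂, a₁, a₂, a₃⟩ := H.ys
  have cm : ∀ g z, σ g (σ c z - z) = σ c (σ g z) - σ g z := fun g z => by
    rw [map_sub, ← rho_mul, hc, rho_mul]
  have hst : ∀ g, g ∈ st σ (fx σ (zpowers c)) := fun g => mem_st_of_le fun u hu => by
    rw [mem_fx_zpowers] at hu ⊢
    rw [← rho_mul, ← hc, rho_mul, hu]
  have A0 : ∀ z, σ c z ≠ z → vs σ (σ c z - z) ≤ T →
      ∃ t ∈ pw σ (fx σ (zpowers c)), t ≠ 1 ∧ σ t z = z := fun z hz hT => by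
    by_contra! hn
    have k : ∀ y, σ c y = y → σ a (z + y) = z + y ∨ σ (a * c) (z + y) = z + y := fun y hy => by
      obtain ⟨t, t1, tt, ht⟩ := H.inv_fix (z := z + y) fun e => hz (by
        rw [eq_neg_of_add_eq_zero_left e, map_neg, hy])
      have tT : t ∈ (T : Subgroup X) := hT (mem_vs.2 (by
        have := cm t (z + y)
        rwa [ht, map_add, hy, add_sub_add_right_eq_sub] at this))
      rcases H.invT tT (fun h => hn t h t1 (by
        rwa [map_add, h y (mem_fx_zpowers.2 hy), add_left_inj] at ht)) tt with rfl | rfl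
      · exact .inl ht
      · exact .inr ht
    have k1 : ∀ y y', σ a (z + y) = z + y → σ a (z + y') = z + y' → σ a (y + y') = y + y' :=
      fun y y' h h' => by
        have e : y + y' = (z + y) + (z + y') := by rw [add_add_add_comm, add_self, zero_add]
        rw [e, map_add, h, h']
    have k2 : ∀ y y', σ c y = y → σ c y' = y' → σ (a * c) (z + y) = z + y →
        σ (a * c) (z + y') = z + y' → σ a (y + y') = y + y' := fun y y' hy hy' h h' => by
      have e : σ (a * c) (y + y') = (z + y) + (z + y') := by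
        have e : y + y' = (z + y) + (z + y') := by rw [add_add_add_comm, add_self, zero_add]
        rw [e, map_add, h, h']
      rwa [rho_mul, map_add (σ c), hy, hy', add_add_add_comm, add_self, zero_add] at e
    have z0 : σ c 0 = 0 := map_zero _
    rcases k 0 z0 with h0 | h0 <;> rcases k y₁ c₁ with h1 | h1 <;> rcases k y₂ c₂ with h2 | h2
    · exact a₃ (k1 _ _ h1 h2)
    · exact a₁ (by simpa using k1 _ _ h0 h1)
    · exact a₂ (by simpa using k1 _ _ h0 h2)
    · exact a₃ (k2 _ _ c₁ c₂ h1 h2)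
    · exact a₃ (k1 _ _ h1 h2)
    · exact a₂ (by simpa using k2 _ _ z0 c₂ h0 h2)
    · exact a₁ (by simpa using k2 _ _ z0 c₁ h0 h1)
    · exact a₃ (k2 _ _ c₁ c₂ h1 h2)
  have A1 : ∀ z, σ c z ≠ z → ∃ t ∈ pw σ (fx σ (zpowers c)), t ≠ 1 ∧ t ≠ c ∧ σ t z = z :=
    fun z hz => by
      obtain ⟨g, hg⟩ := conj_into T (vs_pgroup H.free (sub_ne_zero.2 hz))
      obtain ⟨t, ht, t1, h⟩ := A0 (σ g z) (fun e => hz (rho_inj g (by
        rw [← rho_mul, hc, rho_mul, e]))) fun r hr => by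
          have := hg (g⁻¹ * r * g) (mem_vs.2 (by
            rw [rho_mul, rho_mul, cm, mem_vs.1 hr, ← cm, rho_inv_self]))
          simpa [mul_assoc] using this
      have e : σ (g⁻¹ * t * g⁻¹⁻¹) z = z := by rw [inv_inv, rho_mul, rho_mul, h, rho_inv_self]
      exact ⟨_, conj_mem_pw (hst g⁻¹) ht, mt conj_eq_one_iff.1 t1, fun e' => hz (e' ▸ e), e⟩
  have y0 : fx σ (zpowers c) ≠ ⊥ := fun e => a₁ (by
    rw [(Submodule.mem_bot _).1 (e.le (mem_fx_zpowers.2 c₁)), map_zero])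
  have KT : pw σ (fx σ (zpowers c)) ≤ T := fun t ht => by
    obtain ⟨g, hg⟩ := conj_into T (pw_pgroup H.free y0)
    simpa [mul_assoc] using hg _ (conj_mem_pw (hst g⁻¹) ht)
  have nf : ∀ t : X, t ≠ 1 → ∃ z, σ t z ≠ z := fun t t1 => by
    by_contra! h; exact t1 (H.inj (by rw [map_one]; exact LinearMap.ext h))
  obtain ⟨z, hz⟩ := nf c H.c1
  obtain ⟨s, hs, s1, sc, -⟩ := A1 z hz
  have ss := H.sqK (KT hs) hs
  have A2 : ∀ z, σ s z = z ∨ σ (s * c) z = z := fun z => by
    by_cases hz : σ c z = z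
    · exact .inl (hs z (mem_fx_zpowers.2 hz))
    obtain ⟨t, ht, t1, tc, h⟩ := A1 z hz
    rcases H.mulK (KT hs) hs s1 sc (KT ht) ht t1 tc with e | e
    · exact .inl (by rwa [mul_left_cancel (e.trans ss.symm)] at h)
    · exact .inr (by rwa [← e, ← mul_assoc, ss, one_mul])
  obtain ⟨z₁, h₁⟩ := nf s s1
  obtain ⟨z₂, h₂⟩ := nf (s * c) fun e => sc (mul_right_cancel (e.trans H.cc.symm))
  rcases A2 (z₁ + z₂) with e | e
  · rw [map_add, (A2 z₂).resolve_right h₂, add_left_inj] at e; exact h₁ e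
  · rw [map_add, (A2 z₁).resolve_left h₁, add_right_inj] at e; exact h₂ e

/-- the case that `c` is not central -/
theorem false : False := by
  have hF := H.frob.isComplement' T
  set O := pPrimeCore 2 X
  have odd : ∀ x ∈ O, Odd (orderOf x) := fun x hx =>
    Nat.odd_iff.2 (Nat.two_dvd_ne_zero.1 (not_dvd_orderOf_of_mem_pPrimeCore hx))
  have cyc : IsCyclic O := H.cyc O (Nat.odd_iff.2 (Nat.two_dvd_ne_zero.1
    (not_dvd_card_pPrimeCore 2)))
  have dec : ∀ g, ∃ o ∈ O, ∃ t ∈ (T : Subgroup X), g = o * t := fun g => by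
    obtain ⟨⟨o, t⟩, e, -⟩ := hF.existsUnique g
    exact ⟨o, o.2, t, t.2, e.symm⟩
  have nO : O.Normal := inferInstance
  obtain ⟨o, ho, hc⟩ : ∃ o ∈ O, o * c ≠ c * o := by
    by_contra! h
    refine H.central fun g => ?_
    obtain ⟨o, ho, t, ht, rfl⟩ := dec g
    rw [mul_assoc, H.cenT ht, ← mul_assoc, h o ho, mul_assoc]
  have ia := inv_eq_of_mul_eq_one_right H.aa
  have ic := inv_eq_of_mul_eq_one_right H.cc
  have hT : ∀ r ∈ (T : Subgroup X), r = 1 ∨ r = a ∨ r = c ∨ r = a * c := fun r hr => by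
    by_contra h
    obtain ⟨u, hu, k, u1, uc, -⟩ := H.exK hr h
    refine hc (commutator_le_centralizer_of_isCyclic cyc (?_ : c ∈ _) o ho)
    have : c = ⁅a, u⁆ := by
      rw [commutatorElement_def, ia, mul_assoc a, H.conjK hu k u1 uc, ← mul_assoc, ← mul_assoc,
        H.aa, one_mul, mul_inv_cancel_right]
    exact this ▸ commutator_mem_commutator (mem_top a) (mem_top u)
  have cZ : Nat.card Z = (f ^ 2) ^ 2 := by
    rw [← H.card c (.inr (.inl rfl)), sq_fx_of_disj H.cc (s := o * c * o⁻¹)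
      (by rw [conj_mul, H.cc]; simp)]
    rw [eq_bot_iff]
    rintro v ⟨h1, h2⟩
    refine H.free.eq_zero (g := c * o * c⁻¹ * o⁻¹) (not_dvd_orderOf_of_mem_pPrimeCore
      (mul_mem (nO.conj_mem o ho c) (inv_mem ho))) (fun e => hc ?_) ?_
    · rw [mul_inv_eq_one, mul_inv_eq_iff_eq_mul] at e; exact e.symm
    · rw [ic, mul_assoc c, mul_assoc c, rho_mul, mem_fx_zpowers.1 h2, mem_fx_zpowers.1 h1]
  obtain ⟨k, hk⟩ : 3 ∣ f ^ 2 - 1 := H.f3.trans (by simpa using Nat.sub_dvd_pow_sub_pow f 1 2)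
  have com : ∀ x ∈ O, ∀ y ∈ O, Commute x y := fun x hx y hy =>
    congrArg Subtype.val (cyc.commutative.is_comm.comm ⟨x, hx⟩ ⟨y, hy⟩)
  have B1 : ∀ t, t = a ∨ t = c ∨ t = a * c → ∀ x ∈ O, (x * (t * x * t⁻¹)) ^ k = 1 :=
    fun t ht x hx => by
      have tT : t ∈ (T : Subgroup X) := by
        rcases ht with rfl | rfl | rfl
        exacts [H.aT, H.cT, mul_mem H.aT H.cT]
      have tt : t * t = 1 := by
        rcases ht with rfl | rfl | rfl
        exacts [H.aa, H.cc, by rw [mul_assoc, ← mul_assoc c, ← H.ac, mul_assoc, H.cc, mul_one, H.aa]]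
      have hy := mul_mem hx (nO.conj_mem x hx t)
      have cy : Commute (x * (t * x * t⁻¹)) t := by
        have := (com _ hx _ (nO.conj_mem x hx t)).eq
        rw [inv_eq_of_mul_eq_one_right tt] at this ⊢
        calc _ = t * x * t * x * t := by rw [this]
          _ = t * (x * (t * x * t)) := by simp only [mul_assoc]
      generalize x * (t * x * t⁻¹) = y at hy cy
      have d := H.free.card_dvd (K := zpowers y) (by
        rw [Nat.card_zpowers]; exact not_dvd_orderOf_of_mem_pPrimeCore hy) (fx σ (zpowers t))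
        fun g ⟨n, hn⟩ u hu => by
          rw [mem_fx_zpowers] at hu ⊢
          rw [← rho_mul, ← hn, ← (cy.zpow_left n).eq, rho_mul, hu]
      rw [Nat.card_zpowers, H.card t ht, hk] at d
      have h3 := H.n3 _ (zpowers_le.2 tT) (H.card t ht).le y (centralizer_le_normalizer _ (by
        rintro _ ⟨n, rfl⟩; exact (cy.zpow_right n).symm.eq))
      exact orderOf_dvd_iff_pow_eq_one.1 (Nat.Coprime.dvd_of_dvd_mul_left
        ((Nat.Prime.coprime_iff_not_dvd Nat.prime_three).2 h3).symm d)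
  have B2 : ∀ x ∈ O, ∀ y ∈ O, (x * y) ^ k = 1 → (x * y⁻¹) ^ k = 1 → x ^ k = 1 :=
    fun x hx y hy h h' => by
      have e : (x ^ k) ^ 2 = 1 := by
        have := (com _ (mul_mem hx hy) _ (mul_mem hx (inv_mem hy))).mul_pow k
        rw [h, h', mul_assoc, ← mul_assoc y, ← (com x hx y hy).eq, mul_inv_cancel_right] at this
        rw [← pow_mul, mul_comm, pow_mul, pow_two, this, mul_one]
      exact orderOf_eq_one_iff.1 (Nat.Coprime.eq_one_of_dvd
        (Nat.coprime_two_right.2 (odd _ (pow_mem hx k))) (orderOf_dvd_of_pow_eq_one e))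
  have B3 : ∀ x ∈ O, x ^ k = 1 := fun x hx => by
    have hc := nO.conj_mem x hx c
    refine B2 x hx _ hc (B1 c (.inr (.inl rfl)) x hx) ?_
    have hw := mul_mem hx (inv_mem hc)
    have iw : c * (x * (c * x * c⁻¹)⁻¹) * c⁻¹ = (x * (c * x * c⁻¹)⁻¹)⁻¹ := by
      rw [ic]
      simp only [mul_inv_rev, ic, inv_inv, ← mul_assoc, mul_assoc _ c c, H.cc, mul_one]
    generalize x * (c * x * c⁻¹)⁻¹ = w at hw iw
    refine B2 w hw _ (nO.conj_mem w hw a) (B1 a (.inl rfl) w hw) ?_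
    have := B1 _ (.inr (.inr rfl)) w hw
    rwa [show a * c * w * (a * c)⁻¹ = a * (c * w * c⁻¹) * a⁻¹ by group, iw, ← conj_inv] at this
  have f4 := H.f4
  have cO : Nat.card O ≤ k := by
    obtain ⟨g, hg⟩ := cyc.exists_ofOrder_eq_natCard
    refine hg ▸ Nat.le_of_dvd (Nat.pos_of_ne_zero ?_) (orderOf_dvd_of_pow_eq_one
      (Subtype.ext (B3 g g.2)))
    rintro rfl
    have : 4 ^ 2 ≤ f ^ 2 := by gcongr
    omega
  let φ : O × (fx σ (zpowers a) ⊕ fx σ (zpowers c) ⊕ fx σ (zpowers (a * c))) → Z :=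
    fun p => σ p.1 (p.2.elim Subtype.val (Sum.elim Subtype.val Subtype.val))
  have sφ : Function.Surjective φ := fun z => by
    by_cases z0 : z = 0
    · exact ⟨(1, .inl 0), by simp [φ, z0]⟩
    obtain ⟨t, t1, ht⟩ := H.cov z z0
    obtain ⟨g, hg⟩ := conj_into T (vs_pgroup H.free z0)
    obtain ⟨o, ho, u, hu, e⟩ := dec g⁻¹
    have m := mul_mem (mul_mem hu (hg t ht)) (inv_mem hu)
    have e' : u * (g * t * g⁻¹) * u⁻¹ = o⁻¹ * t * o := by
      rw [← inv_inv g, e]; group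
    have fz : σ (o⁻¹ * t * o) (σ o⁻¹ z) = σ o⁻¹ z := by
      rw [rho_mul, rho_mul, rho_self_inv, ht]
    rw [e'] at m
    rcases hT _ m with h | h | h | h
    · exact absurd (conj_eq_one_iff.1 (by simpa using h : o⁻¹ * t * o⁻¹⁻¹ = 1)) t1
    · exact ⟨(⟨o, ho⟩, .inl ⟨_, mem_fx_zpowers.2 (h ▸ fz)⟩), rho_self_inv _ _ _⟩
    · exact ⟨(⟨o, ho⟩, .inr (.inl ⟨_, mem_fx_zpowers.2 (h ▸ fz)⟩)), rho_self_inv _ _ _⟩
    · exact ⟨(⟨o, ho⟩, .inr (.inr ⟨_, mem_fx_zpowers.2 (h ▸ fz)⟩)), rho_self_inv _ _ _⟩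
  have le := Nat.card_le_card_of_surjective φ sφ
  rw [Nat.card_prod, Nat.card_sum, Nat.card_sum, H.card a (.inl rfl), H.card c (.inr (.inl rfl)),
    H.card _ (.inr (.inr rfl)), cZ] at le
  have h1 : f ^ 2 = 3 * k + 1 := by
    have : 0 < f ^ 2 := by positivity
    omega
  rw [h1] at le
  nlinarith

end Cx

end Cfsg.G41.KC
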