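import Cfsg.Agent.G41.P2Basic
import Cfsg.Agent.Gag.FinBase

/-!
# S4841, `p = 2`: the piece `StKO`
-/

set_option autoImplicit false

namespace Cfsg.G41.P2

open Subgroup Cfsg.FT Cfsg.Gag
open scoped commutatorElement Pointwise

universe u

section Grp
variable {L : Type u} [Group L] [Finite L]

omit [Finite L] in
theorem mem_of_pow_coprime {C : Subgroup L} {y : L} {a b : ℕ} (h : a.Coprime b) (ha : y ^ a ∈ C)
    (hb : y ^ b ∈ C) : y ∈ C := by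
  have h1 := Nat.gcd_eq_gcd_ab a b
  rw [h.gcd_eq_one] at h1
  rw [← zpow_one y, ← Nat.cast_one, h1, zpow_add, zpow_mul, zpow_mul, zpow_natCast, zpow_natCast]
  exact mul_mem (zpow_mem ha _) (zpow_mem hb _)

omit [Finite L] in
theorem sq_const {x y w A : L} (hA : A * A = 1) (hw : w * A = A * w) (h1 : x * x = A)
    (h2 : y * y = A) (h3 : w * w = A) (h4 : x * y * (x * y) = A) (h5 : x * w * (x * w) = A)
    (h6 : y * w * (y * w) = A) (h7 : x * (y * w) * (x * (y * w)) = A) : A = 1 := by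
  have key : ∀ b : L, b * b = A → x * b * (x * b) = A → b * x = x * b * A := fun b e1 e2 => by
    have e3 : b * x * b = x := mul_left_cancel (a := x) (by rw [h1, ← e2]; group)
    have e4 : b * A * b = 1 := by rw [← hA, ← e1]; group
    calc b * x = b * x * (b * A * b) := by rw [e4, mul_one]
      _ = x * A * b := by rw [← mul_assoc, ← mul_assoc, e3]
      _ = x * b * A := by rw [← e1]; group
  have e1 := key _ h6 h7
  rw [mul_assoc y, key w h3 h5, ← mul_assoc, ← mul_assoc, key y h2 h4, mul_assoc (x * y), ← hw,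
    mul_assoc, mul_assoc w, hA, mul_one, mul_assoc] at e1
  exact (mul_eq_left.1 e1.symm)

/-- two Sylow 2-subgroups of centralisers of elements of order 3 are conjugate -/
theorem conj_of_three (cyc : ∀ Y : Subgroup L, Odd (Nat.card Y) → IsCyclic Y)
    {N D₁ D₂ : Subgroup L} {d₁ d₂ : L} (o₁ : orderOf d₁ = 3) (o₂ : orderOf d₂ = 3)
    (h₁ : Syl 2 D₁ 𝐂₁[d₁]) (h₂ : Syl 2 D₂ 𝐂₁[d₂]) (n₁ : d₁ ∈ N) (n₂ : d₂ ∈ N) (l₁ : D₁ ≤ N)
    (l₂ : D₂ ≤ N) : ∃ g ∈ N, D₂ = g •ᶜ D₁ := by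
  have p₁ : IsPGroup 3 ⟪d₁⟫ := IsPGroup.of_card (n := 1) (by rw [Nat.card_zpowers, o₁]; rfl)
  have p₂ : IsPGroup 3 ⟪d₂⟫ := IsPGroup.of_card (n := 1) (by rw [Nat.card_zpowers, o₂]; rfl)
  obtain ⟨R, hR, hl⟩ := Sylow_superset (zpowers_le.2 n₂) p₂
  obtain ⟨n, hn, hnl⟩ := Sylow_Jsub hR (zpowers_le.2 n₁) p₁
  obtain ⟨k, hk⟩ := IsPGroup.iff_card.1 hR.pgroup
  have hc := cyc R (hk ▸ Odd.pow (by decide))
  rw [conj_zpowers] at hnl
  have e : ⟪n * d₁ * n⁻¹⟫ = ⟪d₂⟫ := (Ohm1_cyclic_eq (p := 3) hc hnl (by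
    rw [Nat.card_zpowers, ← o₁]
    exact orderOf_eq_of_isConj (isConj_iff.2 ⟨n, rfl⟩))).symm.trans
      (Ohm1_cyclic_eq hc hl (by rw [Nat.card_zpowers, o₂]))
  have h3 := (h₁.subl (le_inf l₁ h₁.le) inf_le_right).conj n
  rw [conj_inf, conj_eq_of_mem hn, ← cent1_conj, ← cent_cycle, e, cent_cycle] at h3
  obtain ⟨c, hc, e⟩ := Sylow_trans h3 (h₂.subl (le_inf l₂ h₂.le) inf_le_right)
  exact ⟨c * n, mul_mem hc.1 hn, by rw [e, conj_conj]⟩

theorem conj_in_norm {S N D₁ D₂ : Subgroup L} (hS : Syl 2 S ⊤) {g : L} (hg : g ∈ N)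
    (e : D₂ = g •ᶜ D₁) (h₁ : S ≤ 𝐍[D₁]) (h₂ : S ≤ 𝐍[D₂]) (hN : S ≤ N) :
    ∃ y ∈ N, y ∈ 𝐍[S] ∧ D₂ = y •ᶜ D₁ := by
  obtain ⟨n, hn, hl⟩ := Sylow_Jsub (hS.subl (le_inf hN h₂) le_top)
    (le_inf (conj_le_of_mem hg hN) (e ▸ conj_norms g h₁)) (isPGroup_conj.2 hS.pgroup)
  rw [conj_conj] at hl
  exact ⟨n * g, mul_mem hn.1 hg, mem_norm_of_conj_le hl, by
    rw [← conj_conj, ← e, conj_eq_of_mem_norm hn.2]⟩

/-- transfer: a unique maximal intersection of index 2 is impossible in a perfect group -/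
theorem trf (hp : _root_.commutator L = ⊤) {S : Sylow 2 L} {D : Subgroup L} (hD : MaxI S D)
    (hi : D.relIndex S = 2) (hu : ∀ P : Sylow 2 L, P ≠ S → (S : Subgroup L) ⊓ P ≤ D) : False := by
  obtain ⟨P, hP, e⟩ := hD.ex
  have key : ∀ x ∈ D, ∀ g : L, g * x * g⁻¹ ∈ (S : Subgroup L) → g * x * g⁻¹ ∈ D := by
    intro x hx g hg
    rw [e] at hx
    by_cases h : g • S = S
    · refine hu (g • P) (fun h' => hP (smul_left_cancel g (h'.trans h.symm))) ⟨hg, ?_⟩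
      exact conj_mem_conj.2 hx.2
    · exact hu (g • S) h ⟨hg, conj_mem_conj.2 hx.1⟩
  have h1 := sylow_inf_commutator_le S (K := D) fun x hx g hg => by
    by_cases h : x ∈ D
    · exact mul_mem (key x h g hg) (inv_mem h)
    · refine mul_mem_of_relIndex_le_two hi.le hg (inv_mem hx) (fun h' => h ?_) (by simpa using h)
      have := key _ h' g⁻¹ (by simpa [mul_assoc] using hx)
      simpa [mul_assoc] using this
  rw [hp, inf_top_eq] at h1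
  rw [relIndex_eq_one.2 h1] at hi
  omega

theorem idx_two_eq {S D₁ D₂ : Subgroup L} (hS : Syl 2 S ⊤) (h3 : ¬ 3 ∣ Nat.card 𝐍[S]) (l₁ : D₁ ≤ S)
    (l₂ : D₂ ≤ S) (i₁ : D₁.relIndex S = 2) (i₂ : D₂.relIndex S = 2) (n₁ : S ≤ 𝐍[D₁])
    (n₂ : S ≤ 𝐍[D₂]) {y : L} (hy : y ∈ 𝐍[D₁ ⊓ D₂]) (hyS : y ∈ 𝐍[S]) (e : D₂ = y •ᶜ D₁) :
    D₁ = D₂ := by
  by_contra hne
  have hc : Nat.card D₂ = Nat.card D₁ := by rw [e, card_conj]
  have hE : S ≤ 𝐍[D₁ ⊓ D₂] := normsI n₁ n₂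
  have hK : Klein (S ⁄ (D₁ ⊓ D₂)) := by
    constructor
    · rw [card_quotient hE, ← relIndex_mul_relIndex _ D₂ S inf_le_right l₂, i₂,
        inf_relIndex_right]
      have h1 : D₁.relIndex D₂ ∣ 2 := i₁ ▸ relIndex_inf_dvd_of_normal n₂ l₁ l₂
      rcases (Nat.dvd_prime Nat.prime_two).1 h1 with h | h
      · exact absurd (card_eq_of_le (relIndex_eq_one.1 h) hc.ge).symm hne
      · rw [h]
    · intro t ht
      obtain ⟨s, hs, hn, rfl⟩ := mem_quo.1 ht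
      rw [← coset_mul hn hn]
      have key : ∀ D : Subgroup L, D.relIndex S = 2 → s * s ∈ D := fun D hD => by
        by_cases h : s ∈ D
        · exact mul_mem h h
        · exact mul_mem_of_relIndex_le_two hD.le hs hs h h
      exact coset_id ⟨key _ i₁, key _ i₂⟩
  have hb : y ^ (S.relIndex 𝐍[S]) ∈ S := by
    haveI : (S.subgroupOf 𝐍[S]).Normal := normal_in_normalizer
    exact (S.subgroupOf 𝐍[S]).pow_index_mem ⟨y, hyS⟩
  have hb' : coset (D₁ ⊓ D₂) y ^ (S.relIndex 𝐍[S]) ∈ 𝐂[S ⁄ (D₁ ⊓ D₂)] := by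
    rw [← coset_pow hy]
    exact abelian_iff.1 (Fin5.klein_ab hK) (mem_quotient _ hb)
  have b2 : ¬ 2 ∣ S.relIndex 𝐍[S] := (hS.subl (normG S) le_top).index
  have b3 : ¬ 3 ∣ S.relIndex 𝐍[S] := fun h => h3 (h.trans (Subgroup.relIndex_dvd_card _ _))
  have hy' : coset (D₁ ⊓ D₂) y ∈ 𝐂[S ⁄ (D₁ ⊓ D₂)] := by
    rcases Fin5.klein_or hK (quotient_norm S _ (mem_quotient _ hyS)) with h | h
    · exact mem_of_pow_coprime ((Nat.Prime.coprime_iff_not_dvd Nat.prime_two).2 b2) h hb'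
    · exact mem_of_pow_coprime ((Nat.Prime.coprime_iff_not_dvd Nat.prime_three).2 b3) h hb'
  refine hne (card_eq_of_le ?_ hc.ge).symm
  rw [e]
  refine conj_le_iff_forall.2 fun a ha => ?_
  have han := hE (l₁ ha)
  have h1 := hy' _ (mem_quotient (D₁ ⊓ D₂) (l₁ ha))
  rw [← coset_mul han hy, ← coset_mul hy han,
    coset_eq_iff' (mul_mem han hy) (mul_mem hy han)] at h1
  have h2 := D₁.mul_mem (D₁.inv_mem h1.1) ha
  convert h2 using 1; group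

end Grp

section
variable {V : Type} [AddCommGroup V] [Module (ZMod 2) V] [Finite V] {L : Type u} [Group L]
  [Finite L] {ρ : L →* Module.End (ZMod 2) V} {S : Sylow 2 L} {D : Subgroup L}

omit [Finite L] in
theorem MaxI.le (h : MaxI S D) : D ≤ S := by
  obtain ⟨P, -, rfl⟩ := h.ex
  exact inf_le_left

omit [Finite L] in
theorem MaxI.pgroup (h : MaxI S D) : IsPGroup 2 D := S.isPGroup'.to_le h.le

omit [Finite V] [Finite L] in
theorem Loc.sq' (h : Loc ρ S D) {s : L} (hs : s ∈ 𝐍[D]) (h2 : IsPGroup 2 ⟪s⟫) : s * s ∈ D := by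
  obtain ⟨n, hn, hl⟩ := h.syl _ h2 (zpowers_le.2 hs)
  have := h.sq _ ⟨hl s (mem_zpowers s), Subgroup.mul_mem _ (Subgroup.mul_mem _ hn hs) (Subgroup.inv_mem _ hn)⟩
  rw [← memJ_norm hn]
  convert this using 1; group

theorem ko_one (hQ : StQ.{u}) (hB : StB.{u}) (hK : StWK.{u}) (hC : StWC.{u})
    (ih : IH.{u} (Nat.card V)) (hs : Star ρ) (hb : Base ρ) (hp : _root_.commutator L = ⊤)
    (hD : MaxI S D) (l : Loc ρ S D) {d : L} (hd : d ∈ 𝐍[D]) (od : orderOf d = 3)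
    (h3 : ∀ C : Subgroup L, C ≤ 𝐍[D] → 𝐍[D] ≤ 𝐍[C] → (∃ s ∈ C, s ∉ D ∧ s * s ∈ D) → d ∈ C ⊔ D)
    (hne : ⁅D, ⟪d⟫⁆ ≠ ⊥) : TI L := by
  obtain ⟨U, cV, hU, -⟩ := hQ V L ρ D d hb od hD.pgroup hd hne
  have hNM : 𝐍[D] ≤ st ρ U := fun g hg => by
    have e1 : ⁅D, ⟪g * d * g⁻¹⟫⁆ = g •ᶜ ⁅D, ⟪d⟫⁆ := by
      rw [conj_commutator, conj_zpowers, conj_eq_of_mem_norm hg]
    have e := hB V L ρ D d (g * d * g⁻¹) U (U.map (ρ g)) hb od
      (by rw [← od]; exact orderOf_eq_of_isConj (isConj_iff.2 ⟨g, rfl⟩)) hD.pgroup hd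
      (mul_mem (mul_mem hg hd) (inv_mem hg)) hne (by rw [e1]; exact conj_ne_bot.2 hne) cV
      (by rw [cV, Nat.card_congr (U.equivMapOfInjective _ (rho_inj g)).toEquiv]) hU (by
        rw [e1]
        refine conj_le_iff_forall.2 fun t ht => ?_
        rintro _ ⟨u, hu, rfl⟩
        rw [rho_mul, rho_mul, rho_inv_self, hU ht u hu])
    exact mem_st_of_le fun u hu => e ▸ Submodule.mem_map_of_mem hu
  obtain ⟨k, hk⟩ := IsPGroup.iff_card.1 hD.pgroup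
  have hTd : ⁅pw ρ U, ⟪d⟫⁆ ≠ ⊥ := fun h => hne (by
    rw [← coprime_commGid (zpowers_le.2 hd) (by
      rw [hk, Nat.card_zpowers, od]; exact Nat.Coprime.pow_left k (by decide)), eq_bot_iff, ← h]
    exact commutator_mono hU le_rfl)
  have hT : pw ρ U ≠ ⊥ := fun h => hTd (by rw [h, commutator_bot_left])
  have hCM : 𝐂[pw ρ U] ≤ st ρ U := fun g hg => by
    obtain ⟨⟨t, ht⟩, t1⟩ := ne_bot_iff_exists_ne_one.1 hT
    exact hb.mem_st_of_comm cV ht (fun e => t1 (Subtype.ext e)) (hg t ht).symm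
  have hMC : st ρ U ≤ 𝐍[𝐂[pw ρ U]] := norms_cent (st_le_normalizer U)
  have hyp : ∀ R : Subgroup L, IsPGroup 2 R → R ≤ 𝐂[pw ρ U] →
      ∃ m ∈ st ρ U, ∀ r ∈ R, m * r * m⁻¹ ∈ D := fun R hR hRC => by
    obtain ⟨S₁, hS₁, hl⟩ := Sylow_superset ((normG D).trans hNM) hD.pgroup
    obtain ⟨m, hm, hml⟩ := Sylow_Jsub hS₁ (hRC.trans hCM) hR
    have hle : S₁ ⊓ 𝐂[pw ρ U] ≤ D := by
      by_contra hn
      have n1 : D ≤ 𝐍[S₁ ⊓ 𝐂[pw ρ U]] := normsIG hl (hl.trans (hS₁.le.trans hMC))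
      have h1 : D < (S₁ ⊓ 𝐂[pw ρ U]) ⊔ D := right_lt_sup.2 hn
      obtain ⟨x, hx, hxD⟩ := SetLike.exists_of_lt (nilpotent_proper_norm
        (hS₁.pgroup.to_le (sup_le inf_le_left hl)).isNilpotent h1)
      obtain ⟨c, hc, a, ha, rfl⟩ := (mem_join_norm n1).1 hx.1
      have hcN : c ∈ 𝐍[D] := (mul_mem_cancel_right (normG D ha)).1 hx.2
      have h2 := h3 (𝐂[pw ρ U] ⊓ 𝐍[D]) inf_le_right (normsI (hNM.trans hMC) (normG _))
        ⟨c, ⟨hc.2, hcN⟩, fun h => hxD (mul_mem h ha),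
          l.sq' hcN (hS₁.pgroup.to_le (zpowers_le.2 hc.1))⟩
      have n2 : D ≤ 𝐍[𝐂[pw ρ U] ⊓ 𝐍[D]] := (normG D).trans (normsI (hNM.trans hMC) (normG _))
      have h4 : d ∈ 𝐂[pw ρ U] ⊓ 𝐍[D] := by
        refine PiElt.mem_of_relIndex (π := {2}ᶜ) (piElt_compl.2 (by rw [od]; decide))
          (sup_le (normG _) n2) h2 ?_
        rw [compl_compl, (mulEq_of_norm n2).relIndex_eq]
        exact PiNat.of_dvd (piSub_singleton.2 hD.pgroup) (Subgroup.relIndex_dvd_card _ _)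
      exact hTd (commG1P.2 (centsC.1 (zpowers_le.2 h4.1)))
    exact ⟨m, hm, fun r hr => hle ⟨conj_le_iff_forall.1 hml r hr, (memJ_norm (hMC hm)).2 (hRC hr)⟩⟩
  have hTD : pw ρ U ≤ D := by
    obtain ⟨m, hm, h⟩ := hyp _ (pw_pgroup hb.free (hb.U_ne cV)) fun t ht s hs => hb.comm cV hs ht
    intro t ht
    have := h _ (conj_mem_pw (inv_mem hm) ht)
    simpa [mul_assoc] using this
  exact hC V L ρ U d ih hs hp (hK V L ρ U D d hs hb cV od (hNM hd) hD.pgroup hTD hd hU hTd hyp)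
    od (hNM hd) hTd

/-- type `f`: an involution outside `D` -/
theorem ko_inv (hD : D ≤ S) (hn : (S : Subgroup L) ≤ 𝐍[D]) (hi : 5 ≤ D.relIndex S)
    (hsq : ∀ u ∈ (S : Subgroup L), u * u ∈ D) (hC : 𝐂[D] ⊔ D = 𝐍[D])
    (ht : ∀ s ∈ (S : Subgroup L), s ∉ D → ∀ s' ∈ (S : Subgroup L), s' ∉ D →
      ∃ y ∈ 𝐍[(S : Subgroup L)] ⊓ 𝐍[D], y * s * y⁻¹ * s'⁻¹ ∈ D) :
    ∃ σ ∈ (S : Subgroup L), σ ∉ D ∧ σ * σ = 1 := by
  classical
  set C := (S : Subgroup L) ⊓ 𝐂[D] with hCd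
  have hm : MulEq D C S := by
    have := ((mulEq_of_sup ((normG D).trans (cent_norm D)) hC).symm).inf_left hD
    rwa [inf_eq_right.2 hn, inf_comm] at this
  have hCn : C ≤ 𝐍[D] := inf_le_left.trans hn
  have hz : ∀ z ∈ 𝐙[D], ∀ c ∈ 𝐂[D] ⊔ D, c * z = z * c := fun z hz c hc =>
    (sup_le (centS (inf_le_left : 𝐙[D] ≤ D)) (centsC.1 (inf_le_right : 𝐙[D] ≤ 𝐂[D])) hc z hz).symm
  have hzC : ∀ z ∈ 𝐙[D], ∀ c ∈ C, c * z = z * c := fun z h c hc => hz z h c (mem_sup_left hc.2)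
  have hzz : ∀ z ∈ 𝐙[D], ∀ c ∈ 𝐙[D], c * z = z * c := fun z h c hc => hz z h c (mem_sup_left hc.2)
  have hs2 : ∀ c ∈ C, c * c ∈ 𝐙[D] := fun c hc => ⟨hsq c hc.1, mul_mem hc.2 hc.2⟩
  let Z : Subgroup L :=
    { carrier := {a | ∃ z ∈ 𝐙[D], a = z * z}
      mul_mem' := by
        rintro _ _ ⟨a, ha, rfl⟩ ⟨b, hb, rfl⟩
        refine ⟨a * b, mul_mem ha hb, ?_⟩
        rw [mul_assoc, mul_assoc, ← mul_assoc a b b, ← mul_assoc b a b, hzz b hb a ha]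
      one_mem' := ⟨1, one_mem _, by simp⟩
      inv_mem' := by
        rintro _ ⟨a, ha, rfl⟩
        exact ⟨a⁻¹, inv_mem ha, by group⟩ }
  have hCZ : C ≤ 𝐍[Z] := cents_norm fun c hc => by
    rintro _ ⟨z, h, rfl⟩
    exact (hzC _ (mul_mem h h) c hc).symm
  have hq : ∀ s ∈ C, s ∉ D → ∀ s' ∈ C, s' ∉ D →
      coset Z s * coset Z s = coset Z s' * coset Z s' := fun s hs h1 s' hs' h2 => by
    obtain ⟨y, hy, hyd⟩ := ht s hs.1 h1 s' hs'.1 h2
    have h3 : y * s * y⁻¹ ∈ C := (memJ_norm (normsI inf_le_left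
      (inf_le_right.trans (cent_norm D)) hy)).2 hs
    have h4 : y * s * y⁻¹ * s'⁻¹ ∈ 𝐙[D] := ⟨hyd, Subgroup.mul_mem _ h3.2 (Subgroup.inv_mem _ hs'.2)⟩
    set z := y * s * y⁻¹ * s'⁻¹ with hzd
    have h5 : s * s = z * z * (s' * s') := by
      have h6 := hz _ (hs2 s hs) y (hC ▸ hy.2)
      have h7 : y * s * y⁻¹ = z * s' := by rw [hzd]; group
      calc s * s = y * s * y⁻¹ * (y * s * y⁻¹) := by
            rw [← mul_inv_eq_iff_eq_mul] at h6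
            rw [← h6]; group
        _ = z * z * (s' * s') := by
            rw [h7, mul_assoc, ← mul_assoc s', hzC z h4 s' hs']; group
    rw [← coset_mul (hCZ hs) (hCZ hs), ← coset_mul (hCZ hs') (hCZ hs'), h5]
    rw [mul_assoc z z, ← mul_assoc z z]
    exact coset_kerl (K := Z) (x := z * z) ⟨z, h4, rfl⟩ _
  -- three independent elements
  have hcard : 5 ≤ Nat.card (C ⁄ D) := by rwa [card_quotient hCn, ← hm.relIndex_eq]
  have pick : ∀ a b c e : Q D, ∃ w ∈ C, coset D w ≠ a ∧ coset D w ≠ b ∧ coset D w ≠ c ∧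
      coset D w ≠ e := fun a b c e => by
    by_contra h
    push Not at h
    have : ((C ⁄ D : Subgroup (Q D)) : Set (Q D)) ⊆ ({a, b, c, e} : Finset (Q D)) := by
      intro t ht
      obtain ⟨w, hw, -, rfl⟩ := mem_quo.1 ht
      have := h w hw
      simp only [Finset.coe_insert, Finset.coe_singleton, Set.mem_insert_iff, Set.mem_singleton_iff]
      tauto
    have h1 := Set.ncard_le_ncard this
    rw [Set.ncard_coe_finset] at h1
    have h2 : ({a, b, c, e} : Finset (Q D)).card ≤ 4 := Finset.card_le_four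
    have h3 : Nat.card (C ⁄ D) = ((C ⁄ D : Subgroup (Q D)) : Set (Q D)).ncard := rfl
    omega
  obtain ⟨x, hx, x1, -⟩ := pick 1 1 1 1
  obtain ⟨y, hy, y1, y2, -⟩ := pick 1 (coset D x)⁻¹ 1 1
  obtain ⟨w, hw, w1, w2, w3, w4⟩ :=
    pick 1 (coset D x)⁻¹ (coset D y)⁻¹ (coset D x * coset D y)⁻¹
  have out : ∀ a : L, coset D a ≠ 1 → a ∉ D := fun a h1 h2 => h1 (coset_id h2)
  have out2 : ∀ a ∈ C, ∀ b ∈ C, coset D b ≠ (coset D a)⁻¹ → a * b ∉ D := fun a ha b hb h =>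
    out _ (by rw [coset_mul (hCn ha) (hCn hb)]; exact fun e => h (eq_inv_of_mul_eq_one_right e))
  have nx := out x x1
  have hA : coset Z x * coset Z x = 1 := by
    have m := fun {a b : L} (ha : a ∈ C) (hb : b ∈ C) => coset_mul (hCZ ha) (hCZ hb)
    refine sq_const (x := coset Z x) (y := coset Z y) (w := coset Z w) ?_ ?_ rfl
      (hq y hy (out y y1) x hx nx) (hq w hw (out w w1) x hx nx) ?_ ?_ ?_ ?_
    · rw [← m hx hx, ← m (mul_mem hx hx) (mul_mem hx hx)]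
      exact coset_id ⟨_, hs2 x hx, rfl⟩
    · rw [← m hx hx, ← m hw (mul_mem hx hx), ← m (mul_mem hx hx) hw, hzC _ (hs2 x hx) w hw]
    · rw [← m hx hy]; exact hq _ (mul_mem hx hy) (out2 x hx y hy y2) x hx nx
    · rw [← m hx hw]; exact hq _ (mul_mem hx hw) (out2 x hx w hw w2) x hx nx
    · rw [← m hy hw]; exact hq _ (mul_mem hy hw) (out2 y hy w hw w3) x hx nx
    · rw [← m hy hw, ← m hx (mul_mem hy hw)]
      refine hq _ (mul_mem hx (mul_mem hy hw)) ?_ x hx nx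
      rw [← mul_assoc]
      exact out2 _ (mul_mem hx hy) w hw (by rwa [coset_mul (hCn hx) (hCn hy)])
  rw [← coset_mul (hCZ hx) (hCZ hx)] at hA
  obtain ⟨z, hz', e⟩ := coset_idr (hCZ (mul_mem hx hx)) hA
  refine ⟨x * z⁻¹, mul_mem hx.1 (inv_mem (hD hz'.1)), fun h => nx ?_, ?_⟩
  · exact (D.mul_mem_cancel_right (D.inv_mem hz'.1)).1 h
  · rw [mul_assoc, ← mul_assoc z⁻¹, ← hzC _ (inv_mem hz') x hx, ← mul_assoc, ← mul_assoc, e]
    group

end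

theorem stKO (hQ : StQ.{u}) (hB : StB.{u}) (hM : StMX.{u}) (hK : StWK.{u}) (hC : StWC.{u}) :
    StKO.{u} := by
  intro V _ _ _ L _ _ ρ S ih hs hb hp h3 hf
  by_cases hS0 : (S : Subgroup L) = ⊥
  · intro P Q _
    obtain ⟨g, rfl⟩ := MulAction.exists_smul_eq L S P
    refine eq_bot_iff.2 (inf_le_left.trans ?_)
    change g •ᶜ (S : Subgroup L) ≤ ⊥
    rw [hS0, conj_bot]
  obtain ⟨hL, ⟨D₀, hD₀, hn₀⟩, hex⟩ := hM V L ρ S hs hb hS0
  choose d hd od ha h3' using fun D (h : MaxI S D) => (hL D h).three hf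
  by_contra hTI
  have hc : ∀ D h, D ≤ 𝐂₁[d D h] := fun D h => by
    by_contra hn
    refine hTI (ko_one hQ hB hK hC ih hs hb hp h (hL D h) (hd D h) (od D h) (h3' D h) fun e => hn ?_)
    rw [← cent_cycle]; exact commG1P.1 e
  have hsyl : ∀ D h, Syl 2 D 𝐂₁[d D h] := fun D h => max_pgroup_Sylow (hc D h) h.pgroup
    fun X h1 h2 hX => (nilpotent_sub_norm hX.isNilpotent h1 fun s hs =>
      ha D h s hs.2 ((hL D h).sq' hs.2 (hX.to_le (zpowers_le.2 hs.1))) (by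
        rw [commutatorElement_eq_one_iff_mul_comm.2 (mem_cent1.1 (h2 hs.1)).symm]
        exact one_mem _)).symm
  have hS := syl_top S
  have hn : ∀ D, MaxI S D → (S : Subgroup L) ≤ 𝐍[D] := fun D h => by
    obtain ⟨g, -, e⟩ := conj_of_three hb.cyc (N := ⊤) (od D₀ hD₀) (od D h) (hsyl D₀ hD₀) (hsyl D h)
      (mem_top _) (mem_top _) le_top le_top
    obtain ⟨n, hn, hl⟩ := (hL D h).syl (g •ᶜ (S : Subgroup L)) (isPGroup_conj.2 S.isPGroup')
      (e ▸ conj_norms g hn₀)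
    have h1 := conj_le_iff_forall.2 hl
    rw [conj_conj] at h1
    rw [← conj_eq_of_mem_norm (mem_norm_of_conj_le h1), ← conj_conj]
    exact conj_le_of_mem hn (e ▸ conj_norms g hn₀)
  have hcj : ∀ D (h : MaxI S D) (E : Subgroup L), E ≤ D₀ → E ≤ D → (S : Subgroup L) ≤ 𝐍[E] →
      ∃ y ∈ 𝐍[E], y ∈ 𝐍[(S : Subgroup L)] ∧ D = y •ᶜ D₀ := fun D h E e₀ e hE => by
    obtain ⟨g, hg, e⟩ := conj_of_three hb.cyc (N := 𝐍[E]) (od D₀ hD₀) (od D h) (hsyl D₀ hD₀)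
      (hsyl D h) (cent_sub E (le_cent1.1 (e₀.trans (hc D₀ hD₀))))
      (cent_sub E (le_cent1.1 (e.trans (hc D h)))) (hD₀.le.trans hE) (h.le.trans hE)
    exact conj_in_norm hS hg e hn₀ (hn D h) hE
  have hty := (hL D₀ hD₀).type
  rw [inf_eq_left.2 hn₀] at hty
  rcases hty with hi | ⟨hi, h4, ht, -, hN, hC'⟩
  · refine trf hp hD₀ hi fun P hP => ?_
    obtain ⟨D, h, hl⟩ := hex P hP
    obtain ⟨y, hy, hyS, e⟩ := hcj D h (D₀ ⊓ D) inf_le_left inf_le_right (normsI hn₀ (hn D h))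
    rwa [idx_two_eq hS h3 hD₀.le h.le hi
      (by rw [← relIndex_conj y D₀, conj_eq_of_mem_norm hyS, ← e] at hi; exact hi) hn₀ (hn D h) hy hyS e]
  · have hu : ∀ P : Sylow 2 L, P ≠ S → (S : Subgroup L) ⊓ P ≤ D₀ := fun P hP => by
      obtain ⟨D, h, hl⟩ := hex P hP
      obtain ⟨y, -, hyS, e⟩ := hcj D h ⊥ bot_le bot_le (norms1 _)
      rwa [e, conj_eq_of_mem_norm (sup_le hn₀ le_rfl (hN hyS))] at hl
    have h0 : D₀ = ⊥ := by
      by_contra h0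
      have h5 : 𝐂[D₀] ⊔ D₀ = 𝐍[D₀] := by
        refine (hC' _ (cent_sub _) (cent_norm _)).resolve_left fun h => ?_
        obtain ⟨k, hk⟩ := IsPGroup.iff_orderOf.1 hD₀.pgroup ⟨_, h (le_cent1.1 (hc D₀ hD₀))⟩
        rw [Subgroup.orderOf_mk, od] at hk
        exact absurd (Nat.prime_three.dvd_of_dvd_pow (dvd_of_eq hk)) (by decide)
      obtain ⟨σ, hσ, hσD, hσ2⟩ := ko_inv hD₀.le hn₀ (by omega)
        (fun u hu => (hL D₀ hD₀).sq u ⟨hu, hn₀ hu⟩) h5 ht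
      have h6 : fx ρ ⟪σ⟫ ≤ fx ρ S := fun v hv => by
        by_cases v0 : v = 0
        · rw [v0]; exact zero_mem _
        obtain ⟨P, hP⟩ := star_vs hs v0
        have h7 : σ ∈ (P : Subgroup L) := hP ▸ mem_vs.2 (mem_fx_zpowers.1 hv)
        have h8 : P = S := by_contra fun h => hσD (hu P h ⟨hσ, h7⟩)
        intro a ha
        rw [← h8, ← hP] at ha
        exact ha
      have h7 : Nat.card V ≤ Nat.card (fx ρ D₀) := by
        rw [(hL D₀ hD₀).card]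
        refine (le_sq_fx (ρ := ρ) hσ2).trans (Nat.pow_le_pow_left ?_ 2)
        exact Nat.card_le_card_of_injective _ (Submodule.inclusion_injective h6)
      have h8 : fx ρ D₀ = ⊤ := eq_of_le_of_card le_top (by
        rwa [Nat.card_congr (Submodule.topEquiv (R := ZMod 2) (M := V)).toEquiv])
      refine h0 (eq_bot_iff.2 fun a ha => hb.inj ?_)
      rw [map_one]
      ext v
      exact (h8 ▸ Submodule.mem_top : v ∈ fx ρ D₀) a ha
    refine hTI fun P Q hPQ => ?_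
    obtain ⟨g, rfl⟩ := MulAction.exists_smul_eq L S P
    obtain ⟨R, rfl⟩ := MulAction.surjective g Q
    have h1 := hu R fun e => hPQ (by rw [e])
    rw [h0, le_bot_iff] at h1
    change g •ᶜ (S : Subgroup L) ⊓ g •ᶜ (R : Subgroup L) = ⊥
    rw [← conj_inf, h1, conj_bot]

end Cfsg.G41.P2
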