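import Cfsg.Agent.G41.P2Qa
import Cfsg.Agent.G41.P2Defs

/-! S4841, `p = 2`: lemmas Q' and B. -/

set_option autoImplicit false

namespace Cfsg.G41.QB

open Subgroup Cfsg.G41.P2
open scoped commutatorElement

universe u

variable {V : Type} [AddCommGroup V] [Module (ZMod 2) V] [Finite V] {L : Type u} [Group L]
  {ρ : L →* Module.End (ZMod 2) V} {A : Subgroup L} {d e t : L}

omit [Finite V] in
theorem mem_fx_zpowers {v : V} : v ∈ fx ρ (zpowers t) ↔ ρ t v = v :=
  ⟨fun h => h t (mem_zpowers t), fun h _ ha =>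
    (zpowers_le.2 (show t ∈ Qd.stab ρ v from h) ha : _)⟩

omit [Finite V] in
theorem sq_of (hB : Base ρ) {N : Module.End (ZMod 2) V} (h : ρ t = 1 + N) (NN : N * N = 0) :
    t * t = 1 := by
  apply hB.inj
  rw [map_mul, h, map_one]
  linear_combination (norm := noncomm_ring) NN + two_eq (V := V) * N

omit [Finite V] in
theorem card_ker (hB : Base ρ) {N : Module.End (ZMod 2) V} (h : ρ t = 1 + N) (NN : N * N = 0)
    (N0 : N ≠ 0) : Nat.card V = Nat.card (LinearMap.ker N) ^ 2 := by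
  have t1 : t ≠ 1 := by
    rintro rfl
    rw [map_one] at h
    exact N0 (by simpa using h)
  rw [← hB.inv t (orderOf_eq_prime (by rw [pow_two, sq_of hB h NN]) t1)]
  congr 3
  ext v
  rw [mem_fx_zpowers, h, LinearMap.mem_ker]
  simp

theorem fr (hB : Base ρ) : Fr ρ := by
  intro t N h NN N0 v hv
  have h1 := card_ker hB h NN N0
  have h2 := Qd.card_ker_range N
  have le : LinearMap.range N ≤ LinearMap.ker N := by
    rintro _ ⟨w, rfl⟩
    rw [LinearMap.mem_ker, ← Module.End.mul_apply, NN]; rfl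
  have e : LinearMap.range N = LinearMap.ker N := by
    refine Qd.eq_of_le_of_sq le ?_ h1.ge
    have p : 0 < Nat.card (LinearMap.ker N) := Nat.card_pos
    have : Nat.card (LinearMap.range N) = Nat.card (LinearMap.ker N) :=
      Nat.eq_of_mul_eq_mul_left p (by rw [← h2, h1, pow_two])
    rw [this, h1]
  have : v ∈ LinearMap.range N := e ▸ hv
  obtain ⟨w, hw⟩ := this
  exact ⟨w, hw.symm⟩

omit [Finite V] in
theorem inv_eq (hd : orderOf d = 3) : d⁻¹ = d * d := by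
  rw [inv_eq_iff_mul_eq_one, ← pow_orderOf_eq_one d, hd, pow_three]

omit [Finite V] in
theorem order_conj (hd : orderOf d = 3) (a : L) : orderOf (a * d * a⁻¹) = 3 := by
  rw [← hd]; exact (MulAut.conj a).orderOf_eq d

theorem sq_zero (hB : Base ρ) (hd : orderOf d = 3) (he : orderOf e = 3) {k : ℕ}
    (hk : (d⁻¹ * e) ^ 2 ^ k = 1) : (ρ d + ρ e) * (ρ d + ρ e) = 0 :=
  tau_zero (fr hB) (cube hB.free hd) (cube hB.free he) (inv_eq hd ▸ hk)

theorem anti (hB : Base ρ) (hd : orderOf d = 3) (he : orderOf e = 3)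
    (h : (ρ d + ρ e) * (ρ d + ρ e) = 0) :
    (ρ d + ρ e) * ρ d = ρ d * ρ d * (ρ d + ρ e) := by
  have h1 := s_mul two_eq (cube hB.free hd) (cube hB.free he) rfl
  rw [h] at h1
  linear_combination (norm := noncomm_ring) h1 - cube hB.free hd * (ρ d + ρ e) +
    two_eq (V := V) * (ρ d * (ρ d + ρ e) + (ρ d + ρ e))

/-- two antilinear square-zero elements whose twisted sums are square-zero multiply to zero -/
theorem mul_zero_of {R : Type*} [Ring R] {D s s' : R} (h2 : (2 : R) = 0) (hD : D * D + D + 1 = 0)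
    (a : s * D = D * D * s) (ss : s * s = 0) (a' : s' * D = D * D * s') (ss' : s' * s' = 0)
    (h1 : (s + s') * (s + s') = 0) (h3 : (s + D * s' * (D * D)) * (s + D * s' * (D * D)) = 0) :
    s * s' = 0 := by
  have c3 : D * D * D = 1 := by linear_combination (norm := noncomm_ring) (D - 1) * hD
  have b : s * (D * D) = D * s := by
    linear_combination (norm := noncomm_ring) a * D + D * D * a + c3 * D * s
  have b' : s' * (D * D) = D * s' := by
    linear_combination (norm := noncomm_ring) a' * D + D * D * a' + c3 * D * s'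
  have e : D * s' * (D * D) = D * D * s' := by rw [mul_assoc, b', ← mul_assoc]
  rw [e] at h3
  have c : s' * s = s * s' := by
    linear_combination (norm := noncomm_ring) h1 - ss - ss' - h2 * (s * s')
  have f1 : s * (D * D * s') = D * (s * s') := by rw [← mul_assoc, b, mul_assoc]
  have f2 : D * D * s' * s = D * D * (s * s') := by rw [mul_assoc, c]
  have f3 : D * D * s' * (D * D * s') = 0 := by
    rw [mul_assoc, ← mul_assoc s', b', mul_assoc D s', ss']; simp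
  linear_combination (norm := noncomm_ring) hD * (s * s') - h3 + ss + f1 + f2 + f3

/-- `d + a d a⁻¹` -/
def sa (ρ : L →* Module.End (ZMod 2) V) (d a : L) : Module.End (ZMod 2) V :=
  ρ d + ρ (a * d * a⁻¹)

omit [Finite V] in
theorem sa_conj (hd : orderOf d = 3) (a : L) :
    sa ρ d (d * a * d⁻¹) = ρ d * sa ρ d a * (ρ d * ρ d) := by
  rw [sa, sa, ← map_mul, ← inv_eq hd, mul_add, add_mul, ← map_mul, ← map_mul, ← map_mul,
    ← map_mul]
  congr 2 <;> group

omit [Finite V] in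
theorem add_sa (e : L) (a : L) : ρ d + ρ e + sa ρ d a = ρ (a * d * a⁻¹) + ρ e := by
  rw [sa]; linear_combination (norm := noncomm_ring) two_eq (V := V) * ρ d

section
variable (hB : Base ρ) (hd : orderOf d = 3) (hA : IsPGroup 2 A) (hn : d ∈ normalizer (A : Set L))
include hB hd hA hn

omit hB hd hA in
theorem cj {a : L} (ha : a ∈ A) : d * a * d⁻¹ ∈ A := (mem_normalizer_iff.1 hn a).1 ha

omit hB hd hA in
theorem cj' {a : L} (ha : a ∈ A) : d⁻¹ * a * d ∈ A := by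
  simpa using (mem_normalizer_iff.1 (inv_mem hn) a).1 ha

omit hB hd hn in
theorem pw2 {a : L} (ha : a ∈ A) : ∃ k, a ^ 2 ^ k = 1 := by
  obtain ⟨k, hk⟩ := hA ⟨a, ha⟩
  exact ⟨k, congrArg Subtype.val hk⟩

/-- `e` any element of order 3 in `d A`-like position -/
theorem kill (he : orderOf e = 3) (h : ∀ a ∈ A, ∃ k, (a * (d⁻¹ * e)) ^ 2 ^ k = 1) {a : L}
    (ha : a ∈ A) : (ρ d + ρ e) * sa ρ d a = 0 ∧ sa ρ d a * (ρ d + ρ e) = 0 := by
  have key : ∀ a ∈ A, (ρ d + ρ e + sa ρ d a) * (ρ d + ρ e + sa ρ d a) = 0 := by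
    intro a ha
    obtain ⟨k, hk⟩ := h (a * (d⁻¹ * a⁻¹ * d)) (mul_mem ha (cj' hn (inv_mem ha)))
    rw [add_sa]
    exact sq_zero hB (order_conj hd a) he (k := k) (by rw [← hk]; congr 1; group)
  have s0 : (ρ d + ρ e) * (ρ d + ρ e) = 0 := by
    obtain ⟨k, hk⟩ := h 1 (one_mem _)
    exact sq_zero hB hd he (k := k) (by simpa using hk)
  have s1 : sa ρ d a * sa ρ d a = 0 := by
    obtain ⟨k, hk⟩ := pw2 hA (mul_mem (cj' hn ha) (inv_mem ha))
    exact sq_zero hB hd (order_conj hd a) (k := k) (by rw [← hk]; congr 1; group)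
  have z : (ρ d + ρ e) * sa ρ d a = 0 := mul_zero_of two_eq (cube hB.free hd) (anti hB hd he s0) s0
    (anti hB hd (order_conj hd a) s1) s1 (key a ha)
    (by rw [← sa_conj (ρ := ρ) hd a]; exact key _ (cj hn ha))
  exact ⟨z, by linear_combination (norm := noncomm_ring) key a ha - s0 - s1 - z⟩

theorem sa_mul {a b : L} (ha : a ∈ A) (hb : b ∈ A) : sa ρ d a * sa ρ d b = 0 :=
  (kill hB hd hA hn (order_conj hd a) (fun c hc => by
    obtain ⟨k, hk⟩ := pw2 hA (mul_mem hc (mul_mem (cj' hn ha) (inv_mem ha)))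
    exact ⟨k, by rw [← hk]; congr 1; group⟩) hb).1

theorem sa_anti {a : L} (ha : a ∈ A) : sa ρ d a * ρ d = ρ d * ρ d * sa ρ d a :=
  anti hB hd (order_conj hd a) (sa_mul hB hd hA hn ha ha)
end

/-- the antilinear elations with axis `U` -/
def aT (hB : Base ρ) (U : Submodule (ZMod 2) V) (d : L) : Subgroup L where
  carrier := {h | (∀ u ∈ U, (ρ h - 1) u = 0) ∧ (∀ v, (ρ h - 1) v ∈ U) ∧
    ρ d * (ρ h - 1) = (ρ h - 1) * ρ d⁻¹}
  mul_mem' := fun {a b} ha hb => by
    have z : (ρ a - 1) * (ρ b - 1) = 0 := LinearMap.ext fun v => ha.1 _ (hb.2.1 v)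
    have e : ρ (a * b) - 1 = (ρ a - 1) + (ρ b - 1) := by
      rw [map_mul]; linear_combination (norm := noncomm_ring) z
    refine ⟨fun u hu => ?_, fun v => ?_, ?_⟩
    · rw [e, LinearMap.add_apply, ha.1 u hu, hb.1 u hu, add_zero]
    · rw [e]; exact U.add_mem (ha.2.1 v) (hb.2.1 v)
    · rw [e, mul_add, add_mul, ha.2.2, hb.2.2]
  one_mem' := by simp
  inv_mem' := fun {a} ha => by
    have z : (ρ a - 1) * (ρ a - 1) = 0 := LinearMap.ext fun v => ha.1 _ (ha.2.1 v)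
    rwa [inv_eq_of_mul_eq_one_right (sq_of hB (t := a) (by simp) z)]

omit [Finite V] in
theorem aT_sq {hB : Base ρ} {U : Submodule (ZMod 2) V} {a b : L} (ha : a ∈ aT hB U d)
    (hb : b ∈ aT hB U d) : (ρ a - 1) * (ρ b - 1) = 0 := LinearMap.ext fun v => ha.1 _ (hb.2.1 v)

omit [Finite V] in
theorem three_cases (hd : orderOf d = 3) {x : L} (hx : x ∈ zpowers d) :
    x = 1 ∨ x = d ∨ x = d * d := by
  have : Fact (Nat.Prime 3) := ⟨Nat.prime_three⟩
  obtain ⟨k, rfl⟩ := hx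
  have h : d ^ k = d ^ (k % 3) := by rw [← zpow_mod_orderOf, hd]; rfl
  have : k % 3 = 0 ∨ k % 3 = 1 ∨ k % 3 = 2 := by omega
  change d ^ k = 1 ∨ d ^ k = d ∨ d ^ k = d * d
  rcases this with e | e | e <;> rw [h, e]
  · simp
  · simp
  · exact Or.inr (Or.inr (zpow_two d))

omit [Finite V] in
theorem rho_comm (hB : Base ρ) (hd : orderOf d = 3) (a : L) :
    ρ ⁅a, d⁆ - 1 = sa ρ d a * (ρ d * ρ d) ∧ ρ ⁅a, d * d⁆ - 1 = sa ρ d a * ρ d := by
  have h2 := two_eq (V := V)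
  have hD := cube hB.free hd
  have hE := cube hB.free (order_conj hd a)
  constructor
  · rw [commutatorElement_def, map_mul, inv_eq hd, map_mul ρ d d, sa]
    linear_combination (norm := noncomm_ring) -((ρ d - 1) * hD) - h2 * 1
  · rw [show ⁅a, d * d⁆ = a * d * a⁻¹ * (a * d * a⁻¹) * d by
      rw [commutatorElement_def, ← inv_eq hd, inv_inv, inv_eq hd]; group,
      map_mul, map_mul ρ (a * d * a⁻¹), sa]
    linear_combination (norm := noncomm_ring) hE * ρ d - hD - h2 * (ρ (a * d * a⁻¹) * ρ d)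

theorem exists_aT (hB : Base ρ) (hd : orderOf d = 3) (hA : IsPGroup 2 A)
    (hn : d ∈ normalizer (A : Set L)) (h0 : ⁅A, zpowers d⁆ ≠ ⊥) :
    ∃ a ∈ A, sa ρ d a ≠ 0 ∧ Nat.card V = Nat.card (LinearMap.ker (sa ρ d a)) ^ 2 ∧
      ⁅A, zpowers d⁆ ≤ aT hB (LinearMap.ker (sa ρ d a)) d := by
  have ex : ∃ a ∈ A, sa ρ d a ≠ 0 := by
    by_contra! h
    refine h0 (eq_bot_iff.2 (commutator_le.2 fun a ha x hx => mem_bot.2 (hB.inj ?_)))
    rw [map_one, ← sub_eq_zero]
    rcases three_cases hd hx with rfl | rfl | rfl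
    · simp
    · rw [(rho_comm hB hd a).1, h a ha, zero_mul]
    · rw [(rho_comm hB hd a).2, h a ha, zero_mul]
  obtain ⟨a, ha, a0⟩ := ex
  have hD := cube hB.free hd
  have c3 : ρ d * ρ d * ρ d = 1 := by linear_combination (norm := noncomm_ring) (ρ d - 1) * hD
  have b : ∀ c ∈ A, sa ρ d c * (ρ d * ρ d) = ρ d * sa ρ d c := fun c hc => by
    have a := sa_anti hB hd hA hn hc
    linear_combination (norm := noncomm_ring) a * ρ d + ρ d * ρ d * a + c3 * ρ d * sa ρ d c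
  have aa := sa_mul hB hd hA hn ha ha
  have t1 : ρ ⁅a, d⁆ = 1 + ρ d * sa ρ d a := by rw [← b a ha, ← (rho_comm hB hd a).1]; simp
  have NN : ρ d * sa ρ d a * (ρ d * sa ρ d a) = 0 := by
    rw [mul_assoc, ← mul_assoc (sa ρ d a), sa_anti hB hd hA hn ha, mul_assoc, aa]; simp
  have u : IsUnit (ρ d) := (Group.isUnit d).map ρ
  have N0 : ρ d * sa ρ d a ≠ 0 := fun h => a0 (u.mul_right_eq_zero.1 h)
  have kk : LinearMap.ker (ρ d * sa ρ d a) = LinearMap.ker (sa ρ d a) := by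
    ext v
    simp only [LinearMap.mem_ker, Module.End.mul_apply]
    exact ⟨fun h => by_contra fun h' => rho_ne ρ d h' h, fun h => by rw [h, map_zero]⟩
  have kill : ∀ c ∈ A, ∀ v ∈ LinearMap.ker (sa ρ d a), sa ρ d c v = 0 := fun c hc v hv => by
    obtain ⟨w, rfl⟩ := fr hB _ _ t1 NN N0 v (kk.ge hv)
    rw [← b a ha, Module.End.mul_apply, ← Module.End.mul_apply, sa_mul hB hd hA hn hc ha]; rfl
  have rng : ∀ c ∈ A, ∀ v, sa ρ d c v ∈ LinearMap.ker (sa ρ d a) := fun c hc v => by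
    rw [LinearMap.mem_ker, ← Module.End.mul_apply, sa_mul hB hd hA hn ha hc]; rfl
  refine ⟨a, ha, a0, kk ▸ card_ker hB t1 NN N0, commutator_le.2 fun c hc x hx => ?_⟩
  have an := sa_anti hB hd hA hn hc
  rcases three_cases hd hx with rfl | rfl | rfl
  · simpa using one_mem _
  · refine ⟨fun v hv => ?_, fun v => ?_, ?_⟩ <;> rw [(rho_comm hB hd c).1]
    · rw [b c hc, Module.End.mul_apply, kill c hc v hv, map_zero]
    · exact rng c hc _
    · rw [inv_eq hd, map_mul]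
      linear_combination (norm := noncomm_ring) -(b c hc * (ρ x * ρ x))
  · refine ⟨fun v hv => ?_, fun v => ?_, ?_⟩ <;> rw [(rho_comm hB hd c).2]
    · rw [an, Module.End.mul_apply, kill c hc v hv, map_zero]
    · exact rng c hc _
    · rw [inv_eq hd, map_mul]
      linear_combination (norm := noncomm_ring) -(b c hc * ρ d)

omit [Finite V] in
theorem aT_pw {hB : Base ρ} {U : Submodule (ZMod 2) V} : aT hB U d ≤ pw ρ U :=
  fun _ hh u hu => sub_eq_zero.1 (hh.1 u hu)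

/-- the axis is determined by one non-trivial element -/
theorem axis_eq {hB : Base ρ} {U U' : Submodule (ZMod 2) V} {h : L} (hh : h ∈ aT hB U d)
    (h1 : h ≠ 1) (hU : Nat.card V = Nat.card U ^ 2) (hU' : Nat.card V = Nat.card U' ^ 2)
    (hp : h ∈ pw ρ U') : U = U' := by
  have N0 : ρ h - 1 ≠ 0 := fun e => h1 (hB.inj (by rw [map_one, ← sub_eq_zero, e]))
  have c := card_ker hB (t := h) (by simp) (aT_sq hh hh) N0
  rw [Qd.eq_of_le_of_sq (fun u hu => hh.1 u hu) hU c.ge,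
    Qd.eq_of_le_of_sq (W := U') (fun u hu => sub_eq_zero.2 (hp u hu)) hU' c.ge]

theorem stQ : StQ.{u} := by
  intro V _ _ _ L _ _ ρ A d hB hd hA hn h0
  obtain ⟨a, -, -, hc, hle⟩ := exists_aT hB hd hA hn h0
  exact ⟨_, hc, hle.trans aT_pw, fun h hh => (hle hh).2.2⟩

/-- lemma B if `d⁻¹ e` is a 2-element -/
theorem same_axis (hB : Base ρ) (hd : orderOf d = 3) (he : orderOf e = 3) (hA : IsPGroup 2 A)
    (hn : d ∈ normalizer (A : Set L)) (hn' : e ∈ normalizer (A : Set L))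
    (h0 : ⁅A, zpowers d⁆ ≠ ⊥) {k : ℕ} (hk : (d⁻¹ * e) ^ 2 ^ k = 1) :
    ∃ h ∈ ⁅A, zpowers d⁆, h ≠ 1 ∧ h ∈ ⁅A, zpowers e⁆ := by
  obtain ⟨a, ha, a0, -, -⟩ := exists_aT hB hd hA hn h0
  have h2 := two_eq (V := V)
  have hD := cube hB.free hd
  have s0 := sq_zero hB hd he hk
  have an := anti hB hd he s0
  have c3 : ρ d * ρ d * ρ d = 1 := by linear_combination (norm := noncomm_ring) (ρ d - 1) * hD
  have xn : d⁻¹ * e ∈ normalizer (A : Set L) := mul_mem (inv_mem hn) hn'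
  have rx : ρ (d⁻¹ * e) = 1 + ρ d * ρ d * (ρ d + ρ e) := by
    rw [map_mul, inv_eq hd, map_mul]
    linear_combination (norm := noncomm_ring) -c3 - h2 * 1
  have xx : (d⁻¹ * e) * (d⁻¹ * e) = 1 := sq_of hB rx (by
    linear_combination (norm := noncomm_ring) ρ d * ρ d * an * ρ d * (ρ d + ρ e) +
      ρ d * ρ d * (ρ d * ρ d) * an * (ρ d + ρ e) + ρ d * ρ d * (ρ d * ρ d) * (ρ d * ρ d) * s0)
  obtain ⟨z', z⟩ := kill hB hd hA hn he (fun c hc => by
    obtain ⟨k, hk⟩ := pw2 hA (mul_mem hc ((mem_normalizer_iff.1 xn c).1 hc))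
    refine ⟨k + 1, ?_⟩
    rw [pow_succ', pow_mul, ← hk, inv_eq_of_mul_eq_one_right xx, pow_two]
    congr 1; group) ha
  have b : sa ρ d a * (ρ d * ρ d) = ρ d * sa ρ d a := by
    have a := sa_anti hB hd hA hn ha
    linear_combination (norm := noncomm_ring) a * ρ d + ρ d * ρ d * a + c3 * ρ d * sa ρ d _
  have rq : ρ (d * e * d) = 1 + (ρ d + ρ e) := by
    rw [map_mul, map_mul]
    linear_combination (norm := noncomm_ring) ρ d * an + c3 * (ρ d + ρ e) - c3 - h2 * 1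
  have rh : ρ ⁅a, d⁆ = 1 + sa ρ d a * (ρ d * ρ d) := by rw [← (rho_comm hB hd a).1]; simp
  have e1 : d * e * d * ⁅a, d⁆ = ⁅a, d⁆ * (d * e * d) := hB.inj (by
    rw [map_mul, map_mul ρ ⁅a, d⁆, rq, rh]
    linear_combination (norm := noncomm_ring) z' * (ρ d * ρ d) - b * (ρ d + ρ e) - ρ d * z)
  have e2 : d * e * d * d = e * (d * e * d) := hB.inj (by
    rw [map_mul, map_mul ρ e, rq]
    linear_combination (norm := noncomm_ring) an + hD * (ρ d + ρ e) - s0 - h2 * ρ e)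
  have qn : d * e * d ∈ normalizer (A : Set L) := mul_mem (mul_mem hn hn') hn
  refine ⟨⁅a, d⁆, commutator_mem_commutator ha (mem_zpowers d), fun h => a0 ?_, ?_⟩
  · rw [h, map_one, b, left_eq_add] at rh
    exact ((Group.isUnit d).map ρ).mul_right_eq_zero.1 rh
  · have : ⁅a, d⁆ = ⁅d * e * d * a * (d * e * d)⁻¹, e⁆ := by
      generalize d * e * d = q at e1 e2
      rw [← mul_inv_eq_iff_eq_mul] at e1 e2
      rw [← e2, ← conjugate_commutatorElement, e1]
    rw [this]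
    exact commutator_mem_commutator ((mem_normalizer_iff.1 qn a).1 ha) (mem_zpowers e)

theorem stB : StB.{u} := by
  intro V _ _ _ L _ _ ρ A d e U U' hB hd he hA hn hn' h0 h0' hU hU' hp hp'
  obtain ⟨a, -, -, hc, hle⟩ := exists_aT hB hd hA hn h0
  obtain ⟨a', -, -, hc', hle'⟩ := exists_aT hB he hA hn' h0'
  obtain ⟨⟨h, hh⟩, h1⟩ := ne_bot_iff_exists_ne_one.1 h0
  obtain ⟨⟨g, hg⟩, g1⟩ := ne_bot_iff_exists_ne_one.1 h0'
  replace h1 : h ≠ 1 := fun e => h1 (Subtype.ext e)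
  replace g1 : g ≠ 1 := fun e => g1 (Subtype.ext e)
  obtain rfl := axis_eq (hle hh) h1 hc hU (hp hh)
  obtain rfl := axis_eq (hle' hg) g1 hc' hU' (hp' hg)
  generalize LinearMap.ker (sa ρ d a) = U at *
  generalize LinearMap.ker (sa ρ e a') = U' at *
  by_contra hne
  have dis : ∀ x ∈ ⁅A, zpowers d⁆, x ∈ ⁅A, zpowers e⁆ → x = 1 := fun x hx hx' => by
    by_contra x1; exact hne (axis_eq (hle hx) x1 hU hU' (hp' hx'))
  have sub : ∀ {x : L}, x ∈ normalizer (A : Set L) → ⁅A, zpowers x⁆ ≤ A := fun {x} hx =>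
    commutator_le.2 fun c hc y hy => by
      have := (mem_normalizer_iff.1 (zpowers_le.2 hx hy) c⁻¹).1 (inv_mem hc)
      rw [commutatorElement_def, mul_assoc, mul_assoc, ← mul_assoc y]
      exact mul_mem hc this
  have nrm : ∀ x : L, A ≤ normalizer ((⁅A, zpowers x⁆ : Subgroup L) : Set L) := fun x =>
    normalizer_commutator_ge_left A (zpowers x)
  have nrm' : ∀ x : L, x ∈ normalizer ((⁅A, zpowers x⁆ : Subgroup L) : Set L) := fun x =>
    normalizer_commutator_ge_right A (zpowers x) (mem_zpowers x)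
  have com : ∀ x ∈ ⁅A, zpowers d⁆, ∀ y ∈ ⁅A, zpowers e⁆, x * y = y * x := fun x hx y hy => by
    rw [← commutatorElement_eq_one_iff_mul_comm]
    refine dis _ ?_ ?_
    · have := (mem_normalizer_iff.1 (nrm d (sub hn' hy)) x⁻¹).1 (inv_mem hx)
      rw [commutatorElement_def, mul_assoc, mul_assoc, ← mul_assoc y]
      exact mul_mem hx this
    · exact mul_mem ((mem_normalizer_iff.1 (nrm e (sub hn hx)) y).1 hy) (inv_mem hy)
  have cπ : ∀ x ∈ ⁅A, zpowers d⁆, ∀ y ∈ ⁅A, zpowers e⁆,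
      (ρ x - 1) * (ρ y - 1) = (ρ y - 1) * (ρ x - 1) := fun x hx y hy => by
    have := congrArg ρ (com x hx y hy)
    rw [map_mul, map_mul] at this
    linear_combination (norm := noncomm_ring) this
  -- antilinearity of the products
  have al : ∀ {d : L} {U : Submodule (ZMod 2) V}, ⁅A, zpowers d⁆ ≤ aT hB U d →
      ∀ x ∈ ⁅A, zpowers d⁆, ∀ y ∈ A,
      ρ d * ((ρ x - 1) * (ρ y - 1)) = (ρ x - 1) * (ρ y - 1) * ρ d⁻¹ := fun {d U} hle x hx y hy => by
    have m : ⁅y, d⁻¹⁆⁻¹ ∈ ⁅A, zpowers d⁆ :=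
      inv_mem (commutator_mem_commutator hy (inv_mem (mem_zpowers d)))
    have z := aT_sq (hle hx) (hle m)
    have e : ρ ⁅y, d⁻¹⁆⁻¹ * (ρ y * ρ d⁻¹) = ρ d⁻¹ * ρ y := by
      rw [← map_mul, ← map_mul, ← map_mul, commutatorElement_def]; congr 1; group
    linear_combination (norm := noncomm_ring) (hle hx).2.2 * (ρ y - 1) + z * (ρ y * ρ d⁻¹) -
      (ρ x - 1) * e
  have k1 := al hle h hh g (sub hn' hg)
  have k2 := al hle' g hg h (sub hn hh)
  have hh2 : d⁻¹ * h * d ∈ ⁅A, zpowers d⁆ := by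
    simpa using (mem_normalizer_iff.1 (inv_mem (nrm' d)) h).1 hh
  have k3 := al hle' g hg _ (sub hn hh2)
  have hD := cube hB.free hd
  have hE := cube hB.free he
  have h2 := two_eq (V := V)
  have c3 : ρ d * ρ d * ρ d = 1 := by linear_combination (norm := noncomm_ring) (ρ d - 1) * hD
  have r2 : ρ (d⁻¹ * h * d) - 1 = ρ d * (ρ h - 1) := by
    have an := (hle hh).2.2
    rw [inv_eq hd, map_mul] at an
    rw [map_mul, map_mul, inv_eq hd, map_mul]
    linear_combination (norm := noncomm_ring) c3 - ρ d * ρ d * (ρ h - 1) * c3 * ρ d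
      - ρ d * ρ d * an * (ρ d * ρ d) - ρ d * ρ d * ρ d * an + c3 * ρ d * (ρ h - 1)
  rw [← cπ _ hh _ hg] at k2
  rw [← cπ _ hh2 _ hg, r2, mul_assoc] at k3
  have κ0 : (ρ h - 1) * (ρ g - 1) ≠ 0 := fun z => by
    have N0 : ρ g - 1 ≠ 0 := fun e => g1 (hB.inj (by rw [map_one, ← sub_eq_zero, e]))
    refine hne (axis_eq (hle hh) h1 hU hU' fun u hu => ?_)
    obtain ⟨w, rfl⟩ := fr hB g _ (by simp) (aT_sq (hle' hg) (hle' hg)) N0 u ((hle' hg).1 u hu)
    exact sub_eq_zero.1 (LinearMap.congr_fun z w)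
  set κ := (ρ h - 1) * (ρ g - 1)
  have k4 : (ρ d + ρ e) * ((ρ d * ρ d + ρ e) * κ) = 0 := by
    linear_combination (norm := noncomm_ring) c3 * κ + ρ d * k2 + k1 * ρ e⁻¹ - k3 - k1 * ρ e⁻¹
      + ρ e * hD * κ + hE * κ + h2 * (κ * ρ d⁻¹ * ρ e⁻¹) - h2 * (ρ e * κ) + k1 * ρ e⁻¹
      - h2 * (ρ e * ρ d * κ) + k3 + k3 + k1 * ρ e⁻¹
  obtain ⟨v, hv⟩ : ∃ v, κ v ≠ 0 := by
    by_contra! h; exact κ0 (LinearMap.ext h)
  have fin : ∀ {d' : L}, orderOf d' = 3 → zpowers d' = zpowers d → ∀ y, y ≠ 0 →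
      (ρ d' + ρ e) y = 0 → False := fun {d'} hd' hz y y0 hy => by
    obtain ⟨k, hk⟩ := hB.free (d'⁻¹ * e) y y0 (by
      have : ρ e y = ρ d' y := by
        have := LinearMap.congr_fun (one_add_one_eq_two.trans h2) (ρ d' y)
        rw [LinearMap.add_apply, add_eq_zero_iff_neg_eq] at hy
        rw [← hy, neg_eq_iff_add_eq_zero]; exact this
      rw [rho_mul, this, rho_inv_self])
    obtain ⟨x, hx, x1, hx'⟩ := same_axis hB hd' he hA
      (zpowers_le.2 hn (hz ▸ mem_zpowers d')) hn' (hz ▸ h0) (hk ▸ pow_orderOf_eq_one _)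
    exact x1 (dis x (hz ▸ hx) hx')
  by_cases hy : ((ρ d * ρ d + ρ e) * κ) v = 0
  · refine fin (d' := d⁻¹) (by rw [orderOf_inv, hd]) zpowers_inv _ hv ?_
    rw [inv_eq hd, map_mul]; exact hy
  · exact fin hd rfl _ hy (LinearMap.congr_fun k4 v)

end Cfsg.G41.QB
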