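import Cfsg.Agent.G41.Quad

/-! Two elements of order three in characteristic two: `(d + e)² = 0` if they generate a
`{2}`-by-`3` group. -/

set_option autoImplicit false

namespace Cfsg.G41.QB

universe u v

section ring
variable {A : Type*} [Ring A] {D E s : A}

theorem s_mul (h2 : (2 : A) = 0) (hD : D * D + D + 1 = 0) (hE : E * E + E + 1 = 0)
    (hs : s = D + E) : s * D = D * s + s + s * s := by
  subst hs
  linear_combination (norm := noncomm_ring) hD - hE - h2 * (D * D + D * E + D)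

theorem tau_comm (h2 : (2 : A) = 0) (h : s * D = D * s + s + s * s) :
    s * s * D = D * (s * s) := by
  linear_combination (norm := noncomm_ring) s * h + h * s + h2 * (s * s + s * s * s)
    - h2 * (s * D * s) + h2 * (D * s * s) + h2 * (s * s + s * s * s) - h2 * (D * s * s)
    + h2 * (s * D * s) - h2 * (s * s + s * s * s)

/-- powers of an element with `G² = 1 + τ G` -/
theorem pow_two_pow (h2 : (2 : A) = 0) {G τ : A} (hc : Commute τ G) (hG : G * G = 1 + τ * G)
    (k : ℕ) : G ^ 2 ^ (k + 1) = 1 + τ ^ 2 ^ k * G ^ 2 ^ k := by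
  induction k with
  | zero => simpa [pow_two] using hG
  | succ k ih =>
    have c : G ^ 2 ^ k * τ ^ 2 ^ k = τ ^ 2 ^ k * G ^ 2 ^ k := ((hc.pow_pow _ _).symm).eq
    have e1 : G ^ 2 ^ (k + 1 + 1) = G ^ 2 ^ (k + 1) * G ^ 2 ^ (k + 1) := by
      rw [← pow_add]; congr 1; ring
    have e2 : G ^ 2 ^ (k + 1) = G ^ 2 ^ k * G ^ 2 ^ k := by rw [← pow_add]; congr 1; ring
    have e3 : τ ^ 2 ^ (k + 1) = τ ^ 2 ^ k * τ ^ 2 ^ k := by rw [← pow_add]; congr 1; ring
    rw [e1]
    conv_lhs => rw [ih]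
    rw [e2, e3]
    generalize τ ^ 2 ^ k = x at *
    generalize G ^ 2 ^ k = y at *
    linear_combination (norm := noncomm_ring) h2 * (x * y) + x * c * y

theorem pow_add_pow (h2 : (2 : A) = 0) {G G' τ : A} (hc : Commute τ G) (hG : G * G = 1 + τ * G)
    (hc' : Commute τ G') (hG' : G' * G' = 1 + τ * G') (k : ℕ) :
    ∃ n, n + 1 = 2 ^ k ∧ G ^ 2 ^ k + G' ^ 2 ^ k = τ ^ n * (G + G') := by
  induction k with
  | zero => exact ⟨0, rfl, by simp⟩
  | succ k ih =>
    obtain ⟨n, hn, e⟩ := ih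
    refine ⟨2 ^ k + n, by rw [pow_succ]; omega, ?_⟩
    rw [pow_two_pow h2 hc hG, pow_two_pow h2 hc' hG', pow_add, mul_assoc, ← e]
    linear_combination (norm := noncomm_ring) h2 * 1
end ring

section lin
variable {K : Type*} [Field K] {V : Type v} [AddCommGroup V] [Module K V]

theorem nil_range {s : Module.End K V} {n a b : ℕ} (hn : s ^ n = 0) (hab : a < b)
    (h : ∀ v, ∃ w, (s ^ a) v = (s ^ b) w) : s ^ a = 0 := by
  obtain ⟨c, rfl⟩ := Nat.exists_eq_add_of_lt hab
  have key : ∀ k v, ∃ w, (s ^ a) v = (s ^ (a + k)) w := by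
    intro k
    induction k with
    | zero => exact fun v => ⟨v, rfl⟩
    | succ k ih =>
      intro v
      obtain ⟨w, hw⟩ := ih v
      obtain ⟨w', hw'⟩ := h w
      refine ⟨(s ^ c) w', ?_⟩
      rw [hw, add_comm a k, pow_add, Module.End.mul_apply, hw', ← Module.End.mul_apply,
        ← Module.End.mul_apply, ← pow_add, ← pow_add]
      congr 2; omega
  ext v
  obtain ⟨w, hw⟩ := key n v
  rw [hw, pow_add, hn]; simp
end lin

variable {V : Type v} [AddCommGroup V] [Module (ZMod 2) V] {H : Type u} [Group H]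
  {ρ : H →* Module.End (ZMod 2) V}

theorem two_eq : (2 : Module.End (ZMod 2) V) = 0 := by
  rw [← map_ofNat (algebraMap (ZMod 2) (Module.End (ZMod 2) V)) 2,
    show (OfNat.ofNat 2 : ZMod 2) = 0 from rfl, map_zero]

/-- involutions act freely -/
def Fr (ρ : H →* Module.End (ZMod 2) V) : Prop :=
  ∀ (t : H) (N : Module.End (ZMod 2) V), ρ t = 1 + N → N * N = 0 → N ≠ 0 →
    ∀ v, N v = 0 → ∃ w, v = N w

theorem cube (hf : PFree ρ) {d : H} (hd : orderOf d = 3) : ρ d * ρ d + ρ d + 1 = 0 := by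
  have := hf.sum_zero (c := d) (by rw [hd]; norm_num) (by rintro rfl; simp at hd)
    (m := 3) (hd ▸ pow_orderOf_eq_one d)
  simp only [Finset.sum_range_succ, Finset.range_zero, Finset.sum_empty, pow_zero, map_one,
    pow_one, zero_add, pow_two, map_mul] at this
  rw [← this]; abel

theorem tau_zero (hF : Fr ρ) {d e : H} (hD : ρ d * ρ d + ρ d + 1 = 0)
    (hE : ρ e * ρ e + ρ e + 1 = 0) {k : ℕ} (hk : (d * d * e) ^ 2 ^ k = 1) :
    (ρ d + ρ e) * (ρ d + ρ e) = 0 := by
  have h2 := two_eq (V := V)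
  set D := ρ d
  set E := ρ e
  set s := D + E with hs
  have h1 := s_mul h2 hD hE hs
  have h3 := tau_comm h2 h1
  have hE' : E = D + s := by rw [hs]; linear_combination (norm := noncomm_ring) -(h2 * D)
  have g0 : ρ (d * d * e) = 1 + D * D * s := by
    rw [map_mul, map_mul]
    change D * D * E = _
    rw [hE']
    linear_combination (norm := noncomm_ring) (D - 1) * hD
  have g1 : ρ (e * d * d) = 1 + D * s + s * s := by
    rw [map_mul, map_mul]
    change E * D * D = _
    rw [hE']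
    linear_combination (norm := noncomm_ring) (D - 1) * hD + s * hD - h1 - h2 * (D * s + s * s + s)
  set G := 1 + D * D * s with hG
  set G' := 1 + D * s + s * s with hG'
  have cs : Commute s (s * s) := (Commute.refl s).mul_right (Commute.refl s)
  have cD : Commute (s * s) D := h3
  have c0 : Commute (s * s) G := ((Commute.one_right _).add_right ((cD.mul_right cD).mul_right cs.symm))
  have c1 : Commute (s * s) G' :=
    ((Commute.one_right _).add_right (cD.mul_right cs.symm)).add_right (Commute.refl _)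
  have hsD : s * (D * D) = D * s + s * s := by
    linear_combination (norm := noncomm_ring) s * hD - h1 - h2 * (D * s + s * s + s)
  have q0 : G * G = 1 + s * s * G := by
    rw [hG]
    have e1 : D * D * s * (D * D * s) = D * D * (D * s + s * s) * s := by
      rw [← hsD]; noncomm_ring
    have e2 : s * s * (D * D * s) = D * D * (s * s) * s := by
      rw [← mul_assoc, (cD.mul_right cD).eq]
    linear_combination (norm := noncomm_ring) e1 - e2 + h2 * (D * D * s) +
      (D - 1) * hD * (s * s)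
  have q1 : G' * G' = 1 + s * s * G' := by
    rw [hG']
    have e1 : D * s * (D * s) = D * (D * s + s + s * s) * s := by
      rw [← h1]; noncomm_ring
    linear_combination (norm := noncomm_ring) e1 + hD * (s * s) + h2 * (D * s) +
      h2 * (D * s * s * s)
  have sum : G + G' = s + s * s := by
    rw [hG, hG']
    linear_combination (norm := noncomm_ring) h2 * 1 + hD * s - h2 * s
  -- nilpotency of `s`
  have hGu : IsUnit G := g0 ▸ (Group.isUnit (d * d * e)).map ρ
  have hnil : ∃ j, (s * s) ^ 2 ^ j = 0 := by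
    refine ⟨k, ?_⟩
    have e := pow_two_pow h2 c0 q0 k
    have e' : G ^ 2 ^ (k + 1) = 1 := by
      rw [← g0, ← map_pow, pow_succ, pow_mul, hk]; simp
    rw [e'] at e
    exact (hGu.pow _).mul_left_eq_zero.1 (by linear_combination (norm := noncomm_ring) -e)
  by_contra hne
  classical
  have hj := Nat.find_spec hnil
  have hj0 : Nat.find hnil ≠ 0 := fun h0 => by rw [h0] at hj; exact hne (by simpa using hj)
  obtain ⟨i, hi⟩ := Nat.exists_eq_succ_of_ne_zero hj0
  have hlt : (s * s) ^ 2 ^ i ≠ 0 := Nat.find_min hnil (by omega)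
  rw [hi] at hj
  set r := (s * s) ^ 2 ^ i with hr
  have rr : r * r = 0 := by rw [hr, ← pow_add, ← hj]; congr 1; rw [Nat.succ_eq_add_one]; ring
  have rs : r = s ^ (2 * 2 ^ i) := by rw [hr, ← pow_two, ← pow_mul]
  have s0 : s ^ (4 * 2 ^ i) = 0 := by
    rw [← rr, rs, ← pow_add]; congr 1; ring
  have cr : Commute r (G ^ 2 ^ i) := (c0.pow_pow _ _)
  have cr' : Commute r (G' ^ 2 ^ i) := (c1.pow_pow _ _)
  have t0 : ρ ((d * d * e) ^ 2 ^ (i + 1)) = 1 + r * G ^ 2 ^ i := by
    rw [map_pow, g0]; exact pow_two_pow h2 c0 q0 i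
  have t1 : ρ ((e * d * d) ^ 2 ^ (i + 1)) = 1 + r * G' ^ 2 ^ i := by
    rw [map_pow, g1]; exact pow_two_pow h2 c1 q1 i
  obtain ⟨n, hn, en⟩ := pow_add_pow h2 c0 q0 c1 q1 i
  have pos : 0 < 2 ^ i := by positivity
  have t2 : ρ ((d * d * e) ^ 2 ^ (i + 1) * (e * d * d) ^ 2 ^ (i + 1)) =
      1 + s ^ (4 * 2 ^ i - 1) := by
    rw [map_mul, t0, t1]
    have e1 : r * G ^ 2 ^ i * (r * G' ^ 2 ^ i) = 0 := by
      rw [cr.eq, mul_assoc, ← mul_assoc r, rr]; simp
    have e2 : r * ((s * s) ^ n * (s + s * s)) = s ^ (4 * 2 ^ i - 1) := by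
      rw [rs, ← pow_two, ← pow_mul, mul_add, mul_add, ← pow_succ, ← pow_add, ← pow_add,
        ← pow_add, show 2 * 2 ^ i + (2 * n + 2) = 4 * 2 ^ i by omega, s0, add_zero]
      congr 1; omega
    rw [← e2, ← sum, ← en]
    linear_combination (norm := noncomm_ring) e1
  by_cases hN : s ^ (4 * 2 ^ i - 1) = 0
  · have N0 : r * G ^ 2 ^ i ≠ 0 := fun h => hlt ((hGu.pow _).mul_left_eq_zero.1 h)
    have NN : r * G ^ 2 ^ i * (r * G ^ 2 ^ i) = 0 := by
      nth_rewrite 1 [cr.eq]
      rw [mul_assoc, ← mul_assoc r, rr]; simp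
    have := nil_range (a := 2 * 2 ^ i - 1) (b := 2 * 2 ^ i) s0 (by omega) fun v => by
      obtain ⟨w, hw⟩ := hF _ _ t0 NN N0 ((s ^ (2 * 2 ^ i - 1)) v) (by
        rw [cr.eq, Module.End.mul_apply, rs, ← Module.End.mul_apply (s ^ _), ← pow_add,
          show 2 * 2 ^ i + (2 * 2 ^ i - 1) = 4 * 2 ^ i - 1 by omega, hN]; simp)
      exact ⟨(G ^ 2 ^ i) w, by rw [hw, rs]; rfl⟩
    apply hlt
    rw [rs, show 2 * 2 ^ i = 2 * 2 ^ i - 1 + 1 by omega, pow_succ, this, zero_mul]
  · have NN : s ^ (4 * 2 ^ i - 1) * s ^ (4 * 2 ^ i - 1) = 0 := by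
      rw [← pow_add, show 4 * 2 ^ i - 1 + (4 * 2 ^ i - 1) = 4 * 2 ^ i + (4 * 2 ^ i - 2) by omega,
        pow_add, s0, zero_mul]
    have := nil_range (a := 1) (b := 4 * 2 ^ i - 1) s0 (by omega) fun v =>
      hF _ _ t2 NN hN ((s ^ 1) v) (by
        rw [← Module.End.mul_apply, ← pow_add, show 4 * 2 ^ i - 1 + 1 = 4 * 2 ^ i by omega, s0]
        simp)
    apply hne
    rw [pow_one] at this
    rw [this, zero_mul]

end Cfsg.G41.QB
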