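import Cfsg.Agent.G41.P2Basic

/-! S4841, `p = 2`: the spread lemma. -/

set_option autoImplicit false
set_option linter.style.haveILetI false
set_option linter.unusedSectionVars false

namespace Cfsg.G41.P2

open Subgroup
open scoped commutatorElement Pointwise

universe u

theorem odd_dvd_two_pow {a n : ℕ} (h : a ∣ 2 ^ n) (ha : Odd a) : a = 1 :=
  Nat.dvd_one.1 (Nat.Coprime.dvd_of_dvd_mul_right
    (Nat.Coprime.pow_right n (Nat.coprime_two_right.2 ha)) (by rw [one_mul]; exact h)) 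

theorem card_fix_mod {α : Type*} [Finite α] (p : α → Prop) (f : α → α) (hp : ∀ a, p a → p (f a))
    (hf : ∀ a, f (f a) = a) : Nat.card {a // p a} ≡ Nat.card {a // p a ∧ f a = a} [MOD 2] := by
  classical
  haveI := Fintype.ofFinite α
  let g : Function.End {a // p a} := fun a => ⟨f a, hp a a.2⟩
  have h := Equiv.Perm.card_fixedPoints_modEq (f := g) (p := 2) (n := 1)
    (funext fun a => Subtype.ext (hf a))
  rw [← Nat.card_eq_fintype_card, ← Nat.card_eq_fintype_card] at h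
  refine h.trans ?_
  rw [Nat.card_congr (show Function.fixedPoints g ≃ {a // p a ∧ f a = a} from
    ⟨fun a => ⟨a.1.1, a.1.2, congrArg Subtype.val a.2⟩, fun a => ⟨⟨a.1, a.2.1⟩, Subtype.ext a.2.2⟩,
      fun _ => rfl, fun _ => rfl⟩)]

variable {V : Type} [AddCommGroup V] [Module (ZMod 2) V] [Finite V] {L : Type u} [Group L]
  [Finite L] {ρ : L →* Module.End (ZMod 2) V} {U : Submodule (ZMod 2) V}

theorem smul_mk_iff {M : Subgroup L} {x g : L} :
    x • (g : L ⧸ M) = (g : L ⧸ M) ↔ g⁻¹ * x * g ∈ M := by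
  rw [MulAction.Quotient.smul_coe, smul_eq_mul, eq_comm, QuotientGroup.eq, mul_assoc]

namespace Sp

variable (h : Sp ρ U)
include h

theorem sq_one {t : L} (ht : t ∈ pw ρ U) : t * t = 1 := h.base.sq_one h.cV ht

theorem index : (st ρ U).index = Nat.card U + 1 := by
  have h2 := two_le_card (h.base.U_ne h.cV)
  let f : (L ⧸ st ρ U) × {u : U // u ≠ 0} → {v : V // v ≠ 0} := fun x =>
    ⟨ρ x.1.out x.2.1, rho_ne ρ _ fun e => x.2.2 (Subtype.ext e)⟩
  have hf : Function.Bijective f := by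
    constructor
    · rintro ⟨a, u, u0⟩ ⟨b, w, w0⟩ e
      have e : ρ a.out u = ρ b.out w := congrArg Subtype.val e
      have : a = b := by
        rw [← a.out_eq', ← b.out_eq', eq_comm, QuotientGroup.eq]
        refine h.sp _ u u.2 (fun e => u0 (Subtype.ext e)) ?_
        rw [rho_mul, e, rho_inv_self]; exact w.2
      subst this
      have := Subtype.ext (rho_inj _ e)
      subst this; rfl
    · rintro ⟨v, v0⟩
      obtain ⟨g, hg⟩ := h.cov v
      obtain ⟨m, hm⟩ := QuotientGroup.mk_out_eq_mul (st ρ U) g⁻¹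
      refine ⟨⟨(g⁻¹ : L), ⟨ρ m⁻¹ (ρ g v), (((st ρ U).inv_mem m.2) _).2 hg⟩,
        fun e => rho_ne ρ _ (rho_ne ρ _ v0) (congrArg Subtype.val e)⟩, Subtype.ext ?_⟩
      show ρ (Quotient.out _) (ρ (m : L)⁻¹ (ρ g v)) = v
      rw [hm, rho_mul, rho_self_inv, rho_inv_self]
  have := Nat.card_eq_of_bijective f hf
  have hc : ∀ (W : Type) [Finite W] [Zero W], Nat.card {v : W // v ≠ 0} = Nat.card W - 1 := by
    intro W _ _
    classical
    haveI := Fintype.ofFinite W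
    rw [Nat.card_eq_fintype_card, Nat.card_eq_fintype_card, Fintype.card_subtype_compl,
      Fintype.card_subtype_eq]
  rw [Nat.card_prod, hc, hc, h.cV] at this
  refine Nat.eq_of_mul_eq_mul_right (m := Nat.card U - 1) (by omega) ?_
  rw [Subgroup.index, this]
  obtain ⟨k, hk⟩ : ∃ k, Nat.card U = k + 1 := ⟨Nat.card U - 1, by omega⟩
  rw [hk]; simp only [Nat.add_sub_cancel]
  have : (k + 1) ^ 2 = (k + 1 + 1) * k + 1 := by ring
  omega

/-- an elation fixes only its axis -/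
theorem el_fix {t g : L} (ht : t ∈ pw ρ U) (t1 : t ≠ 1) (hg : g⁻¹ * t * g ∈ st ρ U) :
    g ∈ st ρ U := by
  have h2 : IsPGroup 2 (zpowers (g⁻¹ * t * g)) := by
    have : orderOf (g⁻¹ * t * g) = 2 := orderOf_eq_prime (by
      calc _ = g⁻¹ * (t * t) * g := by rw [sq]; group
        _ = 1 := by rw [h.sq_one ht]; group) (by
      intro e; apply t1
      calc t = g * (g⁻¹ * t * g) * g⁻¹ := by group
        _ = 1 := by rw [e]; group)
    exact IsPGroup.of_card (n := 1) (by rw [Nat.card_zpowers, this, pow_one])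
  obtain ⟨u, hu, u0, hf⟩ := exists_fixed h2 (h.base.U_ne h.cV) (zpowers_le.2 hg)
  rw [mem_fx_zpowers, rho_mul, rho_mul] at hf
  refine h.sp g u hu u0 ((h.base.fix_iff h.cV ht t1).1 ?_)
  rw [← rho_self_inv ρ g (ρ t (ρ g u)), hf]

theorem mem_of_comm {t e : L} (ht : t ∈ pw ρ U) (t1 : t ≠ 1) (he : El ρ U e)
    (hc : t * e = e * t) : e ∈ pw ρ U := by
  obtain ⟨s, hs, s1, hse⟩ := he
  obtain ⟨g, rfl⟩ := isConj_iff.1 hse
  refine conj_mem_pw (h.el_fix ht t1 (h.base.mem_st_of_comm h.cV hs s1 ?_)) hs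
  calc _ = g⁻¹ * (t * (g * s * g⁻¹)) * g := by group
    _ = _ := by rw [hc]; group

theorem odd_mul {g t t' : L} (hg : g ∉ st ρ U) (ht : t ∈ pw ρ U) (t1 : t ≠ 1)
    (ht' : t' ∈ pw ρ U) (t1' : t' ≠ 1) : Odd (orderOf (t * (g * t' * g⁻¹))) := by
  set s := g * t' * g⁻¹ with hs
  set y := t * s with hy
  have tt := h.sq_one ht
  have ss : s * s = 1 := by
    calc _ = g * (t' * t') * g⁻¹ := by rw [hs]; group
      _ = 1 := by rw [h.sq_one ht']; group
  have ti : t⁻¹ = t := inv_eq_of_mul_eq_one_right tt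
  have si : s⁻¹ = s := inv_eq_of_mul_eq_one_right ss
  have ty : ∀ i : ℕ, t * y ^ i = (y ^ i)⁻¹ * t := by
    intro i
    have : t * y * t⁻¹ = y⁻¹ := by rw [hy, mul_inv_rev, ti, si, ← mul_assoc, tt, one_mul]
    rw [← inv_pow, ← this, conj_pow]; group
  have sy : ∀ i : ℕ, s * y ^ i = (y ^ i)⁻¹ * s := by
    intro i
    have : s * y * s⁻¹ = y⁻¹ := by
      rw [si, hy, mul_inv_rev, ti, si, mul_assoc s, mul_assoc t, ss, mul_one]
    rw [← inv_pow, ← this, conj_pow]; group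
  by_contra hodd
  rw [Nat.not_odd_iff_even] at hodd
  obtain ⟨k, hk⟩ := hodd
  have k0 : 0 < k := by have := orderOf_pos y; omega
  have u1 : y ^ k ≠ 1 := pow_ne_one_of_lt_orderOf k0.ne' (by omega)
  have ui : (y ^ k)⁻¹ = y ^ k := inv_eq_of_mul_eq_one_right (by
    rw [← pow_add, ← hk, pow_orderOf_eq_one])
  have he : El ρ U (t * y ^ k) := by
    obtain ⟨i, hi | hi⟩ := Nat.even_or_odd' k
    · refine ⟨t, ht, t1, isConj_iff.2 ⟨(y ^ i)⁻¹, ?_⟩⟩
      rw [hi, two_mul, pow_add, ← mul_assoc, ty, inv_inv]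
    · refine ⟨t', ht', t1', isConj_iff.2 ⟨(y ^ i)⁻¹ * g, ?_⟩⟩
      have : t * y ^ k = s * y ^ i * y ^ i := by
        rw [hi, pow_succ', two_mul, pow_add, ← mul_assoc, ← mul_assoc]
        congr 2
        rw [hy, ← mul_assoc, tt, one_mul]
      rw [this, sy, hs]; group
  have h1 := h.mem_of_comm ht t1 he (by rw [mul_assoc, ← ui, ← ty, ui])
  have h2 : y ^ k ∈ pw ρ U := by
    have := (pw ρ U).mul_mem ht h1
    rwa [← mul_assoc, tt, one_mul] at this
  refine hg (h.el_fix h2 u1 (h.base.mem_st_of_comm h.cV ht' t1' ?_))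
  have := sy k
  rw [ui, hs] at this
  calc _ = g⁻¹ * (y ^ k * (g * t' * g⁻¹)) * g := by group
    _ = _ := by rw [← this]; group

theorem swap {g t t' : L} (hg : g ∉ st ρ U) (ht : t ∈ pw ρ U) (t1 : t ≠ 1)
    (ht' : t' ∈ pw ρ U) (t1' : t' ≠ 1) :
    ∃ j ∈ closure {t, g * t' * g⁻¹}, IsConj t j ∧ j * t * j = g * t' * g⁻¹ := by
  obtain ⟨k, hk⟩ := h.odd_mul hg ht t1 ht' t1'
  set s := g * t' * g⁻¹ with hs
  set y := t * s with hy
  have tt := h.sq_one ht
  have ss : s * s = 1 := by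
    calc _ = g * (t' * t') * g⁻¹ := by rw [hs]; group
      _ = 1 := by rw [h.sq_one ht']; group
  have ti : t⁻¹ = t := inv_eq_of_mul_eq_one_right tt
  have si : s⁻¹ = s := inv_eq_of_mul_eq_one_right ss
  have ty : ∀ i : ℕ, t * (y ^ i)⁻¹ = y ^ i * t := by
    intro i
    have : t * y⁻¹ * t⁻¹ = y := by
      rw [hy, mul_inv_rev, ti, si, mul_assoc, mul_assoc, tt, mul_one]
    conv_rhs => rw [← this]
    rw [conj_pow, inv_pow]; group
  have y1 : y ^ (2 * k + 1) = 1 := by rw [← hk, pow_orderOf_eq_one]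
  refine ⟨y ^ k * t, ?_, isConj_iff.2 ⟨y ^ (k * (k + 1)), ?_⟩, ?_⟩
  · have a1 : t ∈ closure {t, s} := subset_closure (by simp)
    have a2 : s ∈ closure {t, s} := subset_closure (by simp)
    exact mul_mem (pow_mem (mul_mem a1 a2) _) a1
  · rw [mul_assoc, ty, ← mul_assoc, ← pow_add,
      show k * (k + 1) + k * (k + 1) = (2 * k + 1) * k + k by ring, pow_add, pow_mul, y1, one_pow,
      one_mul]
  · have : y ^ k * y ^ k = y⁻¹ := by
      rw [eq_inv_iff_mul_eq_one, ← pow_add, ← pow_succ, ← two_mul, y1]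
    calc _ = y ^ k * (t * t) * y ^ k * t := by group
      _ = y⁻¹ * t := by rw [tt, mul_one, this]
      _ = s := by rw [hy, mul_inv_rev, ti, si, mul_assoc, tt, mul_one]

theorem el_sq {j : L} (hj : El ρ U j) : j * j = 1 := by
  obtain ⟨t, ht, -, hc⟩ := hj
  obtain ⟨g, rfl⟩ := isConj_iff.1 hc
  calc _ = g * (t * t) * g⁻¹ := by group
    _ = 1 := by rw [h.sq_one ht]; group

/-- an elation fixes exactly one component -/
theorem el_fix_iff {t : L} (ht : t ∈ pw ρ U) (t1 : t ≠ 1) (g : L) (ω : L ⧸ st ρ U) :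
    (g * t * g⁻¹) • ω = ω ↔ ω = (g : L ⧸ st ρ U) := by
  obtain ⟨a, rfl⟩ := QuotientGroup.mk_surjective ω
  rw [smul_mk_iff, eq_comm, QuotientGroup.eq]
  refine ⟨fun e => h.el_fix ht t1 (by simpa [mul_assoc] using e), fun e => ?_⟩
  have := conj_mem_pw ((st ρ U).inv_mem e) ht
  exact pw_le_st U (by simpa [mul_assoc] using this)

theorem even_fix {x j : L} (hx : Odd (orderOf x)) (x1 : x ≠ 1) (hj : El ρ U j)
    (hi : j * x * j = x⁻¹) : Even (Nat.card {ω : L ⧸ st ρ U // x • ω = ω}) := by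
  have jj := h.el_sq hj
  have := card_fix_mod (fun ω : L ⧸ st ρ U => x • ω = ω) (fun ω => j • ω) (fun ω e => by
    have e' : x⁻¹ • ω = ω := by rw [inv_smul_eq_iff, e]
    have : x * j = j * x⁻¹ := by rw [← hi, ← mul_assoc, ← mul_assoc, jj, one_mul]
    rw [← mul_smul, this, mul_smul, e']) (fun ω => by rw [← mul_smul, jj, one_smul])
  obtain ⟨t, ht, t1, hc⟩ := hj
  obtain ⟨g, rfl⟩ := isConj_iff.1 hc
  have h0 : IsEmpty {ω : L ⧸ st ρ U // x • ω = ω ∧ (g * t * g⁻¹) • ω = ω} := by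
    refine ⟨fun ⟨ω, e1, e2⟩ => ?_⟩
    rw [h.el_fix_iff ht t1] at e2
    rw [e2, smul_mk_iff] at e1
    have h1 := (pw ρ U).mul_mem ht (conj_mem_pw ((st ρ U).inv_mem e1) ht)
    have h2 := h.sq_one h1
    have h3 : t * ((g⁻¹ * x * g)⁻¹ * t * (g⁻¹ * x * g)⁻¹⁻¹) = g⁻¹ * (x * x) * g := by
      have : x = g * t * g⁻¹ * x⁻¹ * (g * t * g⁻¹) := by
        rw [← hi]
        calc x = (g * t * g⁻¹ * (g * t * g⁻¹)) * x * (g * t * g⁻¹ * (g * t * g⁻¹)) := by
              rw [jj]; group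
          _ = _ := by group
      calc _ = g⁻¹ * (g * t * g⁻¹ * x⁻¹ * (g * t * g⁻¹)) * x * g := by group
        _ = _ := by rw [← this]; group
    rw [h3] at h2
    have h4 : x ^ 4 = 1 := by
      calc x ^ 4 = x * x * (x * x) := by rw [show 4 = 2 + 2 from rfl, pow_add, sq]
        _ = g * (g⁻¹ * (x * x) * g * (g⁻¹ * (x * x) * g)) * g⁻¹ := by group
        _ = 1 := by rw [h2]; group
    have h5 : orderOf x ∣ 2 ^ 2 := orderOf_dvd_of_pow_eq_one h4
    exact x1 (orderOf_eq_one_iff.1 (odd_dvd_two_pow h5 hx))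
  rw [Nat.card_of_isEmpty (α := {ω : L ⧸ st ρ U // _ ∧ _})] at this
  exact even_iff_two_dvd.2 ((Nat.modEq_zero_iff_dvd).1 this)

theorem par {x j j' : L} (hx : Odd (orderOf x)) (x1 : x ≠ 1) (hj : El ρ U j)
    (hi : j * x * j = x⁻¹) (hj' : El ρ U j') : ¬ Commute x j' := by
  intro hc
  have h1 := h.even_fix hx x1 hj hi
  have := card_fix_mod (fun ω : L ⧸ st ρ U => x • ω = ω) (fun ω => j' • ω) (fun ω e => by
    rw [← mul_smul, hc.eq, mul_smul, e]) (fun ω => by rw [← mul_smul, h.el_sq hj', one_smul])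
  obtain ⟨t, ht, t1, hc'⟩ := hj'
  obtain ⟨g, rfl⟩ := isConj_iff.1 hc'
  have h0 : Nat.card {ω : L ⧸ st ρ U // x • ω = ω ∧ (g * t * g⁻¹) • ω = ω} = 1 := by
    rw [Nat.card_eq_one_iff_exists]
    refine ⟨⟨(g : L ⧸ st ρ U), ?_, (h.el_fix_iff ht t1 g _).2 rfl⟩,
      fun ω => Subtype.ext ((h.el_fix_iff ht t1 g _).1 ω.2.2)⟩
    rw [← h.el_fix_iff ht t1, ← mul_smul, ← hc.eq, mul_smul, (h.el_fix_iff ht t1 g _).2 rfl]
  rw [h0] at this
  obtain ⟨k, hk⟩ := h1
  unfold Nat.ModEq at this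
  omega

theorem core {x j : L} (hM : x ∈ st ρ U) (hx : Odd (orderOf x)) (x1 : x ≠ 1) (hj : El ρ U j)
    (hi : j * x * j = x⁻¹)
    (h2 : ∀ g, g ∉ st ρ U → ∃ t ∈ pw ρ U, g⁻¹ * (t * x * t⁻¹) * g ∈ st ρ U) :
    Nat.card (pw ρ U) = Nat.card U := by
  classical
  set o : L ⧸ st ρ U := ((1 : L) : L ⧸ st ρ U) with ho
  have fo : ∀ m ∈ st ρ U, m • o = o := fun m hm => smul_mk_iff.2 (by simpa using hm)
  have tf : ∀ t ∈ pw ρ U, ∀ ω : L ⧸ st ρ U, ω ≠ o → t • ω = ω → t = 1 := by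
    intro t ht ω hω e
    by_contra t1
    exact hω ((h.el_fix_iff ht t1 1 ω).1 (by simpa using e))
  let f : pw ρ U × {ω : {ω : L ⧸ st ρ U // x • ω = ω} // ω ≠ ⟨o, fo x hM⟩} →
      {ω : L ⧸ st ρ U // ω ≠ o} := fun z => ⟨(z.1 : L) • z.2.1.1, fun e => z.2.2 (Subtype.ext (by
        rw [smul_eq_iff_eq_inv_smul] at e
        rw [e]; exact fo _ (pw_le_st U ((pw ρ U).inv_mem z.1.2))))⟩
  have hf : Function.Bijective f := by
    constructor
    · rintro ⟨⟨t, ht⟩, ⟨a, ha⟩, a0⟩ ⟨⟨s, hs⟩, ⟨b, hb⟩, b0⟩ e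
      have e : t • a = s • b := congrArg Subtype.val e
      have e' : (s⁻¹ * t) • a = b := by rw [mul_smul, e, inv_smul_smul]
      have hr : s⁻¹ * t ∈ pw ρ U := mul_mem (inv_mem hs) ht
      have h3 : (x⁻¹ * (s⁻¹ * t)⁻¹ * x⁻¹⁻¹ * (s⁻¹ * t)) • a = a := by
        rw [inv_inv, mul_smul, mul_smul, mul_smul, e', hb, ← e', inv_smul_smul, inv_smul_eq_iff, ha]
      have h4 := tf _ (mul_mem (conj_mem_pw (inv_mem hM) (inv_mem hr)) hr) a
        (fun e => a0 (Subtype.ext e)) h3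
      have h5 : s⁻¹ * t = 1 := by
        by_contra r1
        refine h.par hx x1 hj hi ⟨_, hr, r1, IsConj.refl _⟩ ?_
        calc x * (s⁻¹ * t) = (s⁻¹ * t) * x * (x⁻¹ * (s⁻¹ * t)⁻¹ * x⁻¹⁻¹ * (s⁻¹ * t)) := by group
          _ = _ := by rw [h4, mul_one]
      rw [h5, one_smul] at e'
      have : s = t := by rw [inv_mul_eq_one] at h5; exact h5
      subst this; subst e'; rfl
    · rintro ⟨ω, hω⟩
      obtain ⟨g, rfl⟩ := QuotientGroup.mk_surjective ω
      have hg : g ∉ st ρ U := fun hg => hω (by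
        rw [ho, eq_comm, QuotientGroup.eq]; simpa using hg)
      obtain ⟨t, ht, e⟩ := h2 g hg
      rw [← smul_mk_iff] at e
      refine ⟨⟨⟨t, ht⟩, ⟨t⁻¹ • (g : L ⧸ st ρ U), ?_⟩, fun e' => hω ?_⟩, Subtype.ext ?_⟩
      · rw [eq_inv_smul_iff, ← mul_smul, ← mul_smul, e]
      · have e' : t⁻¹ • (g : L ⧸ st ρ U) = o := congrArg Subtype.val e'
        rw [inv_smul_eq_iff] at e'
        rw [e', fo t (pw_le_st U ht)]
      · exact smul_inv_smul t _
  have hc : ∀ (W : Type u) [Finite W] (w : W), Nat.card {v : W // v ≠ w} = Nat.card W - 1 := by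
    intro W _ w
    haveI := Fintype.ofFinite W
    rw [Nat.card_eq_fintype_card, Nat.card_eq_fintype_card, Fintype.card_subtype_compl,
      Fintype.card_subtype_eq]
  have h3 := Nat.card_eq_of_bijective f hf
  rw [Nat.card_prod, hc, hc, ← Subgroup.index, h.index, Nat.add_sub_cancel] at h3
  obtain ⟨k, hk⟩ := h.even_fix hx x1 hj hi
  obtain ⟨n, hn⟩ := card_two_pow U
  have hpos : 0 < Nat.card {ω : L ⧸ st ρ U // x • ω = ω} :=
    Nat.card_pos_iff.2 ⟨⟨⟨o, fo x hM⟩⟩, inferInstance⟩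
  have hodd : Odd (Nat.card {ω : L ⧸ st ρ U // x • ω = ω} - 1) := ⟨k - 1, by omega⟩
  have := odd_dvd_two_pow (hn ▸ Dvd.intro_left _ h3) hodd
  rw [← h3, this, mul_one]

end Sp

theorem stSP : StSP.{u} := fun _ _ _ _ _ _ _ _ _ h =>
  ⟨h.index, fun _ hg _ ht t1 _ ht' t1' => ⟨h.odd_mul hg ht t1 ht' t1', h.swap hg ht t1 ht' t1'⟩,
    fun _ _ _ hx x1 hj hi hj' => h.par hx x1 hj hi hj',
    fun _ hM hx x1 _ hj hi h2 => h.core hM hx x1 hj hi h2⟩

end Cfsg.G41.P2
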