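import Cfsg.Agent.G41.P2SP

/-! S4841, `p = 2`: trivial intersection Sylow subgroups. -/

set_option autoImplicit false
set_option linter.style.haveILetI false
set_option linter.unusedSectionVars false

namespace Cfsg.G41.P2

open Subgroup
open scoped commutatorElement Pointwise

universe u

theorem index_eq_range {G X : Type*} [Group G] (C : Subgroup G) (f : G → X)
    (h : ∀ a b, f a = f b ↔ a⁻¹ * b ∈ C) : C.index = Nat.card (Set.range f) := by
  refine Nat.card_eq_of_bijective (Quotient.lift (fun a => ⟨f a, a, rfl⟩) fun a b e =>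
    Subtype.ext ((h a b).2 (QuotientGroup.leftRel_apply.1 e))) ⟨?_, ?_⟩
  · rintro ⟨a⟩ ⟨b⟩ e
    exact QuotientGroup.eq.2 ((h a b).1 (congrArg Subtype.val e))
  · rintro ⟨_, a, rfl⟩
    exact ⟨(a : G ⧸ C), rfl⟩

theorem ncard_ne {G : Type*} [Finite G] {A : Set G} {a : G} (ha : a ∈ A) :
    Nat.card (A \ {a} : Set G) = Nat.card A - 1 := by
  rw [Nat.card_coe_set_eq, Nat.card_coe_set_eq, Set.ncard_sdiff_singleton_of_mem ha]

/-- in a finite cyclic group an element killed by `|K|` lies in `K` -/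
theorem mem_of_pow_card {Q : Type*} [Group Q] [Finite Q] [IsCyclic Q] (K : Subgroup Q) {x : Q}
    (h : x ^ Nat.card K = 1) : x ∈ K := by
  classical
  haveI := Fintype.ofFinite Q
  have h1 := IsCyclic.card_pow_eq_one_le (α := Q) (n := Nat.card K) Nat.card_pos
  have h2 : (Finset.univ.filter fun a : Q => a ∈ K) =
      Finset.univ.filter fun a : Q => a ^ Nat.card K = 1 := by
    refine Finset.eq_of_subset_of_card_le (fun a ha => ?_) (h1.trans_eq ?_)
    · rw [Finset.mem_filter] at ha ⊢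
      exact ⟨ha.1, congrArg Subtype.val (pow_card_eq_one' (x := (⟨a, ha.2⟩ : K)))⟩
    · rw [Nat.card_eq_fintype_card, Fintype.card_subtype]
  have : x ∈ Finset.univ.filter fun a : Q => a ∈ K := by
    rw [h2]; exact Finset.mem_filter.2 ⟨Finset.mem_univ _, h⟩
  exact (Finset.mem_filter.1 this).2

theorem exists_inv {G : Type*} [Group G] [Finite G] {K : Subgroup G} (h : ¬ Odd (Nat.card K)) :
    ∃ u ∈ K, orderOf u = 2 := by
  obtain ⟨u, hu⟩ := exists_prime_orderOf_dvd_card' (G := K) 2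
    (even_iff_two_dvd.1 (Nat.not_odd_iff_even.1 h))
  exact ⟨u, u.2, by rw [Subgroup.orderOf_coe, hu]⟩

theorem pgroup_zpowers {G : Type*} [Group G] {u : G} (h : orderOf u = 2) :
    IsPGroup 2 (zpowers u) :=
  IsPGroup.of_card (n := 1) (by rw [Nat.card_zpowers, h, pow_one])

theorem cyc_sub {G : Type*} [Group G] (cyc : ∀ Y : Subgroup G, Odd (Nat.card Y) → IsCyclic Y)
    (N : Subgroup G) (X : Subgroup N) (hX : Odd (Nat.card X)) : IsCyclic X :=
  haveI := cyc (X.map N.subtype) (by rw [card_map_of_injective N.subtype_injective]; exact hX)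
  isCyclic_of_surjective _ (X.equivMapOfInjective _ N.subtype_injective).symm.surjective

variable {V : Type} [AddCommGroup V] [Module (ZMod 2) V] [Finite V] {L : Type u} [Group L]
  [Finite L] {ρ : L →* Module.End (ZMod 2) V} {U : Submodule (ZMod 2) V}

/-- the stabiliser of the components `U` and `g U` -/
def kg (ρ : L →* Module.End (ZMod 2) V) (U : Submodule (ZMod 2) V) (g : L) : Subgroup L where
  carrier := {x | x ∈ st ρ U ∧ g⁻¹ * x * g ∈ st ρ U}
  mul_mem' := fun {a b} ha hb => ⟨mul_mem ha.1 hb.1, by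
    have := mul_mem ha.2 hb.2
    rwa [show g⁻¹ * a * g * (g⁻¹ * b * g) = g⁻¹ * (a * b) * g by group] at this⟩
  one_mem' := ⟨one_mem _, by simp⟩
  inv_mem' := fun {a} ha => ⟨inv_mem ha.1, by
    have := inv_mem ha.2
    rwa [show (g⁻¹ * a * g)⁻¹ = g⁻¹ * a⁻¹ * g by group] at this⟩

theorem mem_kg {g x : L} : x ∈ kg ρ U g ↔ x ∈ st ρ U ∧ g⁻¹ * x * g ∈ st ρ U := Iff.rfl

theorem kg_le (g : L) : kg ρ U g ≤ st ρ U := fun _ h => h.1

/-- a subgroup of `M` transitive on `T#` -/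
theorem relIndex_cent {K : Subgroup L} (hK : K ≤ st ρ U) {t : L} (ht : t ∈ pw ρ U) (t1 : t ≠ 1)
    (tr : ∀ s ∈ pw ρ U, s ≠ 1 → ∃ k ∈ K, k * t * k⁻¹ = s) :
    (centralizer {t}).relIndex K = Nat.card (pw ρ U) - 1 := by
  rw [relIndex, index_eq_range _ (fun k : K => (k : L) * t * (k : L)⁻¹)]
  · refine Eq.trans ?_ (ncard_ne (A := (pw ρ U : Set L)) (pw ρ U).one_mem)
    congr 2
    ext s
    constructor
    · rintro ⟨k, rfl⟩
      exact ⟨conj_mem_pw (hK k.2) ht, fun e => t1 (by simpa using e)⟩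
    · rintro ⟨hs, s1⟩
      obtain ⟨k, hk, e⟩ := tr s hs s1
      exact ⟨⟨k, hk⟩, e⟩
  · intro a b
    rw [mem_subgroupOf, mem_centralizer_singleton_iff, Subgroup.coe_mul, Subgroup.coe_inv]
    constructor
    · intro e
      calc _ = (a : L)⁻¹ * (b * t * (b : L)⁻¹) * b := by group
        _ = _ := by rw [← e]; group
    · intro e
      calc _ = (a : L) * (t * ((a : L)⁻¹ * b)) * (b : L)⁻¹ := by group
        _ = _ := by rw [← e]; group

namespace Sp

variable (h : Sp ρ U)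
include h

theorem exists_not_mem : ∃ g, g ∉ st ρ U := by
  by_contra hc
  push Not at hc
  have := h.index
  rw [(eq_top_iff' _).2 hc, index_top] at this
  have := two_le_card (h.base.U_ne h.cV)
  omega

/-- an elation swapping `U` and `g U` -/
theorem swap' {g t t' : L} (hg : g ∉ st ρ U) (ht : t ∈ pw ρ U) (t1 : t ≠ 1)
    (ht' : t' ∈ pw ρ U) (t1' : t' ≠ 1) :
    ∃ j, IsConj t j ∧ j * j = 1 ∧ j * t * j = g * t' * g⁻¹ ∧ g⁻¹ * j ∈ st ρ U := by
  obtain ⟨j, -, hj, e⟩ := h.swap hg ht t1 ht' t1'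
  have jj := h.el_sq ⟨t, ht, t1, hj⟩
  refine ⟨j, hj, jj, e, h.base.mem_st_of_conj h.cV ht t1 ?_⟩
  rw [mul_inv_rev, inv_eq_of_mul_eq_one_right jj,
    show g⁻¹ * j * t * (j * g⁻¹⁻¹) = g⁻¹ * (j * t * j) * g by group, e]
  simpa [mul_assoc] using ht'

/-- `K_g` is transitive on `T#` -/
theorem trans {g t₁ t₂ : L} (hg : g ∉ st ρ U) (h1 : t₁ ∈ pw ρ U) (n1 : t₁ ≠ 1)
    (h2 : t₂ ∈ pw ρ U) (n2 : t₂ ≠ 1) :
    ∃ j₁ j₂, IsConj t₁ j₁ ∧ IsConj t₂ j₂ ∧ g⁻¹ * j₁ ∈ st ρ U ∧ g⁻¹ * j₂ ∈ st ρ U ∧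
      j₂ * j₁ ∈ kg ρ U g ∧ j₂ * j₁ * t₁ * (j₂ * j₁)⁻¹ = t₂ := by
  obtain ⟨j₁, c1, q1, e1, m1⟩ := h.swap' hg h1 n1 h1 n1
  obtain ⟨j₂, c2, q2, e2, m2⟩ := h.swap' hg h2 n2 h1 n1
  have i1 := inv_eq_of_mul_eq_one_right q1
  have i2 := inv_eq_of_mul_eq_one_right q2
  refine ⟨j₁, j₂, c1, c2, m1, m2, ⟨?_, ?_⟩, ?_⟩
  · have := mul_mem (inv_mem m2) m1
    rwa [mul_inv_rev, i2, show j₂ * g⁻¹⁻¹ * (g⁻¹ * j₁) = j₂ * j₁ by group] at this
  · have := mul_mem m2 (inv_mem m1)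
    rwa [mul_inv_rev, i1, show g⁻¹ * j₂ * (j₁ * g⁻¹⁻¹) = g⁻¹ * (j₂ * j₁) * g by group] at this
  · rw [mul_inv_rev, i1, i2]
    calc _ = j₂ * (j₁ * t₁ * j₁) * j₂ := by group
      _ = (j₂ * j₂) * t₂ * (j₂ * j₂) := by rw [e1, ← e2]; group
      _ = t₂ := by rw [q2]; group

theorem relIndex_kg {g t : L} (hg : g ∉ st ρ U) (ht : t ∈ pw ρ U) (t1 : t ≠ 1) :
    (centralizer {t}).relIndex (kg ρ U g) = Nat.card (pw ρ U) - 1 :=
  relIndex_cent (kg_le g) ht t1 fun _ hs s1 => by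
    obtain ⟨j₁, j₂, -, -, -, -, m, e⟩ := h.trans hg ht t1 hs s1
    exact ⟨_, m, e⟩

theorem relIndex_st {t : L} (ht : t ∈ pw ρ U) (t1 : t ≠ 1) :
    (centralizer {t}).relIndex (st ρ U) = Nat.card (pw ρ U) - 1 :=
  relIndex_cent le_rfl ht t1 fun _ hs s1 => by
    obtain ⟨g, hg⟩ := h.exists_not_mem
    obtain ⟨j₁, j₂, -, -, -, -, m, e⟩ := h.trans hg ht t1 hs s1
    exact ⟨_, m.1, e⟩

theorem dvd_kg {g : L} (hg : g ∉ st ρ U) : Nat.card (pw ρ U) - 1 ∣ Nat.card (kg ρ U g) := by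
  obtain ⟨⟨t, ht⟩, t1⟩ := (ne_bot_iff_exists_ne_one).1 h.ne
  rw [← h.relIndex_kg hg ht fun e => t1 (Subtype.ext e)]
  exact relIndex_dvd_card _ _

theorem kg_inf {g t : L} (hg : g ∉ st ρ U) (ht : t ∈ pw ρ U) (hk : t ∈ kg ρ U g) : t = 1 := by
  by_contra t1
  exact hg (h.el_fix ht t1 hk.2)

/-- the coset `x T` consists of `T`-conjugates of `x` if `C_T(x) = 1` -/
theorem conj_of_coset {x k : L} (hM : x ∈ st ρ U) (hx : ∀ t ∈ pw ρ U, Commute x t → t = 1)
    (hk : x⁻¹ * k ∈ pw ρ U) : ∃ t ∈ pw ρ U, t * x * t⁻¹ = k := by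
  let f : pw ρ U → pw ρ U := fun t => ⟨x⁻¹ * t * x⁻¹⁻¹ * (t : L)⁻¹,
    mul_mem (conj_mem_pw (inv_mem hM) t.2) (inv_mem t.2)⟩
  have hf : Function.Injective f := by
    intro a b e
    have e : x⁻¹ * a * x⁻¹⁻¹ * (a : L)⁻¹ = x⁻¹ * b * x⁻¹⁻¹ * (b : L)⁻¹ := congrArg Subtype.val e
    have := hx _ (mul_mem (inv_mem b.2) a.2) (by
      calc x * ((b : L)⁻¹ * a) = (b : L)⁻¹ * x * (x⁻¹ * b * x⁻¹⁻¹ * (b : L)⁻¹) * a := by group
        _ = _ := by rw [← e]; group)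
    exact Subtype.ext (inv_mul_eq_one.1 this).symm
  obtain ⟨t, e⟩ := Finite.surjective_of_injective hf ⟨_, hk⟩
  have e : x⁻¹ * t * x⁻¹⁻¹ * (t : L)⁻¹ = x⁻¹ * k := congrArg Subtype.val e
  refine ⟨t, t.2, ?_⟩
  calc _ = x * (x⁻¹ * t * x⁻¹⁻¹ * (t : L)⁻¹) := by group
    _ = k := by rw [e]; group

end Sp

section TI

variable {S : Sylow 2 L} (hs : Star ρ) (hb : Base ρ) (hT : TI L) (hS : (S : Subgroup L) ≠ ⊥)

include hs hT in
theorem ti_fix {s : L} (h : s ∈ (S : Subgroup L)) (s1 : s ≠ 1) {v : V} (hv : ρ s v = v) :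
    v ∈ fx ρ S := by
  by_cases v0 : v = 0
  · rw [v0]; exact zero_mem _
  obtain ⟨P, hP⟩ := star_vs hs v0
  by_cases e : S = P
  · intro a ha
    rw [e, ← hP] at ha
    exact ha
  · have : s ∈ (S : Subgroup L) ⊓ P := ⟨h, by rw [← hP]; exact hv⟩
    rw [hT _ _ e] at this
    exact absurd this s1

include hb in
theorem pw_fx_sylow (S : Sylow 2 L) : pw ρ (fx ρ S) = S :=
  haveI := hb.nt
  S.is_maximal' (pw_pgroup hb.free (fx_ne_bot S.isPGroup')) (le_pw_fx _)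

include hb in
theorem st_fx_sylow (S : Sylow 2 L) : st ρ (fx ρ S) = normalizer ((S : Subgroup L) : Set L) := by
  refine le_antisymm ?_ (normalizer_le_st _)
  have := st_le_normalizer (ρ := ρ) (fx ρ S)
  rwa [pw_fx_sylow hb] at this

include hs hb hT hS in
theorem ti_sp : Sp ρ (fx ρ S) := by
  refine ⟨hb, ?_, by rwa [pw_fx_sylow hb], fun g w hw w0 hg => ?_, fun v => ?_⟩
  · obtain ⟨t, ht, h2⟩ := exists_inv (K := (S : Subgroup L)) fun ho => by
      obtain ⟨n, hn⟩ := S.isPGroup'.exists_card_eq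
      exact hS (card_eq_one.1 (odd_dvd_two_pow hn.dvd ho))
    have t1 : t ≠ 1 := by rintro rfl; simp at h2
    rw [← hb.inv t h2, le_antisymm (fun v hv => ti_fix hs hT ht t1 (mem_fx_zpowers.1 hv))
      (fx_anti (zpowers_le.2 ht))]
  · rw [st_fx_sylow hb]
    exact Sylow.smul_eq_iff_mem_normalizer.1
      (sylow_eq hb.free (rho_ne ρ g w0) (smul_mem_fx g hw) hg)
  · by_cases v0 : v = 0
    · exact ⟨1, by rw [v0, map_zero]; exact zero_mem _⟩
    obtain ⟨P, hP⟩ := star_vs hs v0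
    obtain ⟨g, rfl⟩ := MulAction.exists_smul_eq L P S
    exact ⟨g, smul_mem_fx g fun a ha => by rw [← hP] at ha; exact ha⟩

include hb in
theorem inv_mem_sylow {u : L} (hu : u ∈ st ρ (fx ρ S)) (h2 : orderOf u = 2) :
    u ∈ (S : Subgroup L) := by
  haveI := hb.nt
  obtain ⟨w, hw, w0, hf⟩ := exists_fixed (pgroup_zpowers h2) (fx_ne_bot S.isPGroup')
    (zpowers_le.2 hu)
  rw [← vs_eq hb.free w0 hw]
  exact mem_fx_zpowers.1 hf

include hs hb hT hS

theorem ti_odd {g : L} (hg : g ∉ st ρ (fx ρ S)) : Odd (Nat.card (kg ρ (fx ρ S) g)) := by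
  by_contra ho
  obtain ⟨u, hu, h2⟩ := exists_inv ho
  have := (ti_sp hs hb hT hS).kg_inf hg
    (by rw [pw_fx_sylow hb]; exact inv_mem_sylow hb hu.1 h2) hu
  rw [this] at h2; simp at h2

theorem ti_card (h2 : 2 < Nat.card S) : Nat.card S = Nat.card (fx ρ S) := by
  have h := ti_sp hs hb hT hS
  have hp := pw_fx_sylow hb S
  obtain ⟨g₀, hg₀⟩ := h.exists_not_mem
  have : Nontrivial (((S : Subgroup L) : Set L) \ {1} : Set L) := by
    rw [← Finite.one_lt_card_iff_nontrivial, ncard_ne (S : Subgroup L).one_mem]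
    exact Nat.lt_sub_of_add_lt h2
  obtain ⟨⟨t₁, h1, n1⟩, ⟨t₂, h2', n2⟩, ne⟩ := exists_pair_ne (((S : Subgroup L) : Set L) \ {1} : Set L)
  have h1 : t₁ ∈ pw ρ (fx ρ S) := by rw [hp]; exact h1
  have h2' : t₂ ∈ pw ρ (fx ρ S) := by rw [hp]; exact h2'
  obtain ⟨j₁, j₂, c1, c2, -, -, hm, e⟩ := h.trans hg₀ h1 n1 h2' n2
  have e1 : El ρ (fx ρ S) j₁ := ⟨_, h1, n1, c1⟩
  have q1 := h.el_sq e1
  have q2 := h.el_sq ⟨_, h2', n2, c2⟩
  set x := j₂ * j₁ with hx
  have x1 : x ≠ 1 := fun e' => ne (Subtype.ext (by simpa [e'] using e))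
  have hi : j₁ * x * j₁ = x⁻¹ := by
    rw [hx, mul_inv_rev, inv_eq_of_mul_eq_one_right q1, inv_eq_of_mul_eq_one_right q2,
      mul_assoc, mul_assoc, q1, mul_one]
  have ho := ti_odd hs hb hT hS hg₀
  have hox : Odd (orderOf x) := ho.of_dvd_nat (orderOf_dvd_natCard _ hm)
  have hn : x ^ (Nat.card (pw ρ (fx ρ S)) - 1) = 1 := by
    haveI := hb.cyc _ ho
    haveI : ((centralizer {t₁}).subgroupOf (kg ρ (fx ρ S) g₀)).Normal :=
      ⟨fun n hn g => by rwa [mul_comm' g n, mul_inv_cancel_right]⟩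
    have := pow_index_mem (H := (centralizer {t₁}).subgroupOf (kg ρ (fx ρ S) g₀)) ⟨x, hm⟩
    rw [← relIndex, h.relIndex_kg hg₀ h1 n1, mem_subgroupOf, mem_centralizer_singleton_iff] at this
    by_contra y1
    refine h.par (hox.of_dvd_nat (orderOf_pow_dvd _)) y1 e1 ?_ ⟨_, h1, n1, IsConj.refl _⟩ this
    rw [← inv_pow, ← hi]
    nth_rewrite 2 4 [← inv_eq_of_mul_eq_one_right q1]
    rw [conj_pow]
  rw [← h.core hm.1 hox x1 e1 hi fun g hg => ?_, hp]
  have hle : (S : Subgroup L) ≤ st ρ (fx ρ S) := hp.ge.trans (pw_le_st _)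
  haveI : ((S : Subgroup L).subgroupOf (st ρ (fx ρ S))).Normal := by
    rw [normal_subgroupOf_iff_le_normalizer hle, st_fx_sylow hb]
  haveI : IsCyclic (st ρ (fx ρ S) ⧸ (S : Subgroup L).subgroupOf (st ρ (fx ρ S))) := by
    rw [← topEquiv.isCyclic]
    refine cyc_quot ((S : Subgroup L).subgroupOf _) (S.subtype hle).isPGroup'
      (cyc_sub hb.cyc _) _ ?_
    rw [card_top, ← Nat.not_even_iff_odd, even_iff_two_dvd]
    exact (S.subtype hle).not_dvd_index
  let φ : kg ρ (fx ρ S) g →* st ρ (fx ρ S) ⧸ (S : Subgroup L).subgroupOf (st ρ (fx ρ S)) :=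
    (QuotientGroup.mk' _).comp (inclusion (kg_le g))
  have hφ : Function.Injective φ := (injective_iff_map_eq_one _).2 fun a ha => by
    have : (a : L) ∈ (S : Subgroup L) := (QuotientGroup.eq_one_iff (inclusion (kg_le g) a)).1 ha
    exact Subtype.ext (h.kg_inf hg (by rwa [hp]) a.2)
  obtain ⟨k, hk⟩ := mem_of_pow_card φ.range (x := ((⟨x, hm.1⟩ : st ρ (fx ρ S)) : _ ⧸ _)) (by
    obtain ⟨c, hc⟩ := h.dvd_kg hg
    rw [← Nat.card_congr (MonoidHom.ofInjective hφ).toEquiv, hc, pow_mul, ← QuotientGroup.mk_pow,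
      show (⟨x, hm.1⟩ : st ρ (fx ρ S)) ^ _ = 1 from Subtype.ext hn, QuotientGroup.mk_one, one_pow])
  have hk' : x⁻¹ * k ∈ (S : Subgroup L) :=
    (QuotientGroup.eq (s := (S : Subgroup L).subgroupOf (st ρ (fx ρ S))) (a := ⟨x, hm.1⟩)
      (b := inclusion (kg_le g) k)).1 hk.symm
  obtain ⟨t, ht, e⟩ := h.conj_of_coset hm.1 (fun t ht hc => by
    by_contra t1
    exact h.par hox x1 e1 hi ⟨_, ht, t1, IsConj.refl _⟩ hc) (by rwa [hp])
  exact ⟨t, ht, e ▸ k.2.2⟩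

/-- the centraliser of an involution, and the order of `N(S)` -/
theorem ti_cent (hc : Nat.card S = Nat.card (fx ρ S)) {t : L} (ht : t ∈ (S : Subgroup L))
    (t1 : t ≠ 1) : centralizer {t} = (S : Subgroup L) ∧
      Nat.card (st ρ (fx ρ S)) = Nat.card S * (Nat.card S - 1) := by
  have h := ti_sp hs hb hT hS
  have hp := pw_fx_sylow hb S
  have ht' : t ∈ pw ρ (fx ρ S) := by rwa [hp]
  have hle : (S : Subgroup L) ≤ centralizer {t} := fun s hs =>
    mem_centralizer_singleton_iff.2 (hb.comm h.cV (by rwa [hp]) ht')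
  have hle' : centralizer {t} ≤ st ρ (fx ρ S) := fun s hs =>
    hb.mem_st_of_comm h.cV ht' t1 (mem_centralizer_singleton_iff.1 hs)
  have h1 := h.relIndex_st ht' t1
  rw [hp] at h1
  have h2 := relIndex_mul_relIndex _ _ _ hle hle'
  obtain ⟨w, hw, w0⟩ := (Submodule.ne_bot_iff _).1 (hb.U_ne h.cV)
  have h3 : (S : Subgroup L).relIndex (st ρ (fx ρ S)) ≤ Nat.card S - 1 := by
    rw [relIndex, index_eq_range _ (fun m : st ρ (fx ρ S) => ρ m w), hc]
    · refine le_of_le_of_eq (Nat.card_mono (Set.toFinite _) ?_)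
        (ncard_ne (A := (fx ρ S : Set V)) (zero_mem _))
      rintro _ ⟨m, rfl⟩
      exact ⟨(m.2 w).2 hw, rho_ne ρ _ w0⟩
    · intro a b
      rw [mem_subgroupOf, Subgroup.coe_mul, Subgroup.coe_inv]
      generalize (a : L) = a, (b : L) = b
      rw [← vs_eq hb.free w0 hw, mem_vs, rho_mul]
      exact ⟨fun e => by rw [← e, rho_inv_self], fun e => by rw [← rho_self_inv ρ a (ρ b w), e]⟩
  have h4 := two_le_card (hb.U_ne h.cV)
  have h5 : (S : Subgroup L).relIndex (centralizer {t}) = 1 := by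
    rw [← h2, h1] at h3
    have : (S : Subgroup L).relIndex (centralizer {t}) ≠ 0 := index_ne_zero_of_finite
    have := Nat.le_of_mul_le_mul_right (h3.trans_eq (one_mul _).symm) (by omega)
    omega
  have h6 := le_antisymm (relIndex_eq_one.1 h5) hle
  refine ⟨h6, ?_⟩
  rw [← h1, h6, ← relIndex_bot_left, ← relIndex_bot_left,
    relIndex_mul_relIndex _ _ _ bot_le (hle.trans hle')]

theorem ti_simple (h2 : 2 < Nat.card S) (C : Subgroup L) (hC : C.Normal) : C = ⊥ ∨ C = ⊤ := by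
  have h := ti_sp hs hb hT hS
  have hp := pw_fx_sylow hb S
  have hc := ti_card hs hb hT hS h2
  by_cases ho : Odd (Nat.card C)
  · left
    haveI := hb.cyc _ ho
    have : Nontrivial (((S : Subgroup L) : Set L) \ {1} : Set L) := by
      rw [← Finite.one_lt_card_iff_nontrivial, ncard_ne (S : Subgroup L).one_mem]
      exact Nat.lt_sub_of_add_lt h2
    obtain ⟨⟨t₁, h1, n1⟩, ⟨t₂, h2', n2⟩, ne⟩ :=
      exists_pair_ne (((S : Subgroup L) : Set L) \ {1} : Set L)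
    have key : ∀ t ∈ (S : Subgroup L), t ≠ 1 → ∀ c ∈ C, c * t = t * c → c = 1 := by
      intro t ht t1 c hc' e
      have := mem_centralizer_singleton_iff.2 e
      rw [(ti_cent hs hb hT hS hc ht t1).1, ← hp] at this
      refine orderOf_eq_one_iff.1 (odd_dvd_two_pow (n := 1) (orderOf_dvd_of_pow_eq_one ?_)
        (ho.of_dvd_nat (orderOf_dvd_natCard _ hc')))
      rw [pow_one, sq, h.sq_one this]
    have inv : ∀ t ∈ (S : Subgroup L), t ≠ 1 → ∀ c ∈ C, t * c * t⁻¹ = c⁻¹ := by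
      intro t ht t1 c hc'
      have tt := h.sq_one (hp.ge ht)
      have ti := inv_eq_of_mul_eq_one_right tt
      have hm := hC.conj_mem c hc' t
      have cm : c * (t * c * t⁻¹) = t * c * t⁻¹ * c :=
        congrArg Subtype.val (mul_comm' (⟨c, hc'⟩ : C) ⟨_, hm⟩)
      refine eq_inv_of_mul_eq_one_right (key t ht t1 _ (mul_mem hc' hm) ?_)
      nth_rewrite 1 [cm]
      rw [ti]
      calc _ = t * c * t * c * t := by group
        _ = _ := by group
    rw [eq_bot_iff_forall]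
    intro c hc'
    refine key (t₁⁻¹ * t₂) (mul_mem (inv_mem h1) h2')
      (fun e => ne (Subtype.ext (inv_mul_eq_one.1 e))) c hc' ?_
    have := (inv t₁ h1 n1 c hc').trans (inv t₂ h2' n2 c hc').symm
    calc _ = t₁⁻¹ * (t₁ * c * t₁⁻¹) * t₂ := by group
      _ = _ := by rw [this]; group
  · right
    haveI := hb.nt
    obtain ⟨u, hu, u2⟩ := exists_inv ho
    obtain ⟨v, hv, v0⟩ := (Submodule.ne_bot_iff _).1 (fx_ne_bot (ρ := ρ) (pgroup_zpowers u2))
    obtain ⟨a, ha⟩ := h.cov v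
    have ht : a * u * a⁻¹ ∈ pw ρ (fx ρ S) := by
      rw [hp, ← vs_eq hb.free (rho_ne ρ a v0) ha, mem_vs, rho_mul, rho_mul, rho_inv_self,
        mem_fx_zpowers.1 hv]
    have t1 : a * u * a⁻¹ ≠ 1 := fun e => by
      rw [show u = 1 by simpa using e] at u2; simp at u2
    have tC := hC.conj_mem u hu a
    generalize a * u * a⁻¹ = t at ht t1 tC
    have cj : ∀ {s j : L}, s ∈ C → IsConj s j → j ∈ C := fun hs e => by
      obtain ⟨c, rfl⟩ := isConj_iff.1 e
      exact hC.conj_mem _ hs c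
    obtain ⟨g₀, hg₀⟩ := h.exists_not_mem
    have hSC : pw ρ (fx ρ S) ≤ C := fun s hs => by
      by_cases s1 : s = 1
      · rw [s1]; exact one_mem _
      obtain ⟨j₁, j₂, -, -, -, -, -, e⟩ := h.trans hg₀ ht t1 hs s1
      exact e ▸ hC.conj_mem _ tC _
    have hM : st ρ (fx ρ S) ≤ C := fun m hm => by
      have hs' := conj_mem_pw hm ht
      obtain ⟨j₁, j₂, c1, c2, -, -, -, e⟩ := h.trans hg₀ ht t1 hs' fun e => t1 (by simpa using e)
      have hj := mul_mem (cj (hSC hs') c2) (cj tC c1)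
      have : (j₂ * j₁)⁻¹ * m ∈ centralizer {t} := mem_centralizer_singleton_iff.2 (by
        calc _ = (j₂ * j₁)⁻¹ * (m * t * m⁻¹) * m := by group
          _ = _ := by rw [← e]; group)
      rw [(ti_cent hs hb hT hS hc (hp.le ht) t1).1, ← hp] at this
      exact mul_inv_cancel_left (j₂ * j₁) m ▸ mul_mem hj (hSC this)
    rw [eq_top_iff']
    intro g
    by_cases hg : g ∈ st ρ (fx ρ S)
    · exact hM hg
    obtain ⟨j, c, -, -, e⟩ := h.swap' hg ht t1 ht t1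
    simpa using mul_mem (cj tC c) (inv_mem (hM e))

end TI

theorem stTI : StTI.{u} := by
  intro V _ _ _ L _ _ ρ S hs hb hT hS
  have h := ti_sp hs hb hT hS
  have hp := pw_fx_sylow hb S
  refine ⟨h, hp, st_fx_sylow hb S, ?_⟩
  obtain ⟨n, hn⟩ := S.isPGroup'.exists_card_eq
  by_cases h2 : Nat.card S = 2
  · exact Or.inl h2
  have h4 : 4 ≤ Nat.card S := by
    rcases n with _ | _ | n
    · exact absurd (card_eq_one.1 hn) hS
    · exact absurd hn h2
    · rw [show Nat.card S = _ from hn, pow_succ, pow_succ]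
      have := Nat.one_le_two_pow (n := n)
      omega
  have hc := ti_card hs hb hT hS (by omega)
  obtain ⟨⟨t, ht⟩, t1⟩ := (ne_bot_iff_exists_ne_one).1 hS
  refine Or.inr ⟨hc, h4, fun s h1 n1 s' h2 n2 => ?_, ?_, ti_simple hs hb hT hS (by omega)⟩
  · obtain ⟨g, hg⟩ := h.exists_not_mem
    obtain ⟨j₁, j₂, -, -, -, -, m, e⟩ := h.trans hg (hp.ge h1) n1 (hp.ge h2) n2
    exact ⟨_, (st_fx_sylow hb S).le m.1, e⟩
  · rw [← (st ρ (fx ρ S)).index_mul_card, h.index,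
      (ti_cent hs hb hT hS hc ht fun e => t1 (Subtype.ext e)).2, ← hc]

end Cfsg.G41.P2
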