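import Mathlib

/-! S4841, `p ≥ 5`: ring computations for pairs of elements of order three. -/

set_option autoImplicit false

namespace Cfsg.G41.PR

variable {A : Type*} [Ring A]

theorem lit (n : ℕ) [n.AtLeastTwo] : (no_index (OfNat.ofNat n) : A) = (OfNat.ofNat n : ℕ) • (1 : A) := by
  rw [nsmul_one]; rfl

/-- the trace of `F E` -/
def zz (F E : A) : A := F * E + E * F + E + F + 1

section Tr

variable {F E : A} (hF : F * F = -F - 1) (hE : E * E = -E - 1)
include hF hE

theorem zz_comm : F * zz F E = zz F E * F ∧ E * zz F E = zz F E * E := by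
  have h1 : ∀ y, F * (F * y) = -(F * y) - y := fun y => by rw [← mul_assoc, hF]; noncomm_ring
  have h2 : ∀ y, E * (E * y) = -(E * y) - y := fun y => by rw [← mul_assoc, hE]; noncomm_ring
  constructor <;> (unfold zz; noncomm_ring [hF, hE, h1, h2])

/-- the four traces -/
def Q4 (F E : A) (R : Subring A) (a a' : A) : Prop :=
  a + a' ∈ R ∧ a * F + (-1 - F) * a' ∈ R ∧ a * E + (-1 - E) * a' ∈ R ∧
    a * F * E + (-1 - E) * ((-1 - F) * a') ∈ R

theorem Q4.one {R : Subring A} (hz : zz F E ∈ R) : Q4 F E R 1 1 := by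
  refine ⟨R.add_mem R.one_mem R.one_mem, ?_, ?_, ?_⟩
  · convert R.neg_mem R.one_mem using 1; noncomm_ring
  · convert R.neg_mem R.one_mem using 1; noncomm_ring
  · convert hz using 1; unfold zz; noncomm_ring

theorem Q4.mul {R : Subring A} (hz : zz F E ∈ R) {a a' : A} (h : Q4 F E R a a')
    (hc : a * zz F E = zz F E * a) :
    Q4 F E R (a * F) ((-1 - F) * a') ∧ Q4 F E R (a * E) ((-1 - E) * a') := by
  have h1 : ∀ y, F * (F * y) = -(F * y) - y := fun y => by rw [← mul_assoc, hF]; noncomm_ring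
  have h2 : ∀ y, E * (E * y) = -(E * y) - y := fun y => by rw [← mul_assoc, hE]; noncomm_ring
  obtain ⟨t0, t1, t2, t3⟩ := h
  obtain ⟨c1, c2⟩ := zz_comm hF hE
  refine ⟨⟨t1, ?_, t3, ?_⟩, t2, ?_, ?_, ?_⟩
  · convert R.sub_mem (R.neg_mem t1) t0 using 1; noncomm_ring [hF, hE, h1, h2]
  · convert R.sub_mem (R.neg_mem t3) t2 using 1; noncomm_ring [hF, hE, h1, h2]
  · convert R.sub_mem (R.sub_mem (R.sub_mem (R.sub_mem (R.mul_mem hz t0) t0) t1) t2) t3 using 1
    rw [mul_add (zz F E), ← hc]; unfold zz; noncomm_ring [hF, hE, h1, h2]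
  · convert R.sub_mem (R.neg_mem t2) t0 using 1; noncomm_ring [hF, hE, h1, h2]
  · convert R.add_mem (R.add_mem (R.mul_mem hz t2) t1) t0 using 1
    rw [mul_add (zz F E), ← mul_assoc (zz F E), ← hc, mul_assoc a (zz F E), ← c2]
    unfold zz; noncomm_ring [hF, hE, h1, h2]

theorem kappa_sq : (F * E - E * F) * (F * E - E * F) = (zz F E - 2) * (zz F E + 1) := by
  have h1 : ∀ y, F * (F * y) = -(F * y) - y := fun y => by rw [← mul_assoc, hF]; noncomm_ring
  have h2 : ∀ y, E * (E * y) = -(E * y) - y := fun y => by rw [← mul_assoc, hE]; noncomm_ring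
  unfold zz; noncomm_ring [hF, hE, h1, h2, lit]

theorem zz_inv : zz F (-1 - E) = 1 - zz F E := by
  unfold zz; noncomm_ring

end Tr

theorem cube {g n x : A} (hx : x * x = -3) (h1 : x * g = g * x) (h2 : n * x = -(x * n))
    (h3 : n * n = 0) (h4 : n * g = g * n) :
    (g + n) * ((x - 1) * (g + n) * (-x - 1)) * ((-x - 1) * (g + n) * (x - 1)) = 16 * (g * g * g) := by
  have a0 : ∀ y, x * (x * y) = -(3 * y) := fun y => by rw [← mul_assoc, hx]; noncomm_ring
  have a1 : ∀ y, x * (g * y) = g * (x * y) := fun y => by rw [← mul_assoc, h1, mul_assoc]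
  have a2 : ∀ y, n * (x * y) = -(x * (n * y)) := fun y => by rw [← mul_assoc, h2]; noncomm_ring
  have a3 : ∀ y, n * (n * y) = 0 := fun y => by rw [← mul_assoc, h3, zero_mul]
  have a4 : ∀ y, n * (g * y) = g * (n * y) := fun y => by rw [← mul_assoc, h4, mul_assoc]
  noncomm_ring [hx, h1, h2, h3, h4, a0, a1, a2, a3, a4, lit, smul_zero, neg_zero]

theorem split {N x σ : A} (h2 : IsUnit (2 : A)) (hx : x * x = -3) (hσ : x * N = σ - N * x)
    (c1 : x * σ = σ * x) (c2 : N * σ = σ * N) (hN1 : Commute N ((x - 1) * N * (-x - 1)))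
    (hN2 : Commute N ((-x - 1) * N * (x - 1))) :
    (6 * N + σ * x) * x = -(x * (6 * N + σ * x)) ∧ σ * (6 * N + σ * x) = 0 ∧
      (6 * N + σ * x) * (6 * N + σ * x) = 0 := by
  have a0 : ∀ y, x * (x * y) = -(3 * y) := fun y => by rw [← mul_assoc, hx]; noncomm_ring
  have a1 : ∀ y, x * (N * y) = σ * y - N * (x * y) := fun y => by
    rw [← mul_assoc, hσ]; noncomm_ring
  have a2 : ∀ y, x * (σ * y) = σ * (x * y) := fun y => by rw [← mul_assoc, c1, mul_assoc]
  have a3 : ∀ y, N * (σ * y) = σ * (N * y) := fun y => by rw [← mul_assoc, c2, mul_assoc]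
  have b1 : σ * σ = 2 * (σ * (N * x)) := by
    refine h2.mul_left_cancel ?_
    linear_combination (norm := noncomm_ring [hx, hσ, c1, c2, a0, a1, a2, a3, lit])
      hN1.eq + hN2.eq
  have b2 : σ * N = 2 * (N * (N * x)) := by
    refine h2.mul_left_cancel (h2.mul_left_cancel ?_)
    linear_combination (norm := noncomm_ring [hx, hσ, c1, c2, a0, a1, a2, a3, lit])
      hN2.eq - hN1.eq
  have b3 : σ * (6 * N + σ * x) = 0 := by
    linear_combination (norm := noncomm_ring [hx, hσ, c1, c2, a0, a1, a2, a3, lit]) b1 * x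
  refine ⟨by noncomm_ring [hx, hσ, c1, c2, a0, a1, a2, a3, lit], b3, ?_⟩
  linear_combination (norm := noncomm_ring [hx, hσ, c1, c2, a0, a1, a2, a3, lit])
    x * b3 + 6 * (b2 * x)

/-- P1a: a `p`-element `c` with `c c^F c^{F²} = 1` (commuting factors, central traces) is quadratic -/
theorem quad_of_prod {p : ℕ} [hp : Fact p.Prime] [CharP A p] (hp3 : p ≠ 3) (h2 : IsUnit (2 : A))
    (h3 : IsUnit (3 : A)) {F c c' : A} (hF : F * F = -F - 1) (hc : c * c' = 1) (hc' : c' * c = 1)
    (t1 : Commute F (c + c'))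
    (s1 : Commute F ((c - c') * (2 * F + 1) + (2 * F + 1) * (c - c')))
    (s2 : Commute (c - c') ((c - c') * (2 * F + 1) + (2 * F + 1) * (c - c')))
    (hN1 : Commute (c - c') (F * (c - c') * (-1 - F)))
    (hN2 : Commute (c - c') ((-1 - F) * (c - c') * F))
    (hprod : c * (F * c * (-1 - F)) * ((-1 - F) * c * F) = 1) {k : ℕ} (hq : c ^ p ^ k = 1) :
    (c - 1) ^ 2 = 0 := by
  set N := c - c' with hN
  set x := 2 * F + 1 with hxd
  set σ := N * x + x * N with hσd
  set τ := c + c' with hτ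
  have a0 : ∀ y, F * (F * y) = -(F * y) - y := fun y => by rw [← mul_assoc, hF]; noncomm_ring
  have hx : x * x = -3 := by rw [hxd]; noncomm_ring [hF, a0, lit]
  have e1 : x - 1 = 2 * F := by rw [hxd]; noncomm_ring
  have e2 : -x - 1 = 2 * (-1 - F) := by rw [hxd]; noncomm_ring [lit]
  have cx : ∀ y, Commute F y → Commute x y := fun y hy =>
    (((Commute.ofNat_left 2 y).mul_left hy).add_left (Commute.one_left y))
  obtain ⟨b1, b2, b3⟩ := split (N := N) (σ := σ) h2 hx (by rw [hσd]; noncomm_ring) (cx _ s1).eq s2.eq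
    (by
      rw [e1, e2, show 2 * F * N * (2 * (-1 - F)) = 4 * (F * N * (-1 - F)) by noncomm_ring]
      exact (Commute.ofNat_right N 4).mul_right hN1)
    (by
      rw [e1, e2, show 2 * (-1 - F) * N * (2 * F) = 4 * ((-1 - F) * N * F) by noncomm_ring]
      exact (Commute.ofNat_right N 4).mul_right hN2)
  set n := 6 * N + σ * x with hn
  set g := 6 * τ - σ * x with hg
  have tN : Commute τ N := by
    change τ * N = N * τ
    rw [hτ, hN]; noncomm_ring [hc, hc']
  have tx : Commute τ x := (cx _ t1).symm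
  have tσ : Commute τ σ := (tN.mul_right tx).add_right (tx.mul_right tN)
  have tn : Commute τ n := ((Commute.ofNat_right τ 6).mul_right tN).add_right (tσ.mul_right tx)
  have σn : Commute σ n :=
    ((Commute.ofNat_right σ 6).mul_right s2.symm).add_right ((Commute.refl σ).mul_right (cx _ s1).symm)
  have gn : n * g = g * n := by
    rw [hg, mul_sub, sub_mul, ← mul_assoc n σ, ← σn.eq, b2, ← (cx _ s1).eq, mul_assoc x, b2,
      zero_mul, mul_zero, (((Commute.ofNat_left 6 n).mul_left tn)).eq]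
  have xg : x * g = g * x :=
    (((Commute.ofNat_right x 6).mul_right tx.symm).sub_right ((cx _ s1).mul_right (Commute.refl x))).eq
  have e3 : g + n = 12 * c := by rw [hg, hn, hτ, hN]; noncomm_ring
  have e4 := cube hx xg b1 b3 gn
  rw [e3, e1, e2] at e4
  have h12 : IsUnit (12 : A) := by
    convert h2.mul (h2.mul h3) using 1; norm_num
  have h16 : IsUnit (16 : A) := by
    convert h2.pow 4 using 1; norm_num
  have e5 : g * g * g = 12 * 12 * 12 := by
    refine h16.mul_left_cancel ?_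
    rw [← e4]
    linear_combination (norm := noncomm_ring [lit]) 27648 * hprod
  obtain ⟨u, hu⟩ := h12.exists_left_inv
  have uc : ∀ y, Commute u y := fun y => by
    have : (12 : A) * u = 1 := by rw [(Commute.ofNat_left 12 u).eq, hu]
    calc u * y = u * y * (12 * u) := by rw [this, mul_one]
      _ = u * 12 * y * u := by noncomm_ring
      _ = y * u := by rw [hu, one_mul]
  have e6 : c = u * g + u * n := by rw [← mul_add, e3, ← mul_assoc, hu, one_mul]
  have e7 : (u * g) ^ 3 = 1 := by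
    rw [(uc g).mul_pow, show g ^ 3 = 12 ^ 3 by rw [pow_three', e5, pow_three'],
      ← (uc 12).mul_pow, hu, one_pow]
  have e8 : (u * n) ^ 2 = 0 := by rw [(uc n).mul_pow, sq n, b3, mul_zero]
  have e9 : (u * g) ^ p ^ (k + 1) = 1 := by
    have h5 : c ^ p ^ (k + 1) = 1 := by rw [pow_succ, pow_mul, hq, one_pow]
    have h6 : Commute (u * g) (u * n) :=
      (uc _).mul_left ((uc g).symm.mul_right (show Commute g n from gn.symm))
    rw [e6, add_pow_char_pow_of_commute _ _ h6,
      pow_eq_zero_of_le (hp.out.two_le.trans (Nat.le_self_pow (Nat.succ_ne_zero k) p)) e8,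
      add_zero] at h5
    exact h5
  have e10 : u * g = 1 := by
    have := pow_gcd_eq_one.2 ⟨e7, e9⟩
    rwa [Nat.Coprime.gcd_eq_one (((Nat.coprime_primes Nat.prime_three hp.out).2 hp3.symm).pow_right _),
      pow_one] at this
  rw [e6, e10, add_sub_cancel_left, e8]

theorem ann_step {N G y y' : A} (cG : G * N = N * G) (cy : y * N = N * y)
    (h1 : N * G * y = N * y * G) (h2 : N * G * y' = N * y' * G) (h3 : N * y * y' = N * y' * y)
    (h4 : N * G ^ 3 = N) (hy : y ^ 3 = 1) :
    N * (G * y) * y = N * y * (G * y) ∧ N * (G * y) * y' = N * y' * (G * y) ∧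
      N * (G * y) ^ 3 = N := by
  have a1 : ∀ w, G * (N * w) = N * (G * w) := fun w => by rw [← mul_assoc, cG, mul_assoc]
  have a2 : ∀ w, y * (N * w) = N * (y * w) := fun w => by rw [← mul_assoc, cy, mul_assoc]
  refine ⟨?_, ?_, ?_⟩
  · linear_combination (norm := noncomm_ring) h1 * y
  · linear_combination (norm := noncomm_ring [a1, a2]) G * h3 + h2 * y
  · linear_combination (norm := noncomm_ring [a1, a2]) h4 + N * G ^ 3 * hy - G * h1 * (y * G * y)
      - G * G * y * h1 * y - G * G * h1 * (y * y)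

theorem cheb {G G' : A} (h : G * G' = 1) (h' : G' * G = 1) {R : Subring A} (hz : G + G' ∈ R) (n : ℕ) :
    (∃ β ∈ R, G ^ n - G' ^ n = β * (G - G')) ∧ ∃ β ∈ R, G ^ (n + 1) - G' ^ (n + 1) = β * (G - G') := by
  induction n with
  | zero => exact ⟨⟨0, R.zero_mem, by simp⟩, 1, R.one_mem, by simp⟩
  | succ n ih =>
    obtain ⟨⟨a, ha, e1⟩, b, hb, e2⟩ := ih
    refine ⟨⟨b, hb, e2⟩, (G + G') * b - a, R.sub_mem (R.mul_mem hz hb) ha, ?_⟩
    rw [sub_mul, mul_assoc, ← e1, ← e2, pow_succ' G (n + 1), pow_succ' G' (n + 1), pow_succ' G n,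
      pow_succ' G' n]
    linear_combination (norm := noncomm_ring) h * G' ^ n - h' * G ^ n

theorem comm_of_mem {z a r : A} (h : Commute a z) (hr : r ∈ Subring.closure {z}) : Commute a r := by
  have : Subring.closure {z} ≤ Subring.centralizer {a} :=
    Subring.closure_le.2 (Set.singleton_subset_iff.2 fun g hg => by rw [hg]; exact h)
  exact this hr a rfl

theorem comm_mem {z r s : A} (hr : r ∈ Subring.closure {z}) (hs : s ∈ Subring.closure {z}) :
    Commute r s := comm_of_mem (comm_of_mem (Commute.refl z) hr).symm hs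

theorem reduced {p : ℕ} [hp : Fact p.Prime] [CharP A p] {z : A} {t : ℕ} (ht : t ≠ 0)
    (hz : z ^ p ^ t = z) {r : A} (hr : r ∈ Subring.closure {z}) (hn : IsNilpotent r) : r = 0 := by
  have h1 : r ^ p ^ t = r := by
    clear hn
    induction hr using Subring.closure_induction with
    | mem x hx => rw [hx, hz]
    | zero => exact zero_pow (pow_pos hp.out.pos t).ne'
    | one => exact one_pow _
    | add x y hx hy ex ey => rw [add_pow_char_pow_of_commute _ _ (comm_mem hx hy), ex, ey]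
    | neg x hx ex =>
      rw [← zero_sub, sub_pow_char_pow_of_commute _ _ (Commute.zero_left x), ex,
        zero_pow (pow_pos hp.out.pos t).ne']
    | mul x y hx hy ex ey => rw [(comm_mem hx hy).mul_pow, ex, ey]
  obtain ⟨n, hn⟩ := hn
  have h2 : ∀ j, r ^ (p ^ t) ^ j = r := fun j => by
    induction j with
    | zero => simp
    | succ j ih => rw [pow_succ, pow_mul, ih, h1]
  rw [← h2 n]
  exact pow_eq_zero_of_le (Nat.lt_pow_self (Nat.one_lt_pow ht hp.out.one_lt)).le hn

theorem re_bound {ζ : ℂ} {N : ℕ} (hN : N ≠ 0) (h : ζ ^ N = 1) :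
    ∃ a : ℝ, ζ + ζ⁻¹ = a ∧ -2 ≤ a ∧ a ≤ 2 := by
  have h1 : ‖ζ‖ = 1 := Complex.norm_eq_one_of_pow_eq_one h hN
  have h2 := Complex.abs_re_le_norm ζ
  rw [h1, abs_le] at h2
  refine ⟨2 * ζ.re, ?_, by linarith, by linarith⟩
  rw [Complex.inv_eq_conj h1, Complex.add_conj]

end Cfsg.G41.PR
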