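import Cfsg.Agent.G41.PairA
import Cfsg.Agent.CT.GaloisField
import Cfsg.Agent.Mod.CoprimeLift

/-! S4841, `p ≥ 5`: a fixed-point-free pair of elements of order three in characteristic zero. -/

set_option autoImplicit false

namespace Cfsg.G41.PR

universe u v

theorem num {ζ ξ : ℂ} {N : ℕ} (hN : N ≠ 0) (hζ : ζ ^ N = 1) (hξ : ξ ^ N = 1)
    (h : ζ + ζ⁻¹ + (ξ + ξ⁻¹) = 1) :
    ζ + ζ⁻¹ = 0 ∨ ζ + ζ⁻¹ = 1 ∨ (ζ + ζ⁻¹) ^ 2 = ζ + ζ⁻¹ + 1 ∨ ζ = 1 ∨ ξ = 1 := by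
  have := finiteDimensional_cycField N
  have : NumberField (cycField N) := ⟨⟩
  let a : cycField N := ⟨ζ, mem_cycField_of_pow_eq_one hN hζ⟩
  let b : cycField N := ⟨ξ, mem_cycField_of_pow_eq_one hN hξ⟩
  have ha : a ^ N = 1 := Subtype.ext hζ
  have hb : b ^ N = 1 := Subtype.ext hξ
  have hab : a + a⁻¹ + (b + b⁻¹) = 1 := Subtype.ext h
  let l := a + a⁻¹
  let x := (l ^ 2 - l) * (l ^ 2 - l - 1) * (l ^ 2 - l - 2)
  have hlt : ∀ φ : cycField N →+* ℂ, ‖φ x‖ < 1 := fun φ => by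
    obtain ⟨r, hr, r1, r2⟩ := re_bound hN (ζ := φ a) (by rw [← map_pow, ha, map_one])
    obtain ⟨s, hs, s1, s2⟩ := re_bound hN (ζ := φ b) (by rw [← map_pow, hb, map_one])
    have h1 := congrArg φ hab
    simp only [map_add, map_inv₀, map_one, hr, hs] at h1
    have h2 : r + s = 1 := by exact_mod_cast h1
    have h3 : φ x = ((r ^ 2 - r) * (r ^ 2 - r - 1) * (r ^ 2 - r - 2) : ℝ) := by
      simp only [x, l, map_mul, map_sub, map_pow, map_add, map_inv₀, map_one, map_ofNat, hr]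
      push_cast; rfl
    rw [h3, Complex.norm_real, Real.norm_eq_abs, abs_lt]
    have h4 : -1 / 4 ≤ r ^ 2 - r := by nlinarith [sq_nonneg (r - 1 / 2)]
    have h5 : r ^ 2 - r ≤ 2 := by nlinarith
    generalize r ^ 2 - r = t at h4 h5
    constructor
    · nlinarith [mul_nonneg (sub_nonneg.2 h4) (sq_nonneg (t - 3 / 2)), sq_nonneg (t - 3 / 2)]
    · nlinarith [mul_nonneg (sub_nonneg.2 h5) (sq_nonneg (t - 1 / 2)), sq_nonneg (t - 1 / 2)]
  have hx : x = 0 := by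
    by_contra h0
    have i1 : IsIntegral ℤ a := IsIntegral.of_pow (Nat.pos_of_ne_zero hN) (ha ▸ isIntegral_one)
    have i2 : IsIntegral ℤ a⁻¹ :=
      IsIntegral.of_pow (Nat.pos_of_ne_zero hN) (by rw [inv_pow, ha, inv_one]; exact isIntegral_one)
    have i3 : IsIntegral ℤ (l ^ 2 - l) := ((i1.add i2).pow 2).sub (i1.add i2)
    have i4 : IsIntegral ℤ x := (i3.mul (i3.sub isIntegral_one)).mul
      (i3.sub (by convert isIntegral_one.add (isIntegral_one (R := ℤ) (B := cycField N)) using 1; norm_num))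
    obtain ⟨n, hn, e⟩ := NumberField.Embeddings.pow_eq_one_of_norm_le_one (cycField N) ℂ h0 i4
      fun φ => (hlt φ).le
    have h1 := hlt (cycField N).subtype
    rw [Complex.norm_eq_one_of_pow_eq_one (by rw [← map_pow, e, map_one]) hn.ne'] at h1
    exact lt_irrefl _ h1
  have h0 : ζ ≠ 0 := fun e => by rw [e, zero_pow hN] at hζ; exact zero_ne_one hζ
  have h0' : ξ ≠ 0 := fun e => by rw [e, zero_pow hN] at hξ; exact zero_ne_one hξ
  have hx' : (ζ + ζ⁻¹) * (ζ + ζ⁻¹ - 1) * ((ζ + ζ⁻¹) ^ 2 - (ζ + ζ⁻¹ + 1)) * (ζ + ζ⁻¹ - 2) *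
      (ξ + ξ⁻¹ - 2) = 0 := by
    have := congrArg (cycField N).subtype hx
    simp only [x, l, map_mul, map_sub, map_pow, map_add, map_inv₀, map_one, map_ofNat,
      map_zero] at this
    change ((ζ + ζ⁻¹) ^ 2 - (ζ + ζ⁻¹)) * ((ζ + ζ⁻¹) ^ 2 - (ζ + ζ⁻¹) - 1) *
      ((ζ + ζ⁻¹) ^ 2 - (ζ + ζ⁻¹) - 2) = 0 at this
    rw [eq_sub_of_add_eq' h]
    linear_combination -this
  have key : ∀ w : ℂ, w ≠ 0 → w + w⁻¹ - 2 = 0 → w = 1 := fun w hw e => by
    have : (w - 1) ^ 2 = 0 := by field_simp at e; linear_combination e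
    exact sub_eq_zero.1 (pow_eq_zero_iff two_ne_zero |>.1 this)
  simp only [mul_eq_zero] at hx'
  rcases hx' with (((e | e) | e) | e) | e
  · exact .inl e
  · exact .inr (.inl (sub_eq_zero.1 e))
  · exact .inr (.inr (.inl (sub_eq_zero.1 e)))
  · exact .inr (.inr (.inr (.inl (key _ h0 e))))
  · exact .inr (.inr (.inr (.inr (key _ h0' e))))

theorem finrank_inv {G : Type u} [Group G] [Finite G] {n : ℕ} (ρ : Representation ℂ G (Fin n → ℂ))
    (H : Subgroup G) :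
    Module.finrank ℂ (Representation.invariants (ρ.comp H.subtype)) = fixDim H ρ.character := by
  have := Fintype.ofFinite H
  have h0 : (Nat.card H : ℂ) ≠ 0 := by exact_mod_cast Nat.card_pos.ne'
  have := invertibleOfNonzero h0
  apply Nat.cast_injective (R := ℂ)
  rw [← Representation.card_inv_mul_sum_char_eq_finrank, inv_mul_eq_iff_eq_mul₀ h0,
    IsCharacter.card_mul_fixDim ⟨n, ρ, rfl⟩]
  rfl

theorem exists_free_lift {p : ℕ} [Fact p.Prime] {V : Type v} [AddCommGroup V] [Module (ZMod p) V]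
    [Finite V] [Nontrivial V] {Y : Type u} [Group Y] [Finite Y] (ρ : Y →* Module.End (ZMod p) V)
    (hY : ¬ p ∣ Nat.card Y) (hf : ∀ y v, v ≠ 0 → ρ y v = v → y = 1) :
    ∃ (n : ℕ) (σ : Y →* Module.End ℂ (Fin n → ℂ)), Nontrivial (Fin n → ℂ) ∧
      ∀ y v, v ≠ 0 → σ y v = v → y = 1 := by
  obtain ⟨χ, ⟨n, σ, rfl⟩, h1, -⟩ := exists_brauer_lift_rep ρ (MonoidHom.id Y) hY
  refine ⟨n, σ, ?_, fun y v hv e => by_contra fun hy => ?_⟩
  · have h2 := h1 ⊥
    rw [← finrank_inv] at h2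
    by_contra h3
    rw [not_nontrivial_iff_subsingleton] at h3
    rw [Module.finrank_zero_of_subsingleton, pow_zero, Nat.card_eq_one_iff_unique] at h2
    obtain ⟨v, hv⟩ := exists_ne (0 : V)
    exact hv (congrArg Subtype.val (h2.1.elim ⟨v, fun g => by
      rw [Subsingleton.elim g 1, map_one]; rfl⟩ 0))
  · have h2 := h1 (Subgroup.zpowers y)
    rw [← finrank_inv] at h2
    have h3 : Representation.invariants (ρ.comp ((MonoidHom.id Y).comp
        (Subgroup.zpowers y).subtype)) = ⊥ := by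
      rw [eq_bot_iff]
      intro w hw
      by_contra h0
      exact hy (hf y w h0 (hw ⟨y, Subgroup.mem_zpowers y⟩))
    rw [h3, Nat.card_unique, eq_comm, Nat.pow_eq_one, Submodule.finrank_eq_zero] at h2
    rcases h2 with h2 | h2
    · exact (Fact.out : p.Prime).ne_one h2
    · have : v ∈ Representation.invariants (σ.comp (Subgroup.zpowers y).subtype) := by
        rintro ⟨g, hg⟩
        obtain ⟨k, rfl⟩ := mem_powers_iff_mem_zpowers.2 hg
        change σ (y ^ k) v = v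
        clear hg
        induction k with
        | zero => simp
        | succ k ih => rw [pow_succ, map_mul, Module.End.mul_apply, e, ih]
      rw [h2] at this
      exact hv this

theorem num2 {ζ : ℂ} (h0 : ζ ≠ 0) (h : ζ + ζ⁻¹ = 0 ∨ ζ + ζ⁻¹ = 1 ∨ (ζ + ζ⁻¹) ^ 2 = ζ + ζ⁻¹ + 1) :
    ¬ ζ ^ 2 = 1 ∧ (ζ ^ 4 = 1 ∨ (ζ ^ 6 = 1 ∧ ¬ ζ ^ 3 = 1) ∨ (ζ ^ 10 = 1 ∧ ¬ ζ ^ 5 = 1)) := by
  rcases h with h | h | h <;> field_simp at h
  · exact ⟨fun h' => by grind, .inl (by grind)⟩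
  · exact ⟨fun h' => by grind, .inr (.inl ⟨by grind, fun h' => by grind⟩)⟩
  · exact ⟨fun h' => by grind, .inr (.inr ⟨by grind, fun h' => by grind⟩)⟩

theorem aux3 {A : Type*} [Ring A] {x : A} (h : x ^ 3 = 1) :
    x * (x * x - (-x - 1)) = x * x - (-x - 1) := by
  linear_combination (norm := noncomm_ring) h

theorem aux4 {A : Type*} [Ring A] (x y : A) :
    x * y + (-1 - y) * (-1 - x) + (x * (-1 - y) + y * (-1 - x)) = 1 := by noncomm_ring

/-- orders of products of fixed-point-free elements of order three -/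
theorem order_of_free {Y : Type u} [Group Y] [Finite Y] {n : ℕ} (σ : Y →* Module.End ℂ (Fin n → ℂ))
    [Nontrivial (Fin n → ℂ)] (hf : ∀ y v, v ≠ 0 → σ y v = v → y = 1) {f e : Y}
    (f3 : orderOf f = 3) (e3 : orderOf e = 3) (h1 : f * e ≠ 1) (h2 : f * e⁻¹ ≠ 1) :
    (f * e) ^ 2 ≠ 1 ∧ ((f * e) ^ 4 = 1 ∨ ((f * e) ^ 6 = 1 ∧ (f * e) ^ 3 ≠ 1) ∨
      ((f * e) ^ 10 = 1 ∧ (f * e) ^ 5 ≠ 1)) := by
  have o3 : ∀ y, orderOf y = 3 → σ y * σ y = -σ y - 1 ∧ σ y⁻¹ = -1 - σ y := fun y hy => by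
    have h3 : y ^ 3 = 1 := hy ▸ pow_orderOf_eq_one y
    have h4 : σ y * σ y = -σ y - 1 := by
      refine LinearMap.ext fun v => ?_
      by_contra h0
      have h5 : y = 1 := hf y _ (sub_ne_zero.2 h0) (by
        change (σ y * (σ y * σ y - (-σ y - 1))) v = (σ y * σ y - (-σ y - 1)) v
        congr 1
        exact aux3 (by rw [← map_pow, h3, map_one]))
      rw [h5, orderOf_one] at hy
      omega
    refine ⟨h4, ?_⟩
    rw [show y⁻¹ = y * y by rw [eq_comm, ← mul_eq_one_iff_eq_inv, ← pow_three', h3], map_mul, h4]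
    abel
  have eig : ∀ (y : Y) (c : ℂ) (v : Fin n → ℂ), v ≠ 0 → σ y v = c • v →
      (∀ m, y ^ m = 1 ↔ c ^ m = 1) ∧ σ y⁻¹ v = c⁻¹ • v := fun y c v hv h => by
    have a1 : ∀ m, σ (y ^ m) v = c ^ m • v := fun m => by
      induction m with
      | zero => simp
      | succ m ih => rw [pow_succ, map_mul, Module.End.mul_apply, h, map_smul, ih, smul_smul, pow_succ']
    have a2 : v = c • σ y⁻¹ v := by
      rw [← map_smul, ← h, ← Module.End.mul_apply, ← map_mul, inv_mul_cancel, map_one]; rfl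
    have a3 : c ≠ 0 := fun h0 => hv (by rw [a2, h0, zero_smul])
    refine ⟨fun m => ⟨fun hm => ?_, fun hm => hf _ v hv (by rw [a1, hm, one_smul])⟩, ?_⟩
    · have := a1 m
      rw [hm, map_one, Module.End.one_apply] at this
      exact (smul_left_injective ℂ hv (by simpa using this) : 1 = c ^ m).symm
    · rw [eq_inv_smul_iff₀ a3, ← a2]
  obtain ⟨ζ, hζ⟩ := Module.End.exists_eigenvalue (σ (f * e))
  obtain ⟨v, hv⟩ := hζ.exists_hasEigenvector
  obtain ⟨k1, k2⟩ := eig _ _ v hv.2 hv.apply_eq_smul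
  have hsum : σ (f * e) + σ (f * e)⁻¹ + (σ (f * e⁻¹) + σ (f * e⁻¹)⁻¹) = 1 := by
    simp only [mul_inv_rev, inv_inv, map_mul, (o3 f f3).2, (o3 e e3).2]
    exact aux4 _ _
  have hv2 : σ (f * e⁻¹) v + σ (f * e⁻¹)⁻¹ v = (1 - (ζ + ζ⁻¹)) • v := by
    have := congrArg (· v) hsum
    simp only [LinearMap.add_apply, hv.apply_eq_smul, k2, Module.End.one_apply] at this
    rw [sub_smul, add_smul, one_smul]
    exact eq_sub_of_add_eq' this
  obtain ⟨ξ, w, hw, hw2, hξ⟩ : ∃ (ξ : ℂ) (w : Fin n → ℂ), w ≠ 0 ∧ σ (f * e⁻¹) w = ξ • w ∧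
      ξ + ξ⁻¹ = 1 - (ζ + ζ⁻¹) := by
    obtain ⟨ξ, hξ⟩ := IsAlgClosed.exists_pow_nat_eq ((1 - (ζ + ζ⁻¹)) ^ 2 - 4) two_pos
    generalize 1 - (ζ + ζ⁻¹) = μ at hv2 hξ
    have b1 : ((μ + ξ) / 2)⁻¹ = (μ - ξ) / 2 :=
      inv_eq_of_mul_eq_one_right (by linear_combination (-1 / 4) * hξ)
    by_cases h0 : σ (f * e⁻¹) v = ((μ - ξ) / 2) • v
    · exact ⟨_, v, hv.2, h0, by rw [← b1, inv_inv, b1]; ring⟩
    refine ⟨(μ + ξ) / 2, _, sub_ne_zero.2 h0, ?_, by rw [b1]; ring⟩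
    have b2 := congrArg (σ (f * e⁻¹)) hv2
    rw [map_add, map_smul, ← Module.End.mul_apply _ (σ (f * e⁻¹)⁻¹), ← map_mul, mul_inv_cancel,
      map_one, Module.End.one_apply] at b2
    rw [map_sub, map_smul, eq_sub_of_add_eq b2, smul_sub, smul_smul,
      show (μ + ξ) / 2 * ((μ - ξ) / 2) = 1 by linear_combination (-1 / 4) * hξ, one_smul]
    module
  obtain ⟨k3, -⟩ := eig _ _ w hw hw2
  have hN := (Nat.card_pos (α := Y)).ne'
  have hζN := (k1 _).1 pow_card_eq_one'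
  have h0 : ζ ≠ 0 := fun e => by rw [e, zero_pow hN] at hζN; exact zero_ne_one hζN
  simp only [ne_eq, k1]
  rcases num hN hζN ((k3 _).1 pow_card_eq_one') (by rw [hξ]; ring) with h | h | h | h | h
  · exact num2 h0 (.inl h)
  · exact num2 h0 (.inr (.inl h))
  · exact num2 h0 (.inr (.inr h))
  · exact absurd (by simpa using (k1 1).2 (by simpa using h)) h1
  · exact absurd (by simpa using (k3 1).2 (by simpa using h)) h2

end Cfsg.G41.PR
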