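import Cfsg.Agent.Blk.Comb
import Cfsg.Agent.GW.BSWb

/-! Combinatorics of the columns of a 2-block with large dihedral defect group. -/

set_option autoImplicit false

namespace Cfsg.G41.Phi

open Cfsg.GW

variable {ι : Type*} [DecidableEq ι] {s : Finset ι} {d T u w : ι → ℤ}

theorem pair (hd : ∀ x ∈ s, 0 < d x) (uu : ∑ x ∈ s, u x * u x = 3)
    (ww : ∑ x ∈ s, w x * w x = 3) (uw : ∑ x ∈ s, u x * w x = 2) (ud : ∑ x ∈ s, u x * d x = 0)
    (wd : ∑ x ∈ s, w x * d x = 0) (uT : ∑ x ∈ s, u x * T x = -4) (wT : ∑ x ∈ s, w x * T x = 0)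
    (hF : ∑ x ∈ s, (u x : ℚ) * ((T x : ℚ) ^ 2 / d x) = ∑ x ∈ s, (w x : ℚ) * ((T x : ℚ) ^ 2 / d x)) :
    ∃ a ∈ s, ∃ b ∈ s, (u a = 1 ∨ u a = -1) ∧ w a = 0 ∧ u b = 0 ∧ w b = u a ∧
      u a * T a = -2 ∧ w b * T b = 2 ∧ ∀ x ∈ s, x ≠ a → x ≠ b → u x = w x := by
  obtain ⟨a, ha, b, hb, ab, g1, g2, g3, g4⟩ := exists_of_sum_sq_eq_two (B := s)
    (w := fun x => u x - w x) (by
      rw [Finset.sum_congr rfl fun x _ => show (u x - w x) * (u x - w x) =
        u x * u x + w x * w x - 2 * (u x * w x) by ring, Finset.sum_sub_distrib,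
        Finset.sum_add_distrib, ← Finset.mul_sum, uu, ww, uw]; rfl)
  have e1 := g4 d
  have e2 := g4 T
  have e3 := g4 fun x => u x + w x
  rw [Finset.sum_congr rfl fun x _ => show (u x - w x) * (u x + w x) =
    u x * u x - w x * w x by ring, Finset.sum_sub_distrib, uu, ww] at e3
  rw [Finset.sum_congr rfl fun x _ => sub_mul _ _ _, Finset.sum_sub_distrib] at e1 e2
  rw [ud, wd] at e1
  rw [uT, wT] at e2
  have e4 := Finset.sum_eq_add_of_mem (f := fun x => ((u x - w x : ℤ) : ℚ) * ((T x : ℚ) ^ 2 / d x))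
    a b ha hb ab fun c hc h => by rw [g3 c hc h.1 h.2]; simp
  rw [Finset.sum_congr rfl fun x _ => by rw [Int.cast_sub, sub_mul], Finset.sum_sub_distrib, hF,
    sub_self] at e4
  have da := hd a ha
  have db := hd b hb
  have t : ∀ {v : ι → ℤ}, ∑ x ∈ s, v x * v x = 3 → ∀ x ∈ s, v x = 0 ∨ v x = 1 ∨ v x = -1 :=
    fun h x hx => or_iff_not_imp_left.2 (eq_one_or_of_sum_sq_le_three h.le hx)
  have e5 : d a = d b ∧ u b - w b = -(u a - w a) := by
    rcases g1 with g1 | g1 <;> rcases g2 with g2 | g2 <;> rw [g1, g2] at e1 ⊢ <;> omega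
  have e6 : T a ^ 2 = T b ^ 2 := by
    have : (d b : ℚ) ≠ 0 := by exact_mod_cast db.ne'
    rw [e5.1, e5.2] at e4
    rcases g1 with g1 | g1 <;> rw [g1] at e4 <;> field_simp at e4 <;> push_cast at e4 <;>
      exact_mod_cast (by linarith : (T a : ℚ) ^ 2 = T b ^ 2)
  have e7 : (u a - w a) * T a = -2 ∧ (u a - w a) * T b = 2 := by
    rw [e5.2] at e2
    rcases sq_eq_sq_iff_eq_or_eq_neg.1 e6 with e | e <;> rw [e] at e2 ⊢ <;>
      rcases g1 with g1 | g1 <;> rw [g1] at e2 ⊢ <;> omega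
  by_cases h0 : w a = 0
  · have : u b = 0 := by
      rcases t uu a ha with h | h | h <;> rcases t uu b hb with h' | h' | h' <;>
        rcases t ww b hb with h'' | h'' | h'' <;> rw [h, h', h'', h0] at e3 <;> omega
    refine ⟨a, ha, b, hb, by omega, h0, this, by omega, by simpa [h0] using e7.1, ?_,
      fun x hx h1 h2 => sub_eq_zero.1 (g3 x hx h1 h2)⟩
    rw [← e7.2, show w b = u a - w a by omega]
  · have : u a = 0 ∧ w b = 0 := by
      rcases t uu a ha with h | h | h <;> rcases t uu b hb with h' | h' | h' <;>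
        rcases t ww b hb with h'' | h'' | h'' <;> rcases t ww a ha with h3 | h3 | h3 <;>
          rw [h, h', h'', h3] at e3 <;> omega
    refine ⟨b, hb, a, ha, by omega, this.2, this.1, by omega, ?_, ?_,
      fun x hx h1 h2 => sub_eq_zero.1 (g3 x hx h2 h1)⟩
    · rw [show u b = -(u a - w a) by omega, neg_mul, e7.2]
    · rw [show w a = -(u a - w a) by omega, neg_mul, e7.1]; rfl

/-- the third element of the support of a column of norm three -/
theorem third (uu : ∑ x ∈ s, u x * u x = 3) {a b : ι} (ha : a ∈ s) (hb : b ∈ s) (ab : a ≠ b)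
    (a0 : u a ≠ 0) (b0 : u b ≠ 0) : ∃ c ∈ s, c ≠ a ∧ (u c = 1 ∨ u c = -1) ∧
      ∀ {R : Type} [CommRing R] (F : ι → R),
        ∑ x ∈ s, u x * F x = u a * F a + u b * F b + u c * F c := by
  have h1 : ∀ x ∈ s, u x ≠ 0 → u x ^ 2 = 1 := fun x hx h =>
    sq_eq_one_iff.2 (eq_one_or_of_sum_sq_le_three uu.le hx h)
  obtain ⟨y, hy, z, hz, ay, az, yz, y1, z1, hF⟩ :=
    bsw_three (w := u) (by simpa only [sq] using uu) ha (h1 a ha a0)
  have h2 := hF fun x => if x = b then (1 : ℤ) else 0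
  simp only [mul_ite, mul_one, mul_zero, Finset.sum_ite_eq', hb, if_true, if_neg ab,
    Int.cast_id] at h2
  by_cases e : y = b
  · subst e
    exact ⟨z, hz, az.symm, sq_eq_one_iff.1 z1, hF⟩
  · by_cases e' : z = b
    · subst e'
      exact ⟨y, hy, ay.symm, sq_eq_one_iff.1 y1, fun F => by rw [hF]; ring⟩
    · simp [e, e', b0] at h2

theorem exotic (hd : ∀ x ∈ s, 0 < d x) (uu : ∑ x ∈ s, u x * u x = 3)
    (ud : ∑ x ∈ s, u x * d x = 0) (uT : ∑ x ∈ s, u x * T x = 0) {a b : ι} (ha : a ∈ s) (hb : b ∈ s)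
    (ab : a ≠ b) (h1 : u a * T a = 2) (h2 : u b * T b = 2) (e : u a * d a = u b * d b) :
    ∑ x ∈ s, (u x : ℚ) * ((T x : ℚ) ^ 2 / d x) = 0 := by
  have a0 : u a ≠ 0 := fun e => by simp [e] at h1
  have b0 : u b ≠ 0 := fun e => by simp [e] at h2
  obtain ⟨z, hz, -, z1, h⟩ := third uu ha hb ab a0 b0
  have a1 := eq_one_or_of_sum_sq_le_three uu.le ha a0
  have b1 := eq_one_or_of_sum_sq_le_three uu.le hb b0
  have e3 := h T
  have e4 := h d
  simp only [Int.cast_id, uT, ud, h1, h2] at e3 e4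
  have dx : (d a : ℚ) ≠ 0 := by exact_mod_cast (hd a ha).ne'
  have hx' := hd a ha
  have hc' := hd b hb
  have hz' := hd z hz
  obtain ⟨f1, f3, f4, f5⟩ : u a = u b ∧ d b = d a ∧ u z = -u b ∧ d z = 2 * d a := by
    rcases a1 with q1 | q1 <;> rcases b1 with p1 | p1 <;> rcases z1 with z1 | z1 <;>
      rw [q1, p1] at e e4 ⊢ <;> rw [z1] at e4 ⊢ <;> omega
  have sq : ∀ {x y c : ℤ}, x = 1 ∨ x = -1 → x * y = c → y ^ 2 = c ^ 2 := by
    rintro x y c (rfl | rfl) rfl <;> ring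
  rw [h, f1, f3, f4, f5, ← Int.cast_pow, ← Int.cast_pow, ← Int.cast_pow, sq a1 h1, sq b1 h2,
    sq z1 (show u z * T z = -4 by linarith)]
  push_cast
  field_simp
  ring

theorem lt_four (hd : ∀ x ∈ s, 0 < d x) (uu : ∑ x ∈ s, u x * u x = 4)
    (ud : ∑ x ∈ s, u x * d x = 0) {z : ι} (hz : z ∈ s) : -2 < u z ∧ u z < 2 := by
  suffices u z ^ 2 < 4 by constructor <;> nlinarith
  by_contra! h4
  rw [← Finset.add_sum_erase _ _ hz] at uu ud
  have h6 : ∑ x ∈ s.erase z, u x * u x = 0 := by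
    have := Finset.sum_nonneg (s := s.erase z) fun x _ => mul_self_nonneg (u x)
    nlinarith
  rw [Finset.sum_eq_zero fun x hx => by
    rw [mul_self_eq_zero.1 ((Finset.sum_eq_zero_iff_of_nonneg fun x _ =>
      mul_self_nonneg (u x)).1 h6 x hx), zero_mul], add_zero, mul_eq_zero] at ud
  have := hd z hz
  rcases ud with h5 | h5
  · rw [h5] at h4; omega
  · omega

theorem comb {m : ℕ} (hm : 4 ≤ m) (b : ℕ → ι → ℤ) {F : ℚ} (hF0 : F ≠ 0)
    (hd : ∀ x ∈ s, 0 < d x) (hT0 : ∀ x ∈ s, T x ≠ 0)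
    (hbb : ∀ i j, 0 < i → i ≤ m → 0 < j → j ≤ m → ∑ x ∈ s, b i x * b j x =
      2 + (if i = j then 1 else 0) + if i + j = 2 * m then 1 else 0)
    (hbd : ∀ j, 0 < j → j ≤ m → ∑ x ∈ s, b j x * d x = 0)
    (hbT : ∀ j, 0 < j → j < m → ∑ x ∈ s, b j x * T x = 2 * (-1) ^ j - 2)
    (hT : ∀ x ∈ s, ∀ ε, (∀ j, 0 < j → j < m → b j x = ε) → T x = b m x - 2 * ε)
    (hF : ∀ j, 0 < j → j < m → ∑ x ∈ s, (b j x : ℚ) * ((T x : ℚ) ^ 2 / d x) = F) :
    ∃ x ∈ s, ∃ y ∈ s, ∃ ε δ : ℤ, (ε = 1 ∨ ε = -1) ∧ (δ = 1 ∨ δ = -1) ∧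
      (∀ j, 0 < j → j ≤ m → b j x = ε ∧ b j y = δ) ∧
      F = ((ε * d x : ℤ) : ℚ)⁻¹ + ((δ * d y : ℤ) : ℚ)⁻¹ - 4 * ((ε * d x + δ * d y : ℤ) : ℚ)⁻¹ := by
  have n3 : ∀ j, 0 < j → j < m → ∑ x ∈ s, b j x * b j x = 3 := fun j h1 h2 => by
    rw [hbb j j h1 h2.le h1 h2.le, if_pos rfl, if_neg (by omega)]; rfl
  have n2 : ∀ i j, 0 < i → i < m → 0 < j → j ≤ m → i ≠ j → ∑ x ∈ s, b i x * b j x = 2 :=
    fun i j h1 h2 h3 h4 h5 => by rw [hbb i j h1 h2.le h3 h4, if_neg h5, if_neg (by omega)]; rfl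
  have To : ∀ j, 0 < j → j < m → Odd j → ∑ x ∈ s, b j x * T x = -4 := fun j h1 h2 h3 => by
    rw [hbT j h1 h2, h3.neg_one_pow]; rfl
  have P := fun i j h1 h2 h3 h4 (ho : Odd i) (he : Even j) => pair hd (n3 i h1 h2) (n3 j h3 h4)
    (n2 i j h1 h2 h3 h4.le fun e => Nat.not_even_iff_odd.2 ho (e ▸ he)) (hbd i h1 h2.le)
    (hbd j h3 h4.le) (To i h1 h2 ho) (by rw [hbT j h3 h4, he.neg_one_pow]; rfl)
    ((hF i h1 h2).trans (hF j h3 h4).symm)
  obtain ⟨c₁, m1, c₂, m2, p1, p2, p3, p4, p5, p6, p7⟩ :=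
    P 1 2 one_pos (by omega) two_pos (by omega) odd_one even_two
  have key : ∀ x ∈ s, x ≠ c₁ → b 1 x ≠ 0 → ∀ j, 0 < j → j < m → b j x = b 1 x := by
    intro x hx x1 x0 j j1 j2
    have x2 : x ≠ c₂ := fun e => x0 (e ▸ p3)
    rcases Nat.even_or_odd j with he | ho
    · obtain ⟨a, ha, a', ha', q1, q2, q3, q4, q5, q6, q7⟩ :=
        P 1 j one_pos (by omega) j1 j2 odd_one he
      refine (q7 x hx (fun e => ?_) fun e => x0 (e ▸ q3)).symm
      subst e
      obtain ⟨z, hz, -, z1, h⟩ := third (n3 1 one_pos (by omega)) hx m1 x1 x0 (by omega)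
      have := h T
      simp only [Int.cast_id, To 1 one_pos (by omega) odd_one, q5, p5] at this
      have := hT0 z hz
      rcases z1 with z1 | z1 <;> simp only [z1] at * <;> omega
    · by_cases j3 : j = 1
      · rw [j3]
      obtain ⟨a, ha, a', ha', q1, q2, q3, q4, q5, q6, q7⟩ :=
        P j 2 j1 j2 two_pos (by omega) ho even_two
      have x3 := p7 x hx x1 x2
      refine (q7 x hx (fun e => x0 (by rw [x3, e, q2])) fun e => hF0 ?_).trans x3.symm
      subst e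
      have c3 : b j c₂ = b 2 c₂ := q7 c₂ m2 (fun e => by rw [e, q2] at p4; omega) x2.symm
      obtain ⟨y, hy, y', hy', yy, -, -, g3, g4⟩ := exists_of_sum_sq_eq_two (B := s)
        (w := fun x => b 1 x - b j x) (by
          rw [Finset.sum_congr rfl fun x _ => show (b 1 x - b j x) * (b 1 x - b j x) =
            b 1 x * b 1 x + b j x * b j x - 2 * (b 1 x * b j x) by ring, Finset.sum_sub_distrib,
            Finset.sum_add_distrib, ← Finset.mul_sum, n3 1 one_pos (by omega), n3 j j1 j2,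
            n2 1 j one_pos (by omega) j1 j2.le (Ne.symm j3)]; rfl)
      have e1 := g4 d
      rw [Finset.sum_congr rfl fun x _ => sub_mul _ _ _, Finset.sum_sub_distrib,
        hbd 1 one_pos (by omega), hbd j j1 j2.le] at e1
      have e2 : b 2 x * d x = b 2 c₂ * d c₂ := by
        have h1 : x = y ∨ x = y' := by
          by_contra! h; exact x0 (by simpa [q3] using g3 x hx h.1 h.2)
        have h2 : c₂ = y ∨ c₂ = y' := by
          by_contra! h
          have := g3 c₂ m2 h.1 h.2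
          omega
        rcases h1 with rfl | rfl <;> rcases h2 with rfl | rfl
        · exact absurd rfl x2
        · rw [q3, p3, c3, x3] at e1; linarith
        · rw [q3, p3, c3, x3] at e1; linarith
        · exact absurd rfl x2
      rw [← hF 2 two_pos (by omega)]
      exact exotic hd (n3 2 two_pos (by omega)) (hbd 2 two_pos (by omega))
        (by rw [hbT 2 two_pos (by omega)]; rfl) hx m2 x2 q6 p6 e2
  obtain ⟨x, hx, y, hy, x1, y1, xy, x2, y2, h⟩ := bsw_three (w := b 1)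
    (by simpa only [sq] using n3 1 one_pos (by omega)) m1 (sq_eq_one_iff.2 p1)
  replace x2 := sq_eq_one_iff.1 x2
  replace y2 := sq_eq_one_iff.1 y2
  have kx := key x hx x1.symm (by omega)
  have ky := key y hy y1.symm (by omega)
  have tx := hT x hx _ kx
  have ty := hT y hy _ ky
  have e1 := h T
  have e2 := h d
  simp only [Int.cast_id, To 1 one_pos (by omega) odd_one, p5, hbd 1 one_pos (by omega)] at e1 e2
  have n4 : ∑ x ∈ s, b m x * b m x = 4 := by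
    rw [hbb m m (by omega) le_rfl (by omega) le_rfl, if_pos rfl, if_pos (two_mul m).symm]; rfl
  have bx := lt_four hd n4 (hbd m (by omega) le_rfl) hx
  have by' := lt_four hd n4 (hbd m (by omega) le_rfl) hy
  have e3 : b m x = b 1 x ∧ b m y = b 1 y := by
    rw [tx, ty] at e1
    rcases x2 with x2 | x2 <;> rcases y2 with y2 | y2 <;> rw [x2, y2] at e1 ⊢ <;> omega
  refine ⟨x, hx, y, hy, _, _, x2, y2, fun j j1 j2 => ?_, ?_⟩
  · rcases j2.eq_or_lt with rfl | j2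
    exacts [e3, ⟨kx j j1 j2, ky j j1 j2⟩]
  · have f2 : T x ^ 2 = 1 ∧ T y ^ 2 = 1 ∧ T c₁ ^ 2 = 4 := by
      rw [tx, ty, e3.1, e3.2]
      refine ⟨?_, ?_, ?_⟩
      · rcases x2 with e | e <;> rw [e] <;> rfl
      · rcases y2 with e | e <;> rw [e] <;> rfl
      · rcases p1 with e | e <;> rw [e] at p5
        · rw [show T c₁ = -2 by omega]; rfl
        · rw [show T c₁ = 2 by omega]; rfl
    rw [← hF 1 one_pos (by omega), h, ← Int.cast_pow, ← Int.cast_pow, ← Int.cast_pow, f2.1,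
      f2.2.1, f2.2.2, show b 1 x * d x + b 1 y * d y = -(b 1 c₁ * d c₁) by linarith]
    rcases x2 with x2 | x2 <;> rcases y2 with y2 | y2 <;> rcases p1 with p1 | p1 <;>
      rw [x2, y2, p1] <;> push_cast <;> ring

theorem arith {z x y : ℤ} (hz : 17 ≤ z ∨ z ≤ -15) (hx : 17 ≤ x ∨ x ≤ -15) (hy : 17 ≤ y ∨ y ≤ -15)
    (hs : 0 ≤ z + x ∨ z + x ≤ -14) :
    (z : ℚ)⁻¹ + (x : ℚ)⁻¹ - 4 * ((z + x : ℤ) : ℚ)⁻¹ < 1 / 2 ∧
      1 / 2 < 1 + (y : ℚ)⁻¹ - 4 * ((1 + y : ℤ) : ℚ)⁻¹ := by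
  have u1 : ∀ {a : ℤ}, 17 ≤ a ∨ a ≤ -15 → (a : ℚ)⁻¹ ≤ 1 / 17 ∧ -1 / 15 ≤ (a : ℚ)⁻¹ := by
    intro a ha
    rcases ha with h | h
    · have h : (17 : ℚ) ≤ a := by exact_mod_cast h
      exact ⟨by rw [one_div]; exact inv_anti₀ (by norm_num) h,
        le_trans (by norm_num) (inv_nonneg.2 (by linarith))⟩
    · have h : (a : ℚ) ≤ -15 := by exact_mod_cast h
      refine ⟨le_trans (inv_nonpos.2 (by linarith)) (by norm_num), ?_⟩
      have := inv_anti₀ (by norm_num) (show (15 : ℚ) ≤ -a by linarith)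
      rw [inv_neg] at this
      linarith
  have u2 : ∀ {a : ℤ}, 0 ≤ a ∨ a ≤ -14 → -1 / 14 ≤ (a : ℚ)⁻¹ := by
    intro a ha
    rcases ha with h | h
    · exact le_trans (by norm_num) (inv_nonneg.2 (by exact_mod_cast h))
    · have h : (a : ℚ) ≤ -14 := by exact_mod_cast h
      have := inv_anti₀ (by norm_num) (show (14 : ℚ) ≤ -a by linarith)
      rw [inv_neg] at this
      linarith
  have u3 : ((1 + y : ℤ) : ℚ)⁻¹ ≤ 1 / 17 := by
    rcases hy with h | h
    · exact (u1 (.inl (by omega))).1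
    · exact le_trans (inv_nonpos.2 (by exact_mod_cast (by omega : 1 + y ≤ 0))) (by norm_num)
  have := u1 hz
  have := u1 hx
  have := u1 hy
  have := u2 hs
  constructor <;> linarith

end Cfsg.G41.Phi
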