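import Cfsg.Agent.G41.Free
import Cfsg.Agent.G41.SpreadRec
import Cfsg.Agent.Grp.Baer

/-! Quadratic elements and their axes (any characteristic). -/

set_option autoImplicit false

namespace Cfsg.G41.Qd

universe u v

variable {p : ℕ} [hp : Fact p.Prime] {V : Type v} [AddCommGroup V] [Module (ZMod p) V]
  {H : Type u} [Group H] (ρ : H →* Module.End (ZMod p) V)

/-- the stabiliser of a vector -/
def stab (x : V) : Subgroup H where
  carrier := {g | ρ g x = x}
  mul_mem' := fun {a b} ha hb => by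
    change ρ (a * b) x = x
    rw [rho_mul, show ρ b x = x from hb, show ρ a x = x from ha]
  one_mem' := by change ρ 1 x = x; rw [map_one]; rfl
  inv_mem' := fun {a} ha => by
    change ρ a⁻¹ x = x
    conv_lhs => rw [← show ρ a x = x from ha]
    rw [rho_inv_self]

theorem mem_stab {x : V} {g : H} : g ∈ stab ρ x ↔ ρ g x = x := Iff.rfl

/-- the stabiliser of a subspace -/
def nrm [Finite H] (W : Submodule (ZMod p) V) : Subgroup H where
  carrier := {g | ∀ w ∈ W, ρ g w ∈ W}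
  mul_mem' := fun {a b} ha hb w hw => by rw [rho_mul]; exact ha _ (hb w hw)
  one_mem' := fun w hw => by rw [map_one]; exact hw
  inv_mem' := fun {a} ha w hw => by
    have : ∀ k : ℕ, ρ (a ^ k) w ∈ W := by
      intro k
      induction k with
      | zero => simpa using hw
      | succ k ih => rw [pow_succ', rho_mul]; exact ha _ ih
    have e : a⁻¹ = a ^ (orderOf a - 1) := by
      rw [inv_eq_iff_mul_eq_one, ← pow_succ', Nat.sub_add_cancel (orderOf_pos a),
        pow_orderOf_eq_one]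
    rw [e]; exact this _

theorem mem_nrm [Finite H] {W : Submodule (ZMod p) V} {g : H} :
    g ∈ nrm ρ W ↔ ∀ w ∈ W, ρ g w ∈ W := Iff.rfl

/-- the group of elations with axis `W` -/
def ela (W : Submodule (ZMod p) V) : Subgroup H where
  carrier := {g | (∀ w ∈ W, ρ g w = w) ∧ ∀ v, ρ g v - v ∈ W}
  mul_mem' := fun {a b} ha hb => ⟨fun w hw => by rw [rho_mul, hb.1 w hw, ha.1 w hw], fun v => by
    have := W.add_mem (ha.2 (ρ b v)) (hb.2 v)
    rwa [sub_add_sub_cancel, ← rho_mul] at this⟩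
  one_mem' := ⟨fun w _ => by rw [map_one]; rfl, fun v => by simp⟩
  inv_mem' := fun {a} ha => ⟨fun w hw => by
    conv_lhs => rw [← ha.1 w hw]
    rw [rho_inv_self], fun v => by
    have := W.neg_mem (ha.2 (ρ a⁻¹ v))
    rwa [rho_self_inv, neg_sub] at this⟩

theorem mem_ela {W : Submodule (ZMod p) V} {g : H} :
    g ∈ ela ρ W ↔ (∀ w ∈ W, ρ g w = w) ∧ ∀ v, ρ g v - v ∈ W := Iff.rfl

/-- the fixed space of an element -/
def ax (g : H) : Submodule (ZMod p) V := LinearMap.ker (ρ g - 1)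

theorem mem_ax {g : H} {v : V} : v ∈ ax ρ g ↔ ρ g v = v := by
  simp [ax, sub_eq_zero]

theorem mem_ax' {g : H} {v : V} : v ∈ ax ρ g ↔ (ρ g - 1) v = 0 := Iff.rfl

theorem mem_ax_conj {g u : H} {v : V} : v ∈ ax ρ (g * u * g⁻¹) ↔ ρ g⁻¹ v ∈ ax ρ u := by
  rw [mem_ax, mem_ax, rho_mul, rho_mul]
  constructor
  · intro h; have := congrArg (ρ g⁻¹) h; rwa [rho_inv_self] at this
  · intro h; rw [h, rho_self_inv]

/-- quadratic elements -/
def Quad (u : H) : Prop := u ≠ 1 ∧ (ρ u - 1) * (ρ u - 1) = 0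

variable {ρ}

theorem Quad.com {u : H} (h : Quad ρ u) (v : V) : ρ u v - v ∈ ax ρ u :=
  congrArg (fun z : Module.End (ZMod p) V => z v) h.2

theorem Quad.mem_ela {u : H} (h : Quad ρ u) : u ∈ ela ρ (ax ρ u) :=
  ⟨fun _ hw => (mem_ax ρ).1 hw, h.com⟩

theorem quad_of_ela {W : Submodule (ZMod p) V} {u : H} (h : u ∈ ela ρ W) (h1 : u ≠ 1) :
    Quad ρ u :=
  ⟨h1, LinearMap.ext fun v => by
    change ρ u (ρ u v - v) - (ρ u v - v) = 0
    rw [h.1 _ (h.2 v), sub_self]⟩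

theorem Quad.conj {u : H} (h : Quad ρ u) (g : H) : Quad ρ (g * u * g⁻¹) := by
  refine quad_of_ela (W := ax ρ (g * u * g⁻¹)) ⟨fun _ hw => (mem_ax ρ).1 hw, fun v => ?_⟩
    fun e => h.1 (by simpa using e)
  rw [mem_ax_conj, map_sub, rho_mul, rho_mul, rho_inv_self]
  exact h.com _

theorem Quad.pow {u : H} (h : Quad ρ u) (k : ℕ) : ρ (u ^ k) = 1 + k • (ρ u - 1) := by
  induction k with
  | zero => simp
  | succ k ih =>
    have e : (1 + k • (ρ u - 1)) * ρ u = (1 + k • (ρ u - 1)) * (1 + (ρ u - 1)) := by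
      rw [add_sub_cancel]
    rw [pow_succ, map_mul, ih, succ_nsmul, e, mul_add, mul_one, add_mul, one_mul, smul_mul_assoc,
      h.2, smul_zero, add_zero, add_assoc]

theorem stab_pgroup (hf : PFree ρ) {x : V} (hx : x ≠ 0) : IsPGroup p (stab ρ x) := by
  intro g
  obtain ⟨k, hk⟩ := hf g x hx g.2
  exact ⟨k, Subtype.ext (by rw [Subgroup.coe_pow, ← hk, pow_orderOf_eq_one]; rfl)⟩

variable [Finite V] [Finite H]

/-- a `p`-subgroup fixes a non-zero vector of every non-zero invariant subspace -/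
theorem exists_fixed {K : Subgroup H} (hK : IsPGroup p K) {U : Submodule (ZMod p) V}
    (hU : ∀ k ∈ K, ∀ u ∈ U, ρ k u ∈ U) (h0 : ∃ u ∈ U, u ≠ 0) :
    ∃ u ∈ U, u ≠ 0 ∧ ∀ k ∈ K, ρ k u = u := by
  letI : MulAction K U :=
    { smul := fun k u => ⟨ρ k u, hU k k.2 u u.2⟩
      one_smul := fun u => Subtype.ext (by change ρ 1 u = u; rw [map_one]; rfl)
      mul_smul := fun a b u => Subtype.ext (rho_mul ρ a b u) }
  obtain ⟨u, hu, hu0⟩ := h0
  have hd : p ∣ Nat.card U := by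
    haveI : Nontrivial U := ⟨⟨u, hu⟩, 0, fun e => hu0 (congrArg Subtype.val e)⟩
    haveI := Module.Finite.of_finite (R := ZMod p) (M := U)
    rw [Module.natCard_eq_pow_finrank (K := ZMod p), Nat.card_zmod]
    exact dvd_pow_self _ Module.finrank_pos.ne'
  obtain ⟨b, hb, hne⟩ := hK.exists_fixed_point_of_prime_dvd_card_of_fixed_point U hd
    (a := 0) (fun k => Subtype.ext (map_zero (ρ k)))
  exact ⟨b, b.2, fun e => hne (Subtype.ext e).symm, fun k hk =>
    congrArg Subtype.val (hb ⟨k, hk⟩)⟩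

theorem pCore_bot [Nontrivial V] (inj : Function.Injective ρ)
    (tr : ∀ v w : V, v ≠ 0 → w ≠ 0 → ∃ h, ρ h v = w) : pCore p H = ⊥ := by
  obtain ⟨x, -, hx, h⟩ := exists_fixed (ρ := ρ) (isPGroup_pCore p H) (U := ⊤)
    (fun _ _ _ _ => trivial) (by obtain ⟨x, hx⟩ := exists_ne (0 : V); exact ⟨x, trivial, hx⟩)
  rw [eq_bot_iff]
  intro k hk
  apply inj
  rw [map_one]
  refine LinearMap.ext fun v => ?_
  by_cases hv : v = 0
  · simp [hv]
  obtain ⟨g, rfl⟩ := tr x v hx hv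
  have := h _ ((pCore_normal p H).conj_mem k hk g⁻¹)
  rw [inv_inv, rho_mul, rho_mul] at this
  have e := congrArg (ρ g) this
  rwa [rho_self_inv] at e

/-- Baer–Suzuki: every non-trivial element has a conjugate with disjoint fixed space -/
theorem exists_opp (hf : PFree ρ) (hO : pCore p H = ⊥) {u : H} (h1 : u ≠ 1) :
    ∃ g, ∀ v ∈ ax ρ u, v ∈ ax ρ (g * u * g⁻¹) → v = 0 := by
  by_contra hc
  push Not at hc
  have := subset_pCore_of_pairwise_isPGroup (p := p) (K := {x | IsConj u x})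
    (fun x hx g => hx.trans (isConj_iff.2 ⟨g, rfl⟩)) (by
      intro x hx y hy
      obtain ⟨a, rfl⟩ := isConj_iff.1 hx
      obtain ⟨b, rfl⟩ := isConj_iff.1 hy
      obtain ⟨v, h2, h3, h4⟩ := hc (a⁻¹ * b)
      refine ⟨stab ρ (ρ a v), stab_pgroup hf (rho_ne ρ a h4), ?_, ?_⟩
      · rw [mem_stab, ← mem_ax, mem_ax_conj, rho_inv_self]; exact h2
      · rw [mem_stab, ← mem_ax, mem_ax_conj]
        rw [mem_ax_conj, mul_inv_rev, inv_inv, rho_mul] at h3
        exact h3) (IsConj.refl u)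
  rw [hO] at this
  exact h1 this

theorem card_ax_conj (g u : H) : Nat.card (ax ρ (g * u * g⁻¹)) = Nat.card (ax ρ u) :=
  Nat.card_congr
    { toFun := fun v => ⟨ρ g⁻¹ v, (mem_ax_conj ρ).1 v.2⟩
      invFun := fun v => ⟨ρ g v, (mem_ax_conj ρ).2 (by rw [rho_inv_self]; exact v.2)⟩
      left_inv := fun v => Subtype.ext (rho_self_inv ρ g v)
      right_inv := fun v => Subtype.ext (rho_inv_self ρ g v) }

omit [Finite H] in
theorem card_mul_le {W W' : Submodule (ZMod p) V} (h : ∀ v ∈ W, v ∈ W' → v = 0) :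
    Nat.card W * Nat.card W' ≤ Nat.card V := by
  rw [← Nat.card_prod]
  refine Nat.card_le_card_of_injective (fun z : W × W' => (z.1 : V) + z.2) fun z z' e => ?_
  have e' : (z.1 : V) + z.2 = z'.1 + z'.2 := e
  have e1 : (z.1 : V) - z'.1 = z'.2 - z.2 := by rw [sub_eq_sub_iff_add_eq_add, e', add_comm]
  have e2 := h _ (W.sub_mem z.1.2 z'.1.2) (e1 ▸ W'.sub_mem z'.2.2 z.2.2)
  rw [e2] at e1
  exact Prod.ext (Subtype.ext (sub_eq_zero.1 e2)) (Subtype.ext (sub_eq_zero.1 e1.symm).symm)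

omit [Finite H] in
theorem card_ker_range (f : Module.End (ZMod p) V) :
    Nat.card V = Nat.card (LinearMap.ker f) * Nat.card (LinearMap.range f) := by
  rw [Submodule.card_eq_card_quotient_mul_card (LinearMap.ker f),
    Nat.card_congr f.quotKerEquivRange.toEquiv]

theorem sq_card_le (hf : PFree ρ) (hO : pCore p H = ⊥) {u : H} (h1 : u ≠ 1) :
    Nat.card (ax ρ u) ^ 2 ≤ Nat.card V := by
  obtain ⟨g, hg⟩ := exists_opp hf hO h1
  have := card_mul_le hg
  rwa [card_ax_conj, ← sq] at this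

theorem Quad.card (hf : PFree ρ) (hO : pCore p H = ⊥) {u : H} (h : Quad ρ u) :
    Nat.card V = Nat.card (ax ρ u) ^ 2 := by
  refine le_antisymm ?_ (sq_card_le hf hO h.1)
  rw [card_ker_range (ρ u - 1), sq]
  refine Nat.mul_le_mul_left _ (Nat.card_le_card_of_injective
    (Submodule.inclusion (p' := ax ρ u) ?_) (Submodule.inclusion_injective _))
  rintro _ ⟨v, rfl⟩
  exact h.com v

omit [Finite H] in
theorem eq_of_le_of_sq {W W' : Submodule (ZMod p) V} (h : W ≤ W')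
    (h1 : Nat.card V = Nat.card W ^ 2) (h2 : Nat.card W' ^ 2 ≤ Nat.card V) : W = W' := by
  have : Nat.card W' ≤ Nat.card W := by
    rw [h1] at h2; exact (Nat.pow_le_pow_iff_left two_ne_zero).1 h2
  apply SetLike.coe_injective
  exact Set.eq_of_subset_of_ncard_le h (by simpa [← Nat.card_coe_set_eq] using this)

theorem Quad.ax_eq (hf : PFree ρ) (hO : pCore p H = ⊥) {u e : H} (h : Quad ρ u)
    (he : e ∈ ela ρ (ax ρ u)) (h1 : e ≠ 1) : ax ρ e = ax ρ u :=
  (eq_of_le_of_sq (fun w hw => (mem_ax ρ).2 (he.1 w hw)) (h.card hf hO)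
    (sq_card_le hf hO h1)).symm

omit [Finite H] in
theorem decomp {W W' : Submodule (ZMod p) V} (h : ∀ v ∈ W, v ∈ W' → v = 0)
    (h1 : Nat.card V = Nat.card W ^ 2) (h2 : Nat.card V = Nat.card W' ^ 2) (v : V) :
    ∃ w ∈ W, ∃ w' ∈ W', v = w + w' := by
  have hi : Function.Injective (fun z : W × W' => (z.1 : V) + z.2) := fun z z' e => by
    have e' : (z.1 : V) + z.2 = z'.1 + z'.2 := e
    have e1 : (z.1 : V) - z'.1 = z'.2 - z.2 := by rw [sub_eq_sub_iff_add_eq_add, e', add_comm]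
    have e2 := h _ (W.sub_mem z.1.2 z'.1.2) (e1 ▸ W'.sub_mem z'.2.2 z.2.2)
    rw [e2] at e1
    exact Prod.ext (Subtype.ext (sub_eq_zero.1 e2)) (Subtype.ext (sub_eq_zero.1 e1.symm).symm)
  have e : Nat.card W' = Nat.card W := Nat.pow_left_injective two_ne_zero (h2.symm.trans h1)
  obtain ⟨z, hz⟩ := ((Nat.bijective_iff_injective_and_card _).2
    ⟨hi, by rw [Nat.card_prod, e, h1, sq]⟩).2 v
  exact ⟨z.1, z.1.2, z.2, z.2.2, hz.symm⟩

omit [Finite H] in
/-- for opposite quadratic elements `a b + b a` is invertible -/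
theorem Quad.isUnit {u u' : H} (h : Quad ρ u) (h' : Quad ρ u')
    (hd : ∀ v ∈ ax ρ u, v ∈ ax ρ u' → v = 0) :
    IsUnit ((ρ u - 1) * (ρ u' - 1) + (ρ u' - 1) * (ρ u - 1)) := by
  rw [Module.End.isUnit_iff, ← Finite.injective_iff_bijective, injective_iff_map_eq_zero]
  intro v hv
  have e : (ρ u - 1) ((ρ u' - 1) v) = -(ρ u' - 1) ((ρ u - 1) v) := eq_neg_of_add_eq_zero_left hv
  have e1 : (ρ u - 1) ((ρ u' - 1) v) = 0 :=
    hd _ (h.com _) (by rw [e]; exact neg_mem (h'.com _))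
  have e2 : (ρ u' - 1) ((ρ u - 1) v) = 0 := by rw [e1] at e; exact neg_eq_zero.1 e.symm
  exact hd v (hd _ (h.com v) e2) (hd _ e1 (h'.com v))

/-- weak closure: if quadratic elements normalising an axis have this axis, then the axes form
a partial spread -/
theorem spread_of_closed (hf : PFree ρ) (P : H → Prop) (hP : ∀ u g, P u → P (g * u * g⁻¹))
    (hE : ∀ u v, P u → P v → v ∈ nrm ρ (ax ρ u) → ax ρ v = ax ρ u) {u v : H} (hu : P u)
    (hv : P v) {x : V} (hx : x ≠ 0) (h1 : x ∈ ax ρ u) (h2 : x ∈ ax ρ v) : ax ρ v = ax ρ u := by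
  let N : Subgroup (stab ρ x) := (nrm ρ (ax ρ u)).subgroupOf (stab ρ x)
  by_cases hN : N = ⊤
  · refine hE u v hu hv ?_
    have : (⟨v, (mem_ax ρ).1 h2⟩ : stab ρ x) ∈ N := hN ▸ Subgroup.mem_top _
    exact this
  haveI := (stab_pgroup hf hx).isNilpotent
  have hlt := normalizerCondition_of_isNilpotent N (lt_top_iff_ne_top.2 hN)
  obtain ⟨g, hg, hgN⟩ := SetLike.exists_of_lt hlt
  exfalso
  apply hgN
  have hu' : (⟨u, (mem_ax ρ).1 h1⟩ : stab ρ x) ∈ N := fun w hw => by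
    change ρ u w ∈ _
    rw [(mem_ax ρ).1 hw]; exact hw
  have h3 := (Subgroup.mem_normalizer_iff.1 hg _).1 hu'
  have h4 := hE u _ hu (hP u g hu) h3
  intro w hw
  rw [← h4, mem_ax_conj]
  change ρ (g : H)⁻¹ (ρ (g : H) w) ∈ _
  rw [rho_inv_self]; exact hw

/-- the hypotheses of the spread recognition -/
theorem spr (inj : Function.Injective ρ) (hf : PFree ρ) (hO : pCore p H = ⊥) {u : H}
    (h : Quad ρ u) (hs : ∀ g, ∀ x ∈ ax ρ u, x ≠ 0 → x ∈ ax ρ (g * u * g⁻¹) →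
      ax ρ (g * u * g⁻¹) = ax ρ u)
    (hc : ∃ y, y ∉ ax ρ u ∧ ∀ w ∈ ax ρ u, ∃ e ∈ ela ρ (ax ρ u), ρ e y - y = w) :
    Spr ρ (ax ρ u) (ela ρ (ax ρ u)) where
  inj := inj
  fix := fun _ he => he.1
  com := fun _ he => he.2
  reg := fun e he v hv => by
    by_cases h1 : e = 1
    · exact Or.inl h1
    · right; rw [← h.ax_eq hf hO he h1]; exact (mem_ax ρ).2 hv
  cE := by
    obtain ⟨y, hy, hc⟩ := hc
    refine Nat.card_congr (Equiv.ofBijective
      (fun e : ela ρ (ax ρ u) => (⟨ρ e y - y, e.2.2 y⟩ : ax ρ u)) ⟨fun e e' he => ?_, ?_⟩)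
    · have e1 : ρ e y = ρ e' y := sub_left_injective (congrArg Subtype.val he)
      have e2 : ρ ((e' : H)⁻¹ * e) y = y := by rw [rho_mul, e1, rho_inv_self]
      by_contra hne
      have h1 : (e' : H)⁻¹ * e ≠ 1 := fun h1 => hne (Subtype.ext (inv_mul_eq_one.1 h1).symm)
      apply hy
      rw [← h.ax_eq hf hO (mul_mem (inv_mem e'.2) e.2) h1]
      exact (mem_ax ρ).2 e2
    · rintro ⟨w, hw⟩
      obtain ⟨e, he, h1⟩ := hc w hw
      exact ⟨⟨e, he⟩, Subtype.ext h1⟩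
  cV := h.card hf hO
  sp := fun g w hw h0 h1 w' hw' => by
    rw [← hs g _ h1 (rho_ne ρ g h0) (by rw [mem_ax_conj, rho_inv_self]; exact hw), mem_ax_conj,
      rho_inv_self]
    exact hw'
  ne := by
    obtain ⟨g, hg⟩ := exists_opp hf hO h.1
    obtain ⟨y, hy, -⟩ := hc
    have h0 : ρ u y - y ≠ 0 := fun e => hy ((mem_ax ρ).2 (sub_eq_zero.1 e))
    refine ⟨g, _, h.com y, fun h1 => rho_ne ρ g h0 (hg _ h1 ?_)⟩
    rw [mem_ax_conj, rho_inv_self]; exact h.com y

end Cfsg.G41.Qd
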