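import Cfsg.Agent.CT.Gagola
import Cfsg.Agent.Grp.Frobenius

/-!
# S4841: reduction to a transitive linear group whose point stabilisers are `p`-groups
-/

set_option autoImplicit false

namespace Cfsg.G41

open Cfsg

universe u v

/-- a faithful action on a finite elementary abelian group as a matrix representation -/
theorem exists_rep {H : Type u} [Group H] {p : ℕ} [hp : Fact p.Prime] {V : Type v} [CommGroup V]
    [Finite V] (hV : ∀ v : V, v ^ p = 1) (φ : H →* MulAut V) :
    ∃ (n : ℕ) (ρ : H →* Module.End (ZMod p) (Fin n → ZMod p)) (e : V ≃ (Fin n → ZMod p)),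
      e 1 = 0 ∧ ∀ h v, ρ h (e v) = e (φ h v) := by
  have _ : Module (ZMod p) (Additive V) := AddCommGroup.zmodModule fun v => hV v.toMul
  have _ : Module.Finite (ZMod p) (Additive V) := Module.Finite.of_finite
  let b := (Module.finBasis (ZMod p) (Additive V)).equivFun
  let ψ : H → Additive V →ₗ[ZMod p] Additive V := fun h =>
    (MonoidHom.toAdditive (φ h).toMonoidHom).toZModLinearMap p
  have hψ : ∀ h v, ψ h v = Additive.ofMul (φ h v.toMul) := fun _ _ => rfl
  refine ⟨_, ⟨⟨fun h => b.toLinearMap ∘ₗ ψ h ∘ₗ b.symm.toLinearMap, ?_⟩, fun g h => ?_⟩,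
    Additive.ofMul.trans b.toEquiv, ?_, fun h v => ?_⟩
  · refine LinearMap.ext fun x => ?_
    simp [hψ]
  · refine LinearMap.ext fun x => ?_
    simp [hψ]
  · simp
  · simp [hψ]

/-- the reduction -/
theorem red {G : Type u} [Group G] [Finite G] (hns : ¬ Group.IsSolvable G) (χ : IrrCharacter G)
    (hχ : Nat.card {C : ConjClasses G // ∃ g ∈ C.carrier, (χ : G → ℂ) g ≠ 0} = 2) :
    ∃ p : ℕ, p.Prime ∧ (∀ q : ℕ, q.Prime → (pCore q G ≠ ⊥ ↔ q = p)) ∧
      ¬ Group.IsSolvable (G ⧸ pCore p G) ∧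
      ∃ (n : ℕ) (ρ : G ⧸ pCore p G →* Module.End (ZMod p) (Fin n → ZMod p)),
        Function.Injective ρ ∧ 0 < n ∧
        (∀ v w : Fin n → ZMod p, v ≠ 0 → w ≠ 0 → ∃ h, ρ h v = w) ∧
        ∀ (h : G ⧸ pCore p G) (v : Fin n → ZMod p), v ≠ 0 → ρ h v = v → ∃ k, orderOf h = p ^ k := by
  have hG : 2 < Nat.card G := by
    by_contra h2
    apply hns
    have h0 : 0 < Nat.card G := Nat.card_pos
    rcases (show Nat.card G = 1 ∨ Nat.card G = 2 by omega) with h1 | h1
    · haveI := (Nat.card_eq_one_iff_unique.1 h1).1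
      infer_instance
    · haveI : Fact (Nat.Prime 2) := ⟨Nat.prime_two⟩
      haveI := isCyclic_of_prime_card h1
      exact isSolvable_of_comm (fun a b => (IsCyclic.commGroup (α := G)).mul_comm a b)
  obtain ⟨N, a, h⟩ := exists_isGagola hG χ hχ
  obtain ⟨p, hp, hN⟩ := h.exists_prime
  haveI : Fact p.Prime := ⟨hp⟩
  haveI := h.normal
  have hNp : N ≤ pCore p G := le_pCore h.normal hN
  have hC := h.centralizer_eq_pCore hN
  let φ : G ⧸ pCore p G →* MulAut N := QuotientGroup.lift _ MulAut.conjNormal (fun g hg => by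
    rw [← hC] at hg
    ext n
    simp only [MulAut.conjNormal_apply, MulAut.one_apply]
    rw [← Subgroup.mem_centralizer_iff.1 hg n n.2, mul_inv_cancel_right])
  have hφ0 : ∀ (g : G) (v : N), (φ g v : G) = g * v * g⁻¹ := fun _ _ => rfl
  have hφ : ∀ (g : G) (v : N), φ g v = v ↔ g ∈ Subgroup.centralizer {(v : G)} := by
    intro g v
    rw [Subgroup.mem_centralizer_singleton_iff, Subtype.ext_iff, ← mul_inv_eq_iff_eq_mul]
    rfl
  refine ⟨p, hp, fun q hq => ⟨fun hq1 => ?_, ?_⟩, fun hs => hns ?_, ?_⟩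
  · by_contra hqp
    haveI : Fact q.Prime := ⟨hq⟩
    exact h.ne_bot (disjoint_self.1 ((IsPGroup.disjoint_of_ne q p hqp _ _ (isPGroup_pCore q G)
      hN).mono_left (h.le_of_normal _ hq1)))
  · rintro rfl h1
    exact h.ne_bot (eq_bot_iff.2 (h1 ▸ hNp))
  · haveI := (isPGroup_pCore p G).isNilpotent
    exact solvable_of_ker_le_range (pCore p G).subtype (QuotientGroup.mk' (pCore p G))
      (by simp)
  obtain ⟨hab, hel⟩ := h.isElementaryAbelian hN
  letI : CommGroup N := { (inferInstance : Group N) with mul_comm := hab.is_comm.comm }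
  obtain ⟨n, ρ, e, e1, he⟩ := exists_rep (V := N) (fun v => Subtype.ext (hel v v.2)) φ
  have hne : ∀ v : N, e v ≠ 0 ↔ (v : G) ≠ 1 := by
    intro v
    rw [← e1, e.injective.ne_iff, Ne, Ne, Subtype.ext_iff]
    rfl
  refine ⟨n, ρ, ?_, ?_, fun v w hv hw => ?_, fun g v hv hg => ?_⟩
  · rw [injective_iff_map_eq_one]
    intro g hg
    obtain ⟨g, rfl⟩ := QuotientGroup.mk_surjective g
    rw [QuotientGroup.eq_one_iff, ← hC, Subgroup.mem_centralizer_iff]
    intro x hx
    have h1 := he g ⟨x, hx⟩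
    rw [hg, Module.End.one_apply] at h1
    have h2 := (hφ g ⟨x, hx⟩).1 (e.injective h1).symm
    exact (Subgroup.mem_centralizer_singleton_iff.1 h2).symm
  · rcases Nat.eq_zero_or_pos n with rfl | h0
    · have := h.one_lt_card
      rw [Nat.card_congr e] at this
      simp at this
    · exact h0
  · obtain ⟨v, rfl⟩ := e.surjective v
    obtain ⟨w, rfl⟩ := e.surjective w
    obtain ⟨g, hg⟩ := isConj_iff.1 (h.isConj v v.2 w w.2 ((hne v).1 hv) ((hne w).1 hw))
    exact ⟨g, by rw [he]; exact congrArg e (Subtype.ext hg)⟩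
  · obtain ⟨v, rfl⟩ := e.surjective v
    obtain ⟨g, rfl⟩ := QuotientGroup.mk_surjective g
    rw [he] at hg
    obtain ⟨k, hk⟩ := (h.isPGroup_centralizer hN v.2 ((hne v).1 hv)).exists_orderOf_eq_pow
      ⟨g, (hφ g v).1 (e.injective hg)⟩
    rw [Subgroup.orderOf_mk] at hk
    obtain ⟨m, -, hm⟩ := (Nat.dvd_prime_pow hp).1
      (hk ▸ orderOf_map_dvd (QuotientGroup.mk' (pCore p G)) g)
    exact ⟨m, hm⟩

end Cfsg.G41
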